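import Mathlib
import Cfsg.Agent.H05.TW

/-!
Point stabilizers of primitive groups which induce the alternating group on a suborbit (namespace `H05.AltSt`).
* `cent_alt`, `alt_le_of_norm` : permutation lemmas; `Onto φ N`, `Ker φ` : images of ambient subgroups
* `NoQ d U` : no proper normal subgroup of index `< d!/2`; `Sd` : one side of the amalgam; `main`
-/

set_option autoImplicit false

open BG _root_.Cfsg H22 Equiv

namespace H05.AltSt

universe u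

section perm
variable {X : Type*} [Fintype X] [DecidableEq X]

theorem cent_alt (h5 : 5 ≤ Nat.card X) : C_(alternatingGroup X) = ⊥ := by
  by_contra h0
  have hn : (C_(alternatingGroup X)).Normal := inferInstance
  have h1 := Perm.alternatingGroup_le_of_normal h5 ((Subgroup.nontrivial_iff_ne_bot _).2 h0)
  have := alternatingGroup.isSimpleGroup h5
  obtain ⟨x, hx⟩ := exists_ne (1 : alternatingGroup X)
  refine hx (Subgroup.mem_bot.1 (alternatingGroup.center_eq_bot (α := X) (by omega) ▸ Subgroup.mem_center_iff.2 fun y => ?_))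
  exact Subtype.ext (mem_cent.1 (h1 x.2) y y.2)

theorem alt_le_of_norm (h5 : 5 ≤ Nat.card X) {N : Subgroup (Perm X)} (h : alternatingGroup X ≤ N_(N)) (h0 : N ≠ ⊥) :
    alternatingGroup X ≤ N := by
  have := alternatingGroup.isSimpleGroup h5
  have hn : (N.subgroupOf (alternatingGroup X)).Normal :=
    ⟨fun n hn g => conj_mem_of_norm (K := N) (g := g) (x := n) (h g.2) hn⟩
  rcases hn.eq_bot_or_eq_top with e | e
  · refine absurd (eq_bot_mono (cent_alt h5) (le_cent_of_disj ?_ h ?_)) h0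
    · rw [Subgroup.normalizer_eq_top]; exact le_top
    · exact disjoint_iff.1 (Subgroup.subgroupOf_eq_bot.1 e)
  · exact Subgroup.subgroupOf_eq_top.1 e

variable {G : Type u} [Group G] {M D N N' U : Subgroup G} {φ : M →* Perm X}

/-- the image of `N` contains the alternating group -/
def Onto (φ : M →* Perm X) (N : Subgroup G) : Prop := ∀ τ ∈ alternatingGroup X, ∃ m : M, (m : G) ∈ N ∧ φ m = τ

/-- the kernel as an ambient subgroup -/
def Ker (φ : M →* Perm X) : Subgroup G := φ.ker.map M.subtype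

theorem mem_Ker {m : M} : (m : G) ∈ Ker φ ↔ φ m = 1 :=
  ⟨fun ⟨y, hy, e⟩ => by rwa [← show y = m from Subtype.ext e], fun h => ⟨m, h, rfl⟩⟩

theorem Ker_le : Ker φ ≤ M := Subgroup.map_subtype_le _

theorem norm_Ker : M ≤ N_(Ker φ) := le_norm_iff.2 fun a ha k hk =>
  (mem_Ker (m := ⟨a, ha⟩ * ⟨k, Ker_le hk⟩ * ⟨a, ha⟩⁻¹)).2 (by
    rw [map_mul, map_mul, (mem_Ker (m := ⟨k, Ker_le hk⟩)).1 hk, mul_one, ← map_mul, mul_inv_cancel, map_one])

theorem Onto.mono (h : Onto φ N) (h' : M ⊓ N ≤ N') : Onto φ N' := fun τ hτ =>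
  let ⟨m, h1, h2⟩ := h τ hτ
  ⟨m, h' ⟨m.2, h1⟩, h2⟩

theorem Onto.of_norm (h5 : 5 ≤ Nat.card X) (h : Onto φ N_(N)) (hN : N ≤ M) (h0 : ¬ N ≤ Ker φ) : Onto φ N := by
  refine alt_le_of_norm h5 (N := (N.subgroupOf M).map φ) (le_norm_iff.2 fun τ hτ => ?_) fun e => h0 fun x hx => ?_
  · obtain ⟨m, hm, rfl⟩ := h τ hτ
    rintro _ ⟨k, hk, rfl⟩
    exact ⟨m * k * m⁻¹, conj_mem_of_norm (K := N) (g := m) (x := k) hm hk, by simp⟩
  · exact (mem_Ker (m := ⟨x, hN hx⟩)).2 ((Subgroup.map_eq_bot_iff _).1 e (show (⟨x, hN hx⟩ : M) ∈ _ from hx))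

theorem Onto.cent (h5 : 5 ≤ Nat.card X) (h : Onto φ N) : M ⊓ C_(N) ≤ Ker φ := fun x hx => by
  refine (mem_Ker (m := ⟨x, hx.1⟩)).2 (Subgroup.mem_bot.1 (cent_alt h5 ▸ mem_cent.2 fun τ hτ => ?_))
  obtain ⟨m, hm, rfl⟩ := h τ hτ
  rw [← map_mul, ← map_mul]
  exact congrArg φ (Subtype.ext (mem_cent.1 hx.2 m hm))

theorem relIndex_Ker (hU : U ≤ M) : (Ker φ).relIndex U = Nat.card ((U.subgroupOf M).map φ) := by
  rw [← Subgroup.relIndex_ker, ← Subgroup.relIndex_map_map_of_injective _ _ M.subtype_injective,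
    Subgroup.subgroupOf_map_subtype, inf_eq_left.2 hU]
  rfl

theorem relIndex_Ker_le (hU : U ≤ M) : (Ker φ).relIndex U ≤ (Nat.card X).factorial := by
  rw [relIndex_Ker hU, ← Nat.card_perm]
  exact Subgroup.card_le_card_group _

theorem Onto.card (h5 : 5 ≤ Nat.card X) (h : Onto φ U) (hU : U ≤ M) : (Nat.card X).factorial ≤ 2 * (Ker φ).relIndex U := by
  have : Nontrivial X := Finite.one_lt_card_iff_nontrivial.1 (by omega)
  rw [relIndex_Ker hU, ← Nat.card_perm, ← two_mul_nat_card_alternatingGroup]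
  exact Nat.mul_le_mul_left _ (card_le h)

theorem Onto.not_pg (h5 : 5 ≤ Nat.card X) (h : Onto φ U) {p : ℕ} (hp : p.Prime) : ¬ IsPGroup p U := fun hP => by
  have := Fact.mk hp
  have := alternatingGroup.isSimpleGroup h5
  have h1 : IsPGroup p (alternatingGroup X) := pg_le (hP.comap_subtype.map φ) h
  have := h1.center_nontrivial
  rw [alternatingGroup.center_eq_bot (α := X) (by omega)] at this
  exact not_subsingleton_iff_nontrivial.2 this inferInstance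

theorem onto_of_card (h : (Nat.card X).factorial ≤ 2 * (Ker φ).relIndex M) : Onto φ ⊤ := fun τ hτ => by
  rw [relIndex_Ker le_rfl, ← Nat.card_perm, ← ((M.subgroupOf M).map φ).index_mul_card] at h
  obtain ⟨m, -, e⟩ := Perm.alternatingGroup_le_of_index_le_two (Nat.le_of_mul_le_mul_right h Nat.card_pos) hτ
  exact ⟨m, trivial, e⟩

/-- `D` is the stabilizer of `x` -/
structure Sd (D : Subgroup G) (φ : M →* Perm X) (x : X) : Prop where
  le : D ≤ M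
  stab : ∀ m : M, φ m x = x ↔ (m : G) ∈ D

variable {x : X}

theorem Sd.ker_le (h : Sd D φ x) : Ker φ ≤ D := fun k hk =>
  (h.stab ⟨k, Ker_le hk⟩).1 (by rw [(mem_Ker (m := ⟨k, Ker_le hk⟩)).1 hk]; rfl)

theorem Sd.fact (h : Sd D φ x) (h5 : 5 ≤ Nat.card X) (hN : Onto φ N) (m : M) :
    ∃ c : M, (c : G) ∈ N ∧ ((c⁻¹ * m : M) : G) ∈ D := by
  obtain ⟨τ, e⟩ := (alternatingGroup.isPretransitive_of_three_le_card X (by omega)).exists_smul_eq x (φ m x)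
  obtain ⟨c, hc, e2⟩ := hN τ τ.2
  refine ⟨c, hc, (h.stab _).1 ?_⟩
  rw [map_mul, map_inv, e2, Perm.mul_apply, Perm.inv_eq_iff_eq]
  exact e.symm

theorem Sd.le_norm (h : Sd D φ x) (h5 : 5 ≤ Nat.card X) (hN : Onto φ N_(U)) (hD : D ≤ N_(U)) : M ≤ N_(U) := fun m hm => by
  obtain ⟨c, h1, h2⟩ := h.fact h5 hN ⟨m, hm⟩
  simpa using mul_mem h1 (hD h2)

theorem Sd.res (h : Sd D φ x) : ∃ ψ : D →* Perm {y // y ≠ x}, Ker ψ = Ker φ ∧ (Onto φ ⊤ → Onto ψ ⊤) ∧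
    ∀ d : D, Perm.sign (ψ d) = Perm.sign (φ (Subgroup.inclusion h.le d)) := by
  have hr : ∀ d : D, φ (Subgroup.inclusion h.le d) ∈ (Perm.ofSubtype (p := fun y => y ≠ x)).range := fun d => by
    have e : φ (Subgroup.inclusion h.le d) x = x := (h.stab _).2 d.2
    refine ⟨Perm.subtypePerm (φ (Subgroup.inclusion h.le d)) fun y => ?_, Perm.ofSubtype_subtypePerm _ fun y hy e' => ?_⟩
    · exact not_congr ⟨fun e' => (φ _).injective (e'.trans e.symm), fun e' => e' ▸ e⟩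
    · exact hy (e' ▸ e)
  let ψ : D →* Perm {y // y ≠ x} := (MonoidHom.ofInjective Perm.ofSubtype_injective).symm.toMonoidHom.comp
    ((φ.comp (Subgroup.inclusion h.le)).codRestrict _ hr)
  have hψ : ∀ d, Perm.ofSubtype (ψ d) = φ (Subgroup.inclusion h.le d) := fun d =>
    MonoidHom.apply_ofInjective_symm Perm.ofSubtype_injective _
  refine ⟨ψ, le_antisymm (fun k hk => ?_) fun k hk => ?_, fun ho τ hτ => ?_, fun d => ?_⟩
  · refine (mem_Ker (m := Subgroup.inclusion h.le ⟨k, Ker_le hk⟩)).2 ?_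
    rw [← hψ, (mem_Ker (m := ⟨k, Ker_le hk⟩)).1 hk, map_one]
  · refine (mem_Ker (m := ⟨k, h.ker_le hk⟩)).2 (Perm.ofSubtype_injective ?_)
    rw [hψ, map_one]
    exact (mem_Ker (m := ⟨k, Ker_le hk⟩)).1 hk
  · obtain ⟨m, -, e⟩ := ho (Perm.ofSubtype τ) (by rw [Perm.mem_alternatingGroup, Perm.sign_ofSubtype]; exact hτ)
    refine ⟨⟨m, (h.stab m).1 ?_⟩, trivial, Perm.ofSubtype_injective ((hψ _).trans e)⟩
    rw [e, Perm.ofSubtype_apply_of_not_mem _ (by simp)]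
  · rw [← hψ, Perm.sign_ofSubtype]

theorem card_ne (x : X) : Nat.card {y // y ≠ x} = Nat.card X - 1 := by
  simp [Nat.card_eq_fintype_card, Fintype.card_subtype_compl]

/-- no proper normal subgroup of index `< d!/2` -/
def NoQ (d : ℕ) (U : Subgroup G) : Prop := ∀ W : Subgroup G, U ≤ N_(W) → 2 * W.relIndex U < d.factorial → U ≤ W

theorem NoQ.cj {d : ℕ} (h : NoQ d U) (g : G) : NoQ d (cj g U) := fun W h1 h2 => by
  rw [cj_le_iff] at h1 ⊢
  rw [cj_norm] at h1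
  refine h _ h1 ?_
  rwa [← relIndex_cj g, cj_cj_inv]

theorem Sd.noq_le (h : Sd D φ x) (h3 : 3 ≤ Nat.card X) (hU : NoQ (Nat.card X) U) (hD : U ≤ D) : U ≤ Ker φ := by
  obtain ⟨ψ, e, -, -⟩ := h.res
  refine hU _ (hD.trans (h.le.trans norm_Ker)) ?_
  have := relIndex_Ker_le (φ := ψ) hD
  rw [e, card_ne] at this
  obtain ⟨n, hn⟩ : ∃ n, Nat.card X = n + 1 := ⟨Nat.card X - 1, by omega⟩
  rw [hn] at this h3 ⊢
  rw [Nat.factorial_succ]
  have := n.factorial_pos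
  simp only [Nat.add_sub_cancel] at *
  nlinarith

theorem exists_noq [Finite G] (h5 : 5 ≤ Nat.card X) (h : Onto φ ⊤) : ∃ U ≤ M, NoQ (Nat.card X) U ∧ U ≠ ⊥ := by
  obtain ⟨U, ⟨h1, h2⟩, hm⟩ := (wellFounded_lt (α := Subgroup G)).has_min {U | U ≤ M ∧ Onto φ U}
    ⟨M, le_rfl, h.mono inf_le_left⟩
  refine ⟨U, h1, fun W hW hi => ?_, fun e => h2.not_pg h5 Nat.prime_two (e ▸ IsPGroup.of_bot)⟩
  by_cases hk : U ⊓ W ≤ Ker φ
  · have a1 := h2.card h5 h1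
    have a2 := Nat.le_of_dvd (Nat.pos_of_ne_zero (relIndex_ne_zero _ _)) (relIndex_dvd_left U hk)
    rw [Subgroup.inf_relIndex_left] at a2
    omega
  · have := (h2.mono (inf_le_right.trans (le_norm_inf hW))).of_norm h5 (inf_le_left.trans h1) hk
    exact inf_eq_left.1 (by_contra fun e => hm _ ⟨inf_le_left.trans h1, this⟩ (lt_of_le_of_ne inf_le_left e))

theorem exists_simple [Finite G] (h5 : 5 ≤ Nat.card X) (h : Onto φ ⊤) (hz : Ker φ ⊓ C_(Ker φ) = ⊥)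
    (hC : ¬ M ⊓ C_(Ker φ) ≤ Ker φ) : ∃ L ≤ M ⊓ C_(Ker φ), M ≤ N_(L) ∧ Onto φ L ∧ NoQ (Nat.card X) L ∧
      ∀ Z : Subgroup G, L ≤ N_(Z) → L ⊓ Z = ⊥ ∨ L ≤ Z := by
  have h1 : Onto φ (M ⊓ C_(Ker φ)) :=
    (h.mono (inf_le_left.trans (le_norm_inf_cent norm_Ker))).of_norm h5 inf_le_left hC
  set L := C_(Ker φ) ⊓ ((alternatingGroup X).comap φ).map M.subtype with hL
  have hM : L ≤ M := inf_le_right.trans (Subgroup.map_subtype_le _)
  have h2 : Onto φ L := fun τ hτ =>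
    let ⟨m, a1, a2⟩ := h1 τ hτ
    ⟨m, ⟨a1.2, m, by rw [← a2] at hτ; exact hτ, rfl⟩, a2⟩
  have h3 : ∀ Z : Subgroup G, L ≤ N_(Z) → L ⊓ Z = ⊥ ∨ L ≤ Z := fun Z hZ => by
    refine or_iff_not_imp_left.2 fun h0 => ?_
    have := (h2.mono (inf_le_right.trans (le_norm_inf hZ))).of_norm h5 (inf_le_left.trans hM)
      fun e => h0 (eq_bot_mono hz (le_inf e (inf_le_left.trans inf_le_left)))
    rintro _ ⟨a1, l, a2, rfl⟩
    obtain ⟨z, b1, b2⟩ := this _ a2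
    have b3 : ((l * z⁻¹ : M) : G) = 1 := eq_one_of_mem_of_disj hz
      (mem_Ker.2 (by rw [map_mul, map_inv, b2, mul_inv_cancel])) (mul_mem a1 (inv_mem b1.1.1))
    have : (l : G) = z := mul_inv_eq_one.1 b3
    change (l : G) ∈ Z
    rw [this]; exact b1.2
  refine ⟨L, le_inf hM inf_le_left, norm_inf (norm_cent norm_Ker) (le_norm_iff.2 ?_), h2,
    fun W hW hi => (h3 W hW).resolve_left fun e => ?_, h3⟩
  · rintro a ha _ ⟨l, hl, rfl⟩
    exact ⟨⟨a, ha⟩ * l * ⟨a, ha⟩⁻¹, Subgroup.Normal.conj_mem inferInstance l hl _, rfl⟩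
  have a1 := h2.card h5 hM
  have a2 := Nat.le_of_dvd (Nat.pos_of_ne_zero (relIndex_ne_zero _ _)) (relIndex_dvd_left L (e.le.trans (bot_le (a := Ker φ))))
  rw [Subgroup.inf_relIndex_left] at a2
  omega

theorem Sd.fit [Finite G] {M' : Subgroup G} (pr : Pr M' M) (h : Sd (M' ⊓ M) φ x) (h6 : 6 ≤ Nat.card X) (ho : Onto φ ⊤) :
    fittingOf (M' ⊓ M) = ⊥ := by
  refine le_bot_iff.1 (fit_le_of_pcores fun p hp => (pr.knapp' hp ?_).le)
  obtain ⟨ψ, e, o, -⟩ := h.res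
  have h5 : 5 ≤ Nat.card {y // y ≠ x} := by rw [card_ne]; omega
  refine le_trans ?_ (le_cor Ker_le (h.ker_le.trans inf_le_left) (norm_Ker (φ := φ)))
  rw [← e]
  exact by_contra fun hn => (((o ho).mono (inf_le_left.trans (le_norm_pcore _ _))).of_norm h5 (pcore_le _ _) hn).not_pg
    h5 hp (pcore_pg hp _)

theorem Sd.zker [Finite G] (h : Sd D φ x) (hF : fittingOf D = ⊥) : Ker φ ⊓ C_(Ker φ) = ⊥ :=
  eq_bot_mono hF (le_fit (nil_of_abelian (abelian_center _)) (inf_le_left.trans h.ker_le)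
    (norm_inf (h.le.trans norm_Ker) (norm_cent (h.le.trans norm_Ker))))

theorem Sd.layer (h : Sd D φ x) (hC : M ⊓ C_(Ker φ) ≤ Ker φ) : M ≤ N_(layerOf D) := by
  have h1 : layerOf D ≤ Ker φ := H26.layerOf_le_iff.2 fun K hK =>
    (hK.le_or_comm (H26.SubN.of_normal h.ker_le (h.le.trans norm_Ker))).elim id fun e =>
      le_trans (le_inf ((H26.layerOf_le_iff.1 le_rfl K hK).trans ((layerOf_le _).trans h.le)) (comm_eq_bot.1 e)) hC
  rw [le_antisymm (layerOf_le_layerOf_of_le h.ker_le h1) (layerOf_le_layerOf_of_le_normalizer h.ker_le (h.le.trans norm_Ker))]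
  exact norm_Ker.trans (normalizer_le_normalizer_layerOf _)

theorem Sd.ext (h : Sd D φ x) (h5 : 5 ≤ Nat.card X) {H : Type*} [Group H] (ψ₀ : D →* H) (hN : Onto φ N) (hn : M ≤ N_(N))
    (hk : ∀ d : D, (d : G) ∈ N → ψ₀ d = 1) :
    ∃ ψ : M →* H, (∀ c : M, (c : G) ∈ N → ψ c = 1) ∧ ∀ d : D, ψ (Subgroup.inclusion h.le d) = ψ₀ d := by
  have : (N.subgroupOf M).Normal := ⟨fun n hn' g => conj_mem_of_norm (K := N) (g := g) (x := n) (hn g.2) hn'⟩
  let f : D →* M ⧸ N.subgroupOf M := (QuotientGroup.mk' _).comp (Subgroup.inclusion h.le)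
  have hf : Function.Surjective f := fun q => by
    obtain ⟨m, rfl⟩ := QuotientGroup.mk_surjective q
    obtain ⟨c, h1, h2⟩ := h.fact h5 hN m
    refine ⟨⟨_, h2⟩, ?_⟩
    change ((c⁻¹ * m : M) : M ⧸ N.subgroupOf M) = m
    rw [QuotientGroup.mk_mul, (QuotientGroup.eq_one_iff _).2 (inv_mem (show c ∈ N.subgroupOf M from h1)), one_mul]
  have hker : f.ker ≤ ψ₀.ker := fun d hd => hk d ((QuotientGroup.eq_one_iff (N := N.subgroupOf M) _).1 hd)
  refine ⟨(f.liftOfSurjective hf ⟨ψ₀, hker⟩).comp (QuotientGroup.mk' _), fun c hc => ?_, fun d => ?_⟩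
  · rw [MonoidHom.comp_apply, QuotientGroup.mk'_apply, (QuotientGroup.eq_one_iff _).2 (show c ∈ N.subgroupOf M from hc), map_one]
  · exact f.liftOfRightInverse_comp_apply _ (Function.rightInverse_surjInv hf) ⟨ψ₀, hker⟩ d

end perm

section two
variable {G : Type u} [Group G] [Finite G] {M₁ M₂ D U : Subgroup G} {X₁ X₂ : Type*} [Fintype X₁] [DecidableEq X₁]
  [Fintype X₂] [DecidableEq X₂] {φ₁ : M₁ →* Perm X₁} {φ₂ : M₂ →* Perm X₂} {x₁ : X₁} {x₂ : X₂}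

omit [Finite G] in
theorem noq_bot (pr : Pr M₁ M₂) (s₁ : Sd D φ₁ x₁) (s₂ : Sd D φ₂ x₂) (h3 : 3 ≤ Nat.card X₁) (e : Nat.card X₂ = Nat.card X₁)
    (hU : NoQ (Nat.card X₁) U) (hD : U ≤ D) : U = ⊥ := by
  have hR : sSup {U | U ≤ D ∧ NoQ (Nat.card X₁) U} ≤ D := sSup_le fun U h => h.1
  have key : ∀ M K : Subgroup G, M ≤ N_(K) → K ≤ D → (∀ U, NoQ (Nat.card X₁) U → U ≤ D → U ≤ K) →
      M ≤ N_(sSup {U | U ≤ D ∧ NoQ (Nat.card X₁) U}) := fun M K h1 h2 h3 => le_norm_of_cj_le fun a ha =>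
    cj_le_iff.2 (sSup_le fun U h => cj_le_iff.1 (le_sSup ⟨(cj_le_of_mem_norm (h3 U h.2 h.1) (h1 ha)).trans h2, h.2.cj a⟩))
  exact eq_bot_mono (pr.eq_bot (hR.trans s₁.le) (hR.trans s₂.le) (key _ _ norm_Ker s₁.ker_le fun U h => s₁.noq_le h3 h)
    (key _ _ norm_Ker s₂.ker_le fun U h => s₂.noq_le (e ▸ h3) (e ▸ h))) (le_sSup ⟨hD, hU⟩)

theorem onto_two (pr : Pr M₁ M₂) (s₁ : Sd D φ₁ x₁) (s₂ : Sd D φ₂ x₂) (h5 : 5 ≤ Nat.card X₁) (e : Nat.card X₂ = Nat.card X₁)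
    (o : Onto φ₁ ⊤) : Onto φ₂ ⊤ := by
  obtain ⟨U, h1, h2, h3⟩ := exists_noq h5 o
  obtain ⟨g, hg⟩ := pr.conj
  have h4 : cj g U ≤ M₂ := hg ▸ cj_mono g h1
  refine onto_of_card (not_lt.1 fun hn => h3 (cj_eq_bot_iff.1 (noq_bot pr s₁ s₂ (by omega) e (h2.cj g) ?_)))
  refine (h2.cj g _ (h4.trans norm_Ker) ?_).trans s₂.ker_le
  have := Subgroup.relIndex_le_of_le_right h4 (relIndex_ne_zero (Ker φ₂) M₂)
  rw [← e]
  omega

theorem cent_two (pr : Pr M₁ M₂) (s₁ : Sd D φ₁ x₁) (s₂ : Sd D φ₂ x₂) (h5 : 5 ≤ Nat.card X₁) (e : Nat.card X₂ = Nat.card X₁)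
    (o : Onto φ₂ ⊤) (hF : fittingOf D = ⊥) (hC : ¬ M₂ ⊓ C_(Ker φ₂) ≤ Ker φ₂) :
    ¬ M₁ ⊓ C_(Ker φ₁) ≤ Ker φ₁ ∧ Nat.card (Ker φ₁) ≤ Nat.card (Ker φ₂) := by
  obtain ⟨L, h1, hn', h2, h3, h4⟩ := exists_simple (e ▸ h5) o (s₂.zker hF) hC
  obtain ⟨g, hg⟩ := pr.conj
  have hL : L ≤ cj g M₁ := hg ▸ h1.trans inf_le_left
  have h0 : ¬ L ≤ cj g (Ker φ₁) := fun h => h2.not_pg (e ▸ h5) Nat.prime_two (by
    rw [cj_eq_bot_iff.1 (noq_bot pr s₁ s₂ (by omega) e ((e ▸ h3).cj g⁻¹) ((le_cj_iff.1 h).trans s₁.ker_le))]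
    exact IsPGroup.of_bot)
  have hn : cj g M₁ ≤ N_(cj g (Ker φ₁)) := cj_norm g _ ▸ cj_mono g norm_Ker
  have hK : cj g (Ker φ₁) ≤ M₂ := hg ▸ cj_mono g Ker_le
  have h6 := le_cent_of_disj (hL.trans hn) (hK.trans hn') ((h4 _ (hL.trans hn)).resolve_right h0)
  refine ⟨fun h => h0 (le_trans (le_inf hL h6) ?_), ?_⟩
  · rw [← cj_cent, ← cj_inf]
    exact cj_mono g h
  · rw [← card_cj g]
    exact card_le ((le_inf hK (cent_symm h6)).trans (h2.cent (e ▸ h5)))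

theorem main (pr : Pr M₁ M₂) (s₁ : Sd (M₁ ⊓ M₂) φ₁ x₁) (s₂ : Sd (M₁ ⊓ M₂) φ₂ x₂) (h6 : 6 ≤ Nat.card X₁)
    (e : Nat.card X₂ = Nat.card X₁) (o₁ : Onto φ₁ ⊤) (hK : Ker φ₁ ≠ ⊥) :
    ∃ ψ : M₁ →* Perm {y // y ≠ x₂}, (∀ m, φ₁ m = 1 → ψ m = 1 → m = 1) ∧
      (∀ σ ∈ alternatingGroup X₁, ∃ m, φ₁ m = σ ∧ ψ m = 1) ∧ (∀ τ ∈ alternatingGroup _, ∃ m, φ₁ m = 1 ∧ ψ m = τ) ∧
      ((∀ m, Perm.sign (φ₁ m) = 1) → ∀ m, Perm.sign (ψ m) = 1) := by
  have h5 : 5 ≤ Nat.card X₁ := by omega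
  have h5' : 5 ≤ Nat.card X₂ := by omega
  have o₂ := onto_two pr s₁ s₂ h5 e o₁
  have hF := s₂.fit pr (e ▸ h6) o₂
  have c1 := cent_two pr s₁ s₂ h5 e o₂ hF
  have c2 := cent_two pr.symm s₂ s₁ h5' e.symm o₁ hF
  have hC₂ : ¬ M₂ ⊓ C_(Ker φ₂) ≤ Ker φ₂ := fun a2 => by
    have a1 : M₁ ⊓ C_(Ker φ₁) ≤ Ker φ₁ := by_contra fun h => (c2 h).1 a2
    have e0 := pr.eq_bot ((layerOf_le _).trans inf_le_left) ((layerOf_le _).trans inf_le_right) (s₁.layer a1) (s₂.layer a2)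
    have := inf_centralizer_fstarOf_le (M₁ ⊓ M₂)
    rw [fstarOf_eq, e0, hF, bot_sup_eq, cent_bot, inf_top_eq, le_bot_iff] at this
    exact hK (eq_bot_mono this s₁.ker_le)
  obtain ⟨hC₁, hc⟩ := c1 hC₂
  have p₁ : Onto φ₁ C_(Ker φ₁) := ((o₁.mono (inf_le_left.trans (le_norm_inf_cent norm_Ker))).of_norm h5 inf_le_left
    hC₁).mono (inf_le_right.trans inf_le_right)
  have p₂ : Onto φ₂ C_(Ker φ₂) := ((o₂.mono (inf_le_left.trans (le_norm_inf_cent norm_Ker))).of_norm h5' inf_le_left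
    hC₂).mono (inf_le_right.trans inf_le_right)
  have nD : M₁ ⊓ M₂ ≤ N_(Ker φ₁ ⊓ Ker φ₂) := norm_inf (inf_le_left.trans norm_Ker) (inf_le_right.trans norm_Ker)
  have hI : Ker φ₁ ⊓ Ker φ₂ = ⊥ := pr.eq_bot (inf_le_left.trans Ker_le) (inf_le_right.trans Ker_le)
    (s₁.le_norm h5 (p₁.mono (inf_le_right.trans (le_norm_of_cent (cent_anti inf_le_left)))) nD)
    (s₂.le_norm h5' (p₂.mono (inf_le_right.trans (le_norm_of_cent (cent_anti inf_le_right)))) nD)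
  obtain ⟨ψ₀, k, o, sg⟩ := s₂.res
  have h5Y : 5 ≤ Nat.card {y // y ≠ x₂} := by rw [card_ne]; omega
  have q : Onto ψ₀ (Ker φ₁) := ((o o₂).mono (inf_le_left.trans (inf_le_left.trans norm_Ker))).of_norm h5Y s₁.ker_le
    fun h => hK (eq_bot_mono hI (le_inf le_rfl (k ▸ h)))
  obtain ⟨ψ, a1, a2⟩ := s₁.ext h5 ψ₀ p₁ (norm_cent norm_Ker) fun d hd => mem_Ker.1 (q.cent h5Y ⟨d.2, hd⟩)
  refine ⟨ψ, fun m b1 b2 => ?_, fun σ hσ => ?_, fun τ hτ => ?_, fun h m => ?_⟩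
  · have b3 := mem_Ker.2 b1
    have b4 : (m : G) ∈ Ker ψ₀ := (mem_Ker (φ := ψ₀) (m := ⟨m, s₁.ker_le b3⟩)).2 ((a2 ⟨m, s₁.ker_le b3⟩).symm.trans b2)
    exact Subtype.ext (eq_one_of_mem_of_disj hI b3 (k ▸ b4))
  · obtain ⟨c, b1, b2⟩ := p₁ σ hσ
    exact ⟨c, b2, a1 c b1⟩
  · obtain ⟨d, b1, b2⟩ := q τ hτ
    exact ⟨Subgroup.inclusion s₁.le d, mem_Ker.1 b1, (a2 d).trans b2⟩
  · have : Nontrivial X₁ := Finite.one_lt_card_iff_nontrivial.1 (by omega)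
    have : Nontrivial X₂ := Finite.one_lt_card_iff_nontrivial.1 (by omega)
    have b1 : (M₁.subgroupOf M₁).map φ₁ ≤ alternatingGroup X₁ := by
      rintro _ ⟨m, -, rfl⟩
      exact h m
    have b2 : alternatingGroup X₂ = (M₂.subgroupOf M₂).map φ₂ := by
      refine eq_of_le_of_card_le (o₂.mono inf_le_left) ?_
      have d1 := card_le b1
      have d2 := card_mul_relIndex (Ker_le (φ := φ₁))
      have d3 := card_mul_relIndex (Ker_le (φ := φ₂))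
      obtain ⟨g, hg⟩ := pr.conj
      have d4 : Nat.card M₂ = Nat.card M₁ := by rw [hg, card_cj]
      rw [relIndex_Ker le_rfl] at d2 d3
      rw [nat_card_alternatingGroup] at d1 ⊢
      refine le_trans (Nat.le_of_mul_le_mul_left ?_ (card_pos (Ker φ₂))) (e ▸ d1)
      rw [d3, d4, ← d2]
      exact Nat.mul_le_mul_right _ hc
    obtain ⟨c, d1, d2⟩ := s₁.fact h5 p₁ m
    have d3 : ψ m = ψ₀ ⟨_, d2⟩ := by
      rw [← a2]
      change _ = ψ (c⁻¹ * m)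
      rw [map_mul, map_inv, a1 c d1, inv_one, one_mul]
    rw [d3, sg, ← Perm.mem_alternatingGroup, b2]
    exact Subgroup.mem_map_of_mem _ (Subgroup.mem_subgroupOf.2 (Subtype.prop _))

end two

theorem final {H X Y : Type*} [Group H] [Fintype X] [DecidableEq X] [Fintype Y] [DecidableEq Y] [Nontrivial X]
    {φ : H →* Perm X} {ψ : H →* Perm Y} (h1 : ∀ m, φ m = 1 → ψ m = 1 → m = 1)
    (h2 : ∀ σ ∈ alternatingGroup X, ∃ m, φ m = σ ∧ ψ m = 1) (h3 : ∀ τ ∈ alternatingGroup Y, ∃ m, φ m = 1 ∧ ψ m = τ)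
    (h4 : (∀ m, Perm.sign (φ m) = 1) → ∀ m, Perm.sign (ψ m) = 1) :
    (φ.range.index = 2 ∧ Nonempty (H ≃* alternatingGroup X × alternatingGroup Y)) ∨
    (φ.range = ⊤ ∧ (Nonempty (H ≃* Perm X × Perm Y) ∨ Nonempty (H ≃* Perm X × alternatingGroup Y) ∨
      Nonempty (H ≃* ((Perm.sign.comp (MonoidHom.fst (Perm X) (Perm Y))) *
        (Perm.sign.comp (MonoidHom.snd (Perm X) (Perm Y)))).ker))) := by
  have hi : Function.Injective (φ.prod ψ) := (injective_iff_map_eq_one _).2 fun m h =>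
    h1 m (congrArg Prod.fst h) (congrArg Prod.snd h)
  have key : ∀ S : Subgroup (Perm X × Perm Y), (∀ m, (φ m, ψ m) ∈ S) →
      (∀ z ∈ S, ∃ m, Perm.sign (φ m) = Perm.sign z.1 ∧ Perm.sign (ψ m) = Perm.sign z.2) → Nonempty (H ≃* S) := by
    intro S a1 a2
    refine ⟨(MonoidHom.ofInjective hi).trans (MulEquiv.subgroupCongr (le_antisymm ?_ fun z hz => ?_))⟩
    · rintro _ ⟨m, rfl⟩
      exact a1 m
    · obtain ⟨m, b1, b2⟩ := a2 z hz
      obtain ⟨c, c1, c2⟩ := h2 (z.1 * (φ m)⁻¹) (by simp [b1])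
      obtain ⟨k, k1, k2⟩ := h3 (z.2 * (ψ m)⁻¹) (by simp [b2])
      exact ⟨c * k * m, Prod.ext (by simp [c1, k1]) (by simp [c2, k2])⟩
  have ha : alternatingGroup X ≤ φ.range := fun σ hσ => let ⟨m, e, _⟩ := h2 σ hσ; ⟨m, e⟩
  by_cases c0 : ∀ m, Perm.sign (φ m) = 1
  · refine Or.inl ⟨?_, (key ((alternatingGroup X).prod (alternatingGroup Y)) (fun m => ⟨c0 m, h4 c0 m⟩)
      fun z hz => ⟨1, ?_, ?_⟩).map fun e => e.trans (Subgroup.prodEquiv _ _)⟩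
    · rw [le_antisymm (show φ.range ≤ alternatingGroup X by rintro _ ⟨m, rfl⟩; exact c0 m) ha, alternatingGroup.index_eq_two]
    · rw [c0, hz.1]
    · rw [h4 c0, hz.2]
  obtain ⟨a, ha'⟩ := not_forall.1 c0
  have ha1 := (Int.units_eq_one_or _).resolve_left ha'
  refine Or.inr ⟨eq_top_iff.2 fun σ _ => ?_, ?_⟩
  · rcases Int.units_eq_one_or (Perm.sign σ) with h | h
    · exact ha h
    · simpa using mul_mem (ha (show σ * (φ a)⁻¹ ∈ _ by simp [h, ha1])) ⟨a, rfl⟩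
  by_cases c1 : ∀ m, Perm.sign (φ m) = 1 → Perm.sign (ψ m) = 1
  · have c2 : ∀ m, Perm.sign (φ m) = -1 → Perm.sign (ψ m) = Perm.sign (ψ a) := fun m h => by
      have := c1 (m * a⁻¹) (by simp [h, ha1])
      rwa [map_mul, map_mul, map_inv, map_inv, mul_inv_eq_one] at this
    rcases Int.units_eq_one_or (Perm.sign (ψ a)) with h | h
    · refine Or.inr (Or.inl ((key ((⊤ : Subgroup (Perm X)).prod (alternatingGroup Y)) (fun m => ⟨trivial, ?_⟩)
        fun z hz => ?_).map fun e => (e.trans (Subgroup.prodEquiv _ _)).trans (Subgroup.topEquiv.prodCongr (.refl _))))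
      · exact (Int.units_eq_one_or _).elim (c1 m) fun e => (c2 m e).trans h
      · rcases Int.units_eq_one_or (Perm.sign z.1) with e | e
        · exact ⟨1, by simp [e], by simpa using hz.2.symm⟩
        · exact ⟨a, by rw [e, ha1], by rw [h, hz.2]⟩
    · refine Or.inr (Or.inr (key _ (fun m => ?_) fun z hz => ?_))
      · change Perm.sign (φ m) * Perm.sign (ψ m) = 1
        rcases Int.units_eq_one_or (Perm.sign (φ m)) with e | e
        · rw [e, c1 m e, mul_one]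
        · rw [e, c2 m e, h]; rfl
      · have hz' : Perm.sign z.1 * Perm.sign z.2 = 1 := hz
        rcases Int.units_eq_one_or (Perm.sign z.1) with e | e
        · exact ⟨1, by simp [e], by simpa [e] using hz'.symm⟩
        · refine ⟨a, by rw [e, ha1], ?_⟩
          rw [h, eq_inv_of_mul_eq_one_right hz', e]; rfl
  · push Not at c1
    obtain ⟨b, hb, hb'⟩ := c1
    have hb1 := (Int.units_eq_one_or _).resolve_left hb'
    refine Or.inl ((key ⊤ (fun _ => trivial) fun z _ => ?_).map fun e => e.trans Subgroup.topEquiv)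
    obtain ⟨m, hm⟩ : ∃ m, Perm.sign (φ m) = Perm.sign z.1 := (Int.units_eq_one_or (Perm.sign z.1)).elim
      (fun e => ⟨1, by simp [e]⟩) fun e => ⟨a, by rw [e, ha1]⟩
    by_cases e : Perm.sign (ψ m) = Perm.sign z.2
    · exact ⟨m, hm, e⟩
    · exact ⟨m * b, by simp [hm, hb], by simp [hb1, Int.units_ne_iff_eq_neg.1 e]⟩

end H05.AltSt
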