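import Mathlib
import Cfsg.Agent.H02.BQ3
import Cfsg.Agent.H02.FrobCompl
import Cfsg.Agent.H04.Soft
import Cfsg.Agent.S3908
import Cfsg.Agent.S0583

/-!
Solvable groups whose abelian subgroups of equal order are conjugate (`H02.BQ.BP`): non-cyclic Sylow subgroups of prime
exponent are normal (`exp_normal`), quaternion Sylow subgroups (`quat_normal'`), all subgroups of equal order are conjugate (`all_conj`).
-/

set_option linter.unusedSectionVars false
set_option linter.unusedVariables false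
set_option linter.style.haveILetI false

namespace H05.BC

open _root_.Cfsg BG H02 H02.BQ MulAction Subgroup
open scoped commutatorElement Pointwise

local notation "#" => Nat.card

universe u

section
variable {G : Type*} [Group G] [Finite G] {p : ℕ}

theorem normal_of {V S : Subgroup G} [V.Normal] (hS : IsSylowIn p S ⊤) (hn : (S.map (QuotientGroup.mk' V)).Normal)
    (hc : S ≤ C_(V) ∨ V ≤ S) : S.Normal := by
  have h1 : (V ⊔ S).Normal := by
    have := hn.comap (QuotientGroup.mk' V)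
    rwa [comap_map_eq, QuotientGroup.ker_mk', sup_comm] at this
  rcases hc with hc | hc
  · exact normalizer_eq_top_iff.1 (top_le_iff.1 ((top_le_norm ⊤).trans ((hS.sub le_sup_right le_top).norm_le
      (sup_le (le_norm_of_cent (cent_symm hc)) le_normalizer))))
  · rwa [sup_eq_right.2 hc] at h1

theorem map_equiv {V S : Subgroup G} [V.Normal] (h : V ⊓ S = ⊥) : Nonempty (S ≃* S.map (QuotientGroup.mk' V)) :=
  ⟨MulEquiv.ofBijective ((QuotientGroup.mk' V).subgroupMap S) ⟨fun a b e => Subtype.ext (inv_mul_eq_one.1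
    (eq_one_of_mem_of_disj h (QuotientGroup.eq.1 (congrArg Subtype.val e)) (mul_mem (inv_mem a.2) b.2))),
    (QuotientGroup.mk' V).subgroupMap_surjective S⟩⟩

theorem q8' [Group.IsSolvable G] (h : BP G) {V S : Subgroup G} [V.Normal] (hV : # V = 2) (hS : IsSylowIn 2 S ⊤) :
    IsCyclic S ∨ # S ≤ 8 := by
  have ho := not_dvd_card_pPrimeCore (G := G) Nat.prime_two
  set f := QuotientGroup.mk' (pPrimeCore 2 G)
  have hk : f.ker = pPrimeCore 2 G := QuotientGroup.ker_mk' _
  have hf : Function.Surjective f := QuotientGroup.mk'_surjective _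
  have dj : ∀ X : Subgroup G, IsPGroup 2 X → f.ker ⊓ X = ⊥ := fun X hX => by
    rw [hk, inf_comm]; exact pg_inf_eq_bot Nat.prime_two hX ho
  haveI : (V.map f).Normal := ‹V.Normal›.map f hf
  have := (h.sol hf).q8 (pPrimeCore_quotient_pPrimeCore 2 G)
    (V := V.map f) (by rw [card_map_of_disj (dj V (pg_of_card_eq hV)), hV]) (map_top_of_surjective f hf ▸ hS.map f)
  exact this.imp (cyc_of_map (dj S (hS.pg Nat.prime_two))) fun c => by rwa [card_map_of_disj (dj S (hS.pg Nat.prime_two))] at c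

theorem norm_all (hp : p.Prime) {V U : Subgroup G} (hV : IsElementaryAbelian p V) (h0 : U ≠ ⊥) (h1 : U < V) {t : G} (ht : t ∈ N_(V))
    (h : ∀ W ≤ V, # W = # U → t ∈ N_(W)) {v : G} (hv : v ∈ V) : t * v * t⁻¹ ∈ zpowers v := by
  haveI := Fact.mk hp
  by_contra c
  have wV := conj_mem_of_norm ht hv
  set w := t * v * t⁻¹
  have a1 := zpowers_le.2 hv
  have a2 := zpowers_le.2 wV
  obtain ⟨C, hC⟩ := hV.exists_compl hp (sup_le a1 a2)
  have n : ∀ {X Y : Subgroup G}, X ≤ V → Y ≤ V → X ≤ N_(Y) := fun hX hY => hX.trans (le_norm_of_abelian hV.abelian hY)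
  have a3 := sup_le a1 hC.le_right
  have e : (zpowers v ⊔ C) ⊔ zpowers w = V := by rw [sup_right_comm, hC.sup]
  have c1 : # V ≤ # ↥(zpowers v ⊔ C) * p := by
    rw [← e]
    refine (Nat.le_of_dvd (Nat.mul_pos (card_pos _) (card_pos _)) (card_sup_dvd (n a2 a3))).trans (Nat.mul_le_mul_left _ ?_)
    rw [card_zpowers]; exact Nat.le_of_dvd hp.pos (orderOf_dvd_of_pow_eq_one (hV.pow wV))
  obtain ⟨j, hj⟩ := pg_card hp (hV.of_le h1.le).pg
  obtain ⟨k, hk⟩ := pg_card hp hV.pg
  have jk : j < k := (Nat.pow_lt_pow_iff_right hp.one_lt).1 (hj ▸ hk ▸ card_lt_of_lt h1)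
  obtain ⟨W, w1, w2, w3⟩ := H04.exists_between_card_eq (hV.of_le a3).pg (le_sup_left : zpowers v ≤ _) (j := j)
    ((Nat.le_of_dvd hp.pos (card_zpowers v ▸ orderOf_dvd_of_pow_eq_one (hV.pow hv))).trans
      (Nat.le_of_dvd (pow_pos hp.pos j) (hj ▸ pg_dvd hp (hV.of_le h1.le).pg h0)))
    (Nat.le_of_mul_le_mul_right ((pow_succ p j ▸ Nat.pow_le_pow_right hp.pos jk).trans (hk ▸ c1)) hp.pos)
  have : w ∈ (zpowers v ⊔ zpowers w) ⊓ (zpowers v ⊔ C) :=
    ⟨mem_sup_right (mem_zpowers w), w2 (conj_mem_of_norm (h W (w2.trans a3) (w3.trans hj.symm)) (w1 (mem_zpowers v)))⟩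
  rw [dedekind le_sup_left (.inl (n hC.le_right a1)), hC.disj, sup_bot_eq] at this
  exact c this

end

theorem exp_normal {r : ℕ} (hr : r.Prime) (n : ℕ) : ∀ (G : Type u) [Group G] [Finite G] [Group.IsSolvable G] (S : Subgroup G),
    # G = n → BP G → IsSylowIn r S ⊤ → (∀ x ∈ S, x ^ r = 1) → ¬ IsCyclic S → S.Normal ∧ IsMulCommutative S := by
  induction n using Nat.strong_induction_on with | _ n ih => ?_
  intro G _ _ _ S hn h hS he hc
  haveI := Fact.mk hr
  have S0 : S ≠ ⊥ := by rintro rfl; exact hc inferInstance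
  obtain ⟨V, hV, V0, -, -, hab, s, hs, hx⟩ := exists_normal_elementary_le (⊤ : Subgroup G) fun e => S0 (eq_bot_mono e le_top)
  have hE : IsElementaryAbelian s V := ⟨hab, hx⟩
  have all : ∀ M : Subgroup G, M.Normal → r ∣ # M → S ≤ M := fun M _ d x hx => by
    by_cases x1 : x = 1
    · exact x1 ▸ one_mem M
    exact h.mem_of_card hr d x (orderOf_eq_prime (he x hx) x1)
  by_cases sr : s = r
  · subst sr
    obtain rfl : V = S := hS.eq_of_pg hs hE.pg (all V hV (pg_dvd hs hE.pg V0)) le_top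
    exact ⟨hV, hab⟩
  have cop := pg_coprime_ne hr hs (hS.pg hr) hE.pg (Ne.symm sr)
  have dj : V ⊓ S = ⊥ := BG.inf_eq_bot_of_coprime cop.symm
  have hf := QuotientGroup.mk'_surjective V
  obtain ⟨e⟩ := map_equiv dj
  obtain ⟨h1, h2⟩ := ih _ (hn ▸ card_quotient_lt V0) (G ⧸ V) (S.map (QuotientGroup.mk' V)) rfl (h.sol hf)
    (map_top_of_surjective _ hf ▸ hS.map _) (by rintro _ ⟨x, hx, rfl⟩; rw [← map_pow, he x hx, map_one])
    fun c => hc (isCyclic_of_surjective _ e.symm.surjective)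
  have h3 : IsMulCommutative S := ab_of_disj h2 (by rwa [QuotientGroup.ker_mk'])
  refine ⟨normal_of hS h1 (.inl (all _ inferInstance (by_contra fun c => hc ?_))), h3⟩
  refine isCyclic_of_fpf V0 (top_le_norm _) (fun a ha a1 => eq_bot_iff.2 fun v hv => by_contra fun v1 => a1 ?_) (.inl h3)
  have := semireg' (T := S) hab (by
      have := h1.comap (QuotientGroup.mk' V)
      rw [comap_map_eq, QuotientGroup.ker_mk'] at this
      rw [← sup_eq_left.2 (abelian_iff.1 hab : V ≤ C_(V)), sup_assoc, sup_comm V]; infer_instance) cop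
    (by rw [comm_eq_bot.2 (abelian_iff.1 h3)]; exact bot_le) (fun v hv v1 w hw w1 => by
      obtain ⟨g, hg⟩ := h (zpowers v) (zpowers w) inferInstance inferInstance
        (by rw [hE.card_zpowers hs hv v1, hE.card_zpowers hs hw w1])
      exact ⟨g, by rw [← cent_zpowers, hg, ← cj_cent, cent_zpowers]⟩) hv.1 v1 ⟨ha, mem_cent1.2 (mem_cent1.1 hv.2).symm⟩
  exact eq_one_of_mem_of_disj (pg_inf_eq_bot hr (hS.pg hr) c) ha this

theorem q_ijk : ∃ i j : QuaternionGroup 2, orderOf i = 4 ∧ orderOf j = 4 ∧ orderOf (i * j) = 4 ∧ i * i = j * j ∧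
    (i * j) * (i * j) = i * i ∧ i * j ≠ j * i :=
  ⟨.xa 0, .xa 1, QuaternionGroup.orderOf_xa _, QuaternionGroup.orderOf_xa _, 
    (orderOf_eq_iff (by decide)).2 (by decide), by decide, by decide, by decide⟩

theorem q_uniq : ∀ a b : QuaternionGroup 2, a * a = 1 → b * b = 1 → a ≠ 1 → b ≠ 1 → a = b := by decide

theorem q_four : ∀ a : QuaternionGroup 2, (a ^ 2) ^ 2 = 1 := by decide

theorem quat_nc {S : Type*} [Group S] {k : ℕ} (e : S ≃* QuaternionGroup (2 ^ (k + 1))) : ¬ IsMulCommutative S := fun c => by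
  have := congrArg e (c.is_comm.comm (e.symm (.xa 0)) (e.symm (.a 1)))
  simp only [map_mul, MulEquiv.apply_symm_apply, QuaternionGroup.xa_mul_a, QuaternionGroup.a_mul_xa, QuaternionGroup.xa.injEq] at this
  have h : ((2 : ℕ) : ZMod (2 * 2 ^ (k + 1))) = 0 := by push_cast; linear_combination this
  have := Nat.le_of_dvd two_pos ((ZMod.natCast_eq_zero_iff _ _).1 h)
  have := Nat.one_lt_two_pow k.succ_ne_zero
  omega

theorem quat_normal' (n : ℕ) : ∀ (G : Type u) [Group G] [Finite G] [Group.IsSolvable G] (S : Subgroup G) (k : ℕ),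
    # G = n → BP G → IsSylowIn 2 S ⊤ → (∀ p : ℕ, p.Prime → p ≠ 2 → ∀ P : Subgroup G, IsPGroup p P → IsCyclic P) →
    (S ≃* QuaternionGroup (2 ^ (k + 1))) → S.Normal ∧ k = 0 := by
  induction n using Nat.strong_induction_on with | _ n ih => ?_
  intro G _ _ _ S k hn h hS ho e
  have cS : # S = 4 * 2 ^ (k + 1) := by rw [Nat.card_congr e.toEquiv, Nat.card_eq_fintype_card, QuaternionGroup.card]
  have nc := quat_nc e
  obtain ⟨V, hV, V0, -, -, hab, s, hs, hx⟩ := exists_normal_elementary_le (⊤ : Subgroup G) fun e => nc (by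
    rw [eq_bot_mono e (le_top (a := S))]; infer_instance)
  have hE : IsElementaryAbelian s V := ⟨hab, hx⟩
  have hf := QuotientGroup.mk'_surjective V
  have hS' : IsSylowIn 2 (S.map (QuotientGroup.mk' V)) ⊤ := map_top_of_surjective _ hf ▸ hS.map _
  by_cases s2 : s = 2
  · subst s2
    have VS : V ≤ S := hS.le_of_norm_pg hs hE.pg le_top (top_le_norm _)
    have c2 : # V = 2 := ((h.elem hs hE).resolve_right fun c => c.elim V0 fun c => nc (by
      rw [← hS.eq_of_le' c (c.le_of_norm_pg' hs (hS.pg hs) le_top (top_le_norm _)) |>.symm]; exact hab))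
    obtain rfl : k = 0 := by
      have := (q8' h c2 hS).resolve_left fun c => nc (abelian_of_cyclic c)
      rw [cS, pow_succ] at this
      exact by_contra fun c => by have := Nat.one_lt_two_pow c; omega
    refine ⟨normal_of hS (exp_normal hs _ _ _ rfl (h.sol hf) hS' ?_ fun c => nc ?_).1 (.inr VS), rfl⟩
    · rintro _ ⟨x, hx, rfl⟩
      rw [← map_pow]
      refine (QuotientGroup.eq_one_iff _).2 ?_
      by_cases x1 : x ^ 2 = 1
      · exact x1 ▸ one_mem V
      refine h.mem_of_card hs c2.symm.dvd _ (orderOf_eq_prime ?_ x1)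
      have := congrArg (fun t => (e.symm t : G)) (q_four (e ⟨x, hx⟩))
      simpa using this
    · refine ((QuotientGroup.mk' V).subgroupMap S).isMulCommutative_of_isCyclic_of_ker_le_center fun x hx => mem_center_iff.2 fun y => Subtype.ext ?_
      exact (mem_cent.1 (normal_two_central c2 (mem_top y.1)) x ((QuotientGroup.eq_one_iff _).1 (congrArg Subtype.val hx))).symm
  have cop := pg_coprime_ne Nat.prime_two hs (hS.pg Nat.prime_two) hE.pg (Ne.symm s2)
  obtain ⟨e'⟩ := map_equiv (BG.inf_eq_bot_of_coprime cop.symm)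
  obtain ⟨h1, rfl⟩ := ih _ (hn ▸ card_quotient_lt V0) (G ⧸ V) _ k rfl (h.sol hf) hS' (fun q hq ne P hP => by
    obtain ⟨R, h1, rfl⟩ := exists_plift hq hf hP
    haveI := ho q hq ne R (h1.pg hq)
    exact isCyclic_of_surjective _ ((QuotientGroup.mk' V).subgroupMap_surjective R)) (e'.symm.trans e)
  refine ⟨normal_of hS h1 (.inl ?_), rfl⟩
  haveI := ho s hs s2 V hE.pg
  have cV : # V = s := le_antisymm (hE.card_le_of_cyclic hs this) (Nat.le_of_dvd (card_pos _) (pg_dvd hs hE.pg V0))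
  haveI := Fact.mk (cV ▸ hs : (# V).Prime)
  let ψ : QuaternionGroup 2 →* ZMod (# V) := (Units.coeHom _).comp ((IsCyclic.mulAutMulEquiv V).toMonoidHom.comp
    ((MulAut.conjNormal (H := V)).comp (S.subtype.comp e.symm.toMonoidHom)))
  have k1 : ∀ x, ψ x = 1 → orderOf x = 4 → S ≤ C_(V) := fun x hx o => by
    have xc : (e.symm x : G) ∈ C_(V) := mem_cent.2 fun v hv => by
      have : MulAut.conjNormal (H := V) (e.symm x : G) = 1 := (IsCyclic.mulAutMulEquiv V).injective (Units.ext (by rw [map_one]; exact hx))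
      exact (mul_inv_eq_iff_eq_mul.1 (congrArg Subtype.val (DFunLike.congr_fun this (⟨v, hv⟩ : V)))).symm
    have := quat_top (n := 2) ((C_(V)).comap (S.subtype.comp e.symm.toMonoidHom)) fun y hy =>
      h.mem xc (by simp [orderOf_coe, o, hy])
    intro y hy
    simpa using (this ▸ mem_top (e ⟨y, hy⟩) : e ⟨y, hy⟩ ∈ (C_(V)).comap (S.subtype.comp e.symm.toMonoidHom))
  obtain ⟨i, j, oi, oj, ok, a1, a2, -⟩ := q_ijk
  have b1 := congrArg ψ a1
  have b2 := congrArg ψ a2
  simp only [map_mul] at b1 b2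
  have u : ψ i * ψ i ≠ 0 := fun c => by
    have := congrArg ψ (show i * i * (i * i)⁻¹ = 1 from mul_inv_cancel _)
    rw [map_mul, map_mul, c, zero_mul, map_one] at this; exact zero_ne_one this
  have b3 : ψ j * ψ j = 1 := mul_left_cancel₀ u (by linear_combination b2)
  rcases mul_self_eq_one_iff.1 (b1.trans b3) with c | c
  · exact k1 i c oi
  rcases mul_self_eq_one_iff.1 b3 with d | d
  · exact k1 j d oj
  · exact k1 _ (by rw [map_mul, c, d]; simp) ok

theorem step {G : Type*} [Group G] [Finite G] (h : BP G) {π : Set ℕ} {V H K : Subgroup G} [V.Normal] (hV : IsPiHallOf π V ⊤)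
    (hab : IsMulCommutative V) (e : # H = # K) (c2 : ∀ L L' : Subgroup G, IsPiSubgroup πᶜ L → # L = # L' → L ≤ N_(V ⊓ K) →
      L' ≤ N_(V ⊓ K) → ∃ c ∈ N_(V ⊓ K), L' = cj c L) : ∃ g, K = cj g H := by
  have key : ∀ X : Subgroup G, ∃ L, Sdprod (V ⊓ X) L X ∧ IsPiSubgroup πᶜ L := fun X => by
    have s := hV.normal_inf (top_le_norm _) (le_top (a := X))
    obtain ⟨L, hL⟩ := s.exists_compl (le_norm_inf' (top_le_norm _))
    exact ⟨L, hL, (hL.hall_compl s).isPi⟩
  obtain ⟨L, l1, l2⟩ := key H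
  obtain ⟨M, m1, m2⟩ := key K
  have e1 := l1.card
  have e2 := m1.card
  have ei : # ↥(V ⊓ H) = # ↥(V ⊓ K) := by
    have a := (hV.isPi.inf_left H).coprime m2
    have b := (hV.isPi.inf_left K).coprime l2
    exact Nat.dvd_antisymm (a.dvd_of_dvd_mul_right (e2 ▸ e ▸ e1 ▸ dvd_mul_right _ _))
      (b.dvd_of_dvd_mul_right (e1 ▸ e.symm ▸ e2 ▸ dvd_mul_right _ _))
  obtain ⟨g, hg⟩ := h _ _ (abelian_of_le hab inf_le_left) (abelian_of_le hab inf_le_left) ei
  obtain ⟨d, hd, hd'⟩ := c2 (cj g L) M (l2.cj g) (by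
      rw [card_cj]; rw [e, e2, ei] at e1; exact (Nat.eq_of_mul_eq_mul_left (card_pos _) e1).symm)
    (by rw [hg, ← cj_norm]; exact cj_mono g l1.norm) m1.norm
  refine ⟨d * g, ?_⟩
  rw [← l1.sup, cj_sup, ← cj_cj, ← cj_cj, ← hg, cj_of_mem_norm hd, ← hd', m1.sup]

theorem all_conj (n : ℕ) : ∀ (G : Type u) [Group G] [Finite G] [Group.IsSolvable G], # G = n → BP G →
    ∀ H K : Subgroup G, # H = # K → ∃ g, K = cj g H := by
  induction n using Nat.strong_induction_on with | _ n ih => ?_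
  intro G _ _ _ hn h H K e
  have hq : ∀ V : Subgroup G, ∀ [V.Normal], V ≠ ⊥ → ∀ A B : Subgroup (G ⧸ V), # A = # B → ∃ g, B = cj g A := fun V _ V0 =>
    ih _ (hn ▸ card_quotient_lt V0) (G ⧸ V) rfl (h.sol (QuotientGroup.mk'_surjective V))
  by_contra c
  have hmin : ∀ (V : Subgroup G) (p : ℕ), V.Normal → p.Prime → V ≠ ⊥ → IsElementaryAbelian p V →
      IsSylowIn p V ⊤ ∧ V ⊓ K ≠ ⊥ ∧ V ⊓ K < V := fun V p hV hp V0 hE => by
    rcases h.elem hp hE with c1 | c1 | c1
    · exact absurd (conj_step hp hE (hq V V0) e (.inl ⟨c1, h.mem_of_card hp c1.symm.dvd⟩)) c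
    · exact absurd c1 V0
    refine ⟨c1, by_contra fun c2 => c (step h c1 hE.abelian e fun L L' hL eL _ _ => ?_)⟩
    have t : N_(V ⊓ K) = ⊤ := by
      by_cases a : V ⊓ K = ⊥
      · rw [a]; exact normalizer_eq_top _
      · rw [(inf_le_left (b := K)).eq_or_lt.resolve_right fun b => c2 ⟨a, b⟩]; exact normalizer_eq_top _
    have hL' : IsPiSubgroup {p}ᶜ L' := hL.of_dvd eL.symm.dvd
    have dj : ∀ X, IsPiSubgroup {p}ᶜ X → (QuotientGroup.mk' V).ker ⊓ X = ⊥ := fun X hX => by
      rw [QuotientGroup.ker_mk']; exact c1.isPi.inf_eq_bot hX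
    obtain ⟨q, hq⟩ := hq V V0 (L.map (QuotientGroup.mk' V)) (L'.map (QuotientGroup.mk' V))
      (by rw [card_map_of_disj (dj L hL), card_map_of_disj (dj L' hL'), eL])
    obtain ⟨g, rfl⟩ := QuotientGroup.mk'_surjective V q
    have := congrArg (comap (QuotientGroup.mk' V)) hq
    rw [← map_cj, comap_map_eq, comap_map_eq, QuotientGroup.ker_mk', sup_comm, sup_comm (cj g L)] at this
    obtain ⟨a, -, ha⟩ := hall_trans (π := {p}ᶜ) inferInstance
      (hall_sup_right (by rw [compl_compl]; exact c1.isPi) (hL.cj g) (top_le_norm _))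
      (this ▸ hall_sup_right (by rw [compl_compl]; exact c1.isPi) hL' (top_le_norm _))
    exact ⟨a * g, t ▸ mem_top _, by rw [ha, cj_cj]⟩
  set E := fittingSubgroup G
  have hE : ∀ p : ℕ, p.Prime → p ∣ # E → ∃ V : Subgroup G, V.Normal ∧ V ≠ ⊥ ∧ IsElementaryAbelian p V ∧ V ≤ E ∧ E ≤ C_(V) := fun p hp d => by
    obtain ⟨P, hP⟩ := sylow_exists hp E
    obtain ⟨V, hV, V0, VP, vm, hab, s, hs, hx⟩ := exists_normal_elementary_le (pCore p G)
      fun e => hP.ne_bot' hp d (eq_bot_mono e (le_pCore_of_le_fitting hp (hP.pg hp) hP.le))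
    obtain rfl : s = p := pg_prime_eq hp (pg_le (pCore_isPGroup p G) VP) hs (pg_dvd hs (pg_of_pow hx) V0)
    exact ⟨V, hV, V0, ⟨hab, hx⟩, le_fitting_of_isMulCommutative V, Cfsg.Agent.S0583.result V V0 vm⟩
  have cE : ∀ x : G, (∀ (p : ℕ) (V : Subgroup G), p.Prime → V.Normal → V ≠ ⊥ → IsElementaryAbelian p V → V ≤ E → E ≤ C_(V) →
      x ∈ C_(V)) → x ∈ C_(E) := fun x hx => zpowers_le.1 (cent_symm (le_of_sylows fun p hp d => by
    obtain ⟨V, a1, a2, a3, a4, a5⟩ := hE p hp d
    exact ⟨V, (hmin V p a1 hp a2 a3).1.sub a4 le_top, cent_symm (zpowers_le.2 (hx p V hp a1 a2 a3 a4 a5))⟩))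
  have Eab : E ≤ C_(E) := fun x hx => cE x fun _ _ _ _ _ _ _ a => a hx
  have hall : IsPiHallOf {p | p ∣ # E} E ⊤ := isPiHallOf_mk le_top (isPi_primes E) fun p hp d d' => by
    obtain ⟨V, a1, a2, a3, a4, -⟩ := hE p hp d'
    exact (hmin V p a1 hp a2 a3).1.not_dvd' hp (d.trans (relIndex_dvd_left ⊤ a4))
  have S3 := Cfsg.Agent.S3908.result h
  have ex : ∀ (p : ℕ) (S : Subgroup G), p.Prime → ¬ p ∣ # E → IsSylowIn p S ⊤ → (∀ x ∈ S, x ^ p = 1) → IsCyclic S :=
    fun p S hp d hS hx => by_contra fun nc => by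
      obtain ⟨a, b⟩ := exp_normal hp _ G S rfl h hS hx nc
      rw [pg_eq_bot hp (hS.pg hp) fun c => d (c.trans (card_dvd_of_le (le_fitting_of_isMulCommutative S)))] at nc
      exact nc inferInstance
  have odd : ∀ p : ℕ, p.Prime → p ≠ 2 → ¬ p ∣ # E → ∀ P : Subgroup G, IsPGroup p P → IsCyclic P := fun p hp p2 d P hP => by
    haveI := Fact.mk hp
    obtain ⟨S, hS⟩ := hP.exists_le_sylow
    haveI := (S3.2 p p2 S).elim id (ex p S hp d (isSylowIn_top hp S))
    exact isCyclic_of_le hS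
  have two : ¬ 2 ∣ # E → ∀ P : Subgroup G, IsPGroup 2 P → P ≤ N_(E ⊓ K) → IsCyclic P := fun d P hP hN => by
    obtain ⟨S, hS⟩ := hP.exists_le_sylow
    have sS := isSylowIn_top Nat.prime_two S
    by_contra nc
    have ncS : ¬ IsCyclic (S : Subgroup G) := fun _ => nc (isCyclic_of_le hS)
    obtain ⟨k, ⟨f⟩⟩ := ((S3.1 S).resolve_left ncS).resolve_left fun a => ncS (ex 2 S Nat.prime_two d sS a.2)
    obtain _ | k := k
    · haveI := quat_one; exact ncS (isCyclic_of_surjective _ f.symm.surjective)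
    have dj : E ⊓ S = ⊥ := by rw [inf_comm]; exact pg_inf_eq_bot Nat.prime_two S.isPGroup' d
    obtain ⟨f'⟩ := map_equiv dj
    have hf := QuotientGroup.mk'_surjective E
    obtain ⟨h1, rfl⟩ := quat_normal' _ (G ⧸ E) _ k rfl (h.sol hf) (map_top_of_surjective _ hf ▸ sS.map _) (fun q hq ne R hR => by
      by_cases d : q ∣ # E
      · rw [pg_eq_bot hq hR fun c => hall.not_dvd hq d (by
          rw [relIndex_top_right]; exact c.trans (card_subgroup_dvd_card R))]
        infer_instance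
      obtain ⟨R, h1, rfl⟩ := exists_plift hq hf hR
      haveI := odd q hq ne d R (h1.pg hq)
      exact isCyclic_of_surjective _ ((QuotientGroup.mk' E).subgroupMap_surjective R)) (f'.symm.trans f)
    have PS : P = S := by
      obtain ⟨-, m, ⟨g⟩⟩ := (Cfsg.Agent.S0016.result 2 hP fun A B hA hB => by
        obtain ⟨a, a1, ha⟩ := (Nat.card_eq_two_iff' (1 : A)).1 hA
        obtain ⟨b, b1, hb⟩ := (Nat.card_eq_two_iff' (1 : B)).1 hB
        have k : ∀ (A : Subgroup P) (a : A), # A = 2 → f ⟨a, hS a.1.2⟩ * f ⟨a, hS a.1.2⟩ = 1 := fun A a hA => by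
          rw [← map_mul, ← map_one f]; congr 1
          exact Subtype.ext (by simpa [sq, hA] using congrArg (fun t : A => ((t : P) : G)) (pow_card_eq_one' (x := a)))
        have k2 : ∀ (A : Subgroup P) (a : A), a ≠ 1 → f ⟨a, hS a.1.2⟩ ≠ 1 := fun A a a1 e =>
          a1 (Subtype.ext (Subtype.ext (congrArg (fun t : (S : Subgroup G) => (t : G)) ((map_eq_one_iff f f.injective).1 e))))
        have ab : (a : P) = b := Subtype.ext (congrArg (fun t : (S : Subgroup G) => (t : G)) (f.injective (q_uniq _ _ (k A a hA) (k B b hB) (k2 A a a1) (k2 B b b1))))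
        ext x
        refine ⟨fun hx => ?_, fun hx => ?_⟩ <;> by_cases x1 : x = 1
        · exact x1 ▸ one_mem _
        · rw [show x = a from congrArg Subtype.val (ha ⟨x, hx⟩ fun e => x1 (congrArg Subtype.val e)), ab]; exact b.2
        · exact x1 ▸ one_mem _
        · rw [show x = b from congrArg Subtype.val (hb ⟨x, hx⟩ fun e => x1 (congrArg Subtype.val e)), ← ab]; exact a.2).resolve_left nc
      obtain _ | m := m
      · haveI := quat_one; exact absurd (isCyclic_of_surjective _ g.symm.surjective) nc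
      refine eq_of_le_of_card_le hS ?_
      rw [Nat.card_congr f.toEquiv, Nat.card_congr g.toEquiv, Nat.card_eq_fintype_card, Nat.card_eq_fintype_card,
        QuaternionGroup.card, QuaternionGroup.card]
      exact Nat.mul_le_mul_left _ (Nat.pow_le_pow_right two_pos (by omega))
    have h2 : (E ⊔ S).Normal := by
      have := h1.comap (QuotientGroup.mk' E)
      rwa [comap_map_eq, QuotientGroup.ker_mk', sup_comm] at this
    obtain ⟨i, j, -, -, -, -, -, ij⟩ := q_ijk
    set x := f.symm i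
    set y := f.symm j
    refine ij (f.symm.injective (Subtype.ext (eq_comm.1 (inv_mul_eq_one.1 (eq_one_of_mem_of_disj dj (centralizer_fitting_le G
      (cE _ fun p V hp a1 a2 a3 a4 a5 => mem_cent.2 fun v hv => ?_)) (mul_mem (inv_mem (SetLike.coe_mem _)) (SetLike.coe_mem _)))))))
    obtain ⟨b1, b2, b3⟩ := hmin V p a1 hp a2 a3
    have k : ∀ t ∈ (S : Subgroup G), t * v * t⁻¹ ∈ zpowers v := fun t ht => norm_all hp a3 b2 b3 (top_le_norm ⊤ (mem_top t)) (fun W hW eW => by
      obtain ⟨g, hg⟩ := h _ _ (abelian_of_le a3.abelian inf_le_left) (abelian_of_le a3.abelian hW) eW.symm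
      have : E ⊔ S ≤ N_(V ⊓ K) := sup_le (le_norm_of_cent (a5.trans (cent_anti inf_le_left))) (by
        rw [← PS, show V ⊓ K = V ⊓ (E ⊓ K) by rw [← inf_assoc, inf_eq_left.2 a4]]; exact norm_inf (top_le_norm _) hN)
      have := cj_mono g this
      rw [cj_of_mem_norm (top_le_norm ⊤ (mem_top g)), cj_norm, ← hg] at this
      exact this (mem_sup_right ht)) hv
    obtain ⟨a, ha⟩ := k x x.2
    obtain ⟨b, hb⟩ := k y y.2
    dsimp only at ha hb
    have e1 : (x : G) * y * v * ((x : G) * y)⁻¹ = (y : G) * x * v * ((y : G) * x)⁻¹ := by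
      calc _ = x * (y * v * (y : G)⁻¹) * (x : G)⁻¹ := by group
        _ = y * (x * v * (x : G)⁻¹) * (y : G)⁻¹ := by
          rw [← ha, ← hb, ← conj_zpow, ← conj_zpow, ← ha, ← hb, ← zpow_mul, ← zpow_mul, mul_comm a]
        _ = _ := by group
    simp only [map_mul, coe_mul]
    change v * (((y : G) * x)⁻¹ * (x * y)) = ((y : G) * x)⁻¹ * (x * y) * v
    calc _ = ((y : G) * x)⁻¹ * ((y : G) * x * v * ((y : G) * x)⁻¹) * (x * y) := by group
      _ = _ := by rw [← e1]; group
  refine c (step h hall (abelian_iff.2 Eab) e fun L L' hL eL n1 n2 => ?_)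
  obtain ⟨D, hD, hLD⟩ := hall_superset (M := N_(E ⊓ K)) inferInstance hL n1
  obtain ⟨a, ha, haD⟩ := hall_Jsub inferInstance hD (hL.of_dvd eL.symm.dvd) n2
  have cy : ∀ q : ℕ, q.Prime → ∀ P : Subgroup D, IsPGroup q P → IsCyclic P := fun q hq P hP => by
    by_cases d : q ∣ # E
    · rw [pg_eq_bot hq hP fun c => hD.isPi.not_dvd' hq d (c.trans (card_dvd_top P))]; infer_instance
    refine (isCyclic_map_subtype_iff P).1 ?_
    by_cases q2 : q = 2
    · subst q2; exact two d _ (hP.map _) ((map_subtype_le P).trans hD.le)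
    · exact odd q hq q2 d _ (hP.map _)
  obtain ⟨d, hd⟩ := conj_aux 0 _ D rfl (fun q hq => dp_of_cyc hq (cy q hq)) (fun q hq _ => cy q hq) (L.subgroupOf D)
    ((cj a L').subgroupOf D) (by rw [card_subgroupOf_of_le hLD, card_subgroupOf_of_le haD, card_cj, eL])
  have := congrArg (map D.subtype) hd
  rw [map_cj, map_subtype_subgroupOf_of_le hLD, map_subtype_subgroupOf_of_le haD] at this
  exact ⟨a⁻¹ * d, mul_mem (inv_mem ha) (hD.le d.2), by rw [← cj_cj]; exact cj_eq_iff.1 this⟩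

end H05.BC
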