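import Mathlib
import Cfsg.Agent.H19.PermP
import Cfsg.Agent.H19.Invol
import Cfsg.Agent.H08.BS
import Cfsg.Agent.H08.Signed
import Cfsg.Agent.H08.BSW1

/-!
Groups with a self-centralizing Sylow subgroup `P` of prime order `p`, `|N(P)| = 2 p` (helper5):
`lin_split`, `isConj_invol`, `order_formula`, and the decomposition `cases3` of a permutation character of
degree `3 p`.
-/

open H05 Cfsg Classical H19 H08
open scoped ComplexConjugate MatrixGroups

namespace H05.D3

variable {p : ℕ} [hp : Fact p.Prime] {G P H : Type*} [Group G] [Group P] [Group H] {S : DOne p G P H}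
variable [Fintype G] [Fintype P] [Fintype H]

omit [Fintype G] [Fintype P] hp in
theorem univ_eq (hH : Nat.card H = 2) {j : H} (h1 : j ≠ 1) : (Finset.univ : Finset H) = {1, j} := by
  symm
  apply Finset.eq_univ_of_card
  rw [Finset.card_pair h1.symm, ← Nat.card_eq_fintype_card, hH]

omit [Fintype G] [Fintype P] hp in
theorem jj (hH : Nat.card H = 2) (j : H) : j * j = 1 := by
  rw [← sq, ← hH]; exact pow_card_eq_one'

theorem lin_split (hK : S.K = ⊥) (hH : Nat.card H = 2) {j : H} (h1 : j ≠ 1) {χ : G → ℂ} (hχ : IsCharacter G χ) :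
    ∃ a b : ℕ, S.lin χ = a + b ∧ χ (S.jH j) = (a : ℂ) - b := by
  let F : P ⋊[S.a] H →* G := SemidirectProduct.lift S.jP S.jH (fun h => MonoidHom.ext fun y => by
    simp [← S.cj])
  have : Fintype (P ⋊[S.a] H) := Fintype.ofEquiv _ SemidirectProduct.equivProd.symm
  have hc : (Nat.card (P ⋊[S.a] H) : ℂ) = p * 2 := by
    rw [Nat.card_congr SemidirectProduct.equivProd, Nat.card_prod, S.cardP, hH]; simp
  have key : ∀ l : H → ℂ, IsCharacter H l → ∃ n : ℕ,
      (p * 2 * n : ℂ) = p * S.lin χ * conj (l 1) + p * χ (S.jH j) * conj (l j) := fun l hl => by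
    obtain ⟨n, hn⟩ := (hχ.comp F).exists_classInner_eq_nat (hl.comp SemidirectProduct.rightHom)
    refine ⟨n, ?_⟩
    rw [← hn, ← hc, card_mul_classInner, ← SemidirectProduct.equivProd.symm.sum_comp, Fintype.sum_prod_type_right,
      univ_eq hH h1, Finset.sum_pair h1.symm, S.lin_eq hχ, Finset.sum_mul]
    congr 1
    · exact Finset.sum_congr rfl fun y _ => by simp [F, SemidirectProduct.equivProd]
    · rw [Finset.sum_congr rfl (g := fun _ => χ (S.jH j) * conj (l j)) fun y _ => by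
        obtain ⟨w, hw⟩ := S.exists_conj_eq hK h1 y
        simp [F, SemidirectProduct.equivProd, ← hw, hχ.isClassFunction _ _]]
      rw [Finset.sum_const, Finset.card_univ, ← Nat.card_eq_fintype_card, S.cardP, nsmul_eq_mul, mul_assoc]
  have p0 : (p : ℂ) ≠ 0 := Nat.cast_ne_zero.2 hp.out.ne_zero
  obtain ⟨a, ha⟩ := key 1 isCharacter_one
  obtain ⟨b, hb⟩ := key _ (isCharacter_perm_sub_one H)
  have e1 : Nat.card (MulAction.fixedBy H (1 : H)) = 2 := by simp [← hH]
  have e2 : Nat.card (MulAction.fixedBy H j) = 0 := by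
    rw [Nat.card_eq_zero]; exact Or.inl ⟨fun x => h1 (mul_eq_right.1 (show j * x.1 = x.1 from x.2))⟩
  simp only [e1, e2, Pi.one_apply, map_one, mul_one, Nat.cast_ofNat, Nat.cast_zero, zero_sub, map_neg] at ha hb
  rw [show conj ((2 : ℂ) - 1) = 1 by norm_num] at hb
  refine ⟨a, b, ?_, ?_⟩
  · have : (S.lin χ : ℂ) = a + b := mul_left_cancel₀ p0 (by linear_combination (-1 / 2 : ℂ) * (ha + hb))
    exact_mod_cast this
  · exact mul_left_cancel₀ p0 (by linear_combination (-1 / 2 : ℂ) * (ha - hb))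

omit [Fintype G] [Fintype P] in
theorem inv_of_N (hK : S.K = ⊥) (hH : Nat.card H = 2) {j : H} (h1 : j ≠ 1) {s : G} (hs : orderOf s = 2) {y : P}
    (hy : y ≠ 1) (e : s * S.jP y * s⁻¹ = (S.jP y)⁻¹) : ∃ w, s = S.jP w * S.jH j := by
  refine S.invol_N hK h1 (jj hH j) (S.ti s y hy ?_) (ne_one_of_orderOf hs) (mul_self_of_orderOf hs)
  rw [inv_eq_of_orderOf hs] at e ⊢
  rw [e]; exact S.N.inv_mem (S.memP y)

omit [Fintype G] [Fintype P] in
theorem orderOf_jH (hH : Nat.card H = 2) {j : H} (h1 : j ≠ 1) : orderOf (S.jH j) = 2 := by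
  rw [orderOf_injective _ S.injH]
  exact orderOf_eq_prime (by rw [sq, jj hH]) h1

omit [Fintype P] in
theorem conj_P (hK : S.K = ⊥) {g : G} (hg : p ∣ orderOf g) : ∃ (x : G) (y : P), y ≠ 1 ∧ x * g * x⁻¹ = S.jP y := by
  obtain ⟨x, y, k, hy, e⟩ := S.exists_conj_of_dvd hg
  have : (k : H) = 1 := Subgroup.mem_bot.1 (hK ▸ k.2)
  exact ⟨x, y, hy, by rw [e, this, map_one, mul_one]⟩

omit [Fintype P] in
theorem pairCount_P (h2 : 2 < p) (hK : S.K = ⊥) (hH : Nat.card H = 2) {g : G} (hg : p ∣ orderOf g) :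
    pairCount g = p := by
  have : Nontrivial H := Finite.one_lt_card_iff_nontrivial.1 (by omega)
  obtain ⟨j, h1⟩ := exists_ne (1 : H)
  obtain ⟨x, y, hy, e⟩ := conj_P hK hg
  rw [← pairCount_conj x, e, pairCount_eq_of_sq_ne_one (fun h => by
    have := orderOf_dvd_of_pow_eq_one h
    rw [orderOf_injective _ S.injP, S.orderOf_P hy] at this
    have := Nat.le_of_dvd two_pos this; omega)]
  refine Eq.trans (Eq.symm ?_) S.cardP
  refine Nat.card_congr (Equiv.ofBijective (fun w => ⟨S.jP w * S.jH j, ?_, ?_⟩) ⟨fun w w' h => ?_, fun s => ?_⟩)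
  · obtain ⟨v, hv⟩ := S.exists_conj_eq hK h1 w
    rw [← hv, orderOf_conj', orderOf_jH hH h1]
  · rw [mul_inv_rev, show S.jP w * S.jH j * S.jP y * ((S.jH j)⁻¹ * (S.jP w)⁻¹) =
      S.jP w * (S.jH j * S.jP y * (S.jH j)⁻¹) * (S.jP w)⁻¹ by group, S.cj, S.a_invol hK h1 (jj hH j), ← map_inv, ← map_mul,
      ← map_mul, ← map_inv, S.commP w]
    simp
  · exact S.injP (mul_right_cancel (congrArg Subtype.val h))
  · obtain ⟨w, hw⟩ := inv_of_N hK hH h1 s.2.1 hy s.2.2
    exact ⟨w, Subtype.ext hw.symm⟩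

variable {ξ : IrrCharacter G} {Y : Finset (IrrCharacter G)}

theorem isConj_invol [IsSimpleGroup G] (T : S.Two ξ Y (-1)) (h3 : 3 < p) (hK : S.K = ⊥) (hH : Nat.card H = 2) {j : H}
    (h1 : j ≠ 1) {z : G} (hz : orderOf z = 2) : IsConj (S.jH j) z := by
  by_contra hc
  obtain ⟨ψ, h⟩ : Y.Nonempty := Finset.card_pos.1 (by have := T.card; omega)
  have h0 : ∀ g, ¬ p ∣ orderOf g → (ξ : G → ℂ) g = (ψ : G → ℂ) g + 1 := fun g hg => by
    rw [T.reg ψ h g hg]; simp
  have h2 := (eq_of_pairSum ξ.2 ψ.2 (z := z) (h0 1 (by simpa using hp.out.one_lt.ne')) (h0 z (by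
    rw [hz]; intro h; have := Nat.le_of_dvd two_pos h; omega)) fun s s' hs hs' => h0 _ fun hd => ?_).1
  · have h4 := ξ.2.charKer_eq_bot_of_simple fun e => T.ne (Subtype.ext e)
    exact ne_one_of_orderOf hz (Subgroup.mem_bot.1 (h4 ▸ ξ.2.isCharacter.mem_charKer.2 h2))
  · obtain ⟨x, y, hy, e⟩ := conj_P hK hd
    have o1 : orderOf s = 2 := by rw [← orderOf_eq_of_isConj hs, hz]
    have o2 : orderOf s' = 2 := by rw [← orderOf_eq_of_isConj hs', hz]
    obtain ⟨w, hw⟩ := inv_of_N hK hH h1 (s := x * s * x⁻¹) (by rw [orderOf_conj', o1]) hy (by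
      rw [← e]
      have := conj_mul_left (mul_self_of_orderOf o1) (mul_self_of_orderOf o2)
      rw [show (x * (s * s') * x⁻¹)⁻¹ = x * (s * s')⁻¹ * x⁻¹ by group, ← this]; group)
    obtain ⟨v, hv⟩ := S.exists_conj_eq hK h1 w
    exact hc (((isConj_iff.2 ⟨_, hv.trans hw.symm⟩).trans (isConj_iff.2 ⟨x, rfl⟩).symm).trans hs.symm)

theorem order_formula [IsSimpleGroup G] (T : S.Two ξ Y (-1)) (h3 : 3 < p) (hK : S.K = ⊥) (hH : Nat.card H = 2) {j : H}
    (h1 : j ≠ 1) {z : ℤ} (hz : (ξ : G → ℂ) (S.jH j) = z) :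
    (Nat.card G : ℤ) * (charDegree (ξ : G → ℂ) - z) ^ 2 =
      p * Nat.card (Subgroup.centralizer ({S.jH j} : Set G)) ^ 2 * charDegree (ξ : G → ℂ) *
        (charDegree (ξ : G → ℂ) - 1) := by
  obtain ⟨ψ, h⟩ : Y.Nonempty := Finset.card_pos.1 (by have := T.card; omega)
  have ht := orderOf_jH (S := S) hH h1
  have e1 := pairSum_eq_pairCount ht (fun u hu => isConj_invol T h3 hK hH h1 hu) ((ψ : G → ℂ) - ξ + 1)
  rw [pairSum_add, pairSum_sub, pairSum_irr ψ.2, pairSum_irr ξ.2, pairSum_irr isIrrCharacter_one,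
    Finset.sum_congr rfl (g := fun x => p * ((ψ : G → ℂ) x - (ξ : G → ℂ) x + 1)) (fun x _ => by
      by_cases hx : p ∣ orderOf x
      · rw [pairCount_P (by omega) hK hH hx]; rfl
      · simp [T.reg ψ h x hx]), ← Finset.mul_sum, Finset.sum_add_distrib, Finset.sum_sub_distrib,
    ψ.2.sum_eq_zero (fun e => T.n1 ((Subtype.ext e : ψ = irrOne G) ▸ h)), ξ.2.sum_eq_zero (fun e => T.ne (Subtype.ext e)),
    T.reg ψ h _ (S.not_dvd_orderOf_H j), T.reg ψ h 1 (by simpa using hp.out.one_lt.ne'), hz, ← ξ.2.charDegree_eq] at e1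
  have e2 := T.deg h
  have e3 := ψ.2.charDegree_pos
  have x0 : (charDegree (ξ : G → ℂ) : ℂ) ≠ 0 := by exact_mod_cast ξ.2.charDegree_pos.ne'
  have x1 : (charDegree (ξ : G → ℂ) : ℂ) + ((-1 : ℤ) : ℂ) ≠ 0 := by
    have : (charDegree (ξ : G → ℂ) : ℤ) + -1 ≠ 0 := by omega
    exact_mod_cast this
  have g0 : (Nat.card G : ℂ) ≠ 0 := card_ne_zero_complex
  simp only [Pi.one_apply, Finset.sum_const, Finset.card_univ, nsmul_eq_mul, ← Nat.card_eq_fintype_card] at e1
  field_simp at e1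
  have : (Nat.card G : ℂ) * (charDegree (ξ : G → ℂ) - z) ^ 2 =
      p * Nat.card (Subgroup.centralizer ({S.jH j} : Set G)) ^ 2 * charDegree (ξ : G → ℂ) *
        (charDegree (ξ : G → ℂ) - 1) := by
    push_cast at e1
    exact mul_left_cancel₀ g0 (by linear_combination e1)
  exact_mod_cast this

theorem cases3 [IsSimpleGroup G] (hG : ¬ IsMulCommutative G) {δ : ℤ} (T : S.Two ξ Y δ) (h3 : 3 < p) (hK : S.K = ⊥)
    (hH : Nat.card H = 2) (hnn : ¬ S.jP.range.Normal) (hM : ∀ M : Subgroup G, M.Normal → M ≠ ⊥ → p ∣ Nat.card M)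
    {π : G → ℂ} (hπ : IsCharacter G π) (h0 : ∀ g, p ∣ orderOf g → π g = 0) (h1 : classInner π 1 = 1)
    (hd : charDegree π = 3 * p) (hn : ∀ g, ∃ n : ℕ, π g = n) :
    S.lin π = 3 ∧ (charDegree (ξ : G → ℂ) + 1 = p ∨
    (δ = -1 ∧ charDegree (ξ : G → ℂ) + 1 = 3 * p ∧ π = 1 + (ξ : G → ℂ)) ∨
    (δ = -1 ∧ charDegree (ξ : G → ℂ) + 1 = 2 * p ∧ S.lin ξ = 1 ∧ ∃ θ : IrrCharacter G, θ ≠ irrOne G ∧ θ ≠ ξ ∧
      charDegree (θ : G → ℂ) = p ∧ π = 1 + (ξ : G → ℂ) + θ)) := by
  have h2 : S.lin π = 3 := by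
    have := S.lin_of_const hπ (c := 0) fun y hy => by
      simpa using h0 _ (by rw [orderOf_injective _ S.injP, S.orderOf_P hy])
    exact Nat.eq_of_mul_eq_mul_left hp.out.pos (show p * _ = p * 3 by omega)
  refine ⟨h2, ?_⟩
  have : Nontrivial H := Finite.one_lt_card_iff_nontrivial.1 (by omega)
  obtain ⟨j, hj⟩ := exists_ne (1 : H)
  obtain ⟨ψ, h, ψ', h', hne⟩ := Finset.one_lt_card.1 (show 1 < Y.card by have := T.card; omega)
  have h4 := fun ψ (h : ψ ∈ Y) => T.inner h0 h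
  have h5 : classInner π (irrOne G : G → ℂ) ≠ 0 := h1.trans_ne one_ne_zero
  have d1 : π 1 = 3 * p := by rw [← hπ.charDegree_eq, hd]; simp
  rw [h1, mul_one] at h4
  rcases T.sign with rfl | rfl
  · exfalso
    obtain ⟨a, ha⟩ := hπ.exists_classInner_eq_nat ξ.2.isCharacter
    have h6 : ∀ ψ ∈ Y, classInner π (ψ : G → ℂ) ≠ 0 := fun ψ h => by
      rw [h4 ψ h, ha]; exact_mod_cast a.succ_ne_zero
    have h7 := S.sum_lin_le hπ (Z := insert (irrOne G) Y) (by simpa [h5] using h6)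
    have h8 : ∀ ψ ∈ Y, 1 ≤ S.lin ψ := fun ψ h => Nat.pos_of_ne_zero fun e => hnn (T.normal hM h e)
    rw [Finset.sum_insert T.n1, S.lin_irrOne] at h7
    have h9 := Finset.card_nsmul_le_sum Y _ 1 h8
    have h10 := T.card
    rw [smul_eq_mul] at h9
    have h11 : p = 5 := by
      have : p ≠ 4 := fun e => absurd (e ▸ hp.out) (by decide)
      omega
    have hY : Y = {ψ, ψ'} := (Finset.eq_of_subset_of_card_le (by
      intro x hx; simp only [Finset.mem_insert, Finset.mem_singleton] at hx; rcases hx with rfl | rfl <;> assumption) (by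
      rw [Finset.card_pair hne]; omega)).symm
    rw [hY, Finset.sum_pair hne] at h7
    have l1 := h8 ψ h
    have l2 := h8 ψ' h'
    have e1 := T.linY ψ h
    have e2 := T.linY ψ' h'
    rw [show S.lin ψ = 1 by omega] at e1
    rw [show S.lin ψ' = 1 by omega] at e2
    have n1 : irrOne G ∉ ({ψ, ψ'} : Finset _) := hY ▸ T.n1
    have h12 := eq_sum_of_constituent hπ (Z := {irrOne G, ψ, ψ'}) (by simp [h5, h6, h, h']) (by
      rw [Finset.sum_insert n1, Finset.sum_pair hne, d1, ← ψ.2.charDegree_eq, ← ψ'.2.charDegree_eq,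
        show charDegree (ψ : G → ℂ) = 7 by omega, show charDegree (ψ' : G → ℂ) = 7 by omega, h11]
      norm_num)
    rw [Finset.sum_insert n1, Finset.sum_pair hne] at h12
    have h13 : ∀ χ : IrrCharacter G, S.lin χ = 1 → charDegree (χ : G → ℂ) = 7 → (χ : G → ℂ) (S.jH j) = -1 :=
      fun χ e e' => by
        obtain ⟨a, b, hab, hv⟩ := lin_split hK hH hj χ.2.isCharacter
        have := four_dvd_deg_sub hG (χ := χ) (g := S.jH j) (v := a - b) (by
          rw [← orderOf_jH (S := S) hH hj]; exact pow_orderOf_eq_one _) (by rw [hv]; simp)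
        rw [hv, show a = 0 by omega, show b = 1 by omega]; simp
    obtain ⟨n, hn⟩ := hn (S.jH j)
    rw [h12, Pi.add_apply, Pi.add_apply, h13 ψ (by omega) (by omega), h13 ψ' (by omega) (by omega), irrOne_apply] at hn
    have : ((n : ℤ) : ℂ) = (-1 : ℤ) := by push_cast; linear_combination -hn
    have := Int.cast_injective this
    omega
  · obtain ⟨b, hb⟩ := hπ.exists_classInner_eq_nat ψ.2.isCharacter
    have h6 : classInner π (ξ : G → ℂ) = (b + 1 : ℕ) := by
      have := h4 ψ h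
      push_cast at this ⊢
      linear_combination hb - this
    have h6' : classInner π (ξ : G → ℂ) ≠ 0 := h6 ▸ Nat.cast_ne_zero.2 b.succ_ne_zero
    have h7 := S.sum_lin_le hπ (Z := {irrOne G, ξ}) (by simp [h5, h6'])
    rw [Finset.sum_pair T.ne.symm, S.lin_irrOne] at h7
    have h8 := T.linX
    rcases (by omega : S.lin ξ = 0 ∨ S.lin ξ = 1 ∨ S.lin ξ = 2) with e | e | e <;> rw [e] at h8
    · exact Or.inl (by omega)
    · refine Or.inr (Or.inr ⟨rfl, by omega, e, ?_⟩)
      have hb0 : b = 0 := by_contra fun hb0 => by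
        have n1 : irrOne G ∉ ({ξ, ψ} : Finset _) := by simp [T.ne.symm, ne_of_mem_of_not_mem h T.n1, eq_comm]
        have := S.sum_lin_le hπ (Z := {irrOne G, ξ, ψ}) (by simp [h5, h6', hb, hb0])
        rw [Finset.sum_insert n1, Finset.sum_pair (ne_of_mem_of_not_mem h T.nξ).symm, S.lin_irrOne] at this
        have e1 := T.linY ψ h
        have e2 := T.deg h
        have : (p : ℤ) * S.lin ψ = p * 2 := by omega
        have := mul_left_cancel₀ (Nat.cast_ne_zero.2 hp.out.ne_zero : (p : ℤ) ≠ 0) this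
        omega
      subst hb0
      obtain ⟨θ, t1, t2, t3⟩ : ∃ θ : IrrCharacter G, θ ≠ irrOne G ∧ θ ≠ ξ ∧ classInner π θ ≠ 0 := by
        by_contra! hc
        have := hπ.isClassFunction.apply_eq_sum 1
        rw [← Finset.sum_subset (Finset.subset_univ {irrOne G, ξ}) (fun χ _ hχ => by
          simp only [Finset.mem_insert, Finset.mem_singleton, not_or] at hχ
          simp [hc χ hχ.1 hχ.2]), Finset.sum_pair T.ne.symm, h6, show classInner π (irrOne G : G → ℂ) = 1 from h1, d1,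
          ← ξ.2.charDegree_eq] at this
        have : (3 * p : ℂ) = (1 + charDegree (ξ : G → ℂ) : ℕ) := by simpa using this
        have : 3 * p = 1 + charDegree (ξ : G → ℂ) := by exact_mod_cast this
        omega
      have t4 : p ∣ charDegree (θ : G → ℂ) := by_contra fun e' => by
        rcases T.mem θ e' with e' | e' | e'
        exacts [t1 e', t2 e', t3 (by rw [h4 θ e', h6]; simp)]
      have n1 : irrOne G ∉ ({ξ, θ} : Finset _) := by simp [T.ne.symm, t1.symm]
      have t5 := sum_deg_le_of_constituent hπ (Z := {irrOne G, ξ, θ}) (by simp [h5, h6', t3])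
      rw [Finset.sum_insert n1, Finset.sum_pair t2.symm, charDegree_irrOne] at t5
      have t6 : charDegree (θ : G → ℂ) = p := le_antisymm (by omega) (Nat.le_of_dvd θ.2.charDegree_pos t4)
      refine ⟨θ, t1, t2, t6, ?_⟩
      rw [eq_sum_of_constituent hπ (Z := {irrOne G, ξ, θ}) (by simp [h5, h6', t3]) (by
        rw [Finset.sum_insert n1, Finset.sum_pair t2.symm, d1, ← ξ.2.charDegree_eq, ← θ.2.charDegree_eq, t6, irrOne_apply]
        have : 3 * p = 1 + (charDegree (ξ : G → ℂ) + p) := by omega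
        exact_mod_cast this), Finset.sum_insert n1, Finset.sum_pair t2.symm, add_assoc]
      rfl
    · refine Or.inr (Or.inl ⟨rfl, by omega, ?_⟩)
      rw [eq_sum_of_constituent hπ (Z := {irrOne G, ξ}) (by simp [h5, h6']) (by
        rw [Finset.sum_pair T.ne.symm, d1, ← ξ.2.charDegree_eq, irrOne_apply]
        have : 3 * p = 1 + charDegree (ξ : G → ℂ) := by omega
        exact_mod_cast this), Finset.sum_pair T.ne.symm]
      rfl

end H05.D3
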