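import Mathlib
import Cfsg.Agent.H19.Rank3
import Cfsg.Agent.H19.PermP
import Cfsg.Agent.H27.CentRing2
import Cfsg.Agent.H05.Plane3

/-!
Rank three groups of degree `3 p` with a constituent of degree `p` (helper5): `rk3_params`;
`not_index_three_mul` (`SL(2, 2^m)` has no maximal subgroup of index `3 (q + 1)`).
-/

open H05 Cfsg Classical H19 H27 MulAction Finset
open scoped MatrixGroups

namespace H05.D3

theorem rk3_params {G Ω : Type*} [Group G] [Fintype G] [MulAction G Ω] [Fintype Ω] [IsPretransitive G Ω]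
    {R : Ω → Ω → Prop} (h : Rk3 G R) (hs : ∀ {a b}, R a b → R b a) {p : ℕ} (hp : p.Prime) (hΩ : Fintype.card Ω = 3 * p)
    {θ : G → ℂ} (hθ : IsIrrCharacter G θ) (h1 : θ ≠ 1) (hd : θ 1 = p)
    (hi : classInner (fun g : G => (Nat.card (fixedBy Ω g) : ℂ)) θ = 1) {u : G} (hu : orderOf u = p) (h0 : θ u = 0)
    (hf : ∀ x : Ω, u • x ≠ x) (a : Ω) :
    4 * (#{c | R a c} : ℤ) + #{c | a ≠ c ∧ ¬ R a c} = 2 * (2 * #{c | R a c} - #{c | a ≠ c ∧ ¬ R a c}) ^ 2 ∨
    4 * (#{c | a ≠ c ∧ ¬ R a c} : ℤ) + #{c | R a c} = 2 * (2 * #{c | a ≠ c ∧ ¬ R a c} - #{c | R a c}) ^ 2 := by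
  set E := projMat G Ω θ with hE
  have inv : InvM G E := projMat_inv hθ
  obtain ⟨a1, b1, r1⟩ := h.ne1
  obtain ⟨a2, b2, r2, r2'⟩ := h.ne2
  have p0 : (p : ℂ) ≠ 0 := Nat.cast_ne_zero.2 hp.ne_zero
  have v0 : ∀ x, E x x = 1 / 3 := by
    have e : ∀ x, E x x = E a a := fun x => by obtain ⟨g, rfl⟩ := exists_smul_eq G a x; exact inv g a a
    have := projMat_trace (Ω := Ω) hθ 1
    simp only [one_smul, ← hE, e, sum_const, card_univ, hΩ, hi, hd, nsmul_eq_mul] at this
    intro x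
    rw [e]
    push_cast at this
    exact mul_left_cancel₀ p0 (by linear_combination (1 / 3 : ℂ) * this)
  have v1 : ∀ x y, R x y → E x y = E a1 b1 := fun x y e => by
    obtain ⟨g, rfl, rfl⟩ := h.tr1 r1 e; exact inv g _ _
  have v2 : ∀ x y, x ≠ y → ¬ R x y → E x y = E a2 b2 := fun x y e e' => by
    obtain ⟨g, rfl, rfl⟩ := h.tr2 r2 r2' e e'; exact inv g _ _
  generalize E a1 b1 = e1 at v1
  generalize E a2 b2 = e2 at v2
  have hsum : ∀ (f : Ω → ℂ) (c0 c1 c2 : ℂ), f a = c0 → (∀ y, R a y → f y = c1) → (∀ y, a ≠ y → ¬ R a y → f y = c2) →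
      ∑ y, f y = c0 + #{c | R a c} * c1 + #{c | a ≠ c ∧ ¬ R a c} * c2 := fun f c0 c1 c2 f0 f1 f2 => by
    rw [sum_congr rfl (g := fun y => (if y = a then c0 else 0) + (if R a y then c1 else 0) +
      (if a ≠ y ∧ ¬ R a y then c2 else 0)) fun y _ => by
        by_cases e : y = a
        · simp [e, h.irr, f0]
        · by_cases e' : R a y
          · simp [e, e', f1 y e']
          · simp [e, e', Ne.symm e, f2 y (Ne.symm e) e']]
    simp [sum_add_distrib, ← sum_filter]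
  have q1 := (hsum _ _ _ _ (v0 a) (v1 a) (v2 a)).symm.trans (projMat_row hθ h1 a)
  have q2 := hsum (fun y => E a y * E y a) _ (e1 * e1) (e2 * e2) rfl (fun y e => by rw [v1 _ _ e, v1 _ _ (hs e)])
    (fun y e e' => by rw [v2 _ _ e e', v2 _ _ e.symm (mt hs e')])
  rw [← Matrix.mul_apply, hE, projMat_mul_self hθ, ← hE, v0] at q2
  have q3 := projMat_trace (Ω := Ω) hθ u
  rw [h0, mul_zero, ← hE, sum_congr rfl (g := fun x => if R x (u • x) then e1 else e2) (fun x _ => by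
    split_ifs with e
    exacts [v1 _ _ e, v2 _ _ (hf x).symm e]), sum_ite, sum_const, sum_const, nsmul_eq_mul, nsmul_eq_mul] at q3
  have q4 := card_filter_add_card_filter_not (s := univ) fun x : Ω => R x (u • x)
  obtain ⟨m, hm⟩ : p ∣ #{x : Ω | R x (u • x)} := by
    rw [← Set.ncard_coe_finset]
    refine dvd_of_nofix hp (U := Subgroup.zpowers u) (pg_zpowers (a := 1) (by rw [pow_one, ← hu, pow_orderOf_eq_one])) _
      (fun v hv x hx => ?_) fun x _ => ⟨u, Subgroup.mem_zpowers u, hf x⟩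
    obtain ⟨k, rfl⟩ := hv
    simp only [coe_filter, mem_univ, true_and, Set.mem_ofPred_eq] at hx ⊢
    rw [← mul_smul, ← (Commute.refl u).zpow_left k, mul_smul]
    exact h.inv _ hx
  rw [card_univ, hΩ, hm] at q4
  have q5 : m ≤ 3 := Nat.le_of_mul_le_mul_left (show p * m ≤ p * 3 by omega) hp.pos
  have q6 : (m : ℂ) * e1 + (3 - m) * e2 = 0 := by
    have : ((p * m : ℕ) : ℂ) + #{x : Ω | ¬ R x (u • x)} = (3 * p : ℕ) := by exact_mod_cast q4
    rw [hm] at q3
    push_cast at this q3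
    exact mul_left_cancel₀ p0 (by linear_combination q3 - e2 * this)
  generalize #{c | R a c} = k at q1 q2 ⊢
  generalize #{c | a ≠ c ∧ ¬ R a c} = l at q1 q2 ⊢
  interval_cases m <;> push_cast at q6
  · obtain rfl : e2 = 0 := by linear_combination (1 / 3 : ℂ) * q6
    have : ((2 * k : ℕ) : ℂ) = (1 : ℕ) := by
      push_cast; linear_combination 9 * k * q2 + 9 * (k * e1 - 1 / 3) * q1
    have := Nat.cast_injective this; omega
  · obtain rfl : e1 = -2 * e2 := by linear_combination q6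
    left
    have : ((4 * k + l : ℤ) : ℂ) = (2 * (2 * k - l) ^ 2 : ℤ) := by
      push_cast; linear_combination -9 * (2 * k - l) ^ 2 * q2 - 9 * (4 * k + l) * ((l - 2 * k) * e2 - 1 / 3) * q1
    exact Int.cast_injective this
  · obtain rfl : e2 = -2 * e1 := by linear_combination q6
    right
    have : ((4 * l + k : ℤ) : ℂ) = (2 * (2 * l - k) ^ 2 : ℤ) := by
      push_cast; linear_combination -9 * (2 * l - k) ^ 2 * q2 - 9 * (4 * l + k) * ((k - 2 * l) * e1 - 1 / 3) * q1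
    exact Int.cast_injective this
  · obtain rfl : e1 = 0 := by linear_combination (1 / 3 : ℂ) * q6
    have : ((2 * l : ℕ) : ℂ) = (1 : ℕ) := by
      push_cast; linear_combination 9 * l * q2 + 9 * (l * e2 - 1 / 3) * q1
    have := Nat.cast_injective this; omega

theorem not_index_three_mul {F : Type*} [Field F] [Fintype F] {m : ℕ} (hF : Fintype.card F = 2 ^ m) (h4 : 4 ≤ Fintype.card F)
    {U : Subgroup PSL(2, F)} (hU : IsCoatom U) : U.index ≠ 3 * (Fintype.card F + 1) := fun h => by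
  have : CharP F 2 := by
    obtain ⟨r, _, n, hr, hn⟩ := FiniteField.card' F
    rwa [← (Nat.prime_dvd_prime_iff_eq hr Nat.prime_two).1 (hr.dvd_of_dvd_pow (hF ▸ hn ▸ dvd_pow_self r n.ne_zero))]
  have := Fact.mk Nat.prime_two
  obtain ⟨k, hk⟩ : 4 ∣ Fintype.card F := hF ▸ pow_dvd_pow 2 ((Nat.pow_le_pow_iff_right one_lt_two).1 (hF ▸ h4 : 2 ^ 2 ≤ _))
  have h1 : 3 * Nat.card U = Fintype.card F * (Fintype.card F - 1) := by
    have e1 := L.Dk.card_psl (F := F)
    rw [((L.Dk.dd_cases (F := F)).resolve_right (by omega)).2, one_mul, ← U.card_mul_index, h, L.Dk.sq_sub_one] at e1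
    exact Nat.eq_of_mul_eq_mul_right (show 0 < Fintype.card F + 1 by omega) (by linear_combination e1)
  have h2 : 3 * Nat.card U = 4 * (k * (4 * k - 1)) := by rw [hk] at h1; linarith
  have h3 : ∀ (K : Type) [Field K] [Fintype K] (m : ℕ), 1 ≤ m → Fintype.card K ^ m = Fintype.card F →
      Nat.card U ∣ Nat.card PGL(2, K) → Fintype.card K = Fintype.card F := fun K _ _ m hm hK e => by
    rcases hm.eq_or_lt with rfl | hm
    · rwa [pow_one] at hK
    have e1 := (Nat.pow_le_pow_right (Fintype.card_pos (α := K)) hm).trans hK.le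
    have e0 := Nat.le_of_dvd Nat.card_pos e
    rw [L.Dk.card_PGL2] at e e0
    have e3 := Nat.mul_le_mul_left (Fintype.card K) (Nat.sub_le_sub_right e1 1)
    have e2 : Fintype.card F ≤ 3 * Fintype.card K := Nat.le_of_mul_le_mul_right (by
      rw [← h1, mul_assoc]; exact Nat.mul_le_mul_left 3 (e0.trans e3)) (show 0 < Fintype.card F - 1 by omega)
    have e4 : Fintype.card K ≤ 3 := by nlinarith
    have e5 := Fintype.one_lt_card (α := K)
    have e6 : 2 ∣ Fintype.card K := Nat.prime_two.dvd_of_dvd_pow (n := m) (by rw [hK, hk]; exact ⟨2 * k, by ring⟩)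
    rw [show Fintype.card K = 2 by omega] at e
    have : 4 ∣ Nat.card U := Nat.Coprime.dvd_of_dvd_mul_left (by norm_num) ⟨_, h2⟩
    exact absurd (this.trans e) (by decide)
  have h5 : k * (4 * k - 1) ≠ 9 ∧ k * (4 * k - 1) ≠ 18 ∧ k * (4 * k - 1) ≠ 45 := by
    rcases (by omega : k = 1 ∨ k = 2 ∨ k = 3 ∨ 4 ≤ k) with rfl | rfl | rfl | e
    · decide
    · decide
    · decide
    · have := Nat.mul_le_mul e (show 15 ≤ 4 * k - 1 by omega); omega
  rcases L.Dk.clsPSL 2 U with ⟨x, e⟩ | ⟨-, e⟩ | ⟨C, -, e, e', -⟩ | ⟨⟨e⟩⟩ | ⟨⟨e⟩⟩ | ⟨⟨e⟩⟩ | ⟨K, _, _, m, hm, hK, ⟨e⟩⟩ |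
    ⟨K, _, _, m, hm, hK, ⟨e⟩⟩
  · have e1 := L.Dk.index_stab x
    rcases hU.le_iff.1 (show U ≤ MulAction.stabilizer _ x from fun g hg => e ⟨g, hg⟩) with e2 | e2 <;> rw [e2] at e1
    · simp at e1
    · omega
  · omega
  · have := C.card_mul_index; rw [e'] at this; omega
  · rw [Nat.card_congr e.toEquiv, nat_card_alternatingGroup, Nat.card_fin] at h2; simp [Nat.factorial] at h2; omega
  · rw [Nat.card_congr e.toEquiv, Nat.card_perm, Nat.card_fin] at h2; simp [Nat.factorial] at h2; omega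
  · rw [Nat.card_congr e.toEquiv, H08.card_A5] at h2; omega
  · exact hU.1 (L.Dk.eq_top_of_pgl (h3 K m hm hK (Nat.card_congr e.toEquiv).dvd) e)
  · exact hU.1 (L.Dk.eq_top_of_psl (h3 K m hm hK ((Nat.card_congr e.toEquiv).dvd.trans (by
      rw [L.Dk.card_PGL2, ← L.Dk.card_psl]; exact dvd_mul_left _ _))) e)

end H05.D3
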