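import Cfsg.Agent.H05.FrobeniusSchur
import Cfsg.Agent.H06.IndChar
import Cfsg.Agent.H07.Extend

/-! Dade's extension theorem, part 1: matrix modules of extraspecial-like 2-groups. -/

open H05 Cfsg

namespace H05.Dd

variable {E : Type*} [Group E]

/-- `E` is `⟨z⟩` or extraspecial with centre `⟨z⟩` of order 2. -/
structure XS (z : E) : Prop where
  ne : z ≠ 1
  sq : z * z = 1
  cen : ∀ e, z * e = e * z
  comm : ∀ e f : E, e * f = f * e ∨ e * f = z * (f * e)
  nd : ∀ e : E, (∀ f, e * f = f * e) → e = 1 ∨ e = z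

variable {z : E}

theorem XS.fix (h : XS z) (x : MulAut E) : x z = z := by
  rcases h.nd (x z) (fun f => by
    have := congrArg x (h.cen (x.symm f)); simpa using this) with h1 | h1
  · exact absurd (by simpa using h1) h.ne
  · exact h1

theorem XS.pow4 (h : XS z) (e : E) : e ^ 4 = 1 := by
  have h1 : e * e = 1 ∨ e * e = z := by
    apply h.nd
    intro f
    rcases h.comm e f with h1 | h1
    · rw [mul_assoc, h1, ← mul_assoc, h1, mul_assoc]
    · calc e * e * f = e * (z * (f * e)) := by rw [mul_assoc, h1]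
        _ = z * (e * f) * e := by rw [← mul_assoc e z, ← h.cen e]; simp only [mul_assoc]
        _ = z * (z * (f * e)) * e := by rw [h1]
        _ = f * (e * e) := by rw [← mul_assoc z z, h.sq, one_mul, mul_assoc]
  have h2 : e ^ 4 = (e * e) * (e * e) := by
    rw [show (4 : ℕ) = 1 + 1 + (1 + 1) from rfl]; simp only [pow_add, pow_one]
  rcases h1 with h1 | h1
  · rw [h2, h1, one_mul]
  · rw [h2, h1, h.sq]

theorem XS.pgroup (h : XS z) : IsPGroup 2 E := fun e => ⟨2, h.pow4 e⟩

theorem XS.inv (h : XS z) : z⁻¹ = z := inv_eq_of_mul_eq_one_right h.sq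

variable {ι : Type} [Fintype ι] [DecidableEq ι]

/-- A matrix module of the right dimension on which `z` is `-1`. -/
structure Md (z : E) (ρ : E →* Matrix ι ι ℂ) : Prop where
  neg : ρ z = -1
  dim : 2 * Fintype.card ι ^ 2 = Nat.card E

variable {ρ : E →* Matrix ι ι ℂ}

theorem mul_inv_mat (ρ : E →* Matrix ι ι ℂ) (e : E) : ρ e * ρ e⁻¹ = 1 := by
  rw [← map_mul, mul_inv_cancel, map_one]

theorem inv_mul_mat (ρ : E →* Matrix ι ι ℂ) (e : E) : ρ e⁻¹ * ρ e = 1 := by
  rw [← map_mul, inv_mul_cancel, map_one]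

theorem tr_mul_zero (h : XS z) (hn : ρ z = -1) {A : Matrix ι ι ℂ} (hA : ∀ f, A * ρ f = ρ f * A)
    {e : E} (h1 : e ≠ 1) (h2 : e ≠ z) : (A * ρ e).trace = 0 := by
  obtain ⟨f, hf⟩ : ∃ f, ¬ e * f = f * e := by
    by_contra hc
    push Not at hc
    rcases h.nd e hc with h3 | h3
    · exact h1 h3
    · exact h2 h3
  have h3 := (h.comm e f).resolve_left hf
  have h4 : ρ e * ρ f = -(ρ f * ρ e) := by
    rw [← map_mul, h3, map_mul, map_mul, hn, neg_mul, one_mul]
  have h5 : (A * ρ e).trace = -(A * ρ e).trace := by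
    calc (A * ρ e).trace = (A * (ρ e * ρ f) * ρ f⁻¹).trace := by
          rw [mul_assoc, mul_assoc, mul_inv_mat, mul_one]
      _ = -(A * ρ f * ρ e * ρ f⁻¹).trace := by
          rw [h4, mul_neg, neg_mul, Matrix.trace_neg, mul_assoc A (ρ f)]
      _ = -(ρ f⁻¹ * (ρ f * A * ρ e)).trace := by rw [hA, Matrix.trace_mul_comm]
      _ = -(A * ρ e).trace := by rw [mul_assoc (ρ f), ← mul_assoc (ρ f⁻¹), inv_mul_mat, one_mul]
  linear_combination h5 / 2

theorem tr_zero (h : XS z) (hn : ρ z = -1) {e : E} (h1 : e ≠ 1) (h2 : e ≠ z) :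
    (ρ e).trace = 0 := by
  simpa using tr_mul_zero h hn (A := 1) (fun f => by simp) h1 h2

theorem Md.pos [Finite E] (m : Md z ρ) : 0 < Fintype.card ι := by
  have h1 := m.dim
  have h2 : 0 < Nat.card E := Nat.card_pos
  rcases Nat.eq_zero_or_pos (Fintype.card ι) with h | h
  · rw [h] at h1; omega
  · exact h

theorem Md.ne [Finite E] (m : Md z ρ) : (Fintype.card ι : ℂ) ≠ 0 := by
  exact_mod_cast m.pos.ne'

theorem Md.dimC (m : Md z ρ) : (Nat.card E : ℂ) = 2 * (Fintype.card ι : ℂ) ^ 2 := by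
  rw [← m.dim]; push_cast; ring

theorem expand [Fintype E] (h : XS z) (m : Md z ρ) (A : Matrix ι ι ℂ) :
    ∑ e, (A * ρ e⁻¹).trace • ρ e = (2 * Fintype.card ι : ℂ) • A := by
  have hd := m.ne
  let P : Module.End ℂ (Matrix ι ι ℂ) := (2 * Fintype.card ι : ℂ)⁻¹ •
    ∑ e, ((Matrix.traceLinearMap ι ℂ ℂ).comp (LinearMap.mulRight ℂ (ρ e⁻¹))).smulRight (ρ e)
  have hP : ∀ A, P A = (2 * Fintype.card ι : ℂ)⁻¹ • ∑ e, (A * ρ e⁻¹).trace • ρ e := by
    intro A
    simp [P, LinearMap.sum_apply]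
  have hf : ∀ f, P (ρ f) = ρ f := by
    intro f
    have hne : f ≠ z * f := fun hh => h.ne (by simpa using hh.symm)
    rw [hP, Fintype.sum_eq_add f (z * f) hne]
    · have e1 : ρ f * ρ (z * f)⁻¹ = -1 := by
        rw [← map_mul, mul_inv_rev, ← mul_assoc, mul_inv_cancel, one_mul, h.inv, m.neg]
      rw [mul_inv_mat, e1, map_mul, m.neg, Matrix.trace_neg, Matrix.trace_one, neg_mul, one_mul,
        neg_smul, smul_neg, neg_neg, ← add_smul, smul_smul]
      have : (2 * Fintype.card ι : ℂ)⁻¹ * (Fintype.card ι + Fintype.card ι) = 1 := by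
        field_simp; ring
      rw [this, one_smul]
    · rintro x ⟨hx1, hx2⟩
      rw [← map_mul, tr_zero h m.neg, zero_smul]
      · intro hh; exact hx1 (by rw [mul_inv_eq_one] at hh; exact hh.symm)
      · intro hh; apply hx2
        rw [mul_inv_eq_iff_eq_mul] at hh
        rw [hh, ← mul_assoc, h.sq, one_mul]
  have hid : IsIdempotentElem P := by
    apply LinearMap.ext
    intro A
    rw [Module.End.mul_apply]
    conv_lhs => rw [hP A]
    rw [map_smul, map_sum, hP A]
    simp only [map_smul, hf]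
  have htr : LinearMap.trace ℂ _ (1 - P) = 0 := by
    rw [map_sub, LinearMap.trace_one, Module.finrank_matrix, Module.finrank_self]
    simp only [P, map_smul, map_sum, LinearMap.trace_smulRight, LinearMap.comp_apply,
      LinearMap.mulRight_apply, Matrix.traceLinearMap_apply, mul_inv_mat, Matrix.trace_one,
      Finset.sum_const, Finset.card_univ, nsmul_eq_mul, smul_eq_mul]
    rw [← Nat.card_eq_fintype_card (α := E), m.dimC]
    push_cast
    field_simp
    ring
  have h0 : 1 - P = 0 := (LinearMap.IsIdempotentElem.trace_eq_zero_iff hid.one_sub).1 htr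
  have h1 : P A = A := by
    have := congrArg (fun Q : Module.End ℂ (Matrix ι ι ℂ) => Q A) h0
    simp only [LinearMap.sub_apply, Module.End.one_apply, LinearMap.zero_apply] at this
    exact (sub_eq_zero.1 this).symm
  rw [hP] at h1
  conv_rhs => rw [← h1]
  rw [smul_smul, mul_inv_cancel₀ (mul_ne_zero two_ne_zero hd), one_smul]

theorem schur [Finite E] (h : XS z) (m : Md z ρ) {A : Matrix ι ι ℂ}
    (hA : ∀ f, A * ρ f = ρ f * A) : A = (A.trace / Fintype.card ι) • 1 := by
  classical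
  have := Fintype.ofFinite E
  have hd := m.ne
  have h1 := expand h m A
  rw [Fintype.sum_eq_add 1 z h.ne.symm] at h1
  · rw [inv_one, map_one, mul_one, h.inv, m.neg, mul_neg, mul_one, Matrix.trace_neg, neg_smul,
      smul_neg, neg_neg, ← add_smul] at h1
    have h2 : A = (2 * Fintype.card ι : ℂ)⁻¹ • ((2 * Fintype.card ι : ℂ) • A) := by
      rw [smul_smul, inv_mul_cancel₀ (mul_ne_zero two_ne_zero hd), one_smul]
    conv_lhs => rw [h2, ← h1, smul_smul]
    congr 1
    field_simp; ring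
  · rintro x ⟨hx1, hx2⟩
    rw [tr_mul_zero h m.neg hA, zero_smul]
    · simpa using hx1
    · intro hh; apply hx2; rw [← h.inv, ← hh, inv_inv]

theorem twirl [Fintype E] (h : XS z) (m : Md z ρ) (A : Matrix ι ι ℂ) :
    ∑ e, ρ e * A * ρ e⁻¹ = (2 * Fintype.card ι * A.trace : ℂ) • 1 := by
  have hd := m.ne
  have hc : ∀ f, (∑ e, ρ e * A * ρ e⁻¹) * ρ f = ρ f * ∑ e, ρ e * A * ρ e⁻¹ := by
    intro f
    rw [Finset.sum_mul, Finset.mul_sum]
    refine Fintype.sum_equiv (Equiv.mulLeft f⁻¹) _ _ (fun e => ?_)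
    simp only [Equiv.coe_mulLeft, mul_inv_rev, inv_inv, map_mul, ← mul_assoc, mul_inv_mat, one_mul]
  rw [schur h m hc, Matrix.trace_sum]
  congr 1
  have : ∀ e, (ρ e * A * ρ e⁻¹).trace = A.trace := fun e => by
    rw [Matrix.trace_mul_comm, ← mul_assoc, inv_mul_mat, one_mul]
  simp only [this, Finset.sum_const, Finset.card_univ, nsmul_eq_mul]
  rw [← Nat.card_eq_fintype_card (α := E), m.dimC]
  field_simp

theorem isUnit_of_inter [Finite E] (h : XS z) (m : Md z ρ) {u : Matrix ι ι ℂ} (hu : u ≠ 0)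
    (hi : ∀ e, ∃ C, u * ρ e = C * u) : IsUnit u := by
  have := Fintype.ofFinite E
  rw [← Matrix.mulVec_injective_iff_isUnit]
  have key : ∀ w, u.mulVec w = 0 → w = 0 := by
    intro w hw
    by_contra hw0
    apply hu
    have h1 : ∀ A : Matrix ι ι ℂ, (u * A).mulVec w = 0 := by
      intro A
      have h2 : (u * ((2 * Fintype.card ι : ℂ) • A)).mulVec w = 0 := by
        rw [← expand h m A, Finset.mul_sum, Matrix.sum_mulVec]
        refine Finset.sum_eq_zero (fun e _ => ?_)
        obtain ⟨C, hC⟩ := hi e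
        rw [Matrix.mul_smul, hC, Matrix.smul_mulVec, ← Matrix.mulVec_mulVec, hw,
          Matrix.mulVec_zero, smul_zero]
      rw [Matrix.mul_smul, Matrix.smul_mulVec] at h2
      exact (smul_eq_zero.1 h2).resolve_left (mul_ne_zero two_ne_zero m.ne)
    obtain ⟨j, hj⟩ : ∃ j, w j ≠ 0 := by
      by_contra hc; push Not at hc; exact hw0 (funext hc)
    ext a b
    have h3 := congrFun (h1 (Matrix.single b j 1)) a
    rw [← Matrix.mulVec_mulVec, Matrix.single_mulVec] at h3
    simp [Matrix.mulVec, dotProduct, Function.update_apply] at h3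
    exact h3.resolve_right hj
  intro w w' hw
  have := key (w - w') (by rw [Matrix.mulVec_sub]; exact sub_eq_zero.2 hw)
  exact sub_eq_zero.1 this

theorem exists_inter [Finite E] (h : XS z) (m : Md z ρ) (x : MulAut E) :
    ∃ u : Matrix ι ι ℂ, u.det = 1 ∧ ∀ e, u * ρ e = ρ (x e) * u := by
  classical
  have := Fintype.ofFinite E
  have hd := m.ne
  let U : E → Matrix ι ι ℂ := fun f => ∑ e, ρ (x e) * ρ f * ρ e⁻¹
  have hU : ∀ f g, U f * ρ g = ρ (x g) * U f := by
    intro f g
    simp only [U]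
    rw [Finset.sum_mul, Finset.mul_sum]
    refine Fintype.sum_equiv (Equiv.mulLeft g⁻¹) _ _ (fun e => ?_)
    simp only [Equiv.coe_mulLeft, mul_inv_rev, inv_inv, map_mul, map_inv, ← mul_assoc, mul_inv_mat,
      one_mul]
  obtain ⟨f, hf⟩ : ∃ f, U f ≠ 0 := by
    by_contra hc
    push Not at hc
    have h1 : ∑ f, (U f * ρ f⁻¹).trace = 0 := by simp [hc]
    have h2 : ∑ f, (U f * ρ f⁻¹).trace =
        ∑ e, (ρ (x e)).trace * (2 * Fintype.card ι * (ρ e⁻¹).trace) := by
      simp only [U, Finset.sum_mul, Matrix.trace_sum]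
      rw [Finset.sum_comm]
      refine Finset.sum_congr rfl (fun e _ => ?_)
      rw [← Matrix.trace_sum]
      have : ∑ f, ρ (x e) * ρ f * ρ e⁻¹ * ρ f⁻¹ = ρ (x e) * ∑ f, ρ f * ρ e⁻¹ * ρ f⁻¹ := by
        rw [Finset.mul_sum]; simp only [mul_assoc]
      rw [this, twirl h m, Matrix.mul_smul, mul_one, Matrix.trace_smul, smul_eq_mul, mul_comm]
    rw [h2, Fintype.sum_eq_add 1 z h.ne.symm] at h1
    · rw [map_one, inv_one, map_one, h.fix, h.inv, m.neg, Matrix.trace_neg, Matrix.trace_one] at h1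
      have : (4 * (Fintype.card ι : ℂ) ^ 3) = 0 := by linear_combination h1
      simp [hd] at this
    · rintro y ⟨hy1, hy2⟩
      rw [tr_zero h m.neg (e := y⁻¹), mul_zero, mul_zero]
      · simpa using hy1
      · intro hh; apply hy2; rw [← h.inv, ← hh, inv_inv]
  have hun := isUnit_of_inter h m hf (fun e => ⟨_, hU f e⟩)
  have hdet : (U f).det ≠ 0 := ((Matrix.isUnit_iff_isUnit_det _).1 hun).ne_zero
  obtain ⟨c, hc⟩ := IsAlgClosed.exists_pow_nat_eq (U f).det⁻¹ m.pos
  refine ⟨c • U f, ?_, fun e => ?_⟩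
  · rw [Matrix.det_smul, hc, inv_mul_cancel₀ hdet]
  · rw [Matrix.smul_mul, hU, Matrix.mul_smul]

theorem tr_fpf [Finite E] (h : XS z) (m : Md z ρ) {x : MulAut E}
    (hx : ∀ e, x e = e ∨ x e = z * e → e = 1 ∨ e = z) {u v : Matrix ι ι ℂ} (huv : u * v = 1)
    (hu : ∀ e, u * ρ e = ρ (x e) * u) : u.trace * v.trace = 1 := by
  classical
  have := Fintype.ofFinite E
  have hd := m.ne
  have h1 := congrArg (fun B => (u * B).trace) (twirl h m v)
  simp only [Finset.mul_sum, Matrix.trace_sum, Matrix.mul_smul, mul_one, Matrix.trace_smul,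
    smul_eq_mul] at h1
  have h2 : ∀ e, u * (ρ e * v * ρ e⁻¹) = ρ (x e * e⁻¹) := fun e => by
    rw [← mul_assoc, ← mul_assoc, hu, mul_assoc _ u, huv, mul_one, map_mul]
  simp only [h2] at h1
  rw [Fintype.sum_eq_add 1 z h.ne.symm] at h1
  · rw [map_one, inv_one, mul_one, h.fix, mul_inv_cancel, map_one, Matrix.trace_one] at h1
    have : (2 * Fintype.card ι : ℂ) * (u.trace * v.trace - 1) = 0 := by linear_combination -h1
    exact sub_eq_zero.1 ((mul_eq_zero.1 this).resolve_left (mul_ne_zero two_ne_zero hd))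
  · rintro y ⟨hy1, hy2⟩
    apply tr_zero h m.neg
    · intro hh
      rcases hx y (Or.inl (mul_inv_eq_one.1 hh)) with h3 | h3
      · exact hy1 h3
      · exact hy2 h3
    · intro hh
      rcases hx y (Or.inr (mul_inv_eq_iff_eq_mul.1 hh)) with h3 | h3
      · exact hy1 h3
      · exact hy2 h3

/-- The representation on column vectors. -/
noncomputable def toRep {G : Type*} [Group G] (U : G →* Matrix ι ι ℂ) :
    Representation ℂ G (ι → ℂ) :=
  (Matrix.toLinAlgEquiv' : Matrix ι ι ℂ ≃ₐ[ℂ] _).toMonoidHom.comp U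

theorem toRep_apply {G : Type*} [Group G] (U : G →* Matrix ι ι ℂ) (g : G) :
    toRep U g = Matrix.toLin' (U g) := rfl

theorem isCharacter_idem {G : Type*} [Group G] (U : G →* Matrix ι ι ℂ) (P : Matrix ι ι ℂ)
    (hP : P * P = P) (hc : ∀ g, P * U g = U g * P) :
    IsCharacter G (fun g => (U g * P).trace) := by
  have := isCharacter_trace_mul_idem (toRep U) (Matrix.toLin' P)
    (by rw [Module.End.mul_eq_comp, ← Matrix.toLin'_mul, hP])
    (fun g => by
      rw [toRep_apply, Module.End.mul_eq_comp, Module.End.mul_eq_comp, ← Matrix.toLin'_mul,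
        ← Matrix.toLin'_mul, hc])
  convert this using 2 with g
  rw [toRep_apply, Module.End.mul_eq_comp, ← Matrix.toLin'_mul, Matrix.trace_toLin'_eq]

theorem isCharacter_mat {G : Type*} [Group G] (U : G →* Matrix ι ι ℂ) :
    IsCharacter G (fun g => (U g).trace) := by
  simpa using isCharacter_idem U 1 (by simp) (by simp)

theorem norm_trace [Fintype E] (h : XS z) (hn : ρ z = -1) :
    (Nat.card E : ℂ) * classInner (fun e => (ρ e).trace) (fun e => (ρ e).trace) =
      2 * (Fintype.card ι : ℂ) ^ 2 := by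
  classical
  rw [card_mul_classInner, Fintype.sum_eq_add 1 z h.ne.symm]
  · simp only [map_one, hn, Matrix.trace_neg, Matrix.trace_one, map_neg, map_natCast]
    ring
  · rintro y ⟨hy1, hy2⟩
    rw [tr_zero h hn hy1 hy2, zero_mul]

theorem exists_md_of_irr [Finite E] (h : XS z) {θ : E → ℂ} (hθ : IsIrrCharacter E θ)
    (hz : θ z ≠ θ 1) : ∃ (n : ℕ) (ρ : E →* Matrix (Fin n) (Fin n) ℂ), Md z ρ ∧
      θ = fun e => (ρ e).trace := by
  have := Fintype.ofFinite E
  obtain ⟨n, σ, hσ, rfl⟩ := id hθ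
  let ρ : E →* Matrix (Fin n) (Fin n) ℂ :=
    (LinearMap.toMatrixAlgEquiv' : ((Fin n → ℂ) →ₗ[ℂ] (Fin n → ℂ)) ≃ₐ[ℂ] _).toMonoidHom.comp σ
  have hρ : ∀ e, ρ e = LinearMap.toMatrix' (σ e) := fun e => rfl
  have hch : σ.character = fun e => (ρ e).trace := by
    funext e
    rw [hρ, Representation.character, ← Matrix.trace_toLin'_eq, Matrix.toLin'_toMatrix']
  obtain ⟨c, hc⟩ := exists_scalar_of_comm σ (σ z) (fun g => by
    rw [← Module.End.mul_eq_comp, ← Module.End.mul_eq_comp, ← map_mul, ← map_mul, h.cen])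
  have hz1 : ρ z = c • 1 := by
    rw [hρ, hc, map_smul, LinearMap.toMatrix'_id]
  have hn0 : (n : ℂ) ≠ 0 := by
    have := Cfsg.IsIrrCharacter.apply_one_ne_zero hθ
    rw [hch] at this
    simpa using this
  have hc2 : c * c = 1 := by
    have h1 : ρ z * ρ z = 1 := by rw [← map_mul, h.sq, map_one]
    have h2 := congrArg Matrix.trace h1
    rw [hz1, Matrix.smul_mul, one_mul, smul_smul, Matrix.trace_smul, Matrix.trace_one] at h2
    simp only [Fintype.card_fin, smul_eq_mul] at h2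
    exact mul_right_cancel₀ hn0 (by rw [h2, one_mul])
  have hn : ρ z = -1 := by
    rcases mul_self_eq_one_iff.1 hc2 with h1 | h1
    · exfalso; apply hz
      rw [hch]; simp only [hz1, h1, one_smul, map_one]
    · rw [hz1, h1, neg_smul, one_smul]
  refine ⟨n, ρ, ⟨hn, ?_⟩, hch⟩
  have h1 := norm_trace h hn
  rw [← hch, Cfsg.IsIrrCharacter.classInner_self hθ, mul_one] at h1
  exact_mod_cast h1.symm

theorem exists_md [Finite E] (h : XS z) :
    ∃ (n : ℕ) (ρ : E →* Matrix (Fin n) (Fin n) ℂ), Md z ρ := by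
  obtain ⟨θ, hθ⟩ : ∃ θ : IrrCharacter E, (θ : E → ℂ) z ≠ (θ : E → ℂ) 1 := by
    by_contra hc
    push Not at hc
    exact h.ne (eq_one_of_forall_irr hc)
  obtain ⟨n, ρ, m, -⟩ := exists_md_of_irr h θ.2 hθ
  exact ⟨n, ρ, m⟩

theorem trace_eq_of_md [Finite E] (h : XS z) {κ : Type} [Fintype κ] [DecidableEq κ]
    {σ : E →* Matrix κ κ ℂ} (m : Md z ρ) (m' : Md z σ) (e : E) : (ρ e).trace = (σ e).trace := by
  have hd : Fintype.card ι = Fintype.card κ := by
    have h1 := m.dim.trans m'.dim.symm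
    exact Nat.pow_left_injective two_ne_zero (Nat.eq_of_mul_eq_mul_left two_pos h1)
  by_cases h1 : e = 1
  · simp [h1, hd]
  by_cases h2 : e = z
  · simp [h2, m.neg, m'.neg, hd]
  rw [tr_zero h m.neg h1 h2, tr_zero h m'.neg h1 h2]

end H05.Dd
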