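import Cfsg.Agent.H05.Dd1

/-! Dade's extension theorem, part 2: eigenspace characters of an element of prime order. -/

open H05 Cfsg
open scoped ComplexConjugate

namespace H05.Dd

section fourier

variable {r : ℕ} [hr : Fact r.Prime]

/-- Fourier coefficient. -/
noncomputable def fc (a : ZMod r → ℂ) (j : ZMod r) : ℂ :=
  (r : ℂ)⁻¹ * ∑ i, ZMod.stdAddChar (-(i * j)) * a i

theorem sum_std (b : ZMod r) : ∑ i : ZMod r, ZMod.stdAddChar (i * b) = if b = 0 then (r : ℂ) else 0 := by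
  rw [AddChar.sum_mulShift b (ZMod.isPrimitive_stdAddChar r), ZMod.card]
  split_ifs <;> simp

theorem fc_bound {a : ZMod r → ℂ} (ha : ∀ i, i ≠ 0 → ‖a i‖ = 1) (j j' : ZMod r) :
    ‖fc a j - fc a j'‖ ^ 2 < 2 := by
  by_cases hj : j = j'
  · simp [hj]
  have hr0 : (0 : ℝ) < r := by exact_mod_cast hr.out.pos
  let x : ZMod r → ℂ := fun i => ZMod.stdAddChar (-(i * j)) - ZMod.stdAddChar (-(i * j'))
  have h1 : fc a j - fc a j' = (r : ℂ)⁻¹ * ∑ i ∈ Finset.univ.erase 0, x i * a i := by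
    rw [Finset.sum_erase _ (by simp [x]), fc, fc, ← mul_sub, ← Finset.sum_sub_distrib]
    simp only [x, sub_mul]
  have h2 : ∑ i, ‖x i‖ ^ 2 = 2 * r := by
    have h3 : ∀ i, ((‖x i‖ ^ 2 : ℝ) : ℂ) =
        2 - ZMod.stdAddChar (i * (j' - j)) - ZMod.stdAddChar (i * (j - j')) := by
      intro i
      rw [Complex.ofReal_pow, ← Complex.mul_conj', map_sub, ← AddChar.map_neg_eq_conj,
        ← AddChar.map_neg_eq_conj]
      simp only [x, neg_neg, sub_mul, mul_sub, ← AddChar.map_add_eq_mul, neg_add_cancel,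
        AddChar.map_zero_eq_one]
      rw [show -(i * j') + i * j = i * j - i * j' by ring,
        show -(i * j) + i * j' = i * j' - i * j by ring]
      ring
    have h4 : ((∑ i, ‖x i‖ ^ 2 : ℝ) : ℂ) = ((2 * r : ℝ) : ℂ) := by
      rw [Complex.ofReal_sum]
      simp only [h3, Finset.sum_sub_distrib, sum_std, if_neg (sub_ne_zero.2 hj),
        if_neg (sub_ne_zero.2 (Ne.symm hj)), Finset.sum_const, Finset.card_univ, ZMod.card]
      push_cast; ring
    exact_mod_cast h4
  have h5 : ‖∑ i ∈ Finset.univ.erase 0, x i * a i‖ ≤ ∑ i ∈ Finset.univ.erase 0, ‖x i‖ := by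
    refine (norm_sum_le _ _).trans (le_of_eq (Finset.sum_congr rfl fun i hi => ?_))
    rw [norm_mul, ha i (Finset.ne_of_mem_erase hi), mul_one]
  have h6 : (∑ i ∈ Finset.univ.erase (0 : ZMod r), ‖x i‖) ^ 2 ≤ (r - 1) * (2 * r) := by
    refine (sq_sum_le_card_mul_sum_sq).trans ?_
    rw [Finset.sum_erase _ (by simp [x]), h2, Finset.card_erase_of_mem (Finset.mem_univ _),
      Finset.card_univ, ZMod.card, Nat.cast_sub hr.out.one_le, Nat.cast_one]
  have h7 : ‖∑ i ∈ Finset.univ.erase 0, x i * a i‖ ^ 2 ≤ (r - 1) * (2 * r) :=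
    (pow_le_pow_left₀ (norm_nonneg _) h5 2).trans h6
  rw [h1, norm_mul, norm_inv, Complex.norm_natCast, mul_pow, inv_pow, inv_mul_lt_iff₀ (by positivity)]
  nlinarith

theorem fc_inv (a : ZMod r → ℂ) : ∑ j, ZMod.stdAddChar j * fc a j = a 1 := by
  have hr0 : (r : ℂ) ≠ 0 := by exact_mod_cast hr.out.ne_zero
  have h1 : ∀ j, ZMod.stdAddChar j * fc a j =
      ∑ i, (r : ℂ)⁻¹ * a i * ZMod.stdAddChar (j * (1 - i)) := by
    intro j
    rw [fc, Finset.mul_sum, Finset.mul_sum]
    refine Finset.sum_congr rfl fun i _ => ?_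
    rw [show j * (1 - i) = j + -(i * j) by ring, AddChar.map_add_eq_mul]
    ring
  simp only [h1]
  rw [Finset.sum_comm]
  simp only [← Finset.mul_sum, sum_std, sub_eq_zero]
  rw [Finset.sum_eq_single 1]
  · simp only [if_true]; field_simp
  · intro i _ hi; rw [if_neg (Ne.symm hi), mul_zero]
  · simp

variable {ι : Type} [Fintype ι] [DecidableEq ι]

/-- Eigenspace projector. -/
noncomputable def pj (cp : ZMod r → Matrix ι ι ℂ) (j : ZMod r) : Matrix ι ι ℂ :=
  (r : ℂ)⁻¹ • ∑ i, ZMod.stdAddChar (-(i * j)) • cp i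

theorem pj_idem {cp : ZMod r → Matrix ι ι ℂ} (h : ∀ i k, cp (i + k) = cp i * cp k) (j : ZMod r) :
    pj cp j * pj cp j = pj cp j := by
  have hr0 : (r : ℂ) ≠ 0 := by exact_mod_cast hr.out.ne_zero
  have h1 : ∀ i, (ZMod.stdAddChar (-(i * j)) • cp i) * ∑ k, ZMod.stdAddChar (-(k * j)) • cp k =
      ∑ k, ZMod.stdAddChar (-(k * j)) • cp k := by
    intro i
    rw [Finset.mul_sum]
    refine Fintype.sum_equiv (Equiv.addLeft i) _ _ fun k => ?_
    rw [Equiv.coe_addLeft, h, Matrix.smul_mul, Matrix.mul_smul, smul_smul, ← AddChar.map_add_eq_mul]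
    congr 2; ring
  rw [pj, Matrix.smul_mul, Matrix.mul_smul, Finset.sum_mul]
  simp only [h1, Finset.sum_const, Finset.card_univ, ZMod.card]
  rw [← Nat.cast_smul_eq_nsmul ℂ, smul_smul (r : ℂ)⁻¹ (r : ℂ), inv_mul_cancel₀ hr0, one_smul]

theorem tr_pj (cp : ZMod r → Matrix ι ι ℂ) (A : Matrix ι ι ℂ) (j : ZMod r) :
    (A * pj cp j).trace = fc (fun i => (A * cp i).trace) j := by
  simp only [pj, fc, Matrix.mul_smul, Finset.mul_sum, Matrix.trace_smul, Matrix.trace_sum,
    smul_eq_mul]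

theorem pj_conj {cp : ZMod r → Matrix ι ι ℂ} {A : Matrix ι ι ℂ} {s : ZMod r} (hs : s ≠ 0)
    (h : ∀ i, A * cp i = cp (i * s) * A) (j : ZMod r) : A * pj cp (j * s) = pj cp j * A := by
  simp only [pj, Matrix.mul_smul, Matrix.smul_mul, Finset.mul_sum, Finset.sum_mul, h]
  congr 1
  refine Fintype.sum_equiv (Equiv.mulRight₀ s hs) _ _ fun i => ?_
  rw [Equiv.mulRight₀_apply]
  congr 2; ring

variable {N : Type*} [Group N] [Finite N] {U : N →* Matrix ι ι ℂ} {cp : ZMod r → Matrix ι ι ℂ}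

theorem isChar_pj (h : ∀ i k, cp (i + k) = cp i * cp k) (hc : ∀ n i, U n * cp i = cp i * U n)
    (j : ZMod r) : IsCharacter N (fun n => (U n * pj cp j).trace) := by
  refine isCharacter_idem U _ (pj_idem h j) fun n => ?_
  have := pj_conj (cp := cp) (A := U n) (s := 1) one_ne_zero (fun i => by rw [mul_one, hc]) j
  rw [mul_one] at this
  exact this.symm

theorem chi_eq (h : ∀ i k, cp (i + k) = cp i * cp k) (hc : ∀ n i, U n * cp i = cp i * U n)
    (hn : ∀ n i, i ≠ 0 → ‖(U n * cp i).trace‖ = 1) {j j' : ZMod r}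
    (hj : (pj cp j).trace = (pj cp j').trace) (n : N) :
    (U n * pj cp j).trace = (U n * pj cp j').trace := by
  have := Fintype.ofFinite N
  set θ : N → ℂ := (fun n => (U n * pj cp j).trace) - (fun n => (U n * pj cp j').trace) with hθ
  have hg : IsGeneralizedCharacter N θ := ⟨_, _, isChar_pj h hc j, isChar_pj h hc j', rfl⟩
  obtain ⟨k, hk⟩ := Cfsg.IsGeneralizedCharacter.exists_classInner_self_eq_nat hg
  have hlt : (classInner θ θ).re < 2 := by
    have hN : (0 : ℝ) < Nat.card N := by exact_mod_cast Nat.card_pos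
    rw [classInner_self_re, inv_mul_lt_iff₀ hN]
    have : ∑ g, ‖θ g‖ ^ 2 < ∑ _g : N, (2 : ℝ) := by
      refine Finset.sum_lt_sum_of_nonempty Finset.univ_nonempty fun g _ => ?_
      simp only [hθ, Pi.sub_apply, tr_pj]
      exact fc_bound (fun i hi => hn g i hi) j j'
    simpa [Nat.card_eq_fintype_card] using this
  rw [hk, Complex.natCast_re] at hlt
  have hk2 : k < 2 := by exact_mod_cast hlt
  have hk1 : k ≠ 1 := by
    rintro rfl
    apply Cfsg.IsGeneralizedCharacter.apply_one_ne_zero_of_norm_one hg (by simpa using hk)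
    simp [hθ, hj]
  have hk0 : k = 0 := by omega
  rw [hk0, Nat.cast_zero, classInner_self_eq_zero] at hk
  exact sub_eq_zero.1 (congrFun hk n)

theorem exists_odd (h : ∀ i k, cp (i + k) = cp i * cp k) (hc : ∀ n i, U n * cp i = cp i * U n)
    (hn : ∀ n i, i ≠ 0 → ‖(U n * cp i).trace‖ = 1) :
    ∃ j, Odd (charDegree (fun n => (U n * pj cp j).trace)) := by
  by_contra hcon
  push Not at hcon
  let m : ZMod r → ℕ := fun j => charDegree (fun n => (U n * pj cp j).trace)
  have hm : ∀ j, (m j : ℂ) = fc (fun i => (U 1 * cp i).trace) j := fun j => by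
    rw [← tr_pj]; exact Cfsg.IsCharacter.charDegree_eq (isChar_pj h hc j)
  have h1 : ∀ j, m j = m 0 := by
    intro j
    have h2 := fc_bound (fun i hi => hn 1 i hi) j 0
    rw [← hm, ← hm] at h2
    obtain ⟨a, ha⟩ := Nat.not_odd_iff_even.1 (hcon j)
    obtain ⟨b, hb⟩ := Nat.not_odd_iff_even.1 (hcon 0)
    have ha' : m j = a + a := ha
    have hb' : m 0 = b + b := hb
    have h3 : ((m j : ℂ) - (m 0 : ℂ)) = ((2 * ((a : ℤ) - b) : ℤ) : ℂ) := by
      rw [ha', hb']; push_cast; ring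
    rw [h3, Complex.norm_intCast, sq_abs] at h2
    have h4 : (2 * ((a : ℤ) - b)) ^ 2 < 2 := by exact_mod_cast h2
    have h5 : (a : ℤ) - b = 0 := by
      by_contra h6
      have : 0 < ((a : ℤ) - b) ^ 2 := by positivity
      nlinarith
    omega
  have h6 := fc_inv (fun i => (U 1 * cp i).trace)
  simp only [← hm, h1, ← Finset.sum_mul] at h6
  have h7 := sum_std (1 : ZMod r)
  simp only [mul_one, one_ne_zero, if_false] at h7
  have h8 := hn 1 1 one_ne_zero
  rw [← h6, h7] at h8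
  simp at h8

end fourier

end H05.Dd
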