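import Cfsg.Agent.H05.Dd2

/-! Dade's extension theorem, part 3: the case of a fixed-point-free element of prime order. -/

open H05 Cfsg

namespace H05.Dd

variable {E : Type*} [Group E] {z : E}

/-- The module of `E` extends to the semidirect product with `T`. -/
def Ext (z : E) (T : Subgroup (MulAut E)) : Prop :=
  ∃ (ι : Type) (_ : Fintype ι) (_ : DecidableEq ι) (ρ : E →* Matrix ι ι ℂ)
    (φ : T →* Matrix ι ι ℂ), Md z ρ ∧ ∀ (t : T) e, φ t * ρ e = ρ ((t : MulAut E) e) * φ t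

variable {ι : Type} [Fintype ι] [DecidableEq ι]

/-- Pairs of an automorphism and an intertwiner of determinant one. -/
def Gam (ρ : E →* Matrix ι ι ℂ) : Subgroup (MulAut E × (Matrix ι ι ℂ)ˣ) where
  carrier := {p | (p.2 : Matrix ι ι ℂ).det = 1 ∧ ∀ e, (p.2 : Matrix ι ι ℂ) * ρ e = ρ (p.1 e) * p.2}
  one_mem' := ⟨by simp, fun e => by simp⟩
  mul_mem' := by
    rintro p q ⟨hp1, hp2⟩ ⟨hq1, hq2⟩
    refine ⟨by simp [hp1, hq1], fun e => ?_⟩
    simp only [Prod.snd_mul, Prod.fst_mul, Units.val_mul, MulAut.mul_apply]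
    rw [mul_assoc, hq2, ← mul_assoc, hp2, mul_assoc]
  inv_mem' := by
    rintro p ⟨hp1, hp2⟩
    refine ⟨?_, fun e => ?_⟩
    · have := congrArg Matrix.det p.2.inv_mul
      rw [Matrix.det_mul, hp1, mul_one, Matrix.det_one] at this
      exact this
    · have h1 := hp2 (p.1⁻¹ e)
      rw [MulAut.apply_inv_self] at h1
      simp only [Prod.snd_inv, Prod.fst_inv]
      rw [Units.inv_mul_eq_iff_eq_mul, ← mul_assoc, h1, mul_assoc, Units.mul_inv, mul_one]

variable {ρ : E →* Matrix ι ι ℂ}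

/-- Projection to the automorphism. -/
def pr (ρ : E →* Matrix ι ι ℂ) : Gam ρ →* MulAut E := (MonoidHom.fst _ _).comp (Gam ρ).subtype

/-- Projection to the matrix. -/
def mt (ρ : E →* Matrix ι ι ℂ) : Gam ρ →* Matrix ι ι ℂ :=
  (Units.coeHom _).comp ((MonoidHom.snd _ _).comp (Gam ρ).subtype)

theorem mt_inter (g : Gam ρ) (e : E) : mt ρ g * ρ e = ρ (pr ρ g e) * mt ρ g := g.2.2 e

theorem gam_ext {g g' : Gam ρ} (h1 : pr ρ g = pr ρ g') (h2 : mt ρ g = mt ρ g') : g = g' :=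
  Subtype.ext (Prod.ext h1 (Units.ext h2))

theorem pr_surj [Finite E] (h : XS z) (m : Md z ρ) : Function.Surjective (pr ρ) := by
  intro x
  obtain ⟨u, hu1, hu2⟩ := exists_inter h m x
  have hu : IsUnit u := (Matrix.isUnit_iff_isUnit_det _).2 (by rw [hu1]; exact isUnit_one)
  exact ⟨⟨(x, hu.unit), hu1, hu2⟩, rfl⟩

theorem ker_scalar [Finite E] (h : XS z) (m : Md z ρ) {k : Gam ρ} (hk : pr ρ k = 1) :
    ∃ c : ℂ, c ^ Fintype.card ι = 1 ∧ mt ρ k = c • 1 := by
  have h1 := schur h m (A := mt ρ k) (fun f => by rw [mt_inter, hk, MulAut.one_apply])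
  refine ⟨_, ?_, h1⟩
  have h2 : (mt ρ k).det = 1 := k.2.1
  rw [h1, Matrix.det_smul, Matrix.det_one, mul_one] at h2
  exact h2

theorem ker_pow [Finite E] (h : XS z) (m : Md z ρ) {k : Gam ρ} (hk : pr ρ k = 1) :
    k ^ Fintype.card ι = 1 := by
  obtain ⟨c, h1, h2⟩ := ker_scalar h m hk
  apply gam_ext
  · rw [map_pow, hk, one_pow, map_one]
  · rw [map_pow, h2, smul_pow, h1, one_pow, one_smul, map_one]

theorem ker_comm [Finite E] (h : XS z) (m : Md z ρ) {k : Gam ρ} (hk : pr ρ k = 1) (g : Gam ρ) :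
    Commute k g := by
  obtain ⟨c, -, h2⟩ := ker_scalar h m hk
  apply gam_ext
  · rw [map_mul, map_mul, hk, one_mul, mul_one]
  · rw [map_mul, map_mul, h2, Matrix.smul_mul, Matrix.mul_smul, one_mul, mul_one]

theorem gam_finite [Finite E] (h : XS z) (m : Md z ρ) : Finite (Gam ρ) := by
  have h1 : Finite (pr ρ).ker := by
    choose f hf1 hf2 using fun k : (pr ρ).ker => ker_scalar h m (MonoidHom.mem_ker.1 k.2)
    have h2 : Set.Finite {c : ℂ | c ^ Fintype.card ι = 1} := by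
      refine (Polynomial.nthRoots (Fintype.card ι) (1 : ℂ)).toFinset.finite_toSet.subset ?_
      intro c hc
      simpa [Polynomial.mem_nthRoots m.pos] using hc
    have := h2.to_subtype
    refine Finite.of_injective
      (fun k : (pr ρ).ker => (⟨f k, hf1 k⟩ : {c : ℂ | c ^ Fintype.card ι = 1})) ?_
    intro a b hab
    have h3 : f a = f b := congrArg Subtype.val hab
    exact Subtype.ext (gam_ext ((MonoidHom.mem_ker.1 a.2).trans (MonoidHom.mem_ker.1 b.2).symm)
      (by rw [hf2, hf2, h3]))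
  exact (MonoidHom.finite_iff_finite_ker_range (pr ρ)).2 ⟨h1, inferInstance⟩

theorem Md.coprime [Finite E] (h : XS z) (m : Md z ρ) {n : ℕ} (hn : Odd n) :
    Nat.Coprime n (2 * Fintype.card ι) := by
  obtain ⟨k, hk⟩ := IsPGroup.iff_card.1 h.pgroup
  refine Nat.Coprime.coprime_dvd_right ?_
    (Nat.Coprime.pow_right k (Nat.coprime_two_right.2 hn))
  rw [← hk, ← m.dim]
  exact ⟨Fintype.card ι, by ring⟩

theorem lift_unique [Finite E] (h : XS z) (m : Md z ρ) {r : ℕ} (hr : Odd r) {x y : Gam ρ}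
    (hxy : pr ρ x = pr ρ y) (hx : x ^ r = 1) (hy : y ^ r = 1) : x = y := by
  have hk : pr ρ (x * y⁻¹) = 1 := by rw [map_mul, map_inv, hxy, mul_inv_cancel]
  have h1 : (x * y⁻¹) ^ r = 1 := by
    have := (ker_comm h m hk y).mul_pow r
    rw [inv_mul_cancel_right, hx, hy, mul_one] at this
    exact this.symm
  have h2 : (x * y⁻¹) ^ (2 * Fintype.card ι) = 1 := by
    rw [mul_comm, pow_mul, ker_pow h m hk, one_pow]
  have h3 := pow_gcd_eq_one.2 ⟨h1, h2⟩
  rw [m.coprime h hr, pow_one] at h3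
  exact mul_inv_eq_one.1 h3

theorem fz_pow (h : XS z) {x : MulAut E} {e : E} (hx : x e = e ∨ x e = z * e) (k : ℕ) :
    (x ^ k) e = e ∨ (x ^ k) e = z * e := by
  induction k with
  | zero => left; simp
  | succ k ih =>
    rw [pow_succ', MulAut.mul_apply]
    rcases ih with h1 | h1 <;> rcases hx with h2 | h2
    · left; rw [h1, h2]
    · right; rw [h1, h2]
    · right; rw [h1, map_mul, h.fix, h2]
    · left; rw [h1, map_mul, h.fix, h2, ← mul_assoc, h.sq, one_mul]

theorem norm_tr [Finite E] (h : XS z) (m : Md z ρ) (g : Gam ρ)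
    (hx : ∀ e, pr ρ g e = e ∨ pr ρ g e = z * e → e = 1 ∨ e = z) : ‖(mt ρ g).trace‖ = 1 := by
  have := gam_finite h m
  have h1 := tr_fpf h m hx (mul_inv_mat (mt ρ) g) (mt_inter g)
  have h2 := Cfsg.IsCharacter.apply_inv (isCharacter_mat (mt ρ)) g
  rw [h2, Complex.mul_conj'] at h1
  have h3 : ‖(mt ρ g).trace‖ ^ 2 = 1 := by exact_mod_cast h1
  exact (pow_eq_one_iff_of_nonneg (norm_nonneg _) two_ne_zero).1 h3

theorem ext_of_hom [Finite E] (h : XS z) (m : Md z ρ) (T : Subgroup (MulAut E))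
    (μ : T.comap (pr ρ) →* ℂˣ)
    (hμ : ∀ k : T.comap (pr ρ), pr ρ k = 1 → mt ρ k = (μ k : ℂ) • 1) : Ext z T := by
  let ψ : T.comap (pr ρ) → Matrix ι ι ℂ := fun g => (((μ g)⁻¹ : ℂˣ) : ℂ) • mt ρ g
  have hmul : ∀ a b, ψ (a * b) = ψ a * ψ b := by
    intro a b
    simp only [ψ, map_mul, Subgroup.coe_mul, Matrix.smul_mul, Matrix.mul_smul, smul_smul,
      mul_inv_rev, Units.val_mul]
  have hker : ∀ k : T.comap (pr ρ), pr ρ k = 1 → ψ k = 1 := by
    intro k hk
    simp only [ψ]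
    rw [hμ k hk, smul_smul, Units.inv_mul, one_smul]
  have hwd : ∀ a b : T.comap (pr ρ), pr ρ a = pr ρ b → ψ a = ψ b := by
    intro a b hab
    have : a = (a * b⁻¹) * b := by simp
    rw [this, hmul, hker, one_mul]
    simp [hab]
  have hs : ∀ t : T, ∃ g : T.comap (pr ρ), pr ρ g = t := by
    intro t
    obtain ⟨g, hg⟩ := pr_surj h m t
    exact ⟨⟨g, by rw [Subgroup.mem_comap, hg]; exact t.2⟩, hg⟩
  choose s hs using hs
  refine ⟨ι, inferInstance, inferInstance, ρ,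
    { toFun := fun t => ψ (s t)
      map_one' := hker _ (hs 1)
      map_mul' := fun a b => by
        rw [← hmul]; apply hwd; simp [hs] }, m, fun t e => ?_⟩
  simp only [MonoidHom.coe_mk, OneHom.coe_mk, ψ, Matrix.smul_mul, Matrix.mul_smul, mt_inter, hs]

theorem caseC [Finite E] (h : XS z) (T : Subgroup (MulAut E)) (c : MulAut E) {r : ℕ}
    (hr : r.Prime) (hr2 : Odd r) (hT : IsPGroup 2 T) (hc : orderOf c = r)
    (hn : ∀ t ∈ T, t * c * t⁻¹ ∈ Subgroup.zpowers c)
    (hf : ∀ e, c e = e ∨ c e = z * e → e = 1 ∨ e = z) : Ext z T := by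
  haveI : Fact r.Prime := ⟨hr⟩
  obtain ⟨d, ρ, m⟩ := exists_md h
  haveI := gam_finite h m
  have hcr : c ^ r = 1 := by rw [← hc, pow_orderOf_eq_one]
  obtain ⟨y, hy1, hy2⟩ : ∃ y : Gam ρ, pr ρ y = c ∧ y ^ r = 1 := by
    obtain ⟨y, hy⟩ := pr_surj h m c
    obtain ⟨a, -, ha⟩ := Nat.exists_mul_mod_eq_one_of_coprime (m.coprime h hr2).symm hr.one_lt
    refine ⟨y ^ (2 * Fintype.card (Fin d) * a), ?_, ?_⟩
    · rw [map_pow, hy, pow_eq_pow_mod _ hcr, ha, pow_one]
    · have : (y ^ r) ^ Fintype.card (Fin d) = 1 := ker_pow h m (by rw [map_pow, hy, hcr])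
      rw [← pow_mul, show 2 * Fintype.card (Fin d) * a * r = r * Fintype.card (Fin d) * (2 * a) by ring,
        pow_mul, pow_mul y r, this, one_pow]
  let S := T.comap (pr ρ)
  have hnorm : ∀ g : S, pr ρ g ∈ Subgroup.normalizer (Subgroup.zpowers c : Set (MulAut E)) := by
    intro g
    apply Subgroup.mem_normalizer_fintype
    rintro _ ⟨k, rfl⟩
    obtain ⟨l, hl⟩ := hn _ g.2
    simp only at hl ⊢
    rw [← conj_zpow, ← hl]
    exact Subgroup.zpow_mem _ (Subgroup.zpow_mem _ (Subgroup.mem_zpowers c) _) _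
  let τ : S →* MulAut (Subgroup.zpowers c) := (Subgroup.zpowers c).normalizerMonoidHom.comp
    (((pr ρ).comp S.subtype).codRestrict _ hnorm)
  let N := τ.ker
  have hcyc : IsCyclic (S ⧸ N) := by
    haveI : Fact (Nat.card (Subgroup.zpowers c)).Prime := ⟨by rw [Nat.card_zpowers, hc]; exact hr⟩
    haveI : IsCyclic (MulAut (Subgroup.zpowers c)) :=
      isCyclic_of_injective (IsCyclic.mulAutMulEquiv (Subgroup.zpowers c)).toMonoidHom
        (MulEquiv.injective _)
    exact isCyclic_of_injective (QuotientGroup.kerLift τ) (QuotientGroup.kerLift_injective τ)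
  have hN1 : ∀ n : N, pr ρ (n : S) * c * (pr ρ (n : S))⁻¹ = c := by
    intro n
    have h1 : τ n = 1 := n.2
    have h2 := congrArg (fun f : MulAut (Subgroup.zpowers c) =>
      ((f ⟨c, Subgroup.mem_zpowers c⟩ : Subgroup.zpowers c) : MulAut E)) h1
    exact h2
  have hN2 : ∀ g : S, pr ρ g = 1 → g ∈ N := by
    intro g hg
    have : (((pr ρ).comp S.subtype).codRestrict _ hnorm) g = 1 := Subtype.ext hg
    show (Subgroup.zpowers c).normalizerMonoidHom _ = 1
    rw [this, map_one]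
  have hconj : ∀ (g : Gam ρ) (s : ℕ), pr ρ g * c * (pr ρ g)⁻¹ = c ^ s → g * y * g⁻¹ = y ^ s := by
    intro g s hs
    apply lift_unique h m hr2
    · rw [map_mul, map_mul, map_inv, map_pow, hy1, hs]
    · rw [conj_pow, hy2, mul_one, mul_inv_cancel]
    · rw [← pow_mul, mul_comm, pow_mul, hy2, one_pow]
  let cp : ZMod r → Matrix (Fin d) (Fin d) ℂ := fun i => mt ρ (y ^ i.val)
  have hcp : ∀ i k, cp (i + k) = cp i * cp k := by
    intro i k
    simp only [cp]
    rw [← map_mul, ← pow_add, ZMod.val_add, ← pow_eq_pow_mod _ hy2]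
  have hcj : ∀ (g : Gam ρ) (s : ℕ), g * y * g⁻¹ = y ^ s → ∀ i,
      mt ρ g * cp i = cp (i * s) * mt ρ g := by
    intro g s hs i
    simp only [cp]
    rw [← map_mul, ← map_mul, ZMod.val_mul, ← pow_eq_pow_mod _ hy2, ZMod.val_natCast, mul_comm i.val,
      pow_mul, ← pow_eq_pow_mod _ hy2, ← hs, conj_pow, inv_mul_cancel_right]
  let U : N →* Matrix (Fin d) (Fin d) ℂ := (mt ρ).comp (S.subtype.comp N.subtype)
  have hU : ∀ n : N, U n = mt ρ (n : S) := fun n => rfl
  have hcm : ∀ n i, U n * cp i = cp i * U n := by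
    intro n i
    have := hcj (n : S) 1 (hconj _ 1 (by rw [pow_one]; exact hN1 n)) i
    rw [Nat.cast_one, mul_one] at this
    exact this
  have hnm : ∀ n i, i ≠ 0 → ‖(U n * cp i).trace‖ = 1 := by
    intro n i hi
    rw [hU, ← map_mul]
    apply norm_tr h m
    intro e he
    apply hf
    obtain ⟨a, ha⟩ := hT ⟨pr ρ (n : S), (n : S).2⟩
    have ha' : (pr ρ (n : S)) ^ 2 ^ a = 1 := congrArg Subtype.val ha
    have hcom : Commute (pr ρ (n : S)) (c ^ i.val) :=
      Commute.pow_right (mul_inv_eq_iff_eq_mul.1 (hN1 n)) _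
    have h1 := fz_pow h he (2 ^ a)
    rw [map_mul, map_pow, hy1, hcom.mul_pow, ha', one_mul, ← pow_mul] at h1
    have hco : Nat.Coprime (i.val * 2 ^ a) (orderOf c) := by
      rw [hc]
      refine Nat.Coprime.mul_left ?_ (Nat.Coprime.pow_left _ (Nat.coprime_two_left.2 hr2))
      refine ((Nat.Prime.coprime_iff_not_dvd hr).2 ?_).symm
      exact Nat.not_dvd_of_pos_of_lt (Nat.pos_of_ne_zero (by simpa using hi)) (ZMod.val_lt i)
    obtain ⟨b, hb⟩ := exists_pow_eq_self_of_coprime hco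
    have h2 := fz_pow h h1 b
    rwa [hb] at h2
  obtain ⟨j, hj⟩ := exists_odd hcp hcm hnm
  have hχ := isChar_pj hcp hcm j
  set χ : N → ℂ := fun n => (U n * pj cp j).trace with hχd
  have hinv : ∀ (g : S) (n : N), χ (MulAut.conjNormal g n) = χ n := by
    intro g n
    obtain ⟨s, hs⟩ : ∃ s : ℕ, c ^ s = pr ρ g * c * (pr ρ g)⁻¹ :=
      (mem_powers_iff_mem_zpowers.2 (hn _ g.2) : _ ∈ Submonoid.powers c)
    have hs0 : (s : ZMod r) ≠ 0 := by
      intro h0
      rw [ZMod.natCast_eq_zero_iff, ← hc, orderOf_dvd_iff_pow_eq_one, hs] at h0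
      have : c = 1 := by simpa using h0
      rw [this, orderOf_one] at hc
      exact hr.one_lt.ne hc
    have h1 := pj_conj hs0 (hcj g s (hconj g s hs.symm)) j
    have h2 : ∀ A : Matrix (Fin d) (Fin d) ℂ,
        (mt ρ g * A * mt ρ (g : Gam ρ)⁻¹ * pj cp j).trace = (A * pj cp (j * s)).trace := by
      intro A
      rw [mul_assoc, mul_assoc, Matrix.trace_mul_comm, mul_assoc, mul_assoc, ← h1,
        ← mul_assoc (mt ρ (g : Gam ρ)⁻¹), inv_mul_mat, one_mul]
    have h3 : U (MulAut.conjNormal g n) = mt ρ g * U n * mt ρ (g : Gam ρ)⁻¹ := by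
      rw [hU, hU, MulAut.conjNormal_apply, ← map_mul, ← map_mul]; rfl
    simp only [hχd]
    rw [h3, h2]
    apply chi_eq hcp hcm hnm
    have h4 := h2 1
    rw [mul_one, mul_inv_mat, one_mul, one_mul] at h4
    exact h4.symm
  obtain ⟨μ, hμ⟩ := H07.exists_ext_hom_of_cyclic N hcyc (H07.detHom χ) (fun g n => by
    have h1 := H07.detHom_comp hχ (MulAut.conjNormal (H := N) g).toMonoidHom
    have h2 : (fun x => χ ((MulAut.conjNormal (H := N) g).toMonoidHom x)) = χ := funext (hinv g)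
    rw [h2] at h1
    conv_rhs => rw [h1]
    rfl)
  obtain ⟨a, -, ha⟩ := Nat.exists_mul_mod_eq_one_of_coprime (m.coprime h hj)
    (by have := m.pos; omega)
  refine ext_of_hom h m T (μ ^ a) fun k hk => ?_
  obtain ⟨w, hw1, hw2⟩ := ker_scalar h m hk
  have h1 := H07.detHom_of_scalar hχ (z := ⟨k, hN2 k hk⟩) (c := w) (fun g => by
    simp only [hχd]
    rw [map_mul, hU, hw2, Matrix.smul_mul, one_mul, Matrix.smul_mul, Matrix.trace_smul, smul_eq_mul])
  rw [← hμ] at h1
  have h2 : w ^ (2 * Fintype.card (Fin d)) = 1 := by rw [mul_comm, pow_mul, hw1, one_pow]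
  rw [hw2, MonoidHom.pow_apply, Units.val_pow_eq_pow_val, h1, ← pow_mul, pow_eq_pow_mod _ h2, ha,
    pow_one]

end H05.Dd
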