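import Cfsg.Agent.H05.Dd3

/-! Dade's extension theorem, part 4: central products and swapped factors. -/

open H05 Cfsg
open scoped Kronecker

namespace H05.Dd

theorem descend {X Y M : Type*} [Group X] [Group Y] [Monoid M] (f : X →* Y)
    (hf : Function.Surjective f) (g : X →* M) (h : ∀ k, f k = 1 → g k = 1) :
    ∃ τ : Y →* M, ∀ x, τ (f x) = g x := by
  have hwd : ∀ a b, f a = f b → g a = g b := by
    intro a b hab
    have : a = (a * b⁻¹) * b := by simp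
    rw [this, map_mul, h, one_mul]
    simp [hab]
  choose s hs using hf
  exact ⟨{ toFun := fun y => g (s y)
           map_one' := h _ (hs 1)
           map_mul' := fun a b => by rw [← map_mul]; apply hwd; simp [hs] },
    fun x => hwd _ _ (hs _)⟩

theorem ext_idx2 {G M : Type*} [Group G] [Monoid M] {T₀ T : Subgroup G} {t : G} (hsub : T₀ ≤ T)
    (ht : t ∈ T) (ht0 : t ∉ T₀) (hidx : ∀ s ∈ T, s ∉ T₀ → s * t⁻¹ ∈ T₀) (φ₀ : T₀ →* M) (u : M)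
    (h1 : ∀ s s' : T₀, (s' : G) = t * s * t⁻¹ → u * φ₀ s = φ₀ s' * u)
    (h2 : ∀ s : T₀, (s : G) = t * t → u * u = φ₀ s) :
    ∃ φ : T →* M, ∀ x : T, (∃ s : T₀, (x : G) = s ∧ φ x = φ₀ s) ∨
      (∃ s : T₀, (x : G) = s * t ∧ φ x = φ₀ s * u) := by
  classical
  have htt : t * t ∈ T₀ := by
    by_contra hc
    exact ht0 (by simpa using hidx _ (T.mul_mem ht ht) hc)
  have hcj : ∀ s ∈ T₀, t * s * t⁻¹ ∈ T₀ := fun s hs =>
    hidx _ (T.mul_mem ht (hsub hs)) (fun hc => ht0 (by simpa using T₀.mul_mem hc (T₀.inv_mem hs)))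
  let F : T → M := fun x => if h : (x : G) ∈ T₀ then φ₀ ⟨x, h⟩ else φ₀ ⟨x * t⁻¹, hidx _ x.2 h⟩ * u
  have hF1 : ∀ (x : T) (s : T₀), (x : G) = s → F x = φ₀ s := by
    intro x s hx
    have h : (x : G) ∈ T₀ := hx ▸ s.2
    simp only [F, dif_pos h]
    congr 1; exact Subtype.ext hx
  have hF2 : ∀ (x : T) (s : T₀), (x : G) = s * t → F x = φ₀ s * u := by
    intro x s hx
    have h : (x : G) ∉ T₀ := fun hc => ht0 (by
      rw [hx] at hc; simpa using T₀.mul_mem (T₀.inv_mem s.2) hc)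
    simp only [F, dif_neg h]
    congr 2; exact Subtype.ext (by simp [hx])
  have hcase : ∀ x : T, (∃ s : T₀, (x : G) = s) ∨ ∃ s : T₀, (x : G) = s * t := by
    intro x
    by_cases h : (x : G) ∈ T₀
    · exact Or.inl ⟨⟨x, h⟩, rfl⟩
    · exact Or.inr ⟨⟨x * t⁻¹, hidx _ x.2 h⟩, by simp⟩
  refine ⟨{ toFun := F, map_one' := by rw [hF1 1 1 rfl, map_one], map_mul' := ?_ }, fun x => ?_⟩
  · intro x y
    rcases hcase x with ⟨a, ha⟩ | ⟨a, ha⟩ <;> rcases hcase y with ⟨b, hb⟩ | ⟨b, hb⟩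
    · rw [hF1 x a ha, hF1 y b hb, hF1 (x * y) (a * b) (by simp [ha, hb]), map_mul]
    · rw [hF1 x a ha, hF2 y b hb, hF2 (x * y) (a * b) (by simp [ha, hb, mul_assoc]), map_mul,
        mul_assoc]
    · rw [hF2 x a ha, hF1 y b hb,
        hF2 (x * y) (a * ⟨_, hcj b b.2⟩) (by simp [ha, hb, mul_assoc]), map_mul,
        mul_assoc (φ₀ a), mul_assoc (φ₀ a), h1 b ⟨_, hcj b b.2⟩ rfl]
    · rw [hF2 x a ha, hF2 y b hb,
        hF1 (x * y) (a * ⟨_, hcj b b.2⟩ * ⟨_, htt⟩) (by simp [ha, hb, mul_assoc]), map_mul, map_mul,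
        ← h2 ⟨_, htt⟩ rfl, mul_assoc (φ₀ a), mul_assoc (φ₀ a), ← mul_assoc u,
        h1 b ⟨_, hcj b b.2⟩ rfl, mul_assoc (φ₀ _)]
  · rcases hcase x with ⟨a, ha⟩ | ⟨a, ha⟩
    · exact Or.inl ⟨a, ha, hF1 x a ha⟩
    · exact Or.inr ⟨a, ha, hF2 x a ha⟩

variable {E : Type*} [Group E] {z : E}

/-- The extension property for a subgroup. -/
def ExtS (z : E) (A : Subgroup E) (T : Subgroup (MulAut E)) : Prop :=
  ∃ (ι : Type) (_ : Fintype ι) (_ : DecidableEq ι) (ρ : A →* Matrix ι ι ℂ)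
    (φ : T →* Matrix ι ι ℂ), (∀ a : A, (a : E) = z → ρ a = -1) ∧
    2 * Fintype.card ι ^ 2 = Nat.card A ∧
    ∀ (t : T) (a a' : A), (a' : E) = (t : MulAut E) a → φ t * ρ a = ρ a' * φ t

theorem glue [Finite E] (h : XS z) {A B : Subgroup E} (hzA : z ∈ A) (hzB : z ∈ B)
    (hc : ∀ a ∈ A, ∀ b ∈ B, a * b = b * a) (hg : ∀ e, ∃ a ∈ A, ∃ b ∈ B, e = a * b)
    {ι κ : Type} [Fintype ι] [DecidableEq ι] [Fintype κ] [DecidableEq κ]
    (ρ : A →* Matrix ι ι ℂ) (σ : B →* Matrix κ κ ℂ) (hρ : ρ ⟨z, hzA⟩ = -1) (hσ : σ ⟨z, hzB⟩ = -1)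
    (hd1 : 2 * Fintype.card ι ^ 2 = Nat.card A) (hd2 : 2 * Fintype.card κ ^ 2 = Nat.card B) :
    ∃ τ : E →* Matrix (ι × κ) (ι × κ) ℂ, Md z τ ∧ ∀ (a : A) (b : B), τ (a * b) = ρ a ⊗ₖ σ b := by
  let f : A × B →* E := MonoidHom.noncommCoprod A.subtype B.subtype (fun a b => hc a a.2 b b.2)
  have hf : ∀ p : A × B, f p = p.1 * p.2 := fun p => rfl
  have hs : Function.Surjective f := fun e => by
    obtain ⟨a, ha, b, hb, rfl⟩ := hg e
    exact ⟨(⟨a, ha⟩, ⟨b, hb⟩), rfl⟩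
  let g : A × B →* Matrix (ι × κ) (ι × κ) ℂ :=
    { toFun := fun p => ρ p.1 ⊗ₖ σ p.2
      map_one' := by simp
      map_mul' := fun p q => by simp [Matrix.mul_kronecker_mul] }
  have hk : ∀ k : A × B, f k = 1 → k = 1 ∨ k = (⟨z, hzA⟩, ⟨z, hzB⟩) := by
    rintro ⟨a, b⟩ hk
    have h1 : (a : E) = (b : E)⁻¹ := eq_inv_of_mul_eq_one_left hk
    have h2 : (a : E) ∈ B := h1 ▸ B.inv_mem b.2
    rcases h.nd a (fun e => by
      obtain ⟨x, hx, y, hy, rfl⟩ := hg e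
      rw [← mul_assoc, ← hc x hx a h2, mul_assoc, hc a a.2 y hy, mul_assoc]) with h3 | h3
    · left
      exact Prod.ext (Subtype.ext h3) (Subtype.ext (by rw [h3] at h1; simpa using h1.symm))
    · right
      refine Prod.ext (Subtype.ext h3) (Subtype.ext ?_)
      show (b : E) = z
      rw [← h.inv, ← h3, h1, inv_inv]
  obtain ⟨τ, hτ⟩ := descend f hs g (fun k hk' => by
    rcases hk k hk' with rfl | rfl
    · exact map_one g
    · show ρ _ ⊗ₖ σ _ = 1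
      rw [hρ, hσ, ← neg_one_smul ℂ (1 : Matrix ι ι ℂ), ← neg_one_smul ℂ (1 : Matrix κ κ ℂ),
        Matrix.smul_kronecker, Matrix.kronecker_smul, Matrix.one_kronecker_one, smul_smul]
      simp)
  refine ⟨τ, ⟨?_, ?_⟩, fun a b => hτ (a, b)⟩
  · have := hτ (⟨z, hzA⟩, 1)
    rw [hf] at this
    simp only [OneMemClass.coe_one, mul_one] at this
    rw [this]
    show ρ _ ⊗ₖ σ 1 = -1
    rw [hρ, map_one, ← neg_one_smul ℂ (1 : Matrix ι ι ℂ), Matrix.smul_kronecker,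
      Matrix.one_kronecker_one, neg_one_smul]
  · have h1 : f.ker = Subgroup.zpowers (⟨z, hzA⟩, ⟨z, hzB⟩) := by
      apply le_antisymm
      · intro k hk'
        rcases hk k hk' with rfl | rfl
        · exact one_mem _
        · exact Subgroup.mem_zpowers _
      · rw [Subgroup.zpowers_le]; exact h.sq
    have h2 : Nat.card f.ker = 2 := by
      rw [h1, Nat.card_zpowers]
      refine orderOf_eq_prime ?_ ?_
      · rw [pow_two]; exact Prod.ext (Subtype.ext h.sq) (Subtype.ext h.sq)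
      · intro hh; exact h.ne (congrArg (fun p : A × B => (p.1 : E)) hh)
    have h3 := f.ker.card_mul_index
    rw [h2, Subgroup.index_ker, MonoidHom.range_eq_top.2 hs, Subgroup.card_top, Nat.card_prod,
      ← hd1, ← hd2] at h3
    rw [Fintype.card_prod]
    apply Nat.eq_of_mul_eq_mul_left two_pos
    rw [h3]; ring

theorem ext_prod [Finite E] (h : XS z) {A B : Subgroup E} (hzA : z ∈ A) (hzB : z ∈ B)
    (hc : ∀ a ∈ A, ∀ b ∈ B, a * b = b * a) (hg : ∀ e, ∃ a ∈ A, ∃ b ∈ B, e = a * b)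
    {T : Subgroup (MulAut E)} (hA : ∀ t ∈ T, ∀ a ∈ A, t a ∈ A) (hB : ∀ t ∈ T, ∀ b ∈ B, t b ∈ B)
    (eA : ExtS z A T) (eB : ExtS z B T) : Ext z T := by
  obtain ⟨ι, _, _, ρ, φ, hρ, hd1, h1⟩ := eA
  obtain ⟨κ, _, _, σ, ψ, hσ, hd2, h2⟩ := eB
  obtain ⟨τ, m, hτ⟩ := glue h hzA hzB hc hg ρ σ (hρ _ rfl) (hσ _ rfl) hd1 hd2
  refine ⟨ι × κ, inferInstance, inferInstance, τ,
    { toFun := fun t => φ t ⊗ₖ ψ t
      map_one' := by simp
      map_mul' := fun p q => by simp [Matrix.mul_kronecker_mul] }, m, fun t e => ?_⟩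
  obtain ⟨a, ha, b, hb, rfl⟩ := hg e
  have e1 := hτ ⟨a, ha⟩ ⟨b, hb⟩
  have e2 := hτ ⟨_, hA t t.2 a ha⟩ ⟨_, hB t t.2 b hb⟩
  simp only at e1 e2
  rw [map_mul (t : MulAut E), e1, e2]
  simp only [MonoidHom.coe_mk, OneHom.coe_mk, ← Matrix.mul_kronecker_mul]
  rw [h1 t ⟨a, ha⟩ ⟨_, hA t t.2 a ha⟩ rfl, h2 t ⟨b, hb⟩ ⟨_, hB t t.2 b hb⟩ rfl]

/-- The matrix swapping the two tensor factors. -/
def sw (ι : Type) [DecidableEq ι] : Matrix (ι × ι) (ι × ι) ℂ :=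
  fun p q => if q = p.swap then 1 else 0

theorem sw_mul {ι : Type} [Fintype ι] [DecidableEq ι] (X Y : Matrix ι ι ℂ) :
    sw ι * (X ⊗ₖ Y) = (Y ⊗ₖ X) * sw ι := by
  ext p q
  have h1 : ∀ x : ι × ι, (q = x.swap) ↔ (x = q.swap) := fun x =>
    ⟨fun h => by simp [h], fun h => by simp [h]⟩
  simp only [Matrix.mul_apply, sw, ite_mul, mul_ite, one_mul, mul_one, zero_mul, mul_zero, h1,
    Finset.sum_ite_eq', Finset.mem_univ, if_true]
  obtain ⟨a, b⟩ := p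
  obtain ⟨c, d⟩ := q
  simp only [Prod.swap_prod_mk, Matrix.kroneckerMap_apply]
  ring

theorem sw_sq {ι : Type} [Fintype ι] [DecidableEq ι] : sw ι * sw ι = 1 := by
  ext p q
  simp only [Matrix.mul_apply, sw, ite_mul, one_mul, zero_mul, Finset.sum_ite_eq', Finset.mem_univ,
    if_true, Prod.swap_swap, Matrix.one_apply, eq_comm]

theorem ext_swap [Finite E] (h : XS z) {A : Subgroup E} (hzA : z ∈ A) {T₀ T : Subgroup (MulAut E)}
    {t : MulAut E} (hsub : T₀ ≤ T) (ht : t ∈ T) (ht0 : t ∉ T₀)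
    (hidx : ∀ s ∈ T, s ∉ T₀ → s * t⁻¹ ∈ T₀)
    (hc : ∀ a ∈ A, ∀ b ∈ A, a * t b = t b * a) (hg : ∀ e, ∃ a ∈ A, ∃ b ∈ A, e = a * t b)
    (hA : ∀ s ∈ T₀, ∀ a ∈ A, s a ∈ A) (eA : ExtS z A T₀) : Ext z T := by
  obtain ⟨ι, _, _, ρ, φ, hρ, hd1, h1⟩ := eA
  have htt : t * t ∈ T₀ := by
    by_contra hc
    exact ht0 (by simpa using hidx _ (T.mul_mem ht ht) hc)
  have hcj : ∀ s ∈ T₀, t⁻¹ * s * t ∈ T₀ := fun s hs => by
    have h2 := hidx _ (T.mul_mem ht (hsub hs))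
      (fun hc => ht0 (by simpa using T₀.mul_mem hc (T₀.inv_mem hs)))
    have h3 := T₀.mul_mem (T₀.mul_mem (T₀.inv_mem htt) h2) htt
    simpa [mul_assoc] using h3
  let B := A.map t.toMonoidHom
  have hB : ∀ b : B, t⁻¹ (b : E) ∈ A := by
    rintro ⟨_, a, ha, rfl⟩
    simpa using ha
  have hB' : ∀ a ∈ A, t a ∈ B := fun a ha => ⟨a, ha, rfl⟩
  let σ : B →* Matrix ι ι ℂ := ρ.comp (((t⁻¹).toMonoidHom.comp B.subtype).codRestrict A hB)
  have hσ : ∀ (a : A) (b : B), (b : E) = t a → σ b = ρ a := by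
    intro a b hb
    show ρ _ = ρ a
    congr 1
    apply Subtype.ext
    show t⁻¹ (b : E) = a
    rw [hb, MulAut.inv_apply_self]
  have hzB : z ∈ B := by simpa [h.fix] using hB' z hzA
  obtain ⟨τ, m, hτ⟩ := glue h hzA hzB (fun a ha b hb => by
      obtain ⟨b, hb, rfl⟩ := hb; exact hc a ha b hb)
    (fun e => by
      obtain ⟨a, ha, b, hb, rfl⟩ := hg e; exact ⟨a, ha, _, hB' b hb, rfl⟩)
    ρ σ (hρ _ rfl) (by rw [hσ ⟨z, hzA⟩ ⟨z, hzB⟩ (h.fix t).symm]; exact hρ _ rfl) hd1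
    (by rw [hd1]; exact (Subgroup.card_map_of_injective t.injective).symm)
  have hτ' : ∀ a b : A, τ (a * t b) = ρ a ⊗ₖ ρ b := fun a b => by
    rw [← hσ b ⟨_, hB' b b.2⟩ rfl]; exact hτ a ⟨_, hB' b b.2⟩
  let cj : T₀ →* T₀ := ((MulAut.conj t⁻¹).toMonoidHom.comp T₀.subtype).codRestrict T₀
    (fun s => by simpa using hcj s s.2)
  have hcj' : ∀ s : T₀, (cj s : MulAut E) = t⁻¹ * s * t := fun s => by simp [cj]
  let φ₀ : T₀ →* Matrix (ι × ι) (ι × ι) ℂ :=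
    { toFun := fun s => φ s ⊗ₖ φ (cj s)
      map_one' := by simp
      map_mul' := fun p q => by simp [Matrix.mul_kronecker_mul] }
  have hφ₀ : ∀ s, φ₀ s = φ s ⊗ₖ φ (cj s) := fun s => rfl
  let u : Matrix (ι × ι) (ι × ι) ℂ := (φ ⟨_, htt⟩ ⊗ₖ (1 : Matrix ι ι ℂ)) * sw ι
  obtain ⟨ψ, hψ⟩ := ext_idx2 hsub ht ht0 hidx φ₀ u (fun s s' hs => by
      have e1 : cj s' = s := Subtype.ext (by rw [hcj', hs]; group)
      have e2 : (⟨_, htt⟩ : T₀) * cj s = s' * ⟨_, htt⟩ :=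
        Subtype.ext (by simp only [Subgroup.coe_mul, hcj', hs]; group)
      simp only [u, hφ₀]
      rw [mul_assoc, sw_mul, ← mul_assoc, ← mul_assoc, ← Matrix.mul_kronecker_mul,
        ← Matrix.mul_kronecker_mul, e1, ← map_mul, ← map_mul, e2, one_mul, mul_one])
    (fun s hs => by
      have e1 : s = ⟨_, htt⟩ := Subtype.ext hs
      have e2 : cj s = ⟨_, htt⟩ := Subtype.ext (by rw [hcj', hs]; group)
      simp only [u, hφ₀]
      rw [mul_assoc, ← mul_assoc (sw ι), sw_mul, mul_assoc, sw_sq, mul_one,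
        ← Matrix.mul_kronecker_mul, e2, e1, one_mul, mul_one])
  have i1 : ∀ (s : T₀) e, φ₀ s * τ e = τ ((s : MulAut E) e) * φ₀ s := by
    intro s e
    obtain ⟨a, ha, b, hb, rfl⟩ := hg e
    have e1 := hτ' ⟨a, ha⟩ ⟨b, hb⟩
    have e2 := hτ' ⟨_, hA s s.2 a ha⟩ ⟨_, hA _ (cj s).2 b hb⟩
    have e3 : t ((cj s : MulAut E) b) = (s : MulAut E) (t b) := by simp [hcj']
    simp only [e3] at e1 e2
    rw [map_mul (s : MulAut E), e1, e2, hφ₀, ← Matrix.mul_kronecker_mul, ← Matrix.mul_kronecker_mul,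
      h1 s ⟨a, ha⟩ ⟨_, hA s s.2 a ha⟩ rfl, h1 (cj s) ⟨b, hb⟩ ⟨_, hA _ (cj s).2 b hb⟩ rfl]
  have i2 : ∀ e, u * τ e = τ (t e) * u := by
    intro e
    obtain ⟨a, ha, b, hb, rfl⟩ := hg e
    have e1 := hτ' ⟨a, ha⟩ ⟨b, hb⟩
    have e2 := hτ' ⟨_, hA _ htt b hb⟩ ⟨a, ha⟩
    have e3 : t (a * t b) = (t * t) b * t a := by
      rw [map_mul, hc _ (hA _ htt b hb) a ha]; rfl
    simp only at e1 e2
    rw [e3, e1, e2]
    simp only [u]
    rw [mul_assoc, sw_mul, ← mul_assoc, ← mul_assoc, ← Matrix.mul_kronecker_mul,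
      ← Matrix.mul_kronecker_mul, h1 ⟨_, htt⟩ ⟨b, hb⟩ ⟨_, hA _ htt b hb⟩ rfl, one_mul, mul_one]
  refine ⟨ι × ι, inferInstance, inferInstance, τ, ψ, m, fun x e => ?_⟩
  rcases hψ x with ⟨s, hs, hx⟩ | ⟨s, hs, hx⟩
  · rw [hx, hs, i1]
  · rw [hx, hs, mul_assoc, i2, ← mul_assoc, i1, mul_assoc, MulAut.mul_apply]

end H05.Dd
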