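import Cfsg.Agent.H05.Dd4
import Cfsg.Agent.H01.Generation
import Cfsg.Agent.H04.Basic

/-! Dade's extension theorem, part 5: orthogonal decompositions of extraspecial-like groups. -/

open H05 Cfsg

namespace H05.Dd

universe u

variable {E : Type u} [Group E] {z : E}

open Classical in
/-- The commutator sign. -/
noncomputable def sg (e f : E) : ℤ := if e * f = f * e then 1 else -1

theorem sg_comm (e f : E) : sg e f = sg f e := by
  unfold sg
  by_cases h : e * f = f * e
  · rw [if_pos h, if_pos h.symm]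
  · rw [if_neg h, if_neg (Ne.symm h)]

theorem sg_mul (h : XS z) (e f g : E) : sg e (f * g) = sg e f * sg e g := by
  unfold sg
  by_cases h1 : e * f = f * e <;> by_cases h2 : e * g = g * e
  · rw [if_pos h1, if_pos h2, if_pos (by rw [← mul_assoc, h1, mul_assoc, h2, mul_assoc])]; rfl
  · rw [if_pos h1, if_neg h2, if_neg]; · rfl
    intro h3
    rw [← mul_assoc, h1, mul_assoc, mul_assoc] at h3
    exact h2 (mul_left_cancel h3)
  · rw [if_neg h1, if_pos h2, if_neg]; · rfl
    intro h3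
    rw [mul_assoc, ← h2, ← mul_assoc, ← mul_assoc] at h3
    exact h1 (mul_right_cancel h3)
  · rw [if_neg h1, if_neg h2, if_pos]; · rfl
    have h3 := (h.comm e f).resolve_left h1
    have h4 := (h.comm e g).resolve_left h2
    calc e * (f * g) = z * (f * (e * g)) := by rw [← mul_assoc, h3]; simp only [mul_assoc]
      _ = z * (f * z) * (g * e) := by rw [h4]; simp only [mul_assoc]
      _ = f * g * e := by rw [← h.cen f, ← mul_assoc z z, h.sq, one_mul, mul_assoc]

theorem sum_sg (h : XS z) (A : Subgroup E) [Fintype A] {g : E} (hg : ¬ ∀ a ∈ A, g * a = a * g) :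
    ∑ a : A, sg g a = 0 := by
  let f : A →* ℤ :=
    { toFun := fun a => sg g a
      map_one' := by simp [sg]
      map_mul' := fun a b => sg_mul h g a b }
  refine sum_hom_units_eq_zero f fun hf => hg fun a ha => ?_
  have h1 : sg g a = 1 := DFunLike.congr_fun hf ⟨a, ha⟩
  by_contra h2
  simp [sg, h2] at h1

/-- `E` is the product of `A` and its centraliser. -/
def Split (A : Subgroup E) : Prop := ∀ e, ∃ a ∈ A, ∃ c, (∀ x ∈ A, x * c = c * x) ∧ e = a * c

theorem split_of_nd [Finite E] (h : XS z) {A : Subgroup E} (hz : z ∈ A)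
    (nd : ∀ a ∈ A, (∀ x ∈ A, a * x = x * a) → a = 1 ∨ a = z) : Split A := by
  classical
  have := Fintype.ofFinite A
  intro e
  by_contra hc
  have h1 : ∑ a' : A, ∑ a : A, sg ((a' : E) * e) a = 0 := by
    refine Finset.sum_eq_zero fun a' _ => sum_sg h A fun h2 => hc ?_
    exact ⟨(a' : E)⁻¹, A.inv_mem a'.2, a' * e, fun x hx => (h2 x hx).symm, by simp⟩
  have h2 : ∀ a' a : A, sg ((a' : E) * e) a = sg (a : E) a' * sg (a : E) e := fun a' a => by
    rw [sg_comm, sg_mul h]
  simp only [h2] at h1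
  rw [Finset.sum_comm, Fintype.sum_eq_add (1 : A) ⟨z, hz⟩
    (fun hh => h.ne (congrArg Subtype.val hh).symm)] at h1
  · simp only [sg, OneMemClass.coe_one, one_mul, mul_one, if_true, h.cen, Finset.sum_const,
      Finset.card_univ] at h1
    have := Fintype.card_pos (α := A)
    simp only [nsmul_eq_mul, mul_one] at h1
    omega
  · rintro a ⟨ha1, ha2⟩
    rw [← Finset.sum_mul, sum_sg h A, zero_mul]
    intro h3
    rcases nd a a.2 h3 with h4 | h4
    · exact ha1 (Subtype.ext h4)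
    · exact ha2 (Subtype.ext h4)

theorem Split.nd (h : XS z) {A : Subgroup E} (hA : Split A) :
    ∀ a ∈ A, (∀ x ∈ A, a * x = x * a) → a = 1 ∨ a = z := by
  intro a ha h1
  refine h.nd a fun e => ?_
  obtain ⟨x, hx, c, hc, rfl⟩ := hA e
  rw [← mul_assoc, h1 x hx, mul_assoc, hc a ha, mul_assoc]

theorem Split.map {A : Subgroup E} (hA : Split A) (s : MulAut E) : Split (A.map s.toMonoidHom) := by
  intro e
  obtain ⟨a, ha, c, hc, he⟩ := hA (s⁻¹ e)
  refine ⟨s a, ⟨a, ha, rfl⟩, s c, ?_, ?_⟩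
  · rintro _ ⟨x, hx, rfl⟩
    simpa using congrArg s (hc x hx)
  · rw [← map_mul, ← he, MulAut.apply_inv_self]

theorem Split.sup {A B : Subgroup E} (hA : Split A) (hB : Split B)
    (hc : ∀ a ∈ A, ∀ b ∈ B, a * b = b * a) : Split (A ⊔ B) := by
  intro e
  obtain ⟨a, ha, c, hc1, rfl⟩ := hA e
  obtain ⟨b, hb, d, hd, rfl⟩ := hB c
  refine ⟨a * b, mul_mem (Subgroup.mem_sup_left ha) (Subgroup.mem_sup_right hb), d, ?_,
    (mul_assoc _ _ _).symm⟩
  have : A ⊔ B ≤ Subgroup.centralizer {d} := by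
    refine sup_le (fun x hx => ?_) (fun x hx => ?_) <;> rw [Subgroup.mem_centralizer_singleton_iff]
    · have h1 := hc1 x hx
      rw [← mul_assoc, hc x hx b hb, mul_assoc, mul_assoc] at h1
      exact mul_left_cancel h1
    · exact hd x hx
  exact fun x hx => Subgroup.mem_centralizer_singleton_iff.1 (this hx)

theorem split_iSup {ι : Type*} [Finite ι] (F : ι → Subgroup E) (hs : ∀ i, Split (F i))
    (hc : ∀ i j, F i ≤ F j ∨ ∀ a ∈ F i, ∀ b ∈ F j, a * b = b * a) : Split (⨆ i, F i) := by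
  classical
  have := Fintype.ofFinite ι
  have key : ∀ s : Finset ι, Split (s.sup F) := by
    intro s
    induction s using Finset.induction_on with
    | empty => intro e; exact ⟨1, one_mem _, e, fun x hx => by
        rw [Finset.sup_empty, Subgroup.mem_bot] at hx; simp [hx], by simp⟩
    | insert i s _ ih =>
      rw [Finset.sup_insert]
      by_cases h1 : ∃ j ∈ s, F i ≤ F j
      · obtain ⟨j, hj, h1⟩ := h1
        rwa [sup_eq_right.2 (h1.trans (Finset.le_sup hj))]
      · refine (hs i).sup ih fun a ha b hb => ?_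
        have : s.sup F ≤ Subgroup.centralizer {a} := Finset.sup_le fun j hj x hx =>
          Subgroup.mem_centralizer_singleton_iff.2
            ((hc i j).resolve_left (fun h2 => h1 ⟨j, hj, h2⟩) a ha x hx).symm
        exact (Subgroup.mem_centralizer_singleton_iff.1 (this hb)).symm
  rw [← Finset.sup_univ_eq_iSup]
  exact key _

theorem comm_of_fixed [Finite E] (h : XS z) {r : ℕ} (hr : r.Prime) (hr2 : Odd r)
    {Q : Subgroup (MulAut E)} (hQ : IsPGroup r Q) {A : Subgroup E} (hA : ∀ q ∈ Q, ∀ a ∈ A, q a ∈ A)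
    {y : E} (hy : ∀ q ∈ Q, q y = y)
    (hf : ∀ a ∈ A, (∀ q ∈ Q, q a = a) → a * y = y * a) : ∀ a ∈ A, a * y = y * a := by
  haveI : Fact r.Prime := ⟨hr⟩
  intro a₀ ha₀
  by_contra h0
  let X : SubMulAction Q E :=
    { carrier := {a | a ∈ A ∧ ¬ a * y = y * a}
      smul_mem' := by
        rintro q a ⟨ha1, ha2⟩
        refine ⟨hA q q.2 a ha1, fun h1 => ha2 ?_⟩
        apply (q : MulAut E).injective
        rw [map_mul, map_mul, hy q q.2]
        exact h1 }
  have hsg : ∀ a, sg y a = -1 ↔ ¬ a * y = y * a := fun a => by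
    unfold sg; split_ifs with h1
    · simp [h1]
    · simp [Ne.symm h1]
  have hsg1 : ∀ a, sg y a = 1 ↔ a * y = y * a := fun a => by
    unfold sg; split_ifs with h1
    · simp [h1]
    · simp [Ne.symm h1]
  have hc : Nat.card (A ⊓ Subgroup.centralizer {y} : Subgroup E) = Nat.card X := by
    refine Nat.card_eq_of_bijective (fun d => ⟨a₀ * d, A.mul_mem ha₀ d.2.1, ?_⟩) ⟨?_, ?_⟩
    · rw [← hsg, sg_mul h, (hsg _).2 h0,
        (hsg1 _).2 (Subgroup.mem_centralizer_singleton_iff.1 d.2.2), mul_one]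
    · intro d d' hd
      exact Subtype.ext (mul_left_cancel (congrArg Subtype.val hd))
    · rintro ⟨x, hx1, hx2⟩
      refine ⟨⟨a₀⁻¹ * x, A.mul_mem (A.inv_mem ha₀) hx1, ?_⟩, Subtype.ext (by simp)⟩
      refine Subgroup.mem_centralizer_singleton_iff.2 ((hsg1 _).1 ?_)
      have h1 := sg_mul h y a₀ (a₀⁻¹ * x)
      rw [mul_inv_cancel_left, (hsg _).2 hx2, (hsg _).2 h0] at h1
      omega
  have hnd : ¬ r ∣ Nat.card X := by
    rw [← hc]
    intro h1
    obtain ⟨k, hk⟩ := IsPGroup.iff_card.1 h.pgroup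
    have h2 := h1.trans (Subgroup.card_subgroup_dvd_card _)
    rw [hk] at h2
    have := (Nat.prime_dvd_prime_iff_eq hr Nat.prime_two).1 (hr.dvd_of_dvd_pow h2)
    rw [this] at hr2
    exact absurd hr2 (by decide)
  obtain ⟨x, hx⟩ := hQ.nonempty_fixed_point_of_prime_not_dvd_card X hnd
  exact x.2.2 (hf x x.2.1 fun q hq => congrArg Subtype.val (hx ⟨q, hq⟩))

/-- Fixed points. -/
def Fx (Q : Subgroup (MulAut E)) : Subgroup E where
  carrier := {e | ∀ q ∈ Q, q e = e}
  one_mem' := fun q _ => map_one q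
  mul_mem' := fun ha hb q hq => by rw [map_mul, ha q hq, hb q hq]
  inv_mem' := fun ha q hq => by rw [map_inv, ha q hq]

theorem split_fx [Finite E] (h : XS z) {r : ℕ} (hr : r.Prime) (hr2 : Odd r)
    {Q : Subgroup (MulAut E)} (hQ : IsPGroup r Q) : Split (Fx Q) := by
  refine split_of_nd h (fun q _ => h.fix q) fun y hy h1 => h.nd y fun f => ?_
  exact (comm_of_fixed h hr hr2 hQ (A := ⊤) (fun _ _ _ _ => trivial) hy
    (fun a _ ha => (h1 a ha).symm) f trivial).symm

theorem fx_inv {Q : Subgroup (MulAut E)} {t : MulAut E} (ht : ∀ q ∈ Q, t⁻¹ * q * t ∈ Q) :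
    ∀ a ∈ Fx Q, t a ∈ Fx Q := by
  intro a ha q hq
  have := congrArg t (ha _ (ht q hq))
  simpa using this

theorem isCyclic_of_fpf [Finite E] (h : XS z) {M : Subgroup (MulAut E)} [IsMulCommutative M]
    (hM : Odd (Nat.card M)) (hf : ∀ m ∈ M, m ≠ 1 → ∀ e, m e = e → e = 1 ∨ e = z) {x : E}
    (hx1 : x ≠ 1) (hx2 : x ≠ z) : IsCyclic M := by
  by_contra hc
  let G := SemidirectProduct E M M.subtype
  haveI : Finite G := Finite.of_equiv _ SemidirectProduct.equivProd.symm
  let i : E →* G := SemidirectProduct.inl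
  let j : M →* G := SemidirectProduct.inr
  have hi : Function.Injective i := SemidirectProduct.inl_injective
  have hj : Function.Injective j := SemidirectProduct.inr_injective
  haveI : IsMulCommutative j.range := ⟨⟨by
    rintro ⟨_, a, rfl⟩ ⟨_, b, rfl⟩
    exact Subtype.ext (by
      show j a * j b = j b * j a
      rw [← map_mul, ← map_mul, IsMulCommutative.is_comm.comm a b])⟩⟩
  haveI : i.range.Normal := by
    rw [show i.range = _ from SemidirectProduct.range_inl_eq_ker_rightHom]; infer_instance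
  have key := H01.le_of_centralizer_le_of_not_isCyclic (A := j.range) (K := i.range)
    (L := (Subgroup.zpowers z).map i)
    (fun h1 => hc (isCyclic_of_injective (MonoidHom.ofInjective hj).toMonoidHom
      (MulEquiv.injective _)))
    (by rw [Subgroup.normalizer_eq_top]; exact le_top)
    (by
      rw [← Nat.card_congr (MonoidHom.ofInjective hj).toEquiv,
        ← Nat.card_congr (MonoidHom.ofInjective hi).toEquiv]
      obtain ⟨k, hk⟩ := IsPGroup.iff_card.1 h.pgroup
      rw [hk]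
      exact Nat.Coprime.pow_right k (Nat.coprime_two_right.2 hM))
    (by
      rintro _ ⟨m, rfl⟩ hm _ ⟨⟨e, rfl⟩, he⟩
      have h1 : i e * j m = j m * i e := Subgroup.mem_centralizer_singleton_iff.1 he
      have h2 : (m : MulAut E) e = e := by
        apply hi
        have h3 : i ((m : MulAut E) e) = j m * i e * j m⁻¹ := SemidirectProduct.inl_aut m e
        rw [h3, ← h1, map_inv, mul_inv_cancel_right]
      rcases hf m m.2 (fun h4 => hm (by rw [show m = 1 from Subtype.ext h4, map_one])) e h2 with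
        h4 | h4
      · rw [h4, map_one]; exact one_mem _
      · rw [h4]; exact ⟨z, Subgroup.mem_zpowers z, rfl⟩)
  obtain ⟨y, ⟨k, rfl⟩, hy⟩ := key ⟨x, rfl⟩
  have h1 : z ^ k = x := hi hy
  rcases h.nd x (fun f => by rw [← h1]; exact (Commute.zpow_left (h.cen f) k)) with h2 | h2
  · exact hx1 h2
  · exact hx2 h2

/-- Automorphisms stabilising a subgroup. -/
def Stab (A : Subgroup E) : Subgroup (MulAut E) where
  carrier := {x | ∀ a, a ∈ A ↔ x a ∈ A}
  one_mem' := fun _ => Iff.rfl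
  mul_mem' := fun {x y} hx hy a => (hy a).trans (hx (y a))
  inv_mem' := fun {x} hx a => by rw [hx (x⁻¹ a), MulAut.apply_inv_self]

theorem le_stab {A : Subgroup E} {T : Subgroup (MulAut E)} (h : ∀ t ∈ T, ∀ a ∈ A, t a ∈ A) :
    T ≤ Stab A := fun t ht a =>
  ⟨h t ht a, fun h1 => by simpa using h _ (T.inv_mem ht) _ h1⟩

/-- Restriction of automorphisms. -/
def res (A : Subgroup E) : Stab A →* MulAut A where
  toFun x :=
    { toFun := fun a => ⟨(x : MulAut E) a, (x.2 a).1 a.2⟩
      invFun := fun a => ⟨(x : MulAut E)⁻¹ a, ((x⁻¹).2 a).1 a.2⟩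
      left_inv := fun a => Subtype.ext (by simp)
      right_inv := fun a => Subtype.ext (by simp)
      map_mul' := fun a b => Subtype.ext (by simp) }
  map_one' := rfl
  map_mul' _ _ := rfl

theorem res_apply {A : Subgroup E} (x : Stab A) (a : A) : (res A x a : E) = (x : MulAut E) a := rfl

/-- The statement for groups of order less than `n`. -/
def IH (n : ℕ) : Prop := ∀ (E : Type u) [Group E] [Finite E] (z : E), XS z → Nat.card E < n →
  ∀ T K : Subgroup (MulAut E), IsPGroup 2 T → Odd (Nat.card K) →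
    (∀ t ∈ T, ∀ k ∈ K, t * k * t⁻¹ ∈ K) → (∀ e, (∀ k ∈ K, k e = e) → e = 1 ∨ e = z) → Ext z T

theorem extS_of_IH [Finite E] (ih : IH.{u} (Nat.card E)) (h : XS z) {A : Subgroup E} (hz : z ∈ A)
    (hA : A ≠ ⊤) (nd : ∀ a ∈ A, (∀ x ∈ A, a * x = x * a) → a = 1 ∨ a = z)
    {T K : Subgroup (MulAut E)} (hT : IsPGroup 2 T) (hK : Odd (Nat.card K))
    (hn : ∀ t ∈ T, ∀ k ∈ K, t * k * t⁻¹ ∈ K) (hf : ∀ e, (∀ k ∈ K, k e = e) → e = 1 ∨ e = z)
    (hTA : ∀ t ∈ T, ∀ a ∈ A, t a ∈ A) (hKA : ∀ t ∈ K, ∀ a ∈ A, t a ∈ A) : ExtS z A T := by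
  have h' : XS (⟨z, hz⟩ : A) :=
    ⟨fun hh => h.ne (congrArg Subtype.val hh), Subtype.ext h.sq, fun e => Subtype.ext (h.cen e),
      fun e f => (h.comm e f).imp Subtype.ext Subtype.ext,
      fun e he => (nd e e.2 fun x hx => congrArg Subtype.val (he ⟨x, hx⟩)).imp
        Subtype.ext Subtype.ext⟩
  have hlt : Nat.card A < Nat.card E := by
    have := A.card_le_card_group
    rcases this.lt_or_eq with h1 | h1
    · exact h1
    · exact absurd ((Subgroup.card_eq_iff_eq_top A).1 h1) hA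
  obtain ⟨ι, _, _, ρ, φ, m, h1⟩ := ih A _ h' hlt ((T.subgroupOf (Stab A)).map (res A))
    ((K.subgroupOf (Stab A)).map (res A)) (hT.comap_subtype.map _)
    (Odd.of_dvd_nat hK ((Subgroup.card_map_dvd _ _).trans
      (Subgroup.card_comap_dvd_of_injective K _ (Stab A).subtype_injective)))
    (by
      rintro _ ⟨t, ht, rfl⟩ _ ⟨k, hk, rfl⟩
      exact ⟨t * k * t⁻¹, hn _ ht _ hk, by simp⟩)
    (fun e he => (hf e fun k hk => congrArg Subtype.val
      (he _ ⟨⟨k, le_stab hKA hk⟩, hk, rfl⟩)).imp Subtype.ext Subtype.ext)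
  let f : T →* (T.subgroupOf (Stab A)).map (res A) :=
    ((res A).comp (Subgroup.inclusion (le_stab hTA))).codRestrict _
      (fun t => ⟨Subgroup.inclusion (le_stab hTA) t, t.2, rfl⟩)
  refine ⟨ι, inferInstance, inferInstance, ρ, φ.comp f, fun a ha => ?_, m.dim, fun t a a' ha => ?_⟩
  · rw [show a = ⟨z, hz⟩ from Subtype.ext ha, m.neg]
  · rw [show a' = (f t : MulAut A) a from Subtype.ext ha]
    exact h1 (f t) a

theorem split_step [Finite E] (ih : IH.{u} (Nat.card E)) (h : XS z) {A : Subgroup E} (hz : z ∈ A)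
    (hA : A ≠ ⊤) (hs : Split A) {x : E} (hx : x ∈ A) (hx1 : x ≠ 1) (hx2 : x ≠ z)
    {T K : Subgroup (MulAut E)} (hT : IsPGroup 2 T) (hK : Odd (Nat.card K))
    (hn : ∀ t ∈ T, ∀ k ∈ K, t * k * t⁻¹ ∈ K) (hf : ∀ e, (∀ k ∈ K, k e = e) → e = 1 ∨ e = z)
    (hTA : ∀ t ∈ T, ∀ a ∈ A, t a ∈ A) (hKA : ∀ t ∈ K, ∀ a ∈ A, t a ∈ A) : Ext z T := by
  have hinv : ∀ S : Subgroup (MulAut E), (∀ t ∈ S, ∀ a ∈ A, t a ∈ A) →
      ∀ t ∈ S, ∀ b ∈ Subgroup.centralizer (A : Set E), t b ∈ Subgroup.centralizer (A : Set E) := by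
    intro S hS t ht b hb a ha
    have := congrArg t (hb _ (hS _ (S.inv_mem ht) a ha))
    simpa using this
  have hzB : z ∈ Subgroup.centralizer (A : Set E) := fun a _ => (h.cen a).symm
  refine ext_prod h hz hzB (fun a ha b hb => hb a ha) (fun e => ?_) hTA (hinv T hTA)
    (extS_of_IH ih h hz hA (hs.nd h) hT hK hn hf hTA hKA)
    (extS_of_IH ih h hzB (fun h1 => ?_) (fun b hb h1 => h.nd b fun e => ?_) hT hK hn hf
      (hinv T hTA) (hinv K hKA))
  · obtain ⟨a, ha, c, hc, rfl⟩ := hs e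
    exact ⟨a, ha, c, hc, rfl⟩
  · rcases h.nd x (fun f => (h1 ▸ Subgroup.mem_top f : f ∈ Subgroup.centralizer (A : Set E)) x hx)
      with h2 | h2
    · exact hx1 h2
    · exact hx2 h2
  · obtain ⟨a, ha, c, hc, rfl⟩ := hs e
    rw [← mul_assoc, ← hb a ha, mul_assoc, h1 c hc, mul_assoc]

end H05.Dd
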