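import Cfsg.Agent.H05.Dd5
import Cfsg.Agent.S0205

/-! Dade's extension theorem, part 6: the induction. -/

open H05 Cfsg

namespace H05.Dd

universe u

variable {E : Type u} [Group E] {z : E}

/-- The subgroup generated by the images of `F` under `U`. -/
def Jn (F : Subgroup E) (U : Subgroup (MulAut E)) : Subgroup E :=
  ⨆ s : U, F.map (s : MulAut E).toMonoidHom

theorem mem_jn {F : Subgroup E} {U : Subgroup (MulAut E)} {s : MulAut E} (hs : s ∈ U) {a : E}
    (ha : a ∈ F) : s a ∈ Jn F U :=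
  (le_iSup (fun s : U => F.map (s : MulAut E).toMonoidHom) ⟨s, hs⟩) ⟨a, ha, rfl⟩

theorem jn_le {F L : Subgroup E} {U : Subgroup (MulAut E)} (h : ∀ s ∈ U, ∀ a ∈ F, s a ∈ L) :
    Jn F U ≤ L := iSup_le fun s => by
  rintro _ ⟨a, ha, rfl⟩
  exact h s s.2 a ha

theorem jn_inv {F : Subgroup E} {U : Subgroup (MulAut E)} {g : MulAut E}
    (h : ∀ s ∈ U, ∀ a ∈ F, g (s a) ∈ Jn F U) : ∀ a ∈ Jn F U, g a ∈ Jn F U :=
  fun _ ha => jn_le (L := (Jn F U).comap g.toMonoidHom) h ha

theorem elem_step [Finite E] (ih : IH.{u} (Nat.card E)) (h : XS z) {T M : Subgroup (MulAut E)}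
    {r : ℕ} (hr : r.Prime) (hr2 : Odd r) (hT : IsPGroup 2 T) (hMo : Odd (Nat.card M))
    (hMc : ∀ a ∈ M, ∀ b ∈ M, a * b = b * a) (hMr : ∀ m ∈ M, m ^ r = 1)
    (hn : ∀ t ∈ T, ∀ k ∈ M, t * k * t⁻¹ ∈ M) (hf : ∀ e, (∀ k ∈ M, k e = e) → e = 1 ∨ e = z)
    (hE : ∃ e : E, e ≠ 1 ∧ e ≠ z) : Ext z T := by
  haveI : Fact r.Prime := ⟨hr⟩
  haveI : Fact (Nat.Prime 2) := ⟨Nat.prime_two⟩
  have hMp : IsPGroup r M := fun m => ⟨1, Subtype.ext (by simpa using hMr m m.2)⟩
  obtain ⟨x, ⟨hx1, hx2⟩, hxm⟩ := Set.exists_max_image {e : E | e ≠ 1 ∧ e ≠ z}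
    (fun e => Nat.card (M ⊓ MulAction.stabilizer (MulAut E) e : Subgroup (MulAut E)))
    (Set.toFinite _) hE
  set B := M ⊓ MulAction.stabilizer (MulAut E) x with hB
  have hBM : B ≤ M := inf_le_left
  set F := Fx B with hF
  have hxF : x ∈ F := fun q hq => hq.2
  have hzF : z ∈ F := fun q _ => h.fix q
  have hsF : Split F := split_fx h hr hr2 (hMp.to_le hBM)
  have hFM : ∀ m ∈ M, ∀ a ∈ F, m a ∈ F := fun m hm => fx_inv fun q hq => by
    rw [mul_assoc, hMc q (hBM hq) m hm, inv_mul_cancel_left]; exact hq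
  have hmax : ∀ y ∈ F, ∀ m ∈ M, m ∉ B → m y = y → y = 1 ∨ y = z := by
    intro y hy m hm hmB hmy
    by_contra hc
    push Not at hc
    have h1 : B ≤ M ⊓ MulAction.stabilizer (MulAut E) y := fun q hq => ⟨hBM hq, hy q hq⟩
    have h2 := Subgroup.eq_of_le_of_card_ge h1 (hxm y hc)
    exact hmB (h2 ▸ ⟨hm, hmy⟩)
  by_cases hTB : ∀ t ∈ T, ∀ b ∈ B, t * b * t⁻¹ ∈ B
  · have hFT : ∀ t ∈ T, ∀ a ∈ F, t a ∈ F := fun t ht => fx_inv fun q hq => by
      simpa using hTB _ (T.inv_mem ht) q hq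
    by_cases hF1 : F = ⊤
    swap
    · exact split_step ih h hzF hF1 hsF hxF hx1 hx2 hT hMo hn hf hFT hFM
    have hfp : ∀ m ∈ M, m ≠ 1 → ∀ e, m e = e → e = 1 ∨ e = z := by
      intro m hm hm1 e he
      refine hmax e (hF1 ▸ Subgroup.mem_top e) m hm (fun hb => hm1 ?_) he
      ext y
      exact (hF1 ▸ Subgroup.mem_top y : y ∈ F) m hb
    haveI : IsMulCommutative M := ⟨⟨fun a b => Subtype.ext (hMc a a.2 b b.2)⟩⟩
    haveI := isCyclic_of_fpf h hMo hfp hx1 hx2
    obtain ⟨c, hc⟩ := IsCyclic.exists_generator (α := M)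
    have hc' : ∀ m ∈ M, m ∈ Subgroup.zpowers (c : MulAut E) := fun m hm => by
      obtain ⟨k, hk⟩ := hc ⟨m, hm⟩
      exact ⟨k, congrArg Subtype.val hk⟩
    have hc1 : (c : MulAut E) ≠ 1 := by
      intro h1
      rcases hf x (fun k hk => by
        have := hc' k hk
        rw [h1, Subgroup.zpowers_one_eq_bot, Subgroup.mem_bot] at this
        rw [this]; rfl) with h2 | h2
      · exact hx1 h2
      · exact hx2 h2
    refine caseC h T c hr hr2 hT (orderOf_eq_prime (hMr c c.2) hc1)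
      (fun t ht => hc' _ (hn t ht c c.2)) fun e he => ?_
    refine hfp ((c : MulAut E) ^ 2) (M.pow_mem c.2 2) (fun h1 => hc1 ?_) e ?_
    · have := pow_gcd_eq_one.2 ⟨h1, hMr c c.2⟩
      rwa [Nat.coprime_two_left.2 hr2, pow_one] at this
    · rw [pow_two, MulAut.mul_apply]
      rcases he with h1 | h1
      · rw [h1, h1]
      · rw [h1, map_mul, h.fix, h1, ← mul_assoc, h.sq, one_mul]
  · let TB : Subgroup T := (Subgroup.normalizer (B : Set (MulAut E))).subgroupOf T
    have hTB1 : TB ≠ ⊤ := by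
      intro h1
      refine hTB fun t ht b hb => ?_
      have : (⟨t, ht⟩ : T) ∈ TB := h1 ▸ Subgroup.mem_top _
      exact (Subgroup.mem_normalizer_iff.1 this b).1 hb
    obtain ⟨C, hC, hCB⟩ := (eq_top_or_exists_le_coatom TB).resolve_left hTB1
    have hC2 : C.index = 2 := H04.index_eq_of_isCoatom hT hC
    obtain ⟨t, ht⟩ : ∃ t, t ∉ C := by
      by_contra hc
      push Not at hc
      exact hC.1 (eq_top_iff.2 fun y _ => hc y)
    let T₀ : Subgroup (MulAut E) := C.map T.subtype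
    have hmem : ∀ s : T, (s : MulAut E) ∈ T₀ ↔ s ∈ C := fun s =>
      Subgroup.mem_map_iff_mem T.subtype_injective
    have hsub : T₀ ≤ T := Subgroup.map_subtype_le C
    have ht0 : (t : MulAut E) ∉ T₀ := fun h1 => ht ((hmem t).1 h1)
    have hidx : ∀ s ∈ T, s ∉ T₀ → s * (t : MulAut E)⁻¹ ∈ T₀ := by
      intro s hs hs0
      refine (hmem (⟨s, hs⟩ * t⁻¹)).2 ((Subgroup.mul_mem_iff_of_index_two hC2).2 ?_)
      exact iff_of_false (fun h1 => hs0 ((hmem ⟨s, hs⟩).2 h1)) (fun h1 => ht (by simpa using h1))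
    have K1 : ∀ g ∈ T, g ∉ Subgroup.normalizer (B : Set (MulAut E)) →
        ∀ a ∈ F, ∀ y ∈ F, a * g y = g y * a := by
      intro g hg hgn a ha y hy
      obtain ⟨b, hb, hb'⟩ : ∃ b ∈ B, g * b * g⁻¹ ∉ B := by
        by_contra hc
        push Not at hc
        exact hgn (Subgroup.mem_normalizer_fintype hc)
      have hbM : g * b * g⁻¹ ∈ M := hn g hg b (hBM hb)
      have hle : Subgroup.zpowers (g * b * g⁻¹) ≤ M := (Subgroup.zpowers_le).2 hbM
      refine comm_of_fixed h hr hr2 (hMp.to_le hle) (fun q hq => hFM q (hle hq)) (fun q hq => ?_)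
        (fun a' ha' h1 => ?_) a ha
      · have : Subgroup.zpowers (g * b * g⁻¹) ≤ MulAction.stabilizer (MulAut E) (g y) := by
          rw [Subgroup.zpowers_le]
          show (g * b * g⁻¹) (g y) = g y
          rw [MulAut.mul_apply, MulAut.inv_apply_self, MulAut.mul_apply, hy b hb]
        exact this hq
      · rcases hmax a' ha' _ hbM hb' (h1 _ (Subgroup.mem_zpowers _)) with h2 | h2
        · rw [h2, one_mul, mul_one]
        · rw [h2, h.cen]
    have K2 : ∀ g ∈ Subgroup.normalizer (B : Set (MulAut E)), ∀ a ∈ F, g a ∈ F :=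
      fun g hg => fx_inv fun q hq => by
        simpa using (Subgroup.mem_normalizer_iff.1 (Subgroup.inv_mem _ hg) q).1 hq
    have K3 : ∀ s ∈ T, ∀ s' ∈ T, s'⁻¹ * s ∉ Subgroup.normalizer (B : Set (MulAut E)) →
        ∀ a ∈ F, ∀ y ∈ F, s a * s' y = s' y * s a := by
      intro s hs s' hs' hss a ha y hy
      have := congrArg s' (K1 _ (T.mul_mem (T.inv_mem hs') hs) hss y hy a ha)
      simpa using this.symm
    have hsplit : ∀ U ≤ T, Split (Jn F U) := by
      intro U hU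
      refine split_iSup _ (fun s => hsF.map _) fun s s' => ?_
      by_cases hss : (s' : MulAut E)⁻¹ * s ∈ Subgroup.normalizer (B : Set (MulAut E))
      · left
        rintro _ ⟨a, ha, rfl⟩
        exact ⟨_, K2 _ hss a ha, by simp⟩
      · right
        rintro _ ⟨a, ha, rfl⟩ _ ⟨y, hy, rfl⟩
        exact K3 _ (hU s.2) _ (hU s'.2) hss a ha y hy
    have hJU : ∀ U : Subgroup (MulAut E), ∀ g ∈ U, ∀ a ∈ Jn F U, g a ∈ Jn F U :=
      fun U g hg => jn_inv fun s hs a ha => mem_jn (U.mul_mem hg hs) ha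
    have hJM : ∀ U ≤ T, ∀ g ∈ M, ∀ a ∈ Jn F U, g a ∈ Jn F U :=
      fun U hU g hg => jn_inv fun s hs a ha => by
        have := mem_jn hs (hFM _ (hn _ (T.inv_mem (hU hs)) g hg) a ha)
        simpa using this
    have hFJ : ∀ U : Subgroup (MulAut E), ∀ a ∈ F, a ∈ Jn F U := fun U a ha => mem_jn U.one_mem ha
    by_cases hD : Jn F T = ⊤
    swap
    · exact split_step ih h (hFJ T z hzF) hD (hsplit T le_rfl) (hFJ T x hxF) hx1 hx2 hT hMo hn hf
        (hJU T) (hJM T le_rfl)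
    have hcm : ∀ a ∈ Jn F T₀, ∀ b ∈ Jn F T₀, a * (t : MulAut E) b = (t : MulAut E) b * a := by
      intro a ha b hb
      have h1 : Jn F T₀ ≤ (Subgroup.centralizer {a}).comap (t : MulAut E).toMonoidHom := by
        refine jn_le fun s' hs' y hy => ?_
        have h2 : Jn F T₀ ≤ Subgroup.centralizer {(t : MulAut E) (s' y)} := by
          refine jn_le fun s hs a' ha' => Subgroup.mem_centralizer_singleton_iff.2 ?_
          refine K3 s (hsub hs) (t * s') (T.mul_mem t.2 (hsub hs')) (fun h3 => ht0 ?_) a' ha' y hy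
          have h4 : ((t : MulAut E) * s')⁻¹ * s ∈ T₀ :=
            (hmem ⟨_, T.mul_mem (T.inv_mem (T.mul_mem t.2 (hsub hs'))) (hsub hs)⟩).2 (hCB h3)
          have h5 := T₀.mul_mem (T₀.mul_mem hs (T₀.inv_mem h4)) (T₀.inv_mem hs')
          simpa using h5
        exact Subgroup.mem_centralizer_singleton_iff.2
          (Subgroup.mem_centralizer_singleton_iff.1 (h2 ha)).symm
      exact (Subgroup.mem_centralizer_singleton_iff.1 (h1 hb)).symm
    have hzA : z ∈ Jn F T₀ := hFJ T₀ z hzF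
    haveI : (Jn F T₀).Normal := ⟨fun a ha g => by
      rcases h.comm g a with h1 | h1
      · rwa [h1, mul_inv_cancel_right]
      · rw [h1, mul_assoc, mul_inv_cancel_right]; exact mul_mem hzA ha⟩
    refine ext_swap h hzA hsub t.2 ht0 hidx hcm (fun e => ?_) (hJU T₀)
      (extS_of_IH ih h hzA (fun h1 => ?_) ((hsplit T₀ hsub).nd h) (hT.to_le hsub) hMo
        (fun s hs => hn s (hsub hs)) hf (hJU T₀) (hJM T₀ hsub))
    · have h1 : Jn F T ≤ Jn F T₀ ⊔ (Jn F T₀).map (t : MulAut E).toMonoidHom := by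
        refine jn_le fun s hs a ha => ?_
        by_cases hs0 : s ∈ T₀
        · exact Subgroup.mem_sup_left (mem_jn hs0 ha)
        · have h2 : (t : MulAut E)⁻¹ * s ∈ T₀ := by
            refine (hmem (t⁻¹ * ⟨s, hs⟩)).2 ((Subgroup.mul_mem_iff_of_index_two hC2).2 ?_)
            exact iff_of_false (fun h1 => ht (by simpa using h1))
              (fun h1 => hs0 ((hmem ⟨s, hs⟩).2 h1))
          exact Subgroup.mem_sup_right ⟨_, mem_jn h2 ha, by simp⟩
      obtain ⟨a, ha, _, ⟨b, hb, rfl⟩, he⟩ :=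
        Subgroup.mem_sup_of_normal_left.1 (h1 (hD ▸ Subgroup.mem_top e))
      exact ⟨a, ha, b, hb, he.symm⟩
    · rcases h.nd ((t : MulAut E) x) (fun f =>
        (hcm f (h1 ▸ Subgroup.mem_top f) x (hFJ T₀ x hxF)).symm) with h2 | h2
      · exact hx1 (by simpa using h2)
      · exact hx2 ((t : MulAut E).injective (h2.trans (h.fix _).symm))

theorem main (n : ℕ) : IH.{u} n := by
  induction n with
  | zero => intro E _ _ z _ h; omega
  | succ n ihn =>
    intro E _ _ z h hn T K hT hK hTK hf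
    have ih : IH.{u} (Nat.card E) := fun E' _ _ z' h' hn' => ihn E' z' h' (by omega)
    by_cases hE : ∃ e : E, e ≠ 1 ∧ e ≠ z
    swap
    · obtain ⟨d, ρ, m⟩ := exists_md h
      refine ⟨_, inferInstance, inferInstance, ρ, 1, m, fun t e => ?_⟩
      have : (t : MulAut E) e = e := by
        by_cases h1 : e = 1
        · rw [h1, map_one]
        · by_cases h2 : e = z
          · rw [h2, h.fix]
          · exact absurd ⟨e, h1, h2⟩ hE
      rw [this, MonoidHom.one_apply, one_mul, mul_one]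
    obtain ⟨M, ⟨hMK, hM0, hMn⟩, hmin⟩ := exists_minimal_of_wellFoundedLT
      (fun M : Subgroup (MulAut E) => M ≤ K ∧ M ≠ ⊥ ∧
        ∀ g, g ∈ T ∨ g ∈ K → ∀ m ∈ M, g * m * g⁻¹ ∈ M)
      ⟨K, le_rfl, fun h0 => by
        obtain ⟨e, h1, h2⟩ := hE
        rcases hf e (fun k hk => by rw [h0, Subgroup.mem_bot] at hk; rw [hk]; rfl) with h3 | h3
        · exact h1 h3
        · exact h2 h3,
        fun g hg m hm => hg.elim (fun hg => hTK g hg m hm)
          (fun hg => K.mul_mem (K.mul_mem hg hm) (K.inv_mem hg))⟩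
    have hMo : Odd (Nat.card M) := Odd.of_dvd_nat hK (Subgroup.card_dvd_of_le hMK)
    have hMc : ∀ a ∈ M, ∀ b ∈ M, a * b = b * a := by
      haveI := Cfsg.Agent.S0205.result hMo
      haveI : Nontrivial M := (Subgroup.nontrivial_iff_ne_bot M).2 hM0
      have h1 : ⁅M, M⁆ = ⊥ := by
        by_contra h2
        have h3 : M ≤ ⁅M, M⁆ := hmin ⟨M.commutator_le_self.trans hMK, h2, fun g hg m hm => by
          have h4 : M.map (MulAut.conj g).toMonoidHom ≤ M := by
            rintro _ ⟨y, hy, rfl⟩; exact hMn g hg y hy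
          have h5 : (⁅M, M⁆ : Subgroup (MulAut E)).map (MulAut.conj g).toMonoidHom ≤ ⁅M, M⁆ := by
            rw [Subgroup.map_commutator]; exact Subgroup.commutator_mono h4 h4
          exact h5 ⟨m, hm, rfl⟩⟩ M.commutator_le_self
        apply (Group.IsSolvable.commutator_lt_top_of_nontrivial M).ne
        rw [eq_top_iff]
        intro y _
        have h6 := h3 y.2
        rw [← Subgroup.map_subtype_commutator] at h6
        exact (Subgroup.mem_map_iff_mem M.subtype_injective).1 h6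
      intro a ha b hb
      exact (Subgroup.commutator_eq_bot_iff_le_centralizer.1 h1 hb a ha)
    obtain ⟨r, hr, hrM⟩ := Nat.exists_prime_and_dvd
      (fun h1 => hM0 (Subgroup.card_eq_one.1 h1) : Nat.card M ≠ 1)
    haveI : Fact r.Prime := ⟨hr⟩
    have hr2 : Odd r := Odd.of_dvd_nat hMo hrM
    have hMr : ∀ m ∈ M, m ^ r = 1 := by
      obtain ⟨y, hy⟩ := exists_prime_orderOf_dvd_card' r hrM
      let Ω : Subgroup (MulAut E) :=
        { carrier := {m | m ∈ M ∧ m ^ r = 1}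
          one_mem' := ⟨M.one_mem, one_pow r⟩
          mul_mem' := fun {a b} ha hb => ⟨M.mul_mem ha.1 hb.1, by
            rw [Commute.mul_pow (hMc a ha.1 b hb.1), ha.2, hb.2, mul_one]⟩
          inv_mem' := fun {a} ha => ⟨M.inv_mem ha.1, by rw [inv_pow, ha.2, inv_one]⟩ }
      have h1 : M ≤ Ω := hmin ⟨fun m hm => hMK hm.1, fun h0 => by
          have h2 : (y : MulAut E) ∈ Ω :=
            ⟨y.2, by rw [← hy, ← Subgroup.coe_pow, pow_orderOf_eq_one]; rfl⟩
          rw [h0, Subgroup.mem_bot] at h2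
          rw [show y = 1 from Subtype.ext h2, orderOf_one] at hy
          exact hr.one_lt.ne hy,
        fun g hg m hm => ⟨hMn g hg m hm.1, by rw [conj_pow, hm.2, mul_one, mul_inv_cancel]⟩⟩
        (fun m hm => hm.1)
      exact fun m hm => (h1 hm).2
    have hMp : IsPGroup r M := fun m => ⟨1, Subtype.ext (by simpa using hMr m m.2)⟩
    by_cases hF : ∀ e, (∀ k ∈ M, k e = e) → e = 1 ∨ e = z
    · exact elem_step ih h hr hr2 hT hMo hMc hMr (fun t ht => hMn t (Or.inl ht)) hF hE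
    push Not at hF
    obtain ⟨x, hx, hx1, hx2⟩ := hF
    refine split_step ih h (A := Fx M) (fun q _ => h.fix q) (fun h1 => hM0 ?_)
      (split_fx h hr hr2 hMp) hx hx1 hx2 hT hK hTK hf
      (fun t ht => fx_inv fun q hq => by simpa using hMn _ (Or.inl (T.inv_mem ht)) q hq)
      (fun t ht => fx_inv fun q hq => by simpa using hMn _ (Or.inr (K.inv_mem ht)) q hq)
    rw [eq_bot_iff]
    intro m hm
    rw [Subgroup.mem_bot]
    ext y
    exact (h1 ▸ Subgroup.mem_top y : y ∈ Fx M) m hm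

end H05.Dd
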