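import Mathlib
import Cfsg.Agent.H05.Fc1
import Cfsg.Agent.H05.RepEquiv
import Cfsg.Agent.H07.Zass
import Cfsg.Agent.H08.Small
import Cfsg.Agent.L.PSL2Deg
import Cfsg.Agent.S0742

/-!
Recognition of `PSL₂(q)` from `H05.Fc.CC` and the order (`psl_of_cc`, `a5_of_cc`), degrees of `PSL₂(q)` for
`q ≡ 1 mod 4` (`deg_psl`), and transfer of degree counts (`exists_equiv`).
-/

set_option autoImplicit false
set_option linter.unusedSectionVars false

open H05 Cfsg MulAction
open scoped MatrixGroups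

namespace H05.Fc

variable {G : Type*} [Group G] [Finite G] {p : ℕ} [hp : Fact p.Prime]

theorem psl_of_cc {F : Type*} [Field F] [Fintype F] (h : CC p G) (P : Sylow p G)
    (hP : Nat.card P = Fintype.card F) (h4 : Fintype.card F % 4 = 1)
    (hG : 2 * Nat.card G = Fintype.card F * (Fintype.card F ^ 2 - 1)) : Nonempty (G ≃* PSL(2, F)) := by
  classical
  have h1 := Fintype.one_lt_card (α := F)
  obtain ⟨e, k, he, hn, hc⟩ := h.num P (by omega)
  rw [hP] at he hn hc
  generalize hq : Fintype.card F = q at *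
  obtain ⟨t, rfl⟩ : ∃ t, q = 4 * t + 1 := ⟨q / 4, by omega⟩
  have ht : 0 < t := by omega
  have e1 : (4 * t + 1) ^ 2 - 1 = 16 * t ^ 2 + 8 * t := by
    rw [show (4 * t + 1) ^ 2 = 16 * t ^ 2 + 8 * t + 1 by ring]; rfl
  rw [e1, hc] at hG
  have e2 : 2 * ((1 + (4 * t + 1) * k) * e) = 16 * t ^ 2 + 8 * t :=
    Nat.eq_of_mul_eq_mul_left (show 0 < 4 * t + 1 by omega) (by rw [← hG]; ring)
  have e3 : 4 * t + 1 ∣ 2 * e + 1 := by
    have : (4 * t + 1) * (2 * k * e) + (2 * e + 1) = (4 * t + 1) * (4 * t + 1) := by nlinarith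
    exact (Nat.dvd_add_right (dvd_mul_right _ _)).1 (this ▸ dvd_mul_right _ _)
  obtain ⟨m, hm⟩ := e3
  have hm1 : m = 1 := by
    rcases m with _ | _ | m
    · omega
    · rfl
    · exfalso; nlinarith [show e ≤ 4 * t by omega]
  have he2 : e = 2 * t := by rw [hm1] at hm; omega
  have hk : k = 1 := by
    rw [he2] at e2
    have : 4 * t * (4 * t + 1) * k = 4 * t * (4 * t + 1) * 1 := by nlinarith
    exact Nat.eq_of_mul_eq_mul_left (by positivity) this
  subst hk he2
  have hn' : Nat.card (Sylow p G) = Nat.card P + 1 := by omega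
  have hr : (2 * t + 1).minFac.Prime := Nat.minFac_prime (by omega)
  have hZ := h.zass P hn' Nat.prime_two hr (fun e => by
      have := Nat.minFac_dvd (2 * t + 1)
      rw [← e] at this; omega) (by omega)
    ((Nat.minFac_dvd _).trans ⟨2, by omega⟩) (by omega) (by rw [hP, hc]; nlinarith)
  have := Fintype.ofFinite (Sylow p G)
  obtain ⟨Q, hQ⟩ := H07.Zass.exists_ne hZ P
  have c1 := H07.Zass.card_stabilizer_mul hZ P
  have c2 := H07.Zass.card_two_mul hZ hQ
  rw [← Nat.card_eq_fintype_card, hn] at c1 c2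
  have c3 : Nat.card (stabilizer G P ⊓ stabilizer G Q : Subgroup G) = 2 * t := by
    rw [c2, hc, show 1 + (4 * t + 1) * 1 - 1 = 4 * t + 1 by omega] at c1
    refine Nat.eq_of_mul_eq_mul_left (show 0 < (4 * t + 1) * (1 + (4 * t + 1) * 1) by positivity) ?_
    linarith
  obtain ⟨r, f, K, _, _, -, -, hK, hΩ, ⟨φ⟩⟩ := Cfsg.Agent.S0742.result hZ hQ (by rw [c3]; exact even_two_mul t)
    (by rw [c3, ← Nat.card_eq_fintype_card, hn]; omega)
  rw [← Nat.card_eq_fintype_card, hn] at hΩ
  obtain ⟨ψ⟩ := H09.nonempty_psl_equiv_of_card_eq (ι := Fin 2) (F := K) (K := F) (by omega)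
  exact ⟨φ.trans ψ⟩

theorem a5_of_cc [Fact (Nat.Prime 2)] (h : CC 2 G) (hG : Nat.card G = 60) :
    Nonempty (G ≃* alternatingGroup (Fin 5)) := by
  classical
  obtain ⟨P⟩ : Nonempty (Sylow 2 G) := inferInstance
  have hP : Nat.card P = 4 := by
    rw [P.card_eq_multiplicity, hG, show 60 = 2 ^ 2 * 15 by norm_num,
      Nat.factorization_mul (by norm_num) (by norm_num), Nat.Prime.factorization_pow Nat.prime_two]
    simp [Nat.factorization_eq_zero_of_not_dvd]
  obtain ⟨e, k, he, hn, hc⟩ := h.num P (by omega)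
  rw [hP] at he hn hc
  rw [hG] at hc
  have hk : k = 1 := by
    have : e ≤ 3 := he
    interval_cases e <;> omega
  subst hk
  obtain ⟨x, hx, hx1⟩ := h.exists_ne_one P (by omega)
  have : Nontrivial (Sylow 2 G) := Finite.one_lt_card_iff_nontrivial.1 (by omega)
  obtain ⟨Q, hQ⟩ := exists_ne P
  have := h.faithful hQ hx hx1
  let ε : Sylow 2 G ≃ Fin 5 := Finite.equivFinOfCardEq hn
  let φ : G →* Equiv.Perm (Fin 5) := (ε.permCongrHom : _ →* _).comp (toPermHom G (Sylow 2 G))
  have hφ : Function.Injective φ := ε.permCongrHom.injective.comp toPerm_injective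
  have c1 : Nat.card φ.range = 60 := by rw [← hG]; exact (Nat.card_congr (MonoidHom.ofInjective hφ).toEquiv).symm
  have c2 := φ.range.index_mul_card
  rw [c1, Nat.card_perm, Nat.card_fin] at c2
  have c3 : φ.range = alternatingGroup (Fin 5) := Equiv.Perm.eq_alternatingGroup_of_index_eq_two (by
    simp [Nat.factorial] at c2; omega)
  exact ⟨(MonoidHom.ofInjective hφ).trans (MulEquiv.subgroupCongr c3)⟩

theorem exists_equiv {H : Type*} [Group H] [Finite H]
    (h : ∀ d : ℕ, Nat.card {χ : IrrCharacter G // (χ : G → ℂ) 1 = (d : ℂ)} =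
      Nat.card {χ : IrrCharacter H // (χ : H → ℂ) 1 = (d : ℂ)}) :
    ∃ e : IrrCharacter G ≃ IrrCharacter H, ∀ χ, charDegree (e χ : H → ℂ) = charDegree (χ : G → ℂ) := by
  have key : ∀ d : ℕ, Nonempty ({χ : IrrCharacter G // charDegree (χ : G → ℂ) = d} ≃
      {χ : IrrCharacter H // charDegree (χ : H → ℂ) = d}) := fun d => by
    rw [← Finite.card_eq]
    have a1 : ∀ χ : IrrCharacter G, charDegree (χ : G → ℂ) = d ↔ (χ : G → ℂ) 1 = d := fun χ => by
      rw [← χ.2.charDegree_eq, Nat.cast_inj]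
    have a2 : ∀ χ : IrrCharacter H, charDegree (χ : H → ℂ) = d ↔ (χ : H → ℂ) 1 = d := fun χ => by
      rw [← χ.2.charDegree_eq, Nat.cast_inj]
    simp only [a1, a2]
    exact h d
  exact ⟨Equiv.ofFiberEquiv fun d => (key d).some, fun χ =>
    Equiv.ofFiberEquiv_map (f := fun χ : IrrCharacter G => charDegree (χ : G → ℂ))
      (g := fun χ : IrrCharacter H => charDegree (χ : H → ℂ)) (fun d => (key d).some) χ⟩

theorem card_eq_of_equiv {H : Type*} [Group H] [Finite H] (e : IrrCharacter G ≃ IrrCharacter H)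
    (h : ∀ χ, charDegree (e χ : H → ℂ) = charDegree (χ : G → ℂ)) : Nat.card G = Nat.card H := by
  rw [← sum_charDegree_sq, ← sum_charDegree_sq]
  exact Fintype.sum_equiv e _ _ fun χ => by rw [h]

open L L.SLc in
theorem deg_psl {F : Type*} [Field F] [Fintype F] (h4 : Fintype.card F % 4 = 1 ∨ Fintype.card F = 4)
    (χ : IrrCharacter PSL(2, F)) : (χ : PSL(2, F) → ℂ) = 1 ∨ charDegree (χ : PSL(2, F) → ℂ) = Fintype.card F ∨
      charDegree (χ : PSL(2, F) → ℂ) = Fintype.card F + 1 ∨ charDegree (χ : PSL(2, F) → ℂ) = Fintype.card F - 1 ∨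
      (Odd (Fintype.card F) ∧ charDegree (χ : PSL(2, F) → ℂ) = (Fintype.card F + 1) / 2) := by
  classical
  have h1 := Fintype.one_lt_card (α := F)
  let π : SL2 F →* PSL(2, F) := QuotientGroup.mk' _
  have hπ : Function.Surjective π := QuotientGroup.mk'_surjective _
  have hχ := χ.2.comp_of_surjective π hπ
  obtain ⟨g₀, h₀⟩ := exists_noEig_SL (F := F)
  rcases irr_cases_deg h₀ hχ (d := charDegree (χ : PSL(2, F) → ℂ)) (by simp [χ.2.charDegree_eq]) with
    h | h | h | h | ⟨h1, h, -⟩ | ⟨⟨k, hk⟩, h, θ, χ', a1, a2, hh⟩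
  · left
    funext x
    obtain ⟨y, rfl⟩ := hπ x
    exact congrFun h.2 y
  · exact Or.inr (Or.inl h.1)
  · exact Or.inr (Or.inr (Or.inl h.1))
  · exact Or.inr (Or.inr (Or.inr (Or.inl h.1)))
  · exact Or.inr (Or.inr (Or.inr (Or.inr ⟨h1, h⟩)))
  · exfalso
    have hz : (-1 : SL2 F) ∈ C g₀ := by simp [Subgroup.mem_centralizer_singleton_iff]
    have e1 := hh.two_mul (Or.inl isScal_neg_one)
    have e2 := hh.deg
    rw [pi_scal h₀ _ (z := ⟨-1, hz⟩) isScal_neg_one] at e1
    rw [pi_one] at e2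
    have := isCyclic_C h₀
    have s2 := (order_two_char_apply (m := (Fintype.card F + 1) / 2) (by rw [card_C h₀]; omega) a1 a2
      ⟨-1, hz⟩).2 (fun e => by
        have e' : (-1 : SL2 F) ^ ((Fintype.card F + 1) / 2) = 1 := congrArg Subtype.val e
        rw [Odd.neg_one_pow (by rw [Nat.odd_iff]; omega)] at e'
        have e'' := congrArg (fun x : SL2 F => (x : M2 F) 0 0) e'
        simp at e''
        exact hh.two_ne_zero (by linear_combination -e''))
    have e3 : π (-1) = π 1 := by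
      rw [map_one]; exact (QuotientGroup.eq_one_iff _).2 neg_one_mem_center
    rw [s2] at e1
    simp only [Function.comp_apply, e3] at e1 e2
    have : ((Fintype.card F : ℂ)) = 1 := by
      simp only [Units.val_neg, Units.val_one] at e1
      linear_combination (1 / 2 : ℂ) * e1 - (1 / 2 : ℂ) * e2
    have : Fintype.card F = 1 := by exact_mod_cast this
    omega

end H05.Fc
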