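import Mathlib
import Cfsg.Agent.BG.Api4
import Cfsg.Agent.H02.FrobCompl
import Cfsg.Agent.H18.FC5
import Cfsg.Agent.H21.K3a
import Cfsg.Agent.H03.PResidual
import Cfsg.Agent.H04.Metacyclic

/-!
Solvable groups transitive on the nonzero vectors with `p`-group stabilizers (namespace `H05.Gag`).
* `comm_of_irr` : automorphisms commuting with an irreducible automorphism commute
* `npc_of` , `core` : normal `p`-complement and abelian Sylow `p`-subgroups
-/

set_option autoImplicit false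

open BG _root_.Cfsg
open scoped commutatorElement

namespace H05.Gag

theorem comm_of_irr {V : Type*} [Group V] (hV : IsMulCommutative V) {w a b : MulAut V}
    (h : ∀ W : Subgroup V, (∀ x ∈ W, w x ∈ W) → W = ⊥ ∨ W = ⊤) (ha : a * w = w * a) (hb : b * w = w * b) :
    a * b = b * a := by
  let _ : CommGroup V := { (inferInstance : Group V) with mul_comm := fun x y => mul_comm' x y }
  by_cases h0 : ∀ v : V, v = 1
  · exact MulEquiv.ext fun v => (h0 _).trans (h0 _).symm
  obtain ⟨v, hv⟩ := not_forall.1 h0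
  let S : (V →* V) → Prop := fun f => ∀ c : V →* V, (∀ x, c (w x) = w (c x)) → ∀ x, c (f x) = f (c x)
  let U : Subgroup V :=
    { carrier := {u | ∃ f, S f ∧ f v = u}
      one_mem' := ⟨1, fun c _ x => by simp, rfl⟩
      mul_mem' := by
        rintro _ _ ⟨f, hf, rfl⟩ ⟨g, hg, rfl⟩
        exact ⟨f * g, fun c hc x => by simp [hf c hc, hg c hc], rfl⟩
      inv_mem' := by
        rintro _ ⟨f, hf, rfl⟩
        exact ⟨f⁻¹, fun c hc x => by simp [hf c hc], rfl⟩ }
  have hU : U = ⊤ := (h U (by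
    rintro _ ⟨f, hf, rfl⟩
    exact ⟨(w : V →* V).comp f, fun c hc x => by simp [hc, hf c hc], rfl⟩)).resolve_left
      (ne_bot_of_mem (x := v) ⟨MonoidHom.id V, fun _ _ _ => rfl, rfl⟩ hv)
  obtain ⟨f, hf, e⟩ : a v ∈ U := hU ▸ trivial
  have ha' : ∀ x, a (w x) = w (a x) := fun x => DFunLike.congr_fun ha x
  have e2 : ∀ u, a u = f u := fun u => by
    obtain ⟨g, hg, rfl⟩ : u ∈ U := hU ▸ trivial
    have h1 := hg (a : V →* V) ha' v
    have h2 := hg f (fun x => (hf (w : V →* V) (fun _ => rfl) x).symm) v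
    rw [h2, e]
    exact h1
  refine MulEquiv.ext fun x => ?_
  rw [MulAut.mul_apply, MulAut.mul_apply, e2, e2]
  exact (hf (b : V →* V) (fun x => DFunLike.congr_fun hb x) x).symm

variable {X : Type*} [Group X] [Finite X] {p : ℕ} [hp : Fact p.Prime]

theorem npc_of {A B : Subgroup X} [A.Normal] [B.Normal] (hA : commutator X ≤ A) (hB : ¬ p ∣ B.index)
    (hc : ¬ p ∣ Nat.card ↥(A ⊓ B)) : HasNormalPComplement p X ∧ ∀ Q : Sylow p X, IsMulCommutative (Q : Subgroup X) := by
  refine ⟨H03.hasNPC_iff_mul_closed.2 fun x y hx hy => ?_, fun Q => abelian_iff_der.2 ?_⟩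
  · have : IsMulCommutative (X ⧸ A) := Subgroup.Normal.quotient_commutative_iff_commutator_le.2 hA
    have h1 : (x * y) ^ (orderOf x * orderOf y) ∈ A := by
      rw [← QuotientGroup.eq_one_iff, QuotientGroup.mk_pow, QuotientGroup.mk_mul,
        Commute.mul_pow (mul_comm' _ _), ← QuotientGroup.mk_pow, ← QuotientGroup.mk_pow, pow_mul, pow_orderOf_eq_one,
        pow_mul', pow_orderOf_eq_one]
      simp
    have h2 : (x * y) ^ (orderOf x * orderOf y * B.index) ∈ A ⊓ B :=
      ⟨pow_mul (x * y) _ _ ▸ pow_mem h1 _, pow_mul' (x * y) _ _ ▸ pow_mem (B.pow_index_mem _) _⟩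
    have h3 := orderOf_dvd_iff_pow_eq_one.1 (orderOf_dvd_card h2)
    rw [← pow_mul] at h3
    exact Nat.Coprime.coprime_dvd_left (orderOf_dvd_of_pow_eq_one h3) (((hx.mul_left hy).mul_left
      (hp.out.coprime_iff_not_dvd.2 hB).symm).mul_left (hp.out.coprime_iff_not_dvd.2 hc).symm)
  · have h1 : (Q : Subgroup X) ≤ B := fun x hx => by
      obtain ⟨k, hk⟩ := Q.2 ⟨x, hx⟩
      have h2 : orderOf (x : X ⧸ B) ∣ p ^ k := orderOf_dvd_of_pow_eq_one (by
        rw [← QuotientGroup.mk_pow, show x ^ p ^ k = 1 from congrArg Subtype.val hk, QuotientGroup.mk_one])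
      exact (QuotientGroup.eq_one_iff x).1 (orderOf_eq_one_iff.1 (Nat.eq_one_of_dvd_coprimes
        ((hp.out.coprime_iff_not_dvd.2 hB).pow_left k) h2 (orderOf_dvd_natCard _)))
    exact eq_bot_mono (inf_eq_bot_of_coprime (pg_coprime hp.out Q.2 hc))
      (le_inf (der_le _) (le_inf ((comm_mono le_top le_top).trans hA) ((der_le _).trans h1)))

theorem v4 : ∀ a b : Equiv.Perm (Fin 4), Equiv.Perm.sign a = 1 → Equiv.Perm.sign b = 1 →
    ((a * b * a⁻¹ * b⁻¹) ^ 2 = 1 ∧ (a ^ 2 = 1 → b ^ 2 = 1 → (a * b) ^ 2 = 1)) := by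
  decide +kernel

theorem core (hs : Group.IsSolvable X) (h1 : piCoreOf {p} (⊤ : Subgroup X) = ⊥)
    (h2 : ∀ A : Subgroup X, IsMulCommutative A → ¬ p ∣ Nat.card A → IsCyclic A)
    (h3 : p = 3 → 16 ∣ Nat.card X → ∃ (w : X) (r : ℕ), r.Prime ∧ 5 ≤ r ∧ orderOf w = r ∧
      ∀ a b, a * w = w * a → b * w = w * b → a * b = b * a) :
    HasNormalPComplement p X ∧ ∀ Q : Sylow p X, IsMulCommutative (Q : Subgroup X) := by
  set F := fittingOf (⊤ : Subgroup X)
  have hF : ¬ p ∣ Nat.card F := fun h => nil_pcore_ne_bot (fit_nil _) hp.out (Set.mem_singleton p) h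
    ((pcore_fit hp.out _).trans h1)
  set C := piCoreOf {2}ᶜ F
  set Q := piCoreOf {2} F with hQ
  have nm : ∀ K : Subgroup X, ⊤ ≤ N_(K) → K.Normal := fun K h => Subgroup.normalizer_eq_top_iff.1 (top_le_iff.1 h)
  have nC := nm C (norm_pcore _ (le_norm_fit _))
  have nQ := nm Q (norm_pcore _ (le_norm_fit _))
  have hCQ : C_(C) ⊓ C_(Q) ≤ F := by
    rw [← cent_sup, (nil_dprod' {2} (fit_nil _)).sup]
    exact le_trans (le_inf le_top le_rfl) (fit_cent_le (sol_of_le (B := ⊤) inferInstance le_rfl))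
  have uq : ∀ (q : ℕ) [Fact q.Prime] (D : Subgroup X), D ≤ F → ∀ E : Subgroup D, IsPGroup q E →
      ∀ H K : Subgroup E, Nat.card H = q → Nat.card K = q → H = K := fun q _ D hD E hE =>
    H02.eq_of_card_eq_prime_of_abelian_cyclic hE fun B hB => by
      rw [← H02.isCyclic_map_subtype_iff, ← H02.isCyclic_map_subtype_iff]
      exact h2 _ inferInstance fun h => hF (h.trans (card_dvd ((Subgroup.map_subtype_le _).trans hD)))
  have cC : IsCyclic C := by
    have : IsZGroup C := ⟨fun q hq P => by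
      have := Fact.mk hq
      by_cases e : q = 2
      · subst e
        rw [P.2.card_eq_or_dvd.resolve_right (fun h => pcore_not_dvd hq F (h.trans (card_dvd_top _))) |> card_eq_one.1]
        infer_instance
      · exact H04.isCyclic_of_unique_odd e P.2 (uq q C (pcore_le _ _) P P.2)⟩
    have := nil_of_le (fit_nil ⊤) (pcore_le {2}ᶜ F)
    infer_instance
  have hA : commutator X ≤ C_(C) := Subgroup.commutator_le.2 fun a _ b _ => H18.comm_mem_centralizer_of_cyclic C a b
  by_cases c : p ∣ (C_(Q)).index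
  swap
  · exact npc_of hA c fun h => hF (h.trans (card_dvd hCQ))
  have p2 : p ≠ 2 := by
    rintro rfl
    rw [hQ, pcore_fit hp.out, h1, cent_bot, Subgroup.index_top] at c
    exact absurd c (by decide)
  obtain ⟨P⟩ : Nonempty (Sylow p X) := inferInstance
  obtain ⟨g, g1, g2⟩ : ∃ g ∈ (P : Subgroup X), g ∉ C_(Q) := by
    by_contra! h
    exact P.not_dvd_index (c.trans (Subgroup.index_dvd_of_le h))
  have pQ := pcore_pg Nat.prime_two F
  obtain ⟨e⟩ := H03.q8_of_odd_acts (D := Q) pQ (g := g) (fun x hx y hy o1 o2 => by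
      by_cases y1 : y = 1
      · exact y1 ▸ one_mem _
      have := uq 2 Q (pcore_le _ _) ⊤ (pQ.to_subgroup _) (Subgroup.zpowers ⟨⟨x, hx⟩, Subgroup.mem_top _⟩)
        (Subgroup.zpowers ⟨⟨y, hy⟩, Subgroup.mem_top _⟩) (by rw [card_zpowers, Subgroup.orderOf_mk, Subgroup.orderOf_mk, o1])
        (by rw [card_zpowers, Subgroup.orderOf_mk, Subgroup.orderOf_mk, orderOf_eq_prime o2 y1])
      obtain ⟨k, hk⟩ := this.ge (Subgroup.mem_zpowers _)
      exact ⟨k, congrArg (fun z => z.1.1) hk⟩)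
    (by rw [Subgroup.normalizer_eq_top]; trivial)
    (Nat.Coprime.coprime_dvd_left (orderOf_dvd_card g1) (by
      obtain ⟨k, hk⟩ := P.2.exists_card_eq
      rw [hk]
      exact ((Nat.coprime_primes hp.out Nat.prime_two).2 p2).pow_left k)) g2
  obtain ⟨f, hf⟩ := H18.exists_hom_S4 e
  have nc : ¬ IsMulCommutative Q := fun h => H18.q8_facts.2.2 (by
    simpa using congrArg e (mul_comm' (e.symm (.a 1)) (e.symm (.xa 0))))
  have s4 : Nat.card (Equiv.Perm (Fin 4)) = 24 := by rw [Nat.card_perm, Nat.card_eq_fintype_card, Fintype.card_fin]; rfl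
  have d24 : Nat.card f.range ∣ 24 := s4 ▸ f.range.card_subgroup_dvd_card
  rw [← hf, Subgroup.index_ker] at c
  have p3 : p = 3 := by
    rcases (Nat.Prime.dvd_mul hp.out).1 (show p ∣ 2 ^ 3 * 3 from c.trans d24) with h | h
    · exact absurd ((Nat.prime_dvd_prime_iff_eq hp.out Nat.prime_two).1 (hp.out.dvd_of_dvd_pow h)) p2
    · exact (Nat.prime_dvd_prime_iff_eq hp.out Nat.prime_three).1 h
  have c8 : Nat.card Q = 8 := (Nat.card_congr e.toEquiv).trans H18.card_q8
  have d4 : 4 ∣ Nat.card f.range := by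
    have a1 : Nat.card (f.comp Q.subtype).range ∣ 2 ^ 3 := (Subgroup.card_range_dvd _).trans c8.dvd
    obtain ⟨k, hk, a2⟩ := (Nat.dvd_prime_pow Nat.prime_two).1 a1
    refine dvd_trans ?_ (card_dvd (show (f.comp Q.subtype).range ≤ f.range by rintro _ ⟨x, rfl⟩; exact ⟨x, rfl⟩))
    rw [a2]
    refine pow_dvd_pow 2 (show 2 ≤ k from not_lt.1 fun hk => nc ?_)
    have : IsCyclic (f.comp Q.subtype).range := isCyclic_of_card_dvd_prime (p := 2) (by
      rw [a2]; exact pow_dvd_pow 2 (show k ≤ 1 by omega))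
    refine (f.comp Q.subtype).rangeRestrict.isMulCommutative_of_isCyclic_of_ker_le_center fun x hx => ?_
    have : (x : X) ∈ C_(Q) := hf ▸ congrArg Subtype.val (MonoidHom.mem_ker.1 hx)
    exact Subgroup.mem_center_iff.2 fun y => Subtype.ext (mem_cent.1 this y y.2)
  subst p3
  have d12 : 12 ∣ Nat.card f.range := (show Nat.Coprime 3 4 by decide).mul_dvd_of_dvd_of_dvd c d4
  by_cases c12 : Nat.card f.range = 12
  · have ha : f.range = alternatingGroup (Fin 4) := Equiv.Perm.eq_alternatingGroup_of_index_eq_two (by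
      have := f.range.card_mul_index
      rw [c12, s4] at this
      omega)
    have sg : ∀ x, Equiv.Perm.sign (f x) = 1 := fun x => (ha.le ⟨x, rfl⟩ :)
    let K : Subgroup X :=
      { carrier := {x | f x ^ 2 = 1}
        one_mem' := by simp
        mul_mem' := fun {a b} h h' => by simpa using (v4 _ _ (sg a) (sg b)).2 h h'
        inv_mem' := fun {a} h => by simpa using h }
    have hK : commutator X ≤ K := Subgroup.commutator_le.2 fun a _ b _ => by
      simpa [K, commutatorElement_def] using (v4 _ _ (sg a) (sg b)).1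
    refine npc_of (B := ⊤) le_rfl (by simp) fun h => ?_
    obtain ⟨x, a1, a2⟩ := exists_orderOf_eq_prime Nat.prime_three h
    have a3 : f x = 1 := orderOf_eq_one_iff.1 (Nat.eq_one_of_dvd_coprimes (show Nat.Coprime 2 3 by decide)
      (orderOf_dvd_of_pow_eq_one (hK a1.1)) (a2 ▸ orderOf_map_dvd f x))
    exact hF (a2 ▸ orderOf_dvd_card (hCQ ⟨hA a1.1, hf ▸ a3⟩))
  exfalso
  have c24 : Nat.card f.range = 24 := by
    obtain ⟨k, hk⟩ := d12
    rw [hk] at d24 c12 ⊢
    have := Nat.le_of_dvd (by decide) d24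
    have : k ≠ 0 := by rintro rfl; simp at d24
    omega
  have d2 : 2 ∣ Nat.card f.ker := by
    rw [hf]
    refine (pg_dvd Nat.prime_two (pg_le pQ inf_le_left) (nil_center_ne_bot (pg_nil Nat.prime_two pQ) ?_)).trans
      (card_dvd inf_le_right)
    rw [Ne, ← card_eq_one, c8]; decide
  obtain ⟨w, r, hr, r5, o, hw⟩ := h3 rfl (by
    rw [← f.ker.card_mul_index, Subgroup.index_ker, c24]
    exact dvd_trans (by decide) (Nat.mul_dvd_mul_right d2 24))
  have hw1 : w ∈ C_(Q) := by
    rw [← hf, MonoidHom.mem_ker, ← orderOf_eq_one_iff]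
    refine ((Nat.dvd_prime hr).1 (o ▸ orderOf_map_dvd f w)).resolve_right fun h => ?_
    have : r ∣ 24 := by rw [← h, ← s4]; exact orderOf_dvd_natCard (f w)
    have h4 := Nat.le_of_dvd (by decide) this
    interval_cases r <;> first | omega | exact absurd hr (by decide)
  exact nc ⟨⟨fun a b => Subtype.ext (hw a b (mem_cent.1 hw1 a a.2) (mem_cent.1 hw1 b b.2))⟩⟩

theorem dvd_sub_one {V : Type*} [Group V] [Finite V] (σ : X →* MulAut V) (A : Subgroup X) (W : Subgroup V)
    (h1 : ∀ a ∈ A, ∀ x ∈ W, σ a x ∈ W) (h2 : ∀ a ∈ A, ∀ x, x ≠ 1 → σ a x = x → a = 1) :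
    Nat.card A ∣ Nat.card W - 1 := by
  let _ : MulAction A {x // x ∈ (W : Set V) \ {1}} :=
    { smul := fun a x => ⟨σ a x, h1 a a.2 x x.2.1, fun e => x.2.2 ((σ a).map_eq_one_iff.1 e)⟩
      one_smul := fun x => Subtype.ext (by change σ ((1 : A) : X) x = x; simp)
      mul_smul := fun a b x => Subtype.ext (by change σ ((a * b : A) : X) x = σ a (σ b x); simp) }
  have := H02.card_dvd_of_free (A := A) (X := {x // x ∈ (W : Set V) \ {1}}) fun a x e =>
    Subtype.ext (h2 a a.2 x x.2.2 (congrArg Subtype.val e))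
  rwa [Nat.card_coe_set_eq, Set.ncard_diff_singleton_of_mem W.one_mem] at this

theorem main {V : Type*} [Group V] [Finite V] [Nontrivial V] (σ : X →* MulAut V) (hσ : Function.Injective σ)
    (hV : IsMulCommutative V) (hpV : IsPGroup p V) (hs : Group.IsSolvable X) (h1 : pCore p X = ⊥)
    (h2 : ∀ a x, x ≠ 1 → σ a x = x → ∃ k, a ^ p ^ k = 1) (h3 : Nat.card V - 1 ∣ Nat.card X) :
    HasNormalPComplement p X ∧ ∀ Q : Sylow p X, IsMulCommutative (Q : Subgroup X) := by
  have fpf : ∀ A : Subgroup X, ¬ p ∣ Nat.card A → ∀ a ∈ A, ∀ x, x ≠ 1 → σ a x = x → a = 1 := fun A hA a ha x hx e => by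
    obtain ⟨k, hk⟩ := h2 a x hx e
    exact orderOf_eq_one_iff.1 (Nat.eq_one_of_dvd_coprimes ((hp.out.coprime_iff_not_dvd.2 hA).pow_left k)
      (orderOf_dvd_of_pow_eq_one hk) (orderOf_dvd_card ha))
  refine core hs (by rw [H02.piCoreOf_singleton hp.out, H02.pCoreOf_top, h1]) (fun A hA hc => ?_) fun p3 h16 => ?_
  · have := H21.K3.cyc_of_fpf hV (A := A.map σ) inferInstance (W := ⊤) top_ne_bot (fun _ _ _ _ => trivial) (by
      rintro _ ⟨a, ha, rfl⟩ a1 w - e
      exact by_contra fun w1 => a1 (by rw [fpf A hc a ha w w1 e, map_one]))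
    exact isCyclic_of_surjective (A.equivMapOfInjective σ hσ).symm (MulEquiv.surjective _)
  subst p3
  obtain ⟨n, hn⟩ := hpV.exists_card_eq
  obtain ⟨S, hS⟩ := Sylow.exists_subgroup_card_pow_prime (G := X) 2 (n := 4) h16
  have a1 := dvd_sub_one σ S ⊤ (fun _ _ _ _ => trivial) (fpf S (by rw [hS]; decide))
  rw [hS, Subgroup.card_top, hn] at a1
  have n0 : n ≠ 0 := by
    rintro rfl
    exact (Finite.one_lt_card (α := V)).ne' hn
  have n3 : 3 ≤ n := by
    by_contra h
    have : n = 1 ∨ n = 2 := by omega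
    rcases this with rfl | rfl <;> exact absurd a1 (by decide)
  obtain ⟨r, hr, r1, r2⟩ := H27.zsigmondy_of_three_le (a := 3) (by decide) n3 (by omega)
  have := Fact.mk hr
  obtain ⟨w, hw⟩ := exists_prime_orderOf_dvd_card' (G := X) r (r1.trans (hn ▸ h3))
  have r3 : r ≠ 3 := fun e => (show H21.K3.Zs 3 n r from ⟨hr, r1, r2⟩).ne Nat.prime_three (by omega) (e ▸ dvd_rfl)
  have r2' : r ≠ 2 := fun e => r2 1 one_pos (by omega) (e ▸ by decide)
  refine ⟨w, r, hr, hr.five_le_of_ne_two_of_ne_three r2' r3, hw, fun a b ha hb => hσ ?_⟩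
  rw [map_mul, map_mul]
  refine comm_of_irr hV (w := σ w) (fun W hW => by_contra fun h => ?_) (by rw [← map_mul, ha, map_mul])
    (by rw [← map_mul, hb, map_mul])
  obtain ⟨d, hd, e⟩ := H21.K3.card_of_ne_top Nat.prime_three hn (not_or.1 h).2
  have a2 := dvd_sub_one σ (Subgroup.zpowers w) W (fun a ha => ?_) (fpf _ (by
    rw [card_zpowers, hw, Nat.prime_dvd_prime_iff_eq Nat.prime_three hr]; exact r3.symm))
  · rw [card_zpowers, hw, e] at a2
    refine r2 d (Nat.pos_of_ne_zero ?_) hd a2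
    rintro rfl
    exact (not_or.1 h).1 (card_eq_one.1 e)
  · obtain ⟨k, rfl⟩ := (mem_powers_iff_mem_zpowers.2 ha :)
    intro x hx
    induction k with
    | zero => simpa using hx
    | succ k ih =>
      have := hW _ (ih (Subgroup.npow_mem_zpowers w k))
      simpa [pow_succ'] using this

end H05.Gag
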