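import Mathlib
import Cfsg.Agent.BG.Api4
import Cfsg.Agent.H05.Orth
import Cfsg.Agent.H05.Values
import Cfsg.Agent.H02.FrobCompl

/-!
Groups whose irreducible characters are multiplicative on elements of coprime prime power orders (namespace `H05.Mult`).
* `camina_zero` : a nonlinear irreducible character vanishes on `g` if it is constant on the coset `G' g`
* `fwd`, `bwd` : the two directions of the characterization
-/

set_option autoImplicit false

open BG _root_.Cfsg H05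
open scoped commutatorElement ComplexConjugate

namespace H05.Mult

variable {G : Type*} [Group G] [Finite G] {x y : G}

/-- non-trivial elements of prime power orders for two different primes -/
def PP (x y : G) : Prop :=
  x ≠ 1 ∧ y ≠ 1 ∧ ∃ p q a b : ℕ, p.Prime ∧ q.Prime ∧ p ≠ q ∧ orderOf x = p ^ a ∧ orderOf y = q ^ b

omit [Finite G] in
theorem PP.symm (h : PP x y) : PP y x :=
  let ⟨h1, h2, p, q, a, b, h3, h4, h5, h6, h7⟩ := h
  ⟨h2, h1, q, p, b, a, h4, h3, h5.symm, h7, h6⟩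

omit [Finite G] in
theorem PP.coprime (h : PP x y) : (orderOf x).Coprime (orderOf y) := by
  obtain ⟨-, -, p, q, a, b, h3, h4, h5, h6, h7⟩ := h
  rw [h6, h7]
  exact Nat.coprime_pow_primes _ _ h3 h4 h5

omit [Finite G] in
theorem PP.conj (h : PP x y) (g : G) : PP (g * x * g⁻¹) y :=
  let ⟨h1, h2, p, q, a, b, h3, h4, h5, h6, h7⟩ := h
  ⟨by simpa using h1, h2, p, q, a, b, h3, h4, h5, (orderOf_conj g x).trans h6, h7⟩

theorem PP.not_pg (h : PP x y) {r : ℕ} (hr : r.Prime) {P : Subgroup G} (hP : IsPGroup r P) (hx : x ∈ P) (hy : y ∈ P) :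
    False :=
  have k : ∀ z ∈ P, z ≠ 1 → r ∣ orderOf z := fun z hz h1 =>
    card_zpowers z ▸ pg_dvd hr (pg_le hP (Subgroup.zpowers_le.2 hz)) (zpowers_ne_bot h1)
  hr.one_lt.ne' (Nat.eq_one_of_dvd_coprimes h.coprime (k x hx h.1) (k y hy h.2.1))

omit [Finite G] in
theorem ord_eq (h : IsConj x y) : orderOf x = orderOf y := by
  obtain ⟨g, rfl⟩ := isConj_iff.1 h
  rw [orderOf_conj]

theorem camina_zero {χ : G → ℂ} (h : IsIrrCharacter G χ) (h1 : χ 1 ≠ 1) {g : G}
    (hc : ∀ d ∈ commutator G, χ (d * g) = χ g) : χ g = 0 := by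
  have := Fintype.ofFinite G
  by_contra h0
  obtain ⟨ψ, a1, a2⟩ := h.exists_quotient (commutator G) fun u hu => by
    have := h.sum_conj_mul u g
    rw [Finset.sum_congr rfl fun x _ => hc _ (Subgroup.Normal.conj_mem inferInstance u hu x), Finset.sum_const,
      Finset.card_univ, nsmul_eq_mul, ← Nat.card_eq_fintype_card, eq_div_iff h.apply_one_ne_zero, mul_right_comm] at this
    exact (mul_left_cancel₀ (Nat.cast_ne_zero.2 Nat.card_pos.ne') (mul_right_cancel₀ h0 this)).symm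
  have : IsMulCommutative (G ⧸ commutator G) := (Subgroup.Normal.quotient_commutative_iff_commutator_le).2 le_rfl
  exact h1 (a2 ▸ a1.apply_one_of_comm)

section fwd
variable (H : ∀ (x y : G) (χ : IrrCharacter G), PP x y → (χ : G → ℂ) (x * y) = (χ : G → ℂ) x * (χ : G → ℂ) y)
include H

theorem van (h : PP x y) (χ : IrrCharacter G) (h1 : (χ : G → ℂ) 1 ≠ 1) : (χ : G → ℂ) (x * y) = 0 := by
  have := Fintype.ofFinite G
  have := χ.2.sum_conj_mul x y
  rw [Finset.sum_congr rfl fun g _ => (H _ _ χ (h.conj g)).trans (by rw [χ.2.isClassFunction x g]), Finset.sum_const,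
    Finset.card_univ, nsmul_eq_mul, ← Nat.card_eq_fintype_card, eq_div_iff χ.2.apply_one_ne_zero, mul_assoc,
    mul_assoc _ _ ((χ : G → ℂ) y), ← H _ _ χ h] at this
  exact by_contra fun h0 => h1 (mul_left_cancel₀ h0 ((mul_left_cancel₀ (Nat.cast_ne_zero.2 Nat.card_pos.ne') this).trans
    (mul_one _).symm))

theorem conj_of (h : PP x y) (hx : x ∈ commutator G) : IsConj (x * y) y := by
  classical
  have := Fintype.ofFinite (IrrCharacter G)
  by_contra hn
  have := sum_irr_mul_conj_of_not_isConj hn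
  rw [Finset.sum_congr rfl (g := fun χ : IrrCharacter G => if (χ : G → ℂ) 1 = 1 then (1 : ℂ) else 0) fun χ _ => ?_, Finset.sum_boole,
    Nat.cast_eq_zero, Finset.card_eq_zero, Finset.filter_eq_empty_iff] at this
  · exact this (Finset.mem_univ ⟨1, isIrrCharacter_one⟩) rfl
  · split_ifs with e
    · obtain ⟨φ, e'⟩ := χ.2.isCharacter.exists_monoidHom e
      rw [← χ.2.apply_inv, e']
      simpa using Abelianization.commutator_subset_ker φ hx
    · rw [van H h χ e, zero_mul]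

theorem not_comm (h : PP x y) (hx : x ∈ commutator G) : x * y ≠ y * x := fun e => by
  have h1 := ord_eq (conj_of H h hx)
  rw [(show Commute x y from e).orderOf_mul_eq_mul_orderOf_of_coprime h.coprime] at h1
  exact h.1 (orderOf_eq_one_iff.1 (Nat.eq_of_mul_eq_mul_right (orderOf_pos y) (h1.trans (one_mul _).symm)))

theorem not_both (h : PP x y) (hx : x ∈ commutator G) (hy : y ∈ commutator G) : False := by
  have h1 := ord_eq (conj_of H h hx)
  have h2 := ord_eq (conj_of H h.symm hy)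
  have h3 := h.coprime
  rw [← h1, show x * y = y⁻¹ * (y * x) * y⁻¹⁻¹ by group, orderOf_conj, h2, Nat.coprime_self, orderOf_eq_one_iff] at h3
  exact h.1 h3

theorem fwd (h1 : ¬ ∃ p : ℕ, p.Prime ∧ IsPGroup p G) (h2 : ¬ IsMulCommutative G) :
    ∃ (p : ℕ) (_ : Fact p.Prime) (P : Sylow p G) (A : Subgroup G), (P : Subgroup G).Normal ∧ IsCyclic A ∧ A ≠ ⊥ ∧
      (Nat.card A).Coprime p ∧ A ⊔ (P : Subgroup G) = ⊤ ∧ IsMulCommutative ↥((P : Subgroup G) ⊓ C_(A)) ∧
      (⁅A, (P : Subgroup G)⁆).Normal ∧ ((P : Subgroup G) ⊓ C_(A)) ⊔ ⁅A, (P : Subgroup G)⁆ = (P : Subgroup G) ∧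
      ((P : Subgroup G) ⊓ C_(A)) ⊓ ⁅A, (P : Subgroup G)⁆ = ⊥ ∧
      ∀ a ∈ A, a ≠ 1 → ∀ d ∈ ⁅A, (P : Subgroup G)⁆, a * d = d * a → d = 1 := by
  have h0 : commutator G ≠ ⊥ := fun e => h2 ((commutator_eq_bot_iff G).1 e)
  obtain ⟨p, hp, hd⟩ := exists_prime_dvd_card h0
  have := Fact.mk hp
  have hG : IsPGroup p (commutator G) := by
    refine IsPGroup.of_card (n := (Nat.card (commutator G)).primeFactorsList.length)
      (Nat.eq_prime_pow_of_unique_prime_dvd (card_ne_zero _) fun {q} hq hq' => by_contra fun e => ?_)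
    obtain ⟨x, a1, a2⟩ := exists_orderOf_eq_prime hp hd
    obtain ⟨y, b1, b2⟩ := exists_orderOf_eq_prime hq hq'
    exact not_both H ⟨fun e => hp.one_lt.ne (by rw [← a2, e, orderOf_one]), fun e => hq.one_lt.ne (by rw [← b2, e, orderOf_one]),
      p, q, 1, 1, hp, hq, Ne.symm e, by rw [a2, pow_one], by rw [b2, pow_one]⟩ a1 b1
  obtain ⟨P, hP⟩ := hG.exists_le_sylow
  have hn : (P : Subgroup G).Normal := Subgroup.normalizer_eq_top_iff.1 (top_le_iff.1 (le_norm_of_der_le hP le_top))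
  obtain ⟨A, hA⟩ := Subgroup.exists_right_complement'_of_coprime P.card_coprime_index
  have hc : ¬ p ∣ Nat.card A := hA.symm.index_eq_card ▸ P.not_dvd_index
  have hA0 : A ≠ ⊥ := fun e => h1 ⟨p, hp, by
    have := hA.sup_eq_top
    rw [e, sup_bot_eq] at this
    exact (this ▸ P.2).of_equiv Subgroup.topEquiv⟩
  have hc' : ∀ X : Subgroup G, X ≤ P → (Nat.card A).Coprime (Nat.card X) := fun X h => (pg_coprime hp (pg_le P.2 h) hc).symm
  have fpf : ∀ a ∈ A, a ≠ 1 → ∀ d ∈ commutator G, a * d = d * a → d = 1 := fun a ha a1 d hd e => by_contra fun d1 => by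
    obtain ⟨r, hr, hr'⟩ := Nat.exists_prime_and_dvd (mt orderOf_eq_one_iff.1 a1)
    have b1 := orderOf_pow_orderOf_div (orderOf_pos a).ne' hr'
    obtain ⟨k, hk⟩ := (IsPGroup.iff_orderOf.1 hG) ⟨d, hd⟩
    refine not_comm H (y := a ^ (orderOf a / r)) ⟨d1, fun e => hr.one_lt.ne (by rw [← b1, e, orderOf_one]), p, r, k, 1, hp,
      hr, fun e => hc (e ▸ hr'.trans (orderOf_dvd_card ha)), by rw [← hk, Subgroup.orderOf_mk], by rw [b1, pow_one]⟩ hd ?_
    exact ((show Commute a d from e).pow_left _).symm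
  have hb : commutator G ⊓ C_(A) = ⊥ := by
    obtain ⟨a, ha, a1⟩ := exists_mem_ne_one hA0
    exact eq_bot_iff.2 fun d hd => fpf a ha a1 d hd.1 (mem_cent.1 hd.2 a ha)
  have nA : ∀ X : Subgroup G, X.Normal → A ≤ N_(X) := fun X h => by rw [Subgroup.normalizer_eq_top]; exact le_top
  have hD : ⁅A, (P : Subgroup G)⁆ = commutator G := le_antisymm (comm_mono le_top le_top) (by
    rw [← coprime_comm_eq_of_cent_bot (nA _ inferInstance) (hc' _ hP) (Or.inr (sol_of_nil (pg_nil hp hG))) hb, comm_comm]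
    exact comm_mono le_rfl hP)
  have hab : IsMulCommutative A := abelian_iff_der.2 (eq_bot_mono hA.disjoint.eq_bot
    (le_inf ((comm_mono le_top le_top).trans hP) (der_le A)))
  refine ⟨p, this, P, A, hn, H02.isCyclic_of_fpf h0 (nA _ inferInstance) (fun a ha a1 => eq_bot_iff.2 fun d hd =>
    fpf a ha a1 d hd.1 (mem_cent1.1 hd.2).symm) (Or.inl hab), hA0, (hp.coprime_iff_not_dvd.2 hc).symm, hA.symm.sup_eq_top,
    abelian_iff_der.2 (eq_bot_mono hb (le_inf (comm_mono le_top le_top) ((der_le _).trans inf_le_right))),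
    hD ▸ inferInstance, ?_, ?_, hD ▸ fpf⟩
  · rw [sup_comm, comm_comm]
    exact coprime_comm_sup_cent (nA _ hn) (hc' _ le_rfl) (Or.inr (sol_of_nil (pg_nil hp P.2)))
  · rw [hD]
    exact eq_bot_mono hb (le_inf inf_le_right (inf_le_left.trans inf_le_right))

end fwd

theorem conj_coset {D : Subgroup G} [D.Normal] {h : G} (hf : ∀ d ∈ D, h * d = d * h → d = 1) {d : G} (hd : d ∈ D) :
    IsConj h (d * h) := by
  let f : D → D := fun e => ⟨e * (h * (e : G)⁻¹ * h⁻¹), mul_mem e.2 (Subgroup.Normal.conj_mem inferInstance _ (inv_mem e.2) h)⟩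
  have hi : Function.Injective f := fun a b e => by
    have e' : (a : G) * (h * (a : G)⁻¹ * h⁻¹) = b * (h * (b : G)⁻¹ * h⁻¹) := congrArg Subtype.val e
    refine Subtype.ext (inv_mul_eq_one.1 (hf _ (mul_mem (inv_mem b.2) a.2) ?_)).symm
    calc h * ((b : G)⁻¹ * a) = (b : G)⁻¹ * (b * (h * (b : G)⁻¹ * h⁻¹)) * h * a := by group
      _ = _ := by rw [← e']; group
  obtain ⟨e, he⟩ := Finite.surjective_of_injective hi ⟨d, hd⟩
  have e' : (e : G) * (h * (e : G)⁻¹ * h⁻¹) = d := congrArg Subtype.val he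
  exact isConj_iff.2 ⟨e, by rw [← e']; group⟩

theorem bwd {p : ℕ} (hp : p.Prime) {P A : Subgroup G} (hP : IsPGroup p P) [P.Normal] (hA : IsCyclic A)
    (hc : (Nat.card A).Coprime p) (h1 : A ⊔ P = ⊤) (h2 : IsMulCommutative ↥(P ⊓ C_(A))) [⁅A, P⁆.Normal]
    (h3 : (P ⊓ C_(A)) ⊔ ⁅A, P⁆ = P) (h4 : ∀ a ∈ A, a ≠ 1 → ∀ d ∈ ⁅A, P⁆, a * d = d * a → d = 1) (h : PP x y)
    {χ : G → ℂ} (hχ : IsIrrCharacter G χ) : χ (x * y) = χ x * χ y := by
  have := Fact.mk hp
  by_cases e1 : χ 1 = 1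
  · exact hχ.isCharacter.apply_mul_of_apply_one e1 x y
  have nA : ∀ X : Subgroup G, ∀ Y : Subgroup G, X.Normal → Y ≤ N_(X) := fun X Y h => by
    rw [Subgroup.normalizer_eq_top]; exact le_top
  have ht : (A ⊔ (P ⊓ C_(A))) ⊔ ⁅A, P⁆ = ⊤ := by rw [sup_assoc, h3, h1]
  have hab := abelian_sup (abelian_of_cyclic hA) h2 (cent_symm inf_le_right)
  have hD : commutator G ≤ ⁅A, P⁆ := by
    change ⁅(⊤ : Subgroup G), ⊤⁆ ≤ _
    conv_lhs => rw [← ht]
    exact der_sup_le (nA _ _ inferInstance) (le_norm _) ((abelian_iff_der.1 hab).le.trans bot_le)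
      (comm_le_right (nA _ _ inferInstance)) (der_le _)
  have hDP : ⁅A, P⁆ ≤ P := le_sup_right.trans h3.le
  have key : ∀ g, g ∉ P → χ g = 0 := fun g hg => by
    obtain ⟨d, hd, k, hk, rfl⟩ := (mem_sup_norm (nA _ _ inferInstance)).1 (show g ∈ ⁅A, P⁆ ⊔ _ by rw [sup_comm, ht]; trivial)
    obtain ⟨a, ha, c, hc', rfl⟩ := (mem_sup_norm (le_norm_of_cent inf_le_right)).1 hk
    have hf : ∀ e ∈ ⁅A, P⁆, a * c * e = e * (a * c) → e = 1 := fun e he e2 => by
      obtain ⟨n, hn⟩ := hP ⟨c, hc'.1⟩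
      have e3 : (a * c) ^ p ^ n = a ^ p ^ n := by
        rw [(show Commute a c from mem_cent.1 hc'.2 a ha).mul_pow, show c ^ p ^ n = 1 from congrArg Subtype.val hn, mul_one]
      refine h4 _ (pow_mem ha (p ^ n)) (fun e4 => hg ?_) e he (e3 ▸ (show Commute (a * c) e from e2).pow_left _)
      rw [orderOf_eq_one_iff.1 (Nat.eq_one_of_dvd_coprimes (hc.pow_right n) (orderOf_dvd_card ha)
        (orderOf_dvd_of_pow_eq_one e4)), one_mul]
      exact mul_mem (hDP hd) hc'.1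
    refine camina_zero hχ e1 fun u hu => ?_
    rw [← mul_assoc, ← hχ.isClassFunction.isConj (conj_coset hf (mul_mem (hD hu) hd)),
      hχ.isClassFunction.isConj (conj_coset hf hd)]
  have h5 : ¬ (x ∈ P ∧ y ∈ P) := fun e => h.not_pg hp hP e.1 e.2
  rw [key (x * y) fun e => h5 ?_]
  · rcases not_and_or.1 h5 with e | e <;> simp [key _ e]
  · have a1 : (x : G ⧸ P) = (y : G ⧸ P)⁻¹ := eq_inv_of_mul_eq_one_left ((QuotientGroup.eq_one_iff _).2 e)
    have a2 : (x : G ⧸ P) = 1 := orderOf_eq_one_iff.1 (Nat.eq_one_of_dvd_coprimes h.coprime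
      (orderOf_map_dvd (QuotientGroup.mk' P) x) (by rw [a1, orderOf_inv]; exact orderOf_map_dvd (QuotientGroup.mk' P) y))
    have a3 := (QuotientGroup.eq_one_iff _).1 a2
    exact ⟨a3, (mul_mem_cancel_left a3).1 e⟩

end H05.Mult
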