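import Mathlib
import Cfsg.Agent.H05.Fc1
import Cfsg.Agent.H02.NS1
import Cfsg.Agent.H19.CIT
import Cfsg.Agent.H19.FieldCoords

/-!
Groups of order `q(q²-1)`, `q = 2t+1`, with prescribed numbers of elements of each order (namespace `H05.Np`):
`sing_le` (few `p`-singular elements), `cc`, `pgl` (recognition of `PGL₂(q)`).
-/

set_option autoImplicit false
set_option linter.unusedSectionVars false

open H05 Cfsg MulAction H02.NS H05.Fc
open scoped MatrixGroups

namespace H05.Np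

variable {G : Type*} [Group G] [Finite G]

theorem sum_s_le (T : Finset ℕ) : ∑ k ∈ T, s G k ≤ Nat.card G := by
  rw [← sum_card]
  exact Finset.sum_le_sum_of_ne_zero fun k _ h => Nat.mem_divisors.2 ⟨dvd_of_s h, Nat.card_pos.ne'⟩

theorem index_le_s (x : G) : (Subgroup.centralizer ({x} : Set G)).index ≤ s G (orderOf x) := by
  classical
  have := Fintype.ofFinite G
  rw [← card_filter_isConj, s, Nat.card_eq_fintype_card, Fintype.card_subtype]
  refine Finset.card_le_card fun y hy => ?_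
  obtain ⟨c, rfl⟩ := isConj_iff.1 (Finset.mem_filter.1 hy).2
  simpa using MulEquiv.orderOf_eq (MulAut.conj c) x

theorem isConj_of_index {x y : G} (h : s G (orderOf x) ≤ (Subgroup.centralizer ({x} : Set G)).index)
    (hy : orderOf y = orderOf x) : IsConj x y := by
  classical
  have := Fintype.ofFinite G
  rw [← card_filter_isConj, s, Nat.card_eq_fintype_card, Fintype.card_subtype] at h
  have := Finset.eq_of_subset_of_card_le (fun y hy => by
    obtain ⟨c, rfl⟩ := isConj_iff.1 (Finset.mem_filter.1 hy).2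
    simpa using MulEquiv.orderOf_eq (MulAut.conj c) x) h
  have h2 : y ∈ Finset.univ.filter fun y => IsConj x y := by rw [this]; simpa using hy
  exact (Finset.mem_filter.1 h2).2

theorem dvd_s {k d : ℕ} (h : ∀ x : G, orderOf x = k → d ∣ (Subgroup.centralizer ({x} : Set G)).index) :
    d ∣ s G k := by
  classical
  have := Fintype.ofFinite G
  refine H16.dvd_card_of_setoid (α := {g : G // orderOf g = k})
    ⟨fun a b => IsConj a.1 b.1, fun _ => IsConj.refl _, IsConj.symm, IsConj.trans⟩ d fun x => ?_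
  refine (h x x.2).trans (dvd_of_eq ?_)
  rw [← card_filter_isConj, ← Fintype.card_subtype, ← Nat.card_eq_fintype_card]
  refine Nat.card_congr ⟨fun y => ⟨⟨y.1, ?_⟩, y.2⟩, fun y => ⟨y.1.1, y.2⟩, fun _ => rfl, fun _ => rfl⟩
  obtain ⟨c, hc⟩ := isConj_iff.1 y.2
  rw [← hc]
  exact Eq.trans (by simpa using MulEquiv.orderOf_eq (MulAut.conj c) x.1) x.2

theorem comb (f : ℕ → ℕ) (T : Finset ℕ) {a b c : ℕ} (h : ∀ k ∈ T, a ∣ f k ∨ b ∣ f k ∨ c ∣ f k) :
    ∃ x y z, ∑ k ∈ T, f k = a * x + b * y + c * z := by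
  classical
  induction T using Finset.induction_on with
  | empty => exact ⟨0, 0, 0, by simp⟩
  | insert k T hk ih =>
    obtain ⟨x, y, z, e⟩ := ih fun j hj => h j (Finset.mem_insert_of_mem hj)
    rw [Finset.sum_insert hk, e]
    rcases h k (Finset.mem_insert_self _ _) with ⟨w, hw⟩ | ⟨w, hw⟩ | ⟨w, hw⟩
    · exact ⟨x + w, y, z, by rw [hw]; ring⟩
    · exact ⟨x, y + w, z, by rw [hw]; ring⟩
    · exact ⟨x, y, z + w, by rw [hw]; ring⟩

theorem reg_ge {t : ℕ} (ht : 0 < t) (hG : Nat.card G = (2 * t + 1) * (4 * t * (t + 1))) (h2 : s G 2 = (2 * t + 1) ^ 2)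
    (h : ∀ k, 2 < k → k ∣ 4 * t * (t + 1) → 4 * t * (t + 1) ∣ s G k ∨ (2 * t + 1) * (2 * t + 2) ∣ s G k ∨
      (2 * t + 1) * (2 * t) ∣ s G k) :
    2 * t * (4 * t * (t + 1)) ≤ ∑ d ∈ (4 * t * (t + 1)).divisors, s G d := by
  have hf := frob (G := G) (m := 4 * t * (t + 1)) (hG ▸ dvd_mul_left _ _)
  have h0 : 4 * t * (t + 1) ≠ 0 := by positivity
  have m1 : 1 ∈ (4 * t * (t + 1)).divisors := by simp [h0]
  have m2 : 2 ∈ (4 * t * (t + 1)).divisors.erase 1 :=
    Finset.mem_erase.2 ⟨by decide, Nat.mem_divisors.2 ⟨⟨2 * t * (t + 1), by ring⟩, h0⟩⟩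
  obtain ⟨x, y, z, e⟩ := comb (s G) (((4 * t * (t + 1)).divisors.erase 1).erase 2) fun k hk => by
    simp only [Finset.mem_erase, Nat.mem_divisors] at hk
    have := Nat.pos_of_dvd_of_pos hk.2.2.1 (Nat.pos_of_ne_zero h0)
    exact h k (by omega) hk.2.2.1
  rw [← Finset.add_sum_erase _ _ m1, ← Finset.add_sum_erase _ _ m2, e, s_one, h2] at hf ⊢
  obtain ⟨w, hw⟩ := hf
  have a1 : t ∣ 1 + y := by
    have : 2 * t * (2 * t + 2 + 2 * (t + 1) * x + (2 * t + 3) * y + (2 * t + 1) * z) + 2 * (1 + y) =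
        2 * t * (2 * (t + 1) * w) := by nlinarith
    have h3 : 2 * t ∣ 2 * (1 + y) := (Nat.dvd_add_right (dvd_mul_right _ _)).1 (this ▸ dvd_mul_right _ _)
    exact Nat.dvd_of_mul_dvd_mul_left two_pos h3
  have a2 : t + 1 ∣ 1 + z := by
    obtain ⟨u, rfl⟩ : ∃ u, t = u + 1 := ⟨t - 1, by omega⟩
    have : 2 * (u + 2) * (2 * (u + 1) + 2 * (u + 1) * x + (2 * u + 3) * y + (2 * u + 1) * z) + 2 * (1 + z) =
        2 * (u + 2) * (2 * (u + 1) * w) := by nlinarith
    have h3 : 2 * (u + 2) ∣ 2 * (1 + z) := (Nat.dvd_add_right (dvd_mul_right _ _)).1 (this ▸ dvd_mul_right _ _)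
    exact Nat.dvd_of_mul_dvd_mul_left two_pos h3
  have b1 := Nat.le_of_dvd (by omega) a1
  have b2 : t ≤ z := by have := Nat.le_of_dvd (by omega) a2; omega
  obtain ⟨u, rfl⟩ : ∃ u, t = u + 1 := ⟨t - 1, by omega⟩
  have b3 : u ≤ y := by omega
  have c1 := Nat.mul_le_mul_left ((2 * (u + 1) + 1) * (2 * (u + 1) + 2)) b3
  have c2 := Nat.mul_le_mul_left ((2 * (u + 1) + 1) * (2 * (u + 1))) b2
  nlinarith [Nat.zero_le (4 * (u + 1) * (u + 1 + 1) * x)]

theorem not_dvd {p t : ℕ} (hp : p.Prime) (hd : p ∣ 2 * t + 1) : ¬ p ∣ 4 * t * (t + 1) := fun h => by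
  have : p ∣ 4 * t * (t + 1) + 1 := by rw [show 4 * t * (t + 1) + 1 = (2 * t + 1) * (2 * t + 1) by ring]; exact hd.mul_left _
  exact hp.one_lt.ne' (Nat.dvd_one.1 ((Nat.dvd_add_right h).1 this))

theorem sing_le {p t : ℕ} (hp : p.Prime) (hd : p ∣ 2 * t + 1) (ht : 0 < t)
    (hG : Nat.card G = (2 * t + 1) * (4 * t * (t + 1))) (h2 : s G 2 = (2 * t + 1) ^ 2)
    (h : ∀ k, 2 < k → k ∣ 4 * t * (t + 1) → 4 * t * (t + 1) ∣ s G k ∨ (2 * t + 1) * (2 * t + 2) ∣ s G k ∨
      (2 * t + 1) * (2 * t) ∣ s G k) (T : Finset ℕ) (hT : ∀ k ∈ T, p ∣ k) : ∑ k ∈ T, s G k ≤ 4 * t * (t + 1) := by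
  have h1 := reg_ge ht hG h2 h
  have h3 := sum_s_le (G := G) (T ∪ (4 * t * (t + 1)).divisors)
  rw [Finset.sum_union (Finset.disjoint_left.2 fun k hk hk' =>
    not_dvd hp hd ((hT k hk).trans (Nat.dvd_of_mem_divisors hk'))), hG] at h3
  nlinarith

variable {p : ℕ} [hp : Fact p.Prime]

theorem cent_pgroup (h : ∀ g : G, p ∣ orderOf g → orderOf g = p) {x : G} (hx : orderOf x = p) :
    IsPGroup p (Subgroup.centralizer ({x} : Set G)) := by
  rw [IsPGroup.iff_card]
  refine ⟨_, Nat.eq_prime_pow_of_unique_prime_dvd Nat.card_pos.ne' fun {s} hs hd => ?_⟩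
  by_contra hsp
  have : Fact s.Prime := ⟨hs⟩
  obtain ⟨y, hy⟩ := exists_prime_orderOf_dvd_card' s hd
  have hc : Commute x (y : G) := (Subgroup.mem_centralizer_singleton_iff.1 y.2).symm
  have hy' : orderOf (y : G) = s := by rw [Subgroup.orderOf_coe, hy]
  have e := hc.orderOf_mul_eq_mul_orderOf_of_coprime (by
    rw [hx, hy']; exact (Nat.coprime_primes hp.out hs).2 (Ne.symm hsp))
  rw [hx, hy'] at e
  have := h _ (e ▸ dvd_mul_right _ _)
  rw [e] at this
  exact hs.one_lt.ne' (Nat.eq_of_mul_eq_mul_left hp.out.pos (this.trans (mul_one p).symm))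

theorem card_sylow {f N : ℕ} (hG : Nat.card G = p ^ f * N) (hN : ¬ p ∣ N) (P : Sylow p G) : Nat.card P = p ^ f := by
  have h0 : N ≠ 0 := by rintro rfl; exact hN (dvd_zero _)
  rw [P.card_eq_multiplicity, hG, Nat.factorization_mul (pow_ne_zero _ hp.out.ne_zero) h0, hp.out.factorization_pow]
  simp [Nat.factorization_eq_zero_of_not_dvd hN]

theorem le_index {f N : ℕ} (hG : Nat.card G = p ^ f * N) (hN : ¬ p ∣ N) {H : Subgroup G} (hH : IsPGroup p H) :
    N ≤ H.index := by
  obtain ⟨P, hP⟩ := hH.exists_le_sylow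
  have h1 := Subgroup.card_le_of_le hP
  have h2 := H.card_mul_index
  rw [card_sylow hG hN P] at h1
  rw [hG] at h2
  by_contra hlt
  have := Nat.mul_lt_mul_of_le_of_lt h1 (not_le.1 hlt) (pow_pos hp.out.pos f)
  omega

theorem orderOf_mem (h : ∀ g : G, p ∣ orderOf g → orderOf g = p) {P : Sylow p G} {x : G} (hx : x ∈ P) (h1 : x ≠ 1) :
    orderOf x = p := by
  obtain ⟨k, hk⟩ := (IsPGroup.iff_orderOf.1 P.isPGroup') ⟨x, hx⟩
  rw [Subgroup.orderOf_mk] at hk
  refine h x ?_
  rw [hk]; refine dvd_pow_self _ ?_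
  rintro rfl
  exact h1 (orderOf_eq_one_iff.1 (by simpa using hk))

theorem cc {f N : ℕ} (h2 : p ≠ 2) (hf : f ≠ 0) (hG : Nat.card G = p ^ f * N) (hN : ¬ p ∣ N)
    (h : ∀ g : G, p ∣ orderOf g → orderOf g = p) (hs : s G p ≤ N) : CC p G := by
  have hno : ∀ r : ℕ, r.Prime → r ≠ p → ∀ g : G, orderOf g ≠ p * r := fun r hr _ g e => by
    have := h _ (e ▸ dvd_mul_right _ _)
    rw [e] at this
    exact hr.one_lt.ne' (Nat.eq_of_mul_eq_mul_left hp.out.pos (this.trans (mul_one p).symm))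
  refine cc_of (fun P => ?_) hno
  have : Nontrivial P := Finite.one_lt_card_iff_nontrivial.1 (by
    rw [card_sylow hG hN P]; exact Nat.one_lt_pow hf hp.out.one_lt)
  have := P.isPGroup'.center_nontrivial
  obtain ⟨⟨z, hz⟩, hz1⟩ := exists_ne (1 : Subgroup.center (P : Subgroup G))
  have z1 : (z : G) ≠ 1 := fun e => hz1 (Subtype.ext (Subtype.ext e))
  have zo := orderOf_mem h z.2 z1
  have hC : Subgroup.centralizer ({(z : G)} : Set G) = P := P.3 (cent_pgroup h zo) fun y hy => by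
    rw [Subgroup.mem_centralizer_singleton_iff]
    exact congrArg Subtype.val (Subgroup.mem_center_iff.1 hz ⟨y, hy⟩)
  obtain ⟨g, hg⟩ := isConj_iff.1 (isConj_of_index (x := (z : G)) (y := (z : G)⁻¹)
    (by rw [zo]; exact hs.trans (le_index hG hN (cent_pgroup h zo))) (orderOf_inv _))
  have hodd : Odd p := hp.out.odd_of_ne_two h2
  have g2 : g ^ 2 ∈ P := by
    rw [show g ^ 2 ∈ P ↔ g ^ 2 ∈ (P : Subgroup G) from Iff.rfl, ← hC, Subgroup.mem_centralizer_singleton_iff]
    have : g ^ 2 * z * (g ^ 2)⁻¹ = g * (g * z * g⁻¹) * g⁻¹ := by simp [sq, mul_assoc]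
    rw [hg, ← conj_inv, hg, inv_inv] at this
    exact mul_inv_eq_iff_eq_mul.1 this
  have g3 : (g ^ p) ^ 2 = 1 := by
    rw [← pow_mul, mul_comm, pow_mul]
    by_cases e : g ^ 2 = 1
    · rw [e, one_pow]
    · rw [← orderOf_mem h g2 e, pow_orderOf_eq_one]
  have gN : ∀ y ∈ P, g * y * g⁻¹ ∈ P := fun y hy => by
    rw [show y ∈ P ↔ y ∈ (P : Subgroup G) from Iff.rfl, ← hC, Subgroup.mem_centralizer_singleton_iff] at hy
    rw [show g * y * g⁻¹ ∈ P ↔ g * y * g⁻¹ ∈ (P : Subgroup G) from Iff.rfl, ← hC,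
      Subgroup.mem_centralizer_singleton_iff]
    have e : Commute (g * y * g⁻¹) (g * z * g⁻¹) := (show Commute y (z : G) from hy).map (MulAut.conj g)
    rw [hg] at e
    exact Commute.inv_right_iff.1 e
  have gN' : g ∈ Subgroup.normalizer ((P : Subgroup G) : Set G) := Subgroup.mem_normalizer_fintype gN
  set u := g ^ p with hu
  have uN : u ∈ Subgroup.normalizer ((P : Subgroup G) : Set G) := pow_mem gN' _
  have uP : u ∉ P := fun hP => by
    have : g ∈ P := by
      obtain ⟨k, hk⟩ := hodd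
      have e : g = ((g ^ 2) ^ k)⁻¹ * u := by rw [hu, hk, pow_succ g (2 * k), pow_mul g 2 k, inv_mul_cancel_left]
      rw [e]; exact mul_mem (inv_mem (pow_mem g2 _)) hP
    rw [show g ∈ P ↔ g ∈ (P : Subgroup G) from Iff.rfl, ← hC, Subgroup.mem_centralizer_singleton_iff] at this
    rw [this, mul_inv_cancel_right, eq_inv_iff_mul_eq_one, ← sq] at hg
    have := orderOf_dvd_of_pow_eq_one hg
    rw [zo] at this
    exact h2 ((Nat.prime_dvd_prime_iff_eq hp.out Nat.prime_two).1 this)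
  have u1 : u ≠ 1 := fun e => uP (e ▸ one_mem _)
  have uo : orderOf u = 2 := orderOf_eq_prime g3 u1
  let φ : MulAut (P : Subgroup G) := (P : Subgroup G).normalizerMonoidHom ⟨u, uN⟩
  have hφ : MonoidHom.FixedPointFree φ := fun y hy => by
    by_contra y1
    have e : u * y * u⁻¹ = y := congrArg Subtype.val hy
    have c : Commute (y : G) u := (mul_inv_eq_iff_eq_mul.1 e).symm
    have yo := orderOf_mem h y.2 fun e => y1 (Subtype.ext e)
    refine hno 2 Nat.prime_two h2.symm (y * u) ?_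
    rw [c.orderOf_mul_eq_mul_orderOf_of_coprime (by
      rw [yo, uo]; exact (Nat.coprime_primes hp.out Nat.prime_two).2 h2), yo, uo]
  have hi : Function.Involutive φ := fun y => Subtype.ext (by
    show u * (u * y * u⁻¹) * u⁻¹ = y
    have : u * (u * y * u⁻¹) * u⁻¹ = u ^ 2 * y * (u ^ 2)⁻¹ := by simp [sq, mul_assoc]
    rw [this, g3]; simp)
  exact ⟨⟨fun a b => hφ.commute_all_of_involutive hi a b⟩⟩

theorem inverts (h : CC p G) (h2 : p ≠ 2) {P : Sylow p G} {u x : G} (hu : orderOf u = 2) (hP : u • P = P)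
    (hx : x ∈ P) : u * x * u⁻¹ = x⁻¹ := by
  have u2 : u * u = 1 := by rw [← sq, ← hu, pow_orderOf_eq_one]
  have ui : u⁻¹ = u := inv_eq_of_mul_eq_one_right u2
  have m := CC.conj_mem hP hx
  by_contra hne
  have y1 : x * (u * x * u⁻¹) ≠ 1 := fun e => hne (eq_inv_of_mul_eq_one_right e)
  have x1 : x ≠ 1 := by rintro rfl; simp at hne
  have c : x * (u * x * u⁻¹) = u * x * u⁻¹ * x := (h P x hx x1 _).2 m
  have uP : u ∈ P := (h P _ (mul_mem hx m) y1 u).1 (by
    show x * (u * x * u⁻¹) * u = u * (x * (u * x * u⁻¹))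
    have e : u * (x * (u * x * u⁻¹)) = (u * x * u⁻¹) * (u * u) * x * u⁻¹ := by group
    rw [e, u2, mul_one, ← c, ui])
  obtain ⟨k, hk⟩ := (IsPGroup.iff_orderOf.1 P.isPGroup') ⟨u, uP⟩
  rw [Subgroup.orderOf_mk, hu] at hk
  exact h2 ((Nat.prime_dvd_prime_iff_eq Nat.prime_two hp.out).1 (Nat.prime_two.dvd_of_dvd_pow (dvd_of_eq hk))).symm

theorem pgl {F : Type*} [Field F] [Fintype F] {t : ℕ} (h : CC p G) (hp2 : p ≠ 2) (P : Sylow p G)
    (hP : Nat.card P = 2 * t + 1) (ht : 0 < t) (hF : Fintype.card F = 2 * t + 1)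
    (hG : Nat.card G = (2 * t + 1) * (4 * t * (t + 1))) (h2 : s G 2 = (2 * t + 1) ^ 2) :
    Nonempty (G ≃* PGL(2, F)) := by
  classical
  obtain ⟨e, k, he, hn, hc⟩ := h.num P (by omega)
  rw [hP] at he hn hc
  have e2 : (1 + (2 * t + 1) * k) * e = 4 * t * (t + 1) :=
    Nat.eq_of_mul_eq_mul_left (show 0 < 2 * t + 1 by omega) (by rw [← hG, hc]; ring)
  have e3 : 2 * t + 1 ∣ e + 1 := by
    have : (2 * t + 1) * (k * e) + (e + 1) = (2 * t + 1) * (2 * t + 1) := by nlinarith
    exact (Nat.dvd_add_right (dvd_mul_right _ _)).1 (this ▸ dvd_mul_right _ _)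
  have he2 : e = 2 * t := by have := Nat.le_of_dvd (by omega) e3; omega
  have hk : k = 1 := by
    rw [he2] at e2
    have : 2 * t * (2 * t + 1) * k = 2 * t * (2 * t + 1) * 1 := by nlinarith
    exact Nat.eq_of_mul_eq_mul_left (by positivity) this
  subst hk he2
  have hn' : Nat.card (Sylow p G) = Nat.card P + 1 := by omega
  have S3 : H19.Sharp3 G (Sylow p G) := H19.sharp3_of_card (q := 2 * t + 1) (by omega)
    (by rw [hG, Nat.add_sub_cancel]; ring) fun g a b c h1 h2 h3 => h.three P hn' g a b c h1 h3 h2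
  have := Fintype.ofFinite G
  have := Fintype.ofFinite (Sylow p G)
  have hΩ : Fintype.card (Sylow p G) = 2 * t + 2 := by rw [← Nat.card_eq_fintype_card]; omega
  obtain ⟨x, hx, x1⟩ := h.exists_ne_one P (by omega)
  set I := Finset.univ.filter fun g : G => orderOf g = 2 with hI
  have cI : I.card = (2 * t + 1) ^ 2 := by rw [← h2, s, Nat.card_eq_fintype_card, Fintype.card_subtype]
  have c1 : (I.filter fun g => g • P = P).card ≤ 2 * t + 1 := by
    rcases (I.filter fun g => g • P = P).eq_empty_or_nonempty with e0 | ⟨u, hu⟩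
    · rw [e0]; simp
    have := Fintype.ofFinite (P : Subgroup G)
    rw [← hP, Nat.card_eq_fintype_card, ← Finset.card_univ]
    simp only [hI, Finset.mem_filter, Finset.mem_univ, true_and] at hu
    have key : ∀ a ∈ I.filter fun g => g • P = P, u⁻¹ * a ∈ P := fun a ha => by
      simp only [hI, Finset.mem_filter, Finset.mem_univ, true_and] at ha
      refine (h P x hx x1 _).1 ?_
      have e2 := (inverts h hp2 ha.1 ha.2 hx).trans (inverts h hp2 hu.1 hu.2 hx).symm
      have : x * (u⁻¹ * a) = u⁻¹ * ((u * x * u⁻¹) * a) := by group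
      rw [Commute, SemiconjBy, this, ← e2]; group
    refine Finset.card_le_card_of_injOn (fun a => if ha : u⁻¹ * a ∈ P then ⟨_, ha⟩ else 1)
      (fun _ _ => by simp) fun a ha c hc e => ?_
    simp only [dif_pos (key a ha), dif_pos (key c hc), Subtype.mk.injEq, mul_right_inj] at e
    exact e
  set W := Finset.univ.filter fun g : G => g • P ≠ P ∧ g • g • P = P with hW
  have c2 : W.card ≤ 2 * t * (2 * t + 1) := by
    have e1 : (Finset.univ.erase P).card = 2 * t + 1 := by
      rw [Finset.card_erase_of_mem (Finset.mem_univ _), Finset.card_univ, hΩ]; rfl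
    rw [← e1]
    refine Finset.card_le_mul_card_image_of_maps_to (f := fun g : G => g • P) (fun g hg => ?_) _ fun b hb => ?_
    · simp only [hW, Finset.mem_filter, Finset.mem_univ, true_and] at hg
      simp [hg.1]
    · have hb' : b ≠ P := (Finset.mem_erase.1 hb).1
      have e3 : ((Finset.univ.erase P).erase b).card = 2 * t := by rw [Finset.card_erase_of_mem hb, e1]; rfl
      obtain ⟨c, hc⟩ : ((Finset.univ.erase P).erase b).Nonempty := Finset.card_pos.1 (by omega)
      simp only [Finset.mem_erase, Finset.mem_univ, and_true] at hc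
      rw [← e3]
      refine Finset.card_le_card_of_injOn (fun g => g • c) (fun g hg => ?_) fun g hg g' hg' e => ?_
      · simp only [hW, Finset.coe_filter, Finset.mem_filter, Finset.mem_univ, true_and, Set.mem_ofPred_eq] at hg
        simp only [Finset.coe_erase, Finset.coe_univ, Set.mem_sdiff, Set.mem_univ, Set.mem_singleton_iff, true_and]
        refine ⟨fun e => hc.1 (smul_left_cancel g ?_), fun e => hc.2 (smul_left_cancel g ?_)⟩
        · rw [e, ← hg.2, hg.1.2]
        · rw [e, hg.2]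
      · simp only [hW, Finset.coe_filter, Finset.mem_filter, Finset.mem_univ, true_and, Set.mem_ofPred_eq] at hg hg'
        have k1 : g • b = P := by rw [← hg.2, hg.1.2]
        have k2 : g' • b = P := by rw [← hg'.2, hg'.1.2]
        have := S3.sharp (g'⁻¹ * g) P b c hb'.symm hc.2.symm hc.1.symm
          (by rw [mul_smul, hg.2, inv_smul_eq_iff, hg'.2]) (by rw [mul_smul, k1, inv_smul_eq_iff, k2])
          (by rw [mul_smul, inv_smul_eq_iff]; exact e)
        exact (inv_mul_eq_one.1 this).symm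
  have c3 := Finset.card_filter_add_card_filter_not (s := I) (fun g => g • P = P)
  have c4 : (I.filter fun g => ¬ g • P = P) = W := Finset.eq_of_subset_of_card_le (fun g hg => by
    simp only [hI, hW, Finset.mem_filter, Finset.mem_univ, true_and] at hg ⊢
    exact ⟨hg.2, by rw [← mul_smul, ← sq, ← hg.1, pow_orderOf_eq_one, one_smul]⟩) (by nlinarith)
  have sw : ∀ g : G, g • P ≠ P → g • g • P = P → g * g = 1 := fun g a b => by
    have : g ∈ W := by simp [hW, a, b]
    rw [← c4] at this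
    simp only [hI, Finset.mem_filter, Finset.mem_univ, true_and] at this
    rw [← sq, ← this.1, pow_orderOf_eq_one]
  have : Nontrivial (Sylow p G) := Finite.one_lt_card_iff_nontrivial.1 (by omega)
  obtain ⟨Q, hQ⟩ := exists_ne P
  obtain ⟨j, j1, j2⟩ := is_two_pretransitive_iff.1 (h.two_trans P hn') hQ.symm hQ
  refine S3.pgl2_of_inverts (by omega) hQ j1 j2 (fun k k1 k2 => ?_) (by omega)
  have a1 := sw j (by rw [j1]; exact hQ) (by rw [j1, j2])
  have a2 := sw (j * k) (by rw [mul_smul, k1, j1]; exact hQ) (by simp only [mul_smul, k1, j1, k2, j2])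
  rw [inv_eq_of_mul_eq_one_right a1, eq_inv_iff_mul_eq_one, ← a2]; group

end H05.Np
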