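import Mathlib
import Cfsg.Agent.H02.NS1
import Cfsg.Agent.H19.Recog
import Cfsg.Agent.S0228
import Cfsg.Agent.S0494
import Cfsg.Agent.S0497

/-!
Numbers of elements of given order, II (`s G m` of `H02.NS`).
* `H05.Nse.cyc` (cyclic Sylow: `2 s(p^k) ≤ s(p^(k+1))`), `le_mul`, `two_le_mul`, `all_comm`, `selfC`, `sum_le`, `sum_eq`
* `a4`, `a5`, `a6` : recognition of `A₄`, `A₅`, `A₆` by the set of same-order counts
-/

set_option autoImplicit false
open Subgroup H02.NS

namespace H05.Nse
variable {G : Type*} [Group G] [Finite G] {p a m k : ℕ}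

theorem sum_le (T : Finset ℕ) (h : ∀ a ∈ T, a ∈ vals G) : ∑ a ∈ T, a ≤ Nat.card G := by
  rw [← sum_card]
  refine (Finset.sum_le_sum_of_subset (t := (Nat.card G).divisors.image (s G)) fun a ha => ?_).trans
    (Finset.sum_image_le_of_nonneg (f := fun a => a) fun _ _ => Nat.zero_le _)
  obtain ⟨m, rfl, h0⟩ := vals_ex (h a ha)
  exact Finset.mem_image_of_mem _ (Nat.mem_divisors.2 ⟨dvd_of_s h0, Nat.card_pos.ne'⟩)

theorem sum_eq {N : ℕ} (h0 : N ≠ 0) (h : Nat.card G ∣ N) : ∑ d ∈ N.divisors, s G d = Nat.card G := by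
  rw [sum_s h0]
  exact Nat.card_congr (Equiv.subtypeUnivEquiv fun g => orderOf_dvd_iff_pow_eq_one.1 ((orderOf_dvd_natCard g).trans h))

theorem two_le {n : ℕ} (f : {g : G // orderOf g = m} → G) (f' : {g : G // orderOf g = m} → G) (r : G → G)
    (h1 : ∀ x, orderOf (f x) = n) (h2 : ∀ x, orderOf (f' x) = n) (h3 : ∀ x, r (f x) = x) (h4 : ∀ x, r (f' x) = x)
    (h5 : ∀ x, f x ≠ f' x) : 2 * s G m ≤ s G n := by
  have := Nat.card_le_card_of_injective (fun x : {g : G // orderOf g = m} ⊕ {g : G // orderOf g = m} =>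
    (x.elim (fun x => ⟨f x, h1 x⟩) (fun x => ⟨f' x, h2 x⟩) : {g : G // orderOf g = n})) (by
      rintro (x | x) (y | y) e <;> have e := congrArg Subtype.val e <;> have e' := congrArg r e <;>
        simp only [Sum.elim_inl, Sum.elim_inr, h3, h4] at e e' <;> obtain rfl := Subtype.ext e'
      exacts [rfl, absurd e (h5 x), absurd e.symm (h5 x), rfl])
  rwa [Nat.card_sum, ← two_mul] at this

theorem conj_le (hp : p.Prime) {x z : G} {i j : ℕ} (hx : orderOf x = p ^ i) (h : ¬ p ^ (i + 1) ∣ Nat.card G) (hz : orderOf z = p ^ j) :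
    ∃ g, z ∈ zpowers (g * x * g⁻¹) := by
  have := Fact.mk hp
  obtain ⟨P, hP⟩ := (IsPGroup.of_card (G := zpowers x) ((Nat.card_zpowers x).trans hx)).exists_le_sylow
  obtain ⟨Q, hQ⟩ := (IsPGroup.of_card (G := zpowers z) ((Nat.card_zpowers z).trans hz)).exists_le_sylow
  have e : zpowers x = P := eq_of_le_of_card_ge hP (by
    obtain ⟨n, hn⟩ := P.isPGroup'.exists_card_eq
    rw [hn, Nat.card_zpowers, hx]
    exact Nat.pow_le_pow_right hp.pos (Nat.le_of_lt_succ (by
      by_contra! c; exact h ((pow_dvd_pow p c).trans (hn ▸ card_subgroup_dvd_card _)))))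
  obtain ⟨g, rfl⟩ := MulAction.exists_smul_eq G P Q
  have := hQ (mem_zpowers z)
  rw [Sylow.coe_subgroup_smul, ← e, mem_pointwise_smul_iff_inv_smul_mem] at this
  obtain ⟨n, hn⟩ := this
  exact ⟨g, n, by simp only [conj_zpow, hn]; simp [mul_assoc]⟩

theorem cyc (hp : p.Prime) (h : ¬ p ^ (k + 2 + 1) ∣ Nat.card G) (h0 : s G (p ^ (k + 2)) ≠ 0) :
    2 * s G (p ^ (k + 1)) ≤ s G (p ^ (k + 2)) := by
  have := Fact.mk hp
  obtain ⟨x, hx⟩ := s_ne.1 h0
  have : ∀ z : {g : G // orderOf g = p ^ (k + 1)}, ∃ y : G, orderOf y = p ^ (k + 2) ∧ y ^ p = z := fun z => by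
    obtain ⟨g, hg⟩ := conj_le hp hx h z.2
    set w := g * x * g⁻¹
    have hw : orderOf w = p ^ (k + 2) := (BG.orderOf_conj _ _).trans hx
    obtain ⟨n, hn⟩ := (mem_powers_iff_mem_zpowers.2 hg : z.1 ∈ Submonoid.powers w)
    dsimp only at hn
    obtain ⟨n, rfl⟩ : p ∣ n := by
      by_contra c
      have := z.2
      rw [← hn, Nat.Coprime.orderOf_pow (hw ▸ ((Nat.Prime.coprime_iff_not_dvd hp).2 c).pow_left _), hw] at this
      exact absurd (Nat.pow_right_injective hp.two_le this) (by omega)
    have e : (w ^ n) ^ p = z := by rw [← pow_mul, mul_comm, hn]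
    refine ⟨w ^ n, orderOf_eq_prime_pow (fun c => ?_) (by rw [pow_right_comm, ← hw, pow_orderOf_eq_one, one_pow]), e⟩
    rw [pow_succ', pow_mul, e, ← orderOf_dvd_iff_pow_eq_one, z.2, Nat.pow_dvd_pow_iff_le_right hp.one_lt] at c
    omega
  choose y h1 h2 using this
  refine two_le y (fun z => y z ^ (p ^ (k + 1) + 1)) (· ^ p) h1 (fun z => ?_) h2 (fun z => ?_) fun z e => ?_
  · rw [Nat.Coprime.orderOf_pow, h1]
    rw [h1]; refine Nat.Coprime.pow_left _ ?_
    rw [pow_succ, Nat.coprime_mul_right_add_right]; exact Nat.coprime_one_right p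
  · rw [← pow_mul, add_mul, ← pow_succ, pow_add, ← h1 z, pow_orderOf_eq_one, one_mul, one_mul, h2]
  · rw [pow_succ, eq_comm, mul_eq_right, ← orderOf_dvd_iff_pow_eq_one, h1, Nat.pow_dvd_pow_iff_le_right hp.one_lt] at e
    omega

theorem exists_r (hc : a.Coprime m) : ∃ n, ∀ x y : G, orderOf x = a → orderOf y = m → Commute x y → (x * y) ^ n = x := by
  obtain ⟨n, h1, h2⟩ := Nat.chineseRemainder hc 1 0
  exact ⟨n, fun x y hx hy c => by
    rw [c.mul_pow, pow_eq_pow_iff_modEq.2 (hx ▸ h1), (pow_eq_pow_iff_modEq (x := y)).2 (hy ▸ h2), pow_one, pow_zero, mul_one]⟩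

theorem le_mul (hc : a.Coprime m) (h : ∀ x : G, orderOf x = a → ∃ y, orderOf y = m ∧ Commute x y) : s G a ≤ s G (a * m) := by
  obtain ⟨n, hn⟩ := exists_r (G := G) hc
  choose y h1 h2 using h
  exact Nat.card_le_card_of_injective (fun x => ⟨x.1 * y x.1 x.2, by
    rw [ord_mul (h2 _ _) (by rwa [x.2, h1]), x.2, h1]⟩) fun x z e => Subtype.ext
      ((hn _ _ x.2 (h1 _ _) (h2 _ _)).symm.trans ((congrArg (fun t => t.1 ^ n) e).trans (hn _ _ z.2 (h1 _ _) (h2 _ _))))

theorem two_le_mul (hc : a.Coprime m) (hm : 2 < m) (h : ∀ x : G, orderOf x = a → ∃ y, orderOf y = m ∧ Commute x y) :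
    2 * s G a ≤ s G (a * m) := by
  obtain ⟨n, hn⟩ := exists_r (G := G) hc
  choose y h1 h2 using h
  refine two_le (fun x => x.1 * y x.1 x.2) (fun x => x.1 * (y x.1 x.2)⁻¹) (· ^ n)
    (fun x => by rw [ord_mul (h2 _ _) (by rwa [x.2, h1]), x.2, h1])
    (fun x => by rw [ord_mul (h2 _ _).inv_right (by rwa [x.2, orderOf_inv, h1]), x.2, orderOf_inv, h1])
    (fun x => hn _ _ x.2 (h1 _ _) (h2 _ _)) (fun x => hn _ _ x.2 (by rw [orderOf_inv, h1]) (h2 _ _).inv_right) fun x e => ?_
  have := orderOf_dvd_of_pow_eq_one (show y x.1 x.2 ^ 2 = 1 by rw [sq, mul_eq_one_iff_eq_inv]; exact mul_left_cancel e)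
  exact absurd (Nat.le_of_dvd two_pos (h1 _ _ ▸ this)) (by omega)

theorem all_comm (hp : p.Prime) (h : ¬ p ^ 2 ∣ Nat.card G) {x y : G} (hx : orderOf x = p) (c : Commute x y) (z : G)
    (hz : orderOf z = p) : ∃ w, orderOf w = orderOf y ∧ Commute z w := by
  obtain ⟨g, n, rfl⟩ := conj_le (x := x) (z := z) (i := 1) (j := 1) hp (by rwa [pow_one]) h (by rwa [pow_one])
  exact ⟨g * y * g⁻¹, BG.orderOf_conj _ _, (c.map (MulAut.conj g)).zpow_left n⟩

/-- a self-centralizing Sylow subgroup of prime order -/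
theorem selfC (hp : p.Prime) (h : ¬ p ^ 2 ∣ Nat.card G) (hd : p ∣ Nat.card G) (h2 : s G (p * 2) < s G p)
    (h3 : ∀ m, 2 < m → s G m < 2 * s G p) : ∃ (_ : Fact p.Prime) (P : Sylow p G) (e : ℕ), Nat.card (P : Subgroup G) = p ∧ e ∣ p - 1 ∧
      Nat.card (normalizer (P : Set G)) = p * e ∧ s G p * (p * e) = Nat.card G * (p - 1) ∧ ∀ m, m ≠ 1 → m ≠ p → p ∣ s G m := by
  have := Fact.mk hp
  have hc : ∀ x : G, orderOf x = p → Nat.card (centralizer ({x} : Set G)) = p := fun x hx => by
    obtain ⟨c, e⟩ : p ∣ Nat.card (centralizer ({x} : Set G)) :=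
      hx ▸ orderOf_dvd_natCard _ (mem_centralizer_singleton_iff.2 rfl)
    by_contra c1
    obtain ⟨q, hq, qc⟩ := Nat.exists_prime_and_dvd (n := c) fun c2 => c1 (by rw [e, c2, mul_one])
    have qp : q ≠ p := fun e' => h ((sq p ▸ Nat.mul_dvd_mul_left p (e' ▸ qc)).trans (e ▸ card_subgroup_dvd_card _))
    have := Fact.mk hq
    obtain ⟨y, hy⟩ := exists_prime_orderOf_dvd_card' (G := centralizer ({x} : Set G)) q (e ▸ qc.mul_left p)
    have k := fun z hz => (orderOf_coe y).trans hy ▸ all_comm hp h hx (mem_centralizer_singleton_iff.1 y.2).symm z hz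
    have cop := (Nat.coprime_primes hp hq).2 qp.symm
    rcases hq.two_le.eq_or_lt with rfl | q2
    · exact (le_mul cop k).not_gt h2
    · exact (two_le_mul cop q2 k).not_gt (h3 _ (q2.trans_le (Nat.le_mul_of_pos_left q hp.pos)))
  obtain ⟨x, hx⟩ := exists_prime_orderOf_dvd_card' p hd
  obtain ⟨P, e, a1, a2, a3, a4, -⟩ := H19.card_normalizer_of_selfC hx (hc x hx)
  exact ⟨this, P, e, a1, a2, a3, by rw [s, H19.card_orderOf_eq_prime a1, ← a4]; ring,
    fun m m1 mp => H19.dvd_card_orderOf_of_selfC hc hd m1 mp⟩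

theorem s_dvd (hp : p.Prime) (h : ¬ p ^ 2 ∣ Nat.card G) (hd : p ∣ Nat.card G) : s G p ∣ Nat.card G * (p - 1) := by
  have := Fact.mk hp
  obtain ⟨P⟩ : Nonempty (Sylow p G) := inferInstance
  rw [s, H19.card_orderOf_eq_prime (P := P) (by
    obtain ⟨n, hn⟩ := P.isPGroup'.exists_card_eq
    have h1 := P.dvd_card_of_dvd_card hd
    have h2 : ¬ 2 ≤ n := fun c => h ((pow_dvd_pow p c).trans (hn ▸ card_subgroup_dvd_card _))
    interval_cases n
    · exact absurd (h1.trans (dvd_of_eq hn)) hp.not_dvd_one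
    · simpa using hn)]
  exact Nat.mul_dvd_mul_right ((Sylow.card_dvd_index P).trans (index_dvd_card _)) _

theorem s_two {v : ℕ} (hv : v ∈ vals G) (h1 : v ≠ 1) (h2 : ¬ 2 ∣ v) : s G 2 = v := by
  obtain ⟨m, rfl, h0⟩ := vals_ex hv
  have : ¬ 2 < m := fun c => h2 (even_s c)
  obtain ⟨g, hg⟩ := s_ne.1 h0
  have := hg ▸ orderOf_pos g
  interval_cases m
  · exact absurd s_one h1
  · rfl

theorem dvd_of {n N : ℕ} (h : ∀ p k, p.Prime → p ^ (k + 1) ∣ n → p ^ (k + 1) ∣ N) : n ∣ N :=
  (Nat.dvd_iff_prime_pow_dvd_dvd N n).2 fun p k hp hk => by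
    rcases k with _ | k
    · simp
    · exact h p k hp hk

theorem pow_le {n k j : ℕ} (hk : p ^ k ∣ n) (h : ¬ p ^ (j + 1) ∣ n) : p ^ k ∣ p ^ j :=
  pow_dvd_pow p (Nat.le_of_lt_succ (by by_contra! c; exact h ((pow_dvd_pow p c).trans hk)))

theorem a4 (h : vals G = {1, 3, 8}) : Nonempty (G ≃* alternatingGroup (Fin 4)) := by
  have s2 : s G 2 = 3 := s_two (by simp [h]) (by decide) (by decide)
  have hv : ∀ m, 2 < m → s G m = 0 ∨ s G m = 8 := fun m hm => by
    have := even_s (G := G) hm
    by_cases h0 : s G m = 0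
    · exact .inl h0
    have := h ▸ mem_vals h0
    simp at this; omega
  have s1 := s_one (G := G)
  have lb := sum_le (G := G) {1, 3, 8} (by simp [h])
  have h8 : ¬ 2 ^ (2 + 1) ∣ Nat.card G := fun c => by
    have := pow_dvd Nat.prime_two c
    have := hv 4 (by decide); have := hv 8 (by decide)
    simp [Finset.sum_range_succ] at *; omega
  have s9 : s G (3 * 3) = 0 := by
    have := sq_dvd (G := G) Nat.prime_three dvd_rfl; have := hv (3 * 3) (by decide); omega
  have h36 : Nat.card G ∣ 36 := dvd_of fun p k hp hk => by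
    have pd := (dvd_pow_self p k.succ_ne_zero).trans hk
    rcases hp.two_le.eq_or_lt with rfl | p2
    · exact (pow_le hk h8).trans (by decide)
    have e := (hv p p2).resolve_left ((s_prime hp).2 pd)
    have := one_add hp pd
    rw [e] at this
    obtain rfl := (Nat.prime_dvd_prime_iff_eq hp Nat.prime_three).1 (hp.dvd_of_dvd_pow (n := 2) this)
    exact (pow_dvd_one_add hp hk s9).trans (by rw [e]; decide)
  have h2 : 2 ∣ Nat.card G := dvd_of_s (by omega)
  have h3 : 3 ∣ Nat.card G := by
    have := Nat.le_of_dvd (by decide) h36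
    simp at lb
    interval_cases Nat.card G <;> simp_all
  have s3 := (hv 3 (by decide)).resolve_left ((s_prime Nat.prime_three).2 h3)
  have s6 : s G 6 = 0 := by
    have := add_dvd (G := G) (m := 2) Nat.prime_three (by decide) (by omega)
    have := hv 6 (by decide); simp at *; omega
  have z : ∀ {m n}, s G m = 0 → m ∣ n → s G n = 0 := fun h d => by_contra fun c => s_ne_of_dvd d c h
  have s12 := z s6 (n := 12) (by decide)
  have s4 : s G 4 = 0 := by_contra fun c => by
    have := dvd_of_s c
    have := add_dvd (G := G) (m := 4) Nat.prime_three (by decide) (by omega)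
    have := hv 4 (by decide); simp at *; omega
  have := sum_eq (by decide) h36
  rw [show Nat.divisors 36 = {1, 2, 3, 4, 6, 9, 12, 18, 36} by decide] at this
  simp [s1, s2, s3, s4, s6, s9, s12, z s6 (n := 18), z s6 (n := 36)] at this
  refine Cfsg.Agent.S0228.result this.symm fun t ht hc => ?_
  obtain ⟨x, hx⟩ := s_ne.1 (show s G 3 ≠ 0 by omega)
  exact s_eq_zero.1 s6 (x * t) (by rw [ord_mul (mem_center_iff.1 hc x) (by rw [hx, ht]; decide), hx, ht])

theorem a5 (h : vals G = {1, 15, 20, 24}) : Nonempty (G ≃* alternatingGroup (Fin 5)) := by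
  have s2 : s G 2 = 15 := s_two (by simp [h]) (by decide) (by decide)
  have hv : ∀ m, 2 < m → s G m = 0 ∨ s G m = 20 ∨ s G m = 24 := fun m hm => by
    have := even_s (G := G) hm
    by_cases h0 : s G m = 0
    · exact .inl h0
    have := h ▸ mem_vals h0
    simp at this; omega
  have s1 := s_one (G := G)
  have lb := sum_le (G := G) {1, 15, 20, 24} (by simp [h])
  simp at lb
  have z : ∀ {m n}, s G m = 0 → m ∣ n → s G n = 0 := fun h d => by_contra fun c => s_ne_of_dvd d c h
  have p5 := Nat.prime_five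
  have hp : ∀ p, p.Prime → p ∣ Nat.card G → p = 2 ∨ p = 3 ∧ s G 3 = 20 ∨ p = 5 ∧ s G 5 = 24 := fun p hp pd => by
    rcases hp.two_le.eq_or_lt with rfl | p2
    · exact .inl rfl
    have a := one_add hp pd
    have b := Nat.totient_prime hp ▸ tot_dvd (G := G) p
    rcases (hv p p2).resolve_left ((s_prime hp).2 pd) with e | e <;> rw [e] at a b <;> have := Nat.le_of_dvd (by decide) a <;>
      interval_cases p <;> first | (simp_all; done) | exact absurd hp (by norm_num)
  have h9 : ¬ 3 ^ 2 ∣ Nat.card G := fun c => by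
    have s3 := hp 3 Nat.prime_three ((by decide : 3 ∣ 3 ^ 2).trans c)
    have a := pow_dvd Nat.prime_three c
    have b := hv 9 (by decide)
    have d := cyc (G := G) (k := 0) Nat.prime_three fun c => by
      have a := pow_dvd Nat.prime_three c
      have := tot_dvd (G := G) 27; have := hv 27 (by decide)
      rw [show Nat.totient 27 = 18 by decide] at *
      simp [Finset.sum_range_succ] at *; omega
    simp [Finset.sum_range_succ] at *; omega
  have h2 : 2 ∣ Nat.card G := dvd_of_s (by omega)
  have h25 : ¬ 5 ^ 2 ∣ Nat.card G := fun c => by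
    have s5 := hp 5 p5 ((by decide : 5 ∣ 5 ^ 2).trans c)
    have := Fact.mk p5
    obtain ⟨P⟩ : Nonempty (Sylow 5 G) := inferInstance
    have := two_le_mul (G := G) (a := 2) (m := 5) (by decide) (by decide) fun x hx => by
      by_contra! k
      have h1 : (centralizer ({x} : Set G)).index ≤ s G 2 := by
        rw [← H19.card_conj_eq_index_centralizer]
        exact Nat.card_le_card_of_injective (fun y => ⟨y.1, by
          obtain ⟨g, e⟩ := isConj_iff.1 y.2; exact e ▸ (BG.orderOf_conj _ _).trans hx⟩) fun a b e => Subtype.ext (congrArg (·.1) e)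
      have h2 : ¬ 5 ∣ Nat.card (centralizer ({x} : Set G)) := fun d => by
        obtain ⟨y, hy⟩ := exists_prime_orderOf_dvd_card' 5 d
        exact k y ((orderOf_coe y).trans hy) (mem_centralizer_singleton_iff.1 y.2).symm
      rw [← (centralizer ({x} : Set G)).card_mul_index] at c
      have := Nat.le_of_dvd (Nat.pos_of_ne_zero index_ne_zero_of_finite)
        ((((Nat.Prime.coprime_iff_not_dvd p5).2 h2).pow_left 2).dvd_of_dvd_mul_left c)
      omega
    have := hv (2 * 5) (by decide); omega
  by_cases h5 : 5 ∣ Nat.card G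
  swap
  · exfalso
    have h3 : ¬ 3 ∣ Nat.card G := fun c => by
      have a := s_dvd Nat.prime_three h9 c
      have e : s G 3 = 20 := by simpa using hp 3 Nat.prime_three c
      have := (show 5 ∣ s G 3 by omega).trans a
      omega
    have s32 : s G 32 = 0 := by
      have := tot_dvd (G := G) 32; have := hv 32 (by decide)
      rw [show Nat.totient 32 = 16 by decide] at *; omega
    have := hv 4 (by decide); have := hv 8 (by decide); have := hv 16 (by decide)
    have h64 : Nat.card G ∣ 64 := dvd_of fun p k hq hk => by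
      have pd := (dvd_pow_self p k.succ_ne_zero).trans hk
      obtain rfl : p = 2 := by rcases hp p hq pd with rfl | ⟨rfl, -⟩ | ⟨rfl, -⟩ <;> simp_all
      refine pow_le (j := 6) hk fun c => ?_
      have a := pow_dvd Nat.prime_two c
      simp [Finset.sum_range_succ, s32, z s32 (n := 64), z s32 (n := 128)] at a; omega
    have e := sum_eq (by decide) h64
    rw [show Nat.divisors 64 = {1, 2, 4, 8, 16, 32, 64} by decide] at e
    simp [s1, s2, s32, z s32 (n := 64)] at e
    obtain ⟨m, m1, m0⟩ := vals_ex (G := G) (a := 20) (by simp [h])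
    have a := Nat.mem_divisors.2 ⟨(dvd_of_s (m1 ▸ m0)).trans h64, by decide⟩
    rw [show Nat.divisors 64 = {1, 2, 4, 8, 16, 32, 64} by decide] at a
    have := z s32 (n := 64) (by decide)
    have := Nat.le_of_dvd (by decide) h64
    simp at a; rcases a with rfl | rfl | rfl | rfl | rfl | rfl | rfl <;> omega
  have s5 : s G 5 = 24 := by have := hp 5 p5 h5; omega
  obtain ⟨_, P, e, a1, a2, a3, a4, a5⟩ := selfC p5 h25 h5 (by
    have := add_dvd (G := G) (m := 2) p5 (by decide) (by omega)
    have := hv (5 * 2) (by decide); omega) fun m hm => by have := hv m hm; omega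
  have := Nat.le_of_dvd (by decide) a2
  rw [s5] at a4
  have h3 : 3 ∣ Nat.card G := by omega
  have e2 : e = 2 := by
    have s3 := hp 3 Nat.prime_three h3
    interval_cases e <;> try omega
    have b := sum_eq (G := G) (N := 120) (by decide) (dvd_of_eq (by omega))
    have s6 : s G 6 = 0 := by
      have := add_dvd (G := G) (m := 2) Nat.prime_three (by decide) (by omega)
      have := hv 6 (by decide); have := a5 6 (by decide) (by decide); simp at *; omega
    have s10 : s G 10 = 0 := by
      have := hv 10 (by decide); have := tot_dvd (G := G) 10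
      by_contra c
      obtain ⟨g, hg⟩ := s_ne.1 c
      have := le_mul (G := G) (a := 5) (m := 2) (by decide) fun x hx => by
        simpa [orderOf_pow, hg] using all_comm p5 h25 (x := g ^ 2) (y := g ^ 5) (by simp [orderOf_pow, hg]) (Commute.pow_pow_self ..) x hx
      have := a5 10 (by decide) (by decide); simp at *; omega
    have s15 : s G 15 = 0 := by
      have := hv 15 (by decide); have := tot_dvd (G := G) 15
      have := a5 15 (by decide) (by decide)
      rw [show Nat.totient 15 = 8 by decide] at *; omega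
    rw [show Nat.divisors 120 = {1, 2, 3, 4, 5, 6, 8, 10, 12, 15, 20, 24, 30, 40, 60, 120} by decide] at b
    simp [s6, s10, s15, z s6 (n := 12), z s6 (n := 24), z s6 (n := 30), z s6 (n := 60), z s6 (n := 120), z s10 (n := 20),
      z s10 (n := 40)] at b
    have := hv 4 (by decide); have := hv 8 (by decide); omega
  subst e2
  have c : Nat.card G = 60 := by omega
  have := H19.simple_of_normalizer a1 Nat.prime_two a3 Nat.prime_three (by decide) (by decide) h3
    (c ▸ H19.pow_mod_ne_one_of_list (qs := [2, 3, 5]) (B := 6) (by simp; decide) (by decide) (by decide) (by decide) (by decide))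
  exact Cfsg.Agent.S0494.result c

theorem a6 (h : vals G = {1, 45, 80, 90, 144}) : Nonempty (G ≃* alternatingGroup (Fin 6)) := by
  have s2 : s G 2 = 45 := s_two (by simp [h]) (by decide) (by decide)
  have hv : ∀ m, 2 < m → s G m = 0 ∨ s G m = 80 ∨ s G m = 90 ∨ s G m = 144 := fun m hm => by
    have := even_s (G := G) hm
    by_cases h0 : s G m = 0
    · exact .inl h0
    have := h ▸ mem_vals h0
    simp at this; omega
  have s1 := s_one (G := G)
  have lb := sum_le (G := G) {1, 45, 80, 90, 144} (by simp [h])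
  simp at lb
  have z : ∀ {m n}, s G m = 0 → m ∣ n → s G n = 0 := fun h d => by_contra fun c => s_ne_of_dvd d c h
  have p5 := Nat.prime_five
  have hp : ∀ p, p.Prime → p ∣ Nat.card G → p = 2 ∨ p = 3 ∧ s G 3 = 80 ∨ p = 5 ∧ s G 5 = 144 ∨ p = 7 ∧ s G 7 = 90 := fun p hp pd => by
    rcases hp.two_le.eq_or_lt with rfl | p2
    · exact .inl rfl
    have a := one_add hp pd
    have b := Nat.totient_prime hp ▸ tot_dvd (G := G) p
    rcases (hv p p2).resolve_left ((s_prime hp).2 pd) with e | e | e <;> rw [e] at a b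
    · obtain rfl := (Nat.prime_dvd_prime_iff_eq hp Nat.prime_three).1 (hp.dvd_of_dvd_pow (n := 4) a); simp [e]
    · rcases (Nat.Prime.dvd_mul hp (m := 7) (n := 13)).1 a with a | a <;>
        obtain rfl := (Nat.prime_dvd_prime_iff_eq hp (by decide)).1 a <;> simp_all
    · rcases (Nat.Prime.dvd_mul hp (m := 5) (n := 29)).1 a with a | a <;>
        obtain rfl := (Nat.prime_dvd_prime_iff_eq hp (by decide)).1 a <;> simp_all
  have h2 : 2 ∣ Nat.card G := dvd_of_s (by omega)
  have h16 : ¬ 2 ^ (3 + 1) ∣ Nat.card G := fun c => by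
    have a := pow_dvd Nat.prime_two c
    have b := pow_dvd (k := 2) Nat.prime_two ((by decide : 2 ^ 2 ∣ 2 ^ (3 + 1)).trans c)
    have := hv 4 (by decide); have := hv 8 (by decide); have := hv 16 (by decide)
    have := tot_dvd (G := G) 8; have := tot_dvd (G := G) 16
    rw [show Nat.totient 8 = 4 by decide, show Nat.totient 16 = 8 by decide] at *
    simp [Finset.sum_range_succ] at *; omega
  have s81 : s G 81 = 0 := by
    have := tot_dvd (G := G) 81; have := hv 81 (by decide)
    rw [show Nat.totient 81 = 54 by decide] at *; omega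
  have s9 : s G 9 = 0 := by_contra fun c => by
    have s3 := hp 3 Nat.prime_three ((by decide : 3 ∣ 9).trans (dvd_of_s c))
    have b := hv 9 (by decide)
    have d := cyc (G := G) (k := 0) Nat.prime_three (fun c => by
      have a := pow_dvd Nat.prime_three c
      have := tot_dvd (G := G) 27; have := hv 27 (by decide); have := tot_dvd (G := G) 9
      rw [show Nat.totient 27 = 18 by decide, show Nat.totient 9 = 6 by decide] at *
      simp [Finset.sum_range_succ] at *; omega) c
    simp at *; omega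
  have h25 : ¬ 5 ^ 2 ∣ Nat.card G := fun c => by
    have s5 := hp 5 p5 ((by decide : 5 ∣ 5 ^ 2).trans c)
    have a := pow_dvd p5 c
    have b := hv 25 (by decide)
    have d := cyc (G := G) (k := 0) p5 fun c => by
      have a := pow_dvd p5 c
      have := hv 125 (by decide); have := sq_dvd (G := G) (m := 125) p5 (by decide)
      simp [Finset.sum_range_succ] at *; omega
    simp [Finset.sum_range_succ] at *; omega
  by_cases h5 : 5 ∣ Nat.card G
  swap
  · exfalso
    have h7 : ¬ 7 ∣ Nat.card G := fun c => by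
      have := hp 7 (by decide) c
      have a := s_dvd (G := G) (p := 7) (by decide) (fun c => by
        have a := pow_dvd (by decide) c
        have := hv 49 (by decide)
        simp [Finset.sum_range_succ] at *; omega) c
      have := (show 5 ∣ s G 7 by omega).trans a
      omega
    have h648 : Nat.card G ∣ 648 := dvd_of fun p k hq hk => by
      have pd := (dvd_pow_self p k.succ_ne_zero).trans hk
      rcases hp p hq pd with rfl | ⟨rfl, e⟩ | ⟨rfl, -⟩ | ⟨rfl, -⟩
      · exact (pow_le hk h16).trans (by decide)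
      · exact (pow_dvd_one_add hq hk s9).trans (by rw [e]; decide)
      all_goals contradiction
    have c : Nat.card G = 648 := by
      obtain ⟨d, hd⟩ := h648
      rcases d with _ | _ | d <;> nlinarith
    have b := sum_eq (by decide) h648
    have s8 : s G 8 = 0 := by_contra fun c' => by
      have d := cyc (G := G) (k := 1) Nat.prime_two h16 c'
      have b := pow_dvd (G := G) (k := 2) Nat.prime_two (by rw [c]; decide)
      have := hv 4 (by decide); have := hv 8 (by decide)
      simp [Finset.sum_range_succ] at *; omega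
    rw [show Nat.divisors 648 = {1, 2, 3, 4, 6, 8, 9, 12, 18, 24, 27, 36, 54, 72, 81, 108, 162, 216, 324, 648} by decide +kernel] at b
    simp [s8, s9, z s9 (n := 18), z s8 (n := 24), z s9 (n := 27), z s9 (n := 36), z s9 (n := 54), z s9 (n := 72), s81,
      z s9 (n := 108), z s9 (n := 162), z s9 (n := 216), z s9 (n := 324), z s9 (n := 648)] at b
    have := hv 4 (by decide); have := hv 6 (by decide); have := hv 12 (by decide); have := hv 3 (by decide); omega
  have s5 : s G 5 = 144 := by have := hp 5 p5 h5; omega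
  obtain ⟨_, P, e, a1, a2, a3, a4, a5⟩ := selfC p5 h25 h5 (by
    have := add_dvd (G := G) (m := 2) p5 (by decide) (by omega)
    have := hv (5 * 2) (by decide); omega) fun m hm => by have := hv m hm; omega
  have := Nat.le_of_dvd (by decide) a2
  rw [s5] at a4
  obtain rfl : e = 2 := by interval_cases e <;> omega
  have c : Nat.card G = 360 := by omega
  have := H19.simple_of_normalizer a1 Nat.prime_two a3 Nat.prime_three (by decide) (by decide) (by omega)
    (c ▸ H19.pow_mod_ne_one_of_list (qs := [2, 3, 5]) (B := 9) (by simp; decide) (by decide) (by decide) (by decide) (by decide))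
  exact Cfsg.Agent.S0497.result c

end H05.Nse
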