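import Mathlib
import Cfsg.Agent.H05.Np1
import Cfsg.Agent.H05.Nse
import Cfsg.Agent.L.DicksonX

/-!
Numbers of elements of each order in `PGL₂(q)`, `q` odd (`H05.Np.s_two`, `s_other`, `s_char`), and recognition of
`PGL₂(q)` by its order and the set of these numbers (`H05.Np.main`).
-/

set_option autoImplicit false
set_option linter.unusedSectionVars false

open H05 Cfsg MulAction H02.NS H05.Fc Matrix L L.Dk
open scoped MatrixGroups

namespace H05.Np

variable {F : Type*} [Field F] [Fintype F]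

theorem pmk_eq {A B : GL (Fin 2) F} :
    ProjGenLinGroup.mk A = ProjGenLinGroup.mk B ↔ ∃ c : F, (B : M2 F) = c • (A : M2 F) := by
  constructor
  · intro h
    obtain ⟨u, rfl⟩ := ProjGenLinGroup.mk_eq_mk_iff.1 h
    exact ⟨u, by ext i j; simp [mul_comm]⟩
  · rintro ⟨c, hc⟩
    have h0 : c ≠ 0 := by rintro rfl; exact GL2_det_ne B (by rw [hc]; simp)
    obtain ⟨B', h1, h2⟩ := pmk_smul A h0
    rw [← h2, show B' = B from Units.ext (h1.trans hc.symm)]

theorem s_two (h2 : (2 : F) ≠ 0) : s PGL(2, F) 2 = Fintype.card F ^ 2 := by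
  classical
  have key : ∀ A : GL (Fin 2) F, orderOf (ProjGenLinGroup.mk A) = 2 ↔ (A : M2 F) 0 0 + (A : M2 F) 1 1 = 0 := fun A => by
    constructor
    · intro h
      have h1 : ProjGenLinGroup.mk A ≠ 1 := fun e => by simp [e] at h
      have := jj_mk_iff.1 ((pow_two_iff h1).1 (orderOf_dvd_iff_pow_eq_one.1 (dvd_of_eq h)))
      rw [zero_mul, trace_fin_two] at this
      exact pow_eq_zero_iff two_ne_zero |>.1 this
    · intro h
      have hj : jj (ProjGenLinGroup.mk A) = 0 := jj_mk_iff.2 (by rw [trace_fin_two, h]; ring)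
      refine orderOf_eq_prime (sq_of_jj hj) fun e => ?_
      rw [e, jj_one] at hj
      exact h2 (by have : (2 : F) * 2 = 0 := by linear_combination hj
                   simpa using this)
  let f : (F × Fˣ) ⊕ F → {g : PGL(2, F) // orderOf g = 2} := fun x => x.elim
    (fun y => ⟨ProjGenLinGroup.mk (mkGL !![y.1, y.2 - y.1 ^ 2; 1, -y.1] (by
      rw [det_fin_two_of]; intro e; exact y.2.ne_zero (by linear_combination -e))), (key _).2 (by simp)⟩)
    (fun b => ⟨ProjGenLinGroup.mk (mkGL !![1, b; 0, -1] (by simp [det_fin_two_of])), (key _).2 (by simp)⟩)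
  have hf : Function.Bijective f := by
    constructor
    · rintro (⟨a, d⟩ | b) (⟨a', d'⟩ | b') e <;> obtain ⟨c, hc⟩ := pmk_eq.1 (congrArg Subtype.val e) <;>
        rw [m2_ext_iff] at hc <;> simp at hc
      · obtain ⟨h1, h3, rfl, -⟩ := hc
        rw [one_mul] at h1 h3
        subst h1
        rw [show d = d' from Units.ext (by linear_combination -h3)]
      · obtain ⟨h1, -, rfl, -⟩ := hc; simp at h1
      · obtain ⟨rfl, h1, -⟩ := hc; rw [h1, one_mul]
    · rintro ⟨g, hg⟩
      obtain ⟨A, rfl⟩ := ProjGenLinGroup.mk_surjective g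
      have h1 := (key A).1 hg
      have h3 := GL2_det_ne A
      rw [det_fin_two] at h3
      by_cases h0 : (A : M2 F) 1 0 = 0
      · have h4 : (A : M2 F) 0 0 ≠ 0 := fun e => h3 (by rw [e, h0]; ring)
        refine ⟨Sum.inr ((A : M2 F) 0 1 / (A : M2 F) 0 0), Subtype.ext (pmk_eq.2 ⟨(A : M2 F) 0 0, ?_⟩)⟩
        rw [m2_ext_iff]
        simp only [coe_mkGL, Matrix.smul_apply, of_apply, cons_val', cons_val_zero, cons_val_one, cons_val_fin_one,
          smul_eq_mul]
        refine ⟨by ring, by field_simp, by rw [h0]; ring, by linear_combination h1⟩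
      · refine ⟨Sum.inl ((A : M2 F) 0 0 / (A : M2 F) 1 0, Units.mk0
          (-((A : M2 F) 0 0 * (A : M2 F) 1 1 - (A : M2 F) 0 1 * (A : M2 F) 1 0) / (A : M2 F) 1 0 ^ 2)
            (div_ne_zero (neg_ne_zero.2 h3) (pow_ne_zero _ h0))), Subtype.ext (pmk_eq.2 ⟨(A : M2 F) 1 0, ?_⟩)⟩
        rw [m2_ext_iff]
        simp only [coe_mkGL, Matrix.smul_apply, of_apply, cons_val', cons_val_zero, cons_val_one, cons_val_fin_one,
          smul_eq_mul, Units.val_mk0]
        refine ⟨by field_simp, ?_, by ring, ?_⟩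
        · field_simp; linear_combination ((A : M2 F) 0 0) * h1
        · field_simp; linear_combination h1
  rw [s, ← Nat.card_eq_of_bijective f hf, Nat.card_sum, Nat.card_prod, Nat.card_units, Nat.card_eq_fintype_card]
  obtain ⟨n, hn⟩ : ∃ n, Fintype.card F = n + 1 := ⟨_, (Nat.succ_pred_eq_of_pos Fintype.card_pos).symm⟩
  rw [hn, Nat.add_sub_cancel]; ring

variable (p : ℕ) [hp : Fact p.Prime] [CharP F p]

theorem cent_card {g : PGL(2, F)} (h2 : 2 < orderOf g) (h : ¬ p ∣ orderOf g) :
    Nat.card (Subgroup.centralizer ({g} : Set PGL(2, F))) = Fintype.card F - 1 ∨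
      Nat.card (Subgroup.centralizer ({g} : Set PGL(2, F))) = Fintype.card F + 1 := by
  obtain ⟨A, rfl⟩ := ProjGenLinGroup.mk_surjective g
  have hA := jj_ne_of_not_dvd p (fun e => by simp [e] at h2) h
  have : Subgroup.centralizer ({ProjGenLinGroup.mk A} : Set PGL(2, F)) = tor A := by
    ext x
    obtain ⟨X, rfl⟩ := ProjGenLinGroup.mk_surjective x
    rw [Subgroup.mem_centralizer_singleton_iff]
    constructor
    · intro e
      have e' := mul_inv_eq_iff_eq_mul.2 e
      rcases conj_mem_tor hA (e' ▸ self_mem_tor) with h1 | h1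
      · exact mem_tor.2 h1
      · have := conj_eq_inv_tor hA h1 self_mem_tor
        rw [e', eq_inv_iff_mul_eq_one, ← sq] at this
        exact absurd (Nat.le_of_dvd two_pos (orderOf_dvd_of_pow_eq_one this)) h2.not_ge
    · intro e
      rw [← map_mul, ← map_mul, show X * A = A * X from Units.ext (mem_tor.1 e)]
  rw [this]
  exact card_tor hA

theorem s_other {t k : ℕ} (hF : Fintype.card F = 2 * t + 1) (h2 : 2 < k) (h : ¬ p ∣ k) :
    (2 * t + 1) * (2 * t + 2) ∣ s PGL(2, F) k ∨ (2 * t + 1) * (2 * t) ∣ s PGL(2, F) k := by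
  have ht : 0 < t := by have := Fintype.one_lt_card (α := F); omega
  have key : ∀ g : PGL(2, F), orderOf g = k →
      (k ∣ 2 * t ∧ (Subgroup.centralizer ({g} : Set PGL(2, F))).index = (2 * t + 1) * (2 * t + 2)) ∨
      (k ∣ 2 * t + 2 ∧ (Subgroup.centralizer ({g} : Set PGL(2, F))).index = (2 * t + 1) * (2 * t)) := fun g hg => by
    have h1 := (Subgroup.centralizer ({g} : Set PGL(2, F))).card_mul_index
    have h3 : k ∣ Nat.card (Subgroup.centralizer ({g} : Set PGL(2, F))) :=
      hg ▸ Subgroup.orderOf_dvd_natCard _ (Subgroup.mem_centralizer_singleton_iff.2 rfl)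
    rw [card_PGL2, hF, sq_sub_one, Nat.add_sub_cancel] at h1
    rcases cent_card p (hg ▸ h2) (hg ▸ h) with e | e <;> rw [e, hF] at h1 h3
    · exact Or.inl ⟨h3, Nat.eq_of_mul_eq_mul_left (show 0 < 2 * t by omega) (by
        rw [Nat.add_sub_cancel] at h1; rw [h1]; ring)⟩
    · exact Or.inr ⟨h3, Nat.eq_of_mul_eq_mul_left (show 0 < 2 * t + 1 + 1 by omega) (by rw [h1]; ring)⟩
  by_cases hk : k ∣ 2 * t
  · refine Or.inl (dvd_s fun x hx => ?_)
    rcases key x hx with e | e
    · rw [e.2]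
    · exact absurd (Nat.le_of_dvd two_pos ((Nat.dvd_add_right hk).1 e.1)) h2.not_ge
  · exact Or.inr (dvd_s fun x hx => by rw [((key x hx).resolve_left fun e => hk e.1).2])

theorem ord_char (g : PGL(2, F)) (h : p ∣ orderOf g) : orderOf g = p := by
  have hd := char_dvd_card (F := F) p
  have h1 := Fintype.one_lt_card (α := F)
  rcases orderOf_pgl p g with e | e | e
  · exact orderOf_eq_prime e fun e => by
      rw [e, orderOf_one] at h; exact hp.out.one_lt.ne' (Nat.dvd_one.1 h)
  · have : p ∣ Fintype.card F - (Fintype.card F - 1) := Nat.dvd_sub hd (h.trans e)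
    rw [show Fintype.card F - (Fintype.card F - 1) = 1 by omega] at this
    exact absurd (Nat.dvd_one.1 this) hp.out.one_lt.ne'
  · exact absurd (Nat.dvd_one.1 ((Nat.dvd_add_right hd).1 (h.trans e))) hp.out.one_lt.ne'

theorem card_eq {t : ℕ} (hF : Fintype.card F = 2 * t + 1) :
    Nat.card PGL(2, F) = (2 * t + 1) * (4 * t * (t + 1)) := by
  rw [card_PGL2, hF, sq_sub_one, Nat.add_sub_cancel]; ring

theorem s_char {t f : ℕ} (hF : Fintype.card F = 2 * t + 1) (hf : p ^ f = 2 * t + 1) :
    s PGL(2, F) p = 4 * t * (t + 1) := by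
  have ht : 0 < t := by have := Fintype.one_lt_card (α := F); omega
  have hd : p ∣ 2 * t + 1 := hF ▸ char_dvd_card (F := F) p
  have hN := not_dvd hp.out hd
  refine le_antisymm ?_ ?_
  · simpa using sing_le hp.out hd ht (card_eq hF) (hF ▸ s_two (two_ne_zero_of_odd ⟨t, hF⟩))
      (fun k h2 hk => Or.inr (s_other p hF h2 fun h => hN (h.trans hk))) {p} (by simp)
  · obtain ⟨x, hx⟩ := exists_prime_orderOf_dvd_card' (G := PGL(2, F)) p (card_eq hF ▸ hd.mul_right _)
    exact (le_index (hf ▸ card_eq hF) hN (cent_pgroup (ord_char p) hx)).trans (hx ▸ index_le_s x)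

theorem main (hodd : Odd (Fintype.card F)) {G : Type*} [Group G] [Finite G] (hc : Nat.card G = Nat.card PGL(2, F))
    (h : vals G = vals PGL(2, F)) : Nonempty (G ≃* PGL(2, F)) := by
  obtain ⟨t, hF⟩ := hodd
  have ht : 0 < t := by have := Fintype.one_lt_card (α := F); omega
  obtain ⟨p, _, f, hp, hf⟩ := FiniteField.card' F
  have : Fact p.Prime := ⟨hp⟩
  rw [hF] at hf
  have hd : p ∣ 2 * t + 1 := hF ▸ char_dvd_card (F := F) p
  have hN := not_dvd hp hd
  have hp2 : p ≠ 2 := by rintro rfl; omega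
  have hG := hc.trans (card_eq hF)
  have l2 : s PGL(2, F) 2 = (2 * t + 1) ^ 2 := hF ▸ s_two (two_ne_zero_of_odd ⟨t, hF⟩)
  have g2 : s G 2 = (2 * t + 1) ^ 2 := Nse.s_two (by rw [h, ← l2]; exact mem_vals (by rw [l2]; positivity))
    (by nlinarith) (fun e => by have := Nat.prime_two.dvd_of_dvd_pow e; omega)
  have key : ∀ k, 2 < k → s G k = 4 * t * (t + 1) ∨ (2 * t + 1) * (2 * t + 2) ∣ s G k ∨
      (2 * t + 1) * (2 * t) ∣ s G k := fun k hk => by
    by_cases h0 : s G k = 0
    · rw [h0]; exact Or.inr (Or.inl (dvd_zero _))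
    obtain ⟨m, hm, -⟩ := vals_ex (h ▸ mem_vals h0)
    have ev := even_s (G := G) hk
    rw [← hm] at h0 ev ⊢
    obtain ⟨g, rfl⟩ := s_ne.1 h0
    by_cases h1 : p ∣ orderOf g
    · rw [ord_char p g h1]; exact Or.inl (s_char p hF hf.symm)
    have := orderOf_pos g
    rcases (by omega : orderOf g = 1 ∨ orderOf g = 2 ∨ 2 < orderOf g) with e | e | e
    · rw [e, s_one] at ev; omega
    · rw [e, l2] at ev; have := Nat.prime_two.dvd_of_dvd_pow ev; omega
    · exact Or.inr (s_other p hF e h1)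
  have gp : s G p = 4 * t * (t + 1) := by
    have h1 := not_dvd_s (G := G) hp (hG ▸ hd.mul_right _)
    rcases key p (lt_of_le_of_ne hp.two_le hp2.symm) with e | e | e
    exacts [e, absurd ((hd.mul_right _).trans e) h1, absurd ((hd.mul_right _).trans e) h1]
  have ho : ∀ g : G, p ∣ orderOf g → orderOf g = p := fun g hg => by
    by_contra hne
    have := sing_le hp hd ht hG g2 (fun k h2 _ => (key k h2).imp_left fun e => by rw [e]) {orderOf g, p}
      (by simp [hg])
    rw [Finset.sum_pair hne, gp] at this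
    exact s_ne.2 ⟨g, rfl⟩ (by omega)
  obtain ⟨P⟩ : Nonempty (Sylow p G) := inferInstance
  exact pgl (cc hp2 f.ne_zero (hf ▸ hG) hN ho gp.le) hp2 P ((card_sylow (hf ▸ hG) hN P).trans hf.symm) ht hF hG g2

end H05.Np
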