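import Mathlib

/-!
Even permutations as products of two conjugate permutations with two 2-cycles.
`H05.Ore.invol` (every permutation is a product of two involutions of controlled type),
`H05.Ore.exists_beta`, `H05.Ore.two_two`, `H05.Ore.conjA`.
-/

set_option autoImplicit false

open Equiv Equiv.Perm

namespace H05.Ore

variable {α : Type*} [Fintype α] [DecidableEq α]

theorem ct_swap {a b : α} (h : a ≠ b) : (swap a b).cycleType = {2} :=
  isSwap_iff_cycleType.1 ⟨a, b, h, rfl⟩

omit [Fintype α] in
theorem disj_swap {a b : α} {s : Perm α} (ha : s a = a) (hb : s b = b) : Disjoint (swap a b) s := by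
  intro x
  by_cases h1 : x = a
  · right; rw [h1, ha]
  by_cases h2 : x = b
  · right; rw [h2, hb]
  · left; exact swap_apply_of_ne_of_ne h1 h2

/-- the statement proved by induction -/
def P (g : Perm α) (a : α) : Prop :=
  ∃ s t : Perm α, s * s = 1 ∧ t * t = 1 ∧ g = s * t ∧ s a = a ∧
    (∀ x, g x = x → s x = x ∧ t x = x) ∧ (sign g = 1 → t.cycleType = s.cycleType) ∧
    (sign g = -1 → t.cycleType = s.cycleType + {2})

theorem step {g : Perm α} {a : α} (ha : g a ≠ a) (ih : P (swap (g⁻¹ a) a * g) a) : P g a := by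
  obtain ⟨s, t, s2, t2, hg, sa, hfix, h1, h2⟩ := ih
  obtain ⟨z, hz⟩ : ∃ z, z = g⁻¹ a := ⟨_, rfl⟩
  rw [← hz] at hg hfix h1 h2
  have gz : g z = a := by rw [hz]; simp
  have za : z ≠ a := fun e => ha (by rw [e] at gz; exact gz)
  obtain ⟨sz, tz⟩ := hfix z (by simp [gz])
  have hd : Disjoint (swap z a) s := disj_swap sz sa
  have hsq : (swap z a * s) * (swap z a * s) = 1 := by
    rw [mul_assoc, ← mul_assoc s, ← hd.commute.eq, mul_assoc, s2, mul_one, swap_mul_self]
  have hinv : (swap z a * s)⁻¹ = swap z a * s := inv_eq_of_mul_eq_one_right hsq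
  have hg' : g = swap z a * s * t := by rw [mul_assoc, ← hg, swap_mul_self_mul]
  have hs : sign (swap z a * g) = -sign g := by rw [Perm.sign_mul, sign_swap za]; simp
  refine ⟨(swap z a * s) * t * (swap z a * s)⁻¹, swap z a * s, ?_, hsq, ?_, ?_, ?_, ?_, ?_⟩
  · rw [conj_mul, t2]; simp
  · rw [inv_mul_cancel_right]; exact hg'
  · rw [hinv]; simp [sa, sz, tz]
  · intro x hx
    have xa : x ≠ a := fun e => ha (e ▸ hx)
    have xz : x ≠ z := fun e => za (by rw [← e, ← hx, e, gz])
    obtain ⟨sx, tx⟩ := hfix x (by simp [hx, swap_apply_of_ne_of_ne xz xa])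
    rw [hinv]
    simp [sx, tx, swap_apply_of_ne_of_ne xz xa]
  · intro h
    rw [cycleType_conj, hd.cycleType_mul, ct_swap za, h2 (by rw [hs, h]), add_comm]
  · intro h
    rw [cycleType_conj, hd.cycleType_mul, ct_swap za, h1 (by rw [hs, h]; simp), add_comm]

theorem invol (g : Perm α) (a : α) : P g a := by
  induction h : g.support.card using Nat.strong_induction_on generalizing g a with
  | _ k ih =>
    have key : ∀ a, g a ≠ a → P g a := by
      intro a ha
      refine step ha (ih _ ?_ _ a rfl)
      have h1 : g (g⁻¹ a) ≠ g⁻¹ a := fun e => ha (by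
        have : a = g⁻¹ a := by simpa using e
        conv_lhs => rw [this]
        simp)
      have := card_support_swap_mul h1
      rw [show g (g⁻¹ a) = a by simp] at this
      omega
    by_cases ha : g a = a
    · by_cases h1 : g = 1
      · subst h1
        exact ⟨1, 1, by simp, by simp, by simp, rfl, fun _ _ => ⟨rfl, rfl⟩, fun _ => rfl,
          fun h => absurd h (by rw [Perm.sign_one]; decide)⟩
      · obtain ⟨b, hb⟩ : ∃ b, g b ≠ b := by
          by_contra hc
          push Not at hc
          exact h1 (Equiv.ext hc)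
        obtain ⟨s, t, s2, t2, hg, -, hfix, h2, h3⟩ := key b hb
        exact ⟨s, t, s2, t2, hg, (hfix a ha).1, hfix, h2, h3⟩
    · exact key a ha

theorem three {s : Perm α} (s2 : s * s = 1) {p q : α} (hp : s p = p) (hq : s q ≠ q) :
    ∃ m : Multiset ℕ, s.cycleType = {2} + m ∧ (s * swap p q).cycleType = {3} + m := by
  have ss : s (s q) = q := by rw [← mul_apply, s2, one_apply]
  have pq : p ≠ q := fun e => hq (e ▸ hp)
  have psq : p ≠ s q := fun e => pq (s.injective (by rw [hp, e]))
  have f1 : (swap q (s q) * s) q = q := by simp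
  have f2 : (swap q (s q) * s) (s q) = s q := by simp [ss]
  have f3 : (swap q (s q) * s) p = p := by simp [hp, swap_apply_of_ne_of_ne pq psq]
  have d1 := disj_swap f1 f2
  have d2 := disj_swap f1 f3
  have e1 : s = swap q (s q) * (swap q (s q) * s) := by rw [swap_mul_self_mul]
  refine ⟨(swap q (s q) * s).cycleType, ?_, ?_⟩
  · conv_lhs => rw [e1]
    rw [d1.cycleType_mul, ct_swap hq.symm]
  · have e2 : s * swap p q = (swap q (s q) * swap q p) * (swap q (s q) * s) := by
      rw [mul_assoc, d2.commute.eq, ← mul_assoc, ← e1, swap_comm]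
    rw [e2, (d1.mul_left d2).cycleType_mul,
      (isThreeCycle_swap_mul_swap_same hq.symm pq.symm psq.symm).cycleType]

theorem two_two {β : Perm α} (h : 2 ≤ β.cycleType.count 2) :
    ∃ (a b c d : α) (r : Perm α), [a, b, c, d].Nodup ∧ β = swap a b * swap c d * r ∧
      r a = a ∧ r b = b ∧ r c = c ∧ r d = d := by
  have h1 : 2 ∈ β.cycleType := Multiset.count_pos.1 (by omega)
  obtain ⟨_, τ, rfl, d1, -, h2⟩ := mem_cycleType_iff.1 h1
  obtain ⟨a, b, ab, rfl⟩ := card_support_eq_two.1 h2
  rw [d1.cycleType_mul, ct_swap ab, Multiset.count_add, Multiset.count_singleton_self] at h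
  have h3 : 2 ∈ τ.cycleType := Multiset.count_pos.1 (by omega)
  obtain ⟨_, r, rfl, d2, -, h4⟩ := mem_cycleType_iff.1 h3
  obtain ⟨c, d, cd, rfl⟩ := card_support_eq_two.1 h4
  have rc : r c = c := (d2 c).resolve_left (by simp [cd.symm])
  have rd : r d = d := (d2 d).resolve_left (by simp [cd])
  have ha := (d1 a).resolve_left (by simp [ab.symm])
  have hb := (d1 b).resolve_left (by simp [ab])
  have key : ∀ x, (swap c d * r) x = x → x ≠ c ∧ x ≠ d ∧ r x = x := by
    intro x hx
    have xc : x ≠ c := by rintro rfl; simp [rc, cd.symm] at hx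
    have xd : x ≠ d := by rintro rfl; simp [rd, cd] at hx
    refine ⟨xc, xd, ?_⟩
    rw [mul_apply, swap_apply_eq_iff, swap_apply_of_ne_of_ne xc xd] at hx
    exact hx
  obtain ⟨ac, ad, ra⟩ := key a ha
  obtain ⟨bc, bd, rb⟩ := key b hb
  exact ⟨a, b, c, d, r, by simp [ab, ac, ad, bc, bd, cd], by rw [mul_assoc], ra, rb, rc, rd⟩

theorem conjA {β γ : Perm α} (h : 2 ∈ β.cycleType) (hc : γ.cycleType = β.cycleType) :
    ∃ g : Perm α, sign g = 1 ∧ g * β * g⁻¹ = γ := by
  obtain ⟨g, hg⟩ := isConj_iff.1 (isConj_iff_cycleType_eq.2 hc.symm)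
  rcases Int.units_eq_one_or (sign g) with h1 | h1
  · exact ⟨g, h1, hg⟩
  obtain ⟨_, τ, rfl, d1, -, h2⟩ := mem_cycleType_iff.1 h
  obtain ⟨a, b, ab, rfl⟩ := card_support_eq_two.1 h2
  refine ⟨g * swap a b, by rw [Perm.sign_mul, h1, sign_swap ab]; simp, ?_⟩
  rw [← hg, mul_inv_rev, swap_inv, mul_assoc g, swap_mul_self_mul, d1.commute.eq]
  simp only [mul_assoc]

omit [Fintype α] in
theorem klein {a b c d : α} (h : [a, b, c, d].Nodup) :
    swap a b * swap c d * (swap a c * swap b d) = swap a d * swap b c := by
  simp only [List.nodup_cons, List.mem_cons, List.not_mem_nil, or_false, not_or] at h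
  ext x
  simp only [mul_apply, swap_apply_def]
  grind

theorem exists_beta (h5 : 5 ≤ Fintype.card α) {σ : Perm α} (hσ : sign σ = 1) :
    ∃ β : Perm α, sign β = 1 ∧ 2 ≤ β.cycleType.count 2 ∧ (σ * β).cycleType = β.cycleType := by
  haveI : Fact (Nat.Prime 2) := ⟨Nat.prime_two⟩
  obtain ⟨a⟩ : Nonempty α := Fintype.card_pos_iff.1 (by omega)
  obtain ⟨s, t, s2, t2, hg, sa, -, h1, -⟩ := invol σ a
  have h1 := h1 hσ
  have ht := cycleType_of_pow_prime_eq_one (p := 2) (σ := t) (by rw [sq, t2])
  have hsg := sign_of_cycleType t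
  have hsum := sum_cycleType t
  have hsum' := sum_cycleType s
  obtain ⟨k, hk⟩ : ∃ k, k = t.cycleType.card := ⟨_, rfl⟩
  rw [← hk] at ht hsg
  rw [ht, Multiset.sum_replicate, smul_eq_mul] at hsg hsum
  rw [← h1, ht, Multiset.sum_replicate, smul_eq_mul] at hsum'
  have hst : ∀ τ : Perm α, σ * (t * τ) = s * τ := fun τ => by
    rw [hg, mul_assoc, ← mul_assoc t, t2, one_mul]
  have dt : ∀ {a b c d : α}, [a, b, c, d].Nodup → sign (swap a b * swap c d) = 1 ∧
      2 ≤ (swap a b * swap c d).cycleType.count 2 := by
    intro a b c d h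
    rw [cycleType_swap_mul_swap_of_nodup h]
    simp only [List.nodup_cons, List.mem_cons, List.not_mem_nil, or_false, not_or] at h
    rw [Perm.sign_mul, sign_swap h.1.1, sign_swap h.2.2.1]
    exact ⟨by decide, by decide⟩
  rcases Nat.even_or_odd' k with ⟨j, hj | hj⟩
  · by_cases j0 : j = 0
    · have t1 : t = 1 := card_cycleType_eq_zero.1 (by omega)
      have s1 : s = 1 := card_cycleType_eq_zero.1 (by rw [← h1]; omega)
      obtain ⟨f⟩ : Nonempty (Fin 4 ↪ α) := Function.Embedding.nonempty_of_card_le (by simp; omega)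
      have hn : [f 0, f 1, f 2, f 3].Nodup := by simp [f.injective.eq_iff]
      exact ⟨_, (dt hn).1, (dt hn).2, by rw [hg, s1, t1, one_mul, one_mul]⟩
    · refine ⟨t, ?_, ?_, ?_⟩
      · rw [hsg, hj, show 2 * j * 2 + 2 * j = 2 * (3 * j) by ring, pow_mul]; simp
      · rw [ht, Multiset.count_replicate_self]; omega
      · have := hst 1
        rw [mul_one, mul_one] at this
        rw [this, h1]
  · have hsg' : sign t = -1 := by
      rw [hsg, hj, show (2 * j + 1) * 2 + (2 * j + 1) = 2 * (3 * j + 1) + 1 by ring, pow_succ,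
        pow_mul]
      simp
    have sg : ∀ p q : α, p ≠ q → sign (t * swap p q) = 1 := fun p q h => by
      rw [Perm.sign_mul, hsg', sign_swap h]; simp
    by_cases j0 : j = 0
    · by_cases hd : (s.support ∪ t.support).card ≤ 3
      · have h2 : 1 < (s.support ∪ t.support)ᶜ.card := by rw [Finset.card_compl]; omega
        obtain ⟨p, hp, q, hq, pq⟩ := Finset.one_lt_card.1 h2
        simp only [Finset.mem_compl, Finset.mem_union, mem_support, not_or, not_not] at hp hq
        refine ⟨t * swap p q, sg p q pq, ?_, ?_⟩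
        · rw [(disj_swap hp.2 hq.2).symm.cycleType_mul, ct_swap pq, ht, Multiset.count_add,
            Multiset.count_replicate_self, Multiset.count_singleton_self]
          omega
        · rw [hst, (disj_swap hp.2 hq.2).symm.cycleType_mul,
            (disj_swap hp.1 hq.1).symm.cycleType_mul, h1]
      · obtain ⟨a, b, ab, rfl⟩ := card_support_eq_two.1 (show s.support.card = 2 by omega)
        obtain ⟨c, d, cd, rfl⟩ := card_support_eq_two.1 (show t.support.card = 2 by omega)
        rw [support_swap ab, support_swap cd] at hd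
        have hn : [a, b, c, d].Nodup := by
          have h3 : ([a, b, c, d].toFinset).card = [a, b, c, d].length := by
            have h4 := List.toFinset_card_le [a, b, c, d]
            have h6 : [a, b, c, d].toFinset = {a, b} ∪ {c, d} := by ext; simp; tauto
            rw [h6] at h4 ⊢
            simp only [List.length_cons, List.length_nil] at h4 ⊢
            omega
          exact Multiset.coe_nodup.1 (Multiset.toFinset_card_eq_card_iff_nodup.1 h3)
        have hn2 : [a, c, b, d].Nodup := by
          simp only [List.nodup_cons, List.mem_cons, List.not_mem_nil, or_false, not_or] at hn ⊢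
          grind
        have hn3 : [a, d, b, c].Nodup := by
          simp only [List.nodup_cons, List.mem_cons, List.not_mem_nil, or_false, not_or] at hn ⊢
          grind
        refine ⟨_, (dt hn2).1, (dt hn2).2, ?_⟩
        rw [hg, klein hn, cycleType_swap_mul_swap_of_nodup hn2,
          cycleType_swap_mul_swap_of_nodup hn3]
    · have fin : ∀ p q : α, p ≠ q → (∃ m, s.cycleType = {2} + m ∧
          (s * swap p q).cycleType = {3} + m) → (∃ m, t.cycleType = {2} + m ∧
          (t * swap p q).cycleType = {3} + m) → ∃ β : Perm α, sign β = 1 ∧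
          2 ≤ β.cycleType.count 2 ∧ (σ * β).cycleType = β.cycleType := by
        rintro p q pq ⟨m, m1, m2⟩ ⟨m', m3, m4⟩
        have e : m = m' := add_left_cancel (m1.symm.trans (h1.symm.trans m3))
        refine ⟨t * swap p q, sg p q pq, ?_, by rw [hst, m2, m4, e]⟩
        have := congrArg (Multiset.count 2) m3
        rw [ht, Multiset.count_replicate_self, Multiset.count_add,
          Multiset.count_singleton_self] at this
        rw [m4, Multiset.count_add]
        omega
      by_cases he : t.support ⊆ s.support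
      · obtain ⟨q, hq⟩ : t.support.Nonempty := Finset.card_pos.1 (by omega)
        have ta : t a = a := by
          by_contra h
          exact mem_support.1 (he (mem_support.2 h)) sa
        have sq := mem_support.1 (he hq)
        exact fin a q (fun e => sq (e ▸ sa)) (three s2 sa sq) (three t2 ta (mem_support.1 hq))
      · obtain ⟨p, hp, hp'⟩ := Finset.not_subset.1 he
        have he' : ¬ s.support ⊆ t.support := fun h =>
          he (Finset.eq_of_subset_of_card_le h (by omega)).symm.subset
        obtain ⟨q, hq, hq'⟩ := Finset.not_subset.1 he'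
        refine fin p q (fun e => hq' (e ▸ hp)) (three s2 (notMem_support.1 hp') (mem_support.1 hq)) ?_
        rw [swap_comm]
        exact three t2 (notMem_support.1 hq') (mem_support.1 hp)

end H05.Ore
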