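import Mathlib
import Cfsg.Agent.H05.Ore1
import Cfsg.Agent.H16.Sm1

/-!
Double covers of alternating groups: lifts of double transpositions square to the central
involution (`H05.Ore.DC.sq`), every element is a commutator (`H05.Ore.DC.comm`).
-/

set_option autoImplicit false

open Equiv Equiv.Perm H16.Sm commutatorElement

namespace H05.Ore

variable {G : Type*} [Group G]

/-- a perfect double cover of the alternating group -/
structure DC {m : ℕ} (π : G →* Perm (Fin (m + 1))) (z : G) : Prop where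
  sur : ∀ σ, sign σ = 1 → ∃ x, π x = σ
  sgn : ∀ x, sign (π x) = 1
  cen : ∀ g, g * z = z * g
  ne : z ≠ 1
  zz : z * z = 1
  πz : π z = 1
  ker : ∀ y, π y = 1 → y = 1 ∨ y = z
  perf : commutator G = ⊤

variable {m : ℕ} {π : G →* Perm (Fin (m + 1))} {z : G} (h : DC π z)
include h

theorem DC.eq {x y : G} (e : π x = π y) : x = y ∨ x = z * y := by
  rcases h.ker (x * y⁻¹) (by simp [e]) with h1 | h1
  · left; exact mul_inv_eq_one.1 h1
  · right; exact mul_inv_eq_iff_eq_mul.1 h1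

theorem DC.zc (g : G) : Commute z g := (h.cen g).symm

theorem DC.lift3 {σ : Perm (Fin (m + 1))} (hσ : σ.IsThreeCycle) : ∃ c, c ^ 3 = 1 ∧ π c = σ := by
  obtain ⟨w, hw⟩ := h.sur σ hσ.sign
  have h3 : π (w ^ 3) = 1 := by rw [map_pow, hw, ← hσ.orderOf, pow_orderOf_eq_one]
  rcases h.ker _ h3 with h1 | h1
  · exact ⟨w, h1, hw⟩
  · refine ⟨z * w, ?_, by rw [map_mul, h.πz, one_mul, hw]⟩
    rw [(h.zc w).mul_pow, h1, pow_succ, sq, h.zz, one_mul, h.zz]

theorem DC.not_all : ¬ ∀ y, (π y).cycleType = {2, 2} → y * y = 1 := by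
  intro hy
  have : ∀ i, ∃ c : G, i + 1 < m → c ^ 3 = 1 ∧ π c = s m i * s m (i + 1) := fun i => by
    by_cases hi : i + 1 < m
    · obtain ⟨c, hc⟩ := h.lift3 (s_three hi)
      exact ⟨c, fun _ => hc⟩
    · exact ⟨1, fun h => absurd h hi⟩
  choose c hc using this
  let x : ℕ → G := fun i => Nat.rec 1 (fun i y => y * c i) i
  have xs : ∀ i, x (i + 1) = x i * c i := fun i => rfl
  have hx : ∀ i, i < m → π (x i) = s m 0 * s m i := by
    intro i
    induction i with
    | zero => intro _; rw [s_sq]; exact map_one π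
    | succ i ih =>
      intro hi
      rw [xs, map_mul, ih (by omega), (hc i hi).2, mul_assoc, ← mul_assoc (s m i), s_sq, one_mul]
  have hxx : ∀ i j : Fin m, π ((x i)⁻¹ * x j) =
      swap i.castSucc i.succ * swap j.castSucc j.succ := by
    intro i j
    rw [map_mul, map_inv, hx i i.2, hx j j.2, mul_inv_rev, s_inv, s_inv, mul_assoc,
      ← mul_assoc (s m 0), s_sq, one_mul, s, s, dif_pos i.2, dif_pos j.2]
    rfl
  obtain ⟨f, hf⟩ := L.exists_hom_alt (fun i : Fin m => x i) (fun i j e => by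
      rw [← e, xs, inv_mul_cancel_left]
      exact (hc i (by have := j.2; omega)).1) (fun i j e => by
      rw [sq]
      apply hy
      rw [hxx]
      apply cycleType_swap_mul_swap_of_nodup
      simp only [List.nodup_cons, List.mem_cons, List.not_mem_nil, or_false, not_or, Fin.ext_iff,
        Fin.val_succ, Fin.val_castSucc, List.nodup_nil, and_true, not_false_eq_true]
      omega)
  have hπf : ∀ σ : alternatingGroup (Fin (m + 1)), π (f σ) = σ := by
    intro σ
    have := alt_gen (((π.comp f).eqLocus (alternatingGroup _).subtype).map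
      (alternatingGroup _).subtype) (fun i j => by
        have hm : swap i.castSucc i.succ * swap j.castSucc j.succ ∈
            alternatingGroup (Fin (m + 1)) := by rw [← hxx]; exact h.sgn _
        refine ⟨⟨_, hm⟩, ?_, rfl⟩
        change π (f _) = _
        rw [hf, hxx]; rfl) σ.2
    obtain ⟨τ, h1, h2⟩ := this
    have : τ = σ := Subtype.ext h2
    subst this
    exact h1
  have hle : commutator G ≤ f.range := by
    rw [commutator_def, Subgroup.commutator_le]
    intro a _ b _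
    have ha := h.eq (x := a) (y := f ⟨π a, h.sgn a⟩) (by rw [hπf])
    have hb := h.eq (x := b) (y := f ⟨π b, h.sgn b⟩) (by rw [hπf])
    refine ⟨⁅(⟨π a, h.sgn a⟩ : alternatingGroup _), ⟨π b, h.sgn b⟩⁆, ?_⟩
    rw [map_commutatorElement]
    generalize f ⟨π a, h.sgn a⟩ = u at ha
    generalize f ⟨π b, h.sgn b⟩ = v at hb
    have k1 : ∀ u v : G, ⁅z * u, v⁆ = ⁅u, v⁆ := fun u v => by
      simp only [commutatorElement_def, mul_inv_rev]
      calc z * u * v * (u⁻¹ * z⁻¹) * v⁻¹ = z * (u * v * u⁻¹) * z⁻¹ * v⁻¹ := by group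
        _ = _ := by rw [← h.cen, mul_inv_cancel_right]
    have k2 : ∀ u v : G, ⁅u, z * v⁆ = ⁅u, v⁆ := fun u v => by
      rw [← commutatorElement_inv, k1, commutatorElement_inv]
    rcases ha with rfl | rfl <;> rcases hb with rfl | rfl <;> simp only [k1, k2]
  obtain ⟨σ, hσ⟩ := hle (h.perf ▸ Subgroup.mem_top z)
  have : σ = 1 := Subtype.ext (by rw [← hπf, hσ, h.πz]; rfl)
  exact h.ne (by rw [← hσ, this, map_one])

theorem DC.sq {y : G} (hy : (π y).cycleType = {2, 2}) : y * y = z := by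
  have h1 : ∀ y, (π y).cycleType = {2, 2} → y * y = 1 ∨ y * y = z := fun y hy => by
    apply h.ker
    rw [map_mul, ← pow_two, ← orderOf_dvd_iff_pow_eq_one, ← lcm_cycleType, hy]
    decide
  refine (h1 y hy).resolve_left fun h2 => h.not_all fun w hw => ?_
  obtain ⟨g, hg, e⟩ := conjA (β := π y) (γ := π w) (by rw [hy]; decide) (hw.trans hy.symm)
  obtain ⟨g, rfl⟩ := h.sur g hg
  have h3 : g * y * g⁻¹ * (g * y * g⁻¹) = 1 := by rw [conj_mul, h2]; simp
  rcases h.eq (x := w) (y := g * y * g⁻¹) (by simp [e]) with rfl | rfl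
  · exact h3
  · rw [mul_assoc, ← mul_assoc _ z, h.cen, mul_assoc z, h3, mul_one, h.zz]

theorem DC.comm3 {w r : G} (hw : w ^ 3 = 1) (hc : Commute (π w) (π r)) : Commute w r := by
  rcases h.eq (x := r * w * r⁻¹) (y := w) (by simp [← hc.eq]) with e | e
  · exact (mul_inv_eq_iff_eq_mul.1 e).symm
  · exfalso
    have := congrArg (· ^ 3) e
    simp only [conj_pow, (h.zc w).mul_pow, hw] at this
    rw [pow_succ, pow_two, h.zz] at this
    exact h.ne (by simpa using this.symm)

theorem DC.flip {b : G} (hb : 2 ≤ (π b).cycleType.count 2) : ∃ x, x * b * x⁻¹ = z * b := by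
  obtain ⟨a, a', c, c', r, hn, e, r1, r2, r3, r4⟩ := two_two hb
  have hn' := hn
  simp only [List.nodup_cons, List.mem_cons, List.not_mem_nil, or_false, not_or] at hn'
  obtain ⟨⟨n1, n2, n3⟩, ⟨n4, n5⟩, n6, -⟩ := hn'
  have hn2 : [a, c, a', c'].Nodup := by simp [n1, n2, n3, n5, n6, Ne.symm n4]
  have hn3 : [a, c', a', c].Nodup := by simp [n1, n2, n3, n4, Ne.symm n5, Ne.symm n6]
  obtain ⟨y, hy⟩ := h.sur (swap a a' * swap c c') (by simp [n1, n6])
  obtain ⟨w₁, t1, p1⟩ := h.lift3 (isThreeCycle_swap_mul_swap_same n2 n1 (Ne.symm n4))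
  obtain ⟨w₂, t2, p2⟩ := h.lift3 (isThreeCycle_swap_mul_swap_same (Ne.symm n1) n5 n3)
  have hr : π (y⁻¹ * b) = r := by rw [map_mul, map_inv, hy, e, inv_mul_cancel_left]
  have c1 : Commute w₁ (y⁻¹ * b) := h.comm3 t1 (by
    rw [p1, hr]; exact (disj_swap r1 r3).commute.mul_left (disj_swap r1 r2).commute)
  have c2 : Commute w₂ (y⁻¹ * b) := h.comm3 t2 (by
    rw [p2, hr]; exact (disj_swap r2 r1).commute.mul_left (disj_swap r2 r4).commute)
  have c3 := c1.mul_left c2
  have hx : π (w₁ * w₂) = swap a c * swap a' c' := by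
    rw [map_mul, p1, p2, swap_comm a' a, mul_assoc, swap_mul_self_mul]
  generalize w₁ * w₂ = x at c3 hx
  have q1 : x * x = z := h.sq (by rw [hx, cycleType_swap_mul_swap_of_nodup hn2])
  have q2 : y * y = z := h.sq (by rw [hy, cycleType_swap_mul_swap_of_nodup hn])
  have q3 : y * x * (y * x) = z := h.sq (by
    rw [map_mul, hx, hy, klein hn, cycleType_swap_mul_swap_of_nodup hn3])
  have q4 : x * y = z * (y * x) := by
    have e1 : x * y = y⁻¹ * (y * x * (y * x)) * x⁻¹ := by group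
    have e2 : y⁻¹ = z * y := by
      rw [inv_eq_iff_mul_eq_one, ← mul_assoc, h.cen, mul_assoc, q2, h.zz]
    have e3 : x⁻¹ = z * x := by
      rw [inv_eq_iff_mul_eq_one, ← mul_assoc, h.cen, mul_assoc, q1, h.zz]
    rw [e1, q3, e2, e3, mul_assoc, ← mul_assoc z z, h.zz, one_mul, mul_assoc]
  refine ⟨x, ?_⟩
  calc x * b * x⁻¹ = x * y * ((y⁻¹ * b) * x⁻¹) := by group
    _ = z * (y * (x * (y⁻¹ * b)) * x⁻¹) := by rw [q4]; group
    _ = z * b := by rw [c3.eq]; group

theorem DC.comm (hm : 4 ≤ m) (g : G) : ∃ a b : G, a * b * a⁻¹ * b⁻¹ = g := by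
  obtain ⟨β, h1, h2, h3⟩ := exists_beta (by simp; omega) (h.sgn g)
  obtain ⟨α, h4, h5⟩ := conjA (Multiset.count_pos.1 (by omega)) h3
  obtain ⟨b, rfl⟩ := h.sur β h1
  obtain ⟨a, rfl⟩ := h.sur α h4
  rcases h.eq (x := a * b * a⁻¹ * b⁻¹) (y := g) (by simp [h5]) with e | e
  · exact ⟨a, b, e⟩
  · obtain ⟨x, hx⟩ := h.flip h2
    refine ⟨a * x, b, ?_⟩
    calc a * x * b * (a * x)⁻¹ * b⁻¹ = a * (x * b * x⁻¹) * a⁻¹ * b⁻¹ := by group
      _ = z * (a * b * a⁻¹ * b⁻¹) := by rw [hx, ← mul_assoc a z, h.cen]; group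
      _ = g := by rw [e, ← mul_assoc, h.zz, one_mul]

end H05.Ore
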