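import Mathlib
import Cfsg.Agent.H05.Plane3
import Cfsg.Agent.H07.OddAut
import Cfsg.Agent.H19.PrimeDeg

/-! Doubly transitive groups of degree `p ^ 2 + 1`, part 1: a perfect normal subgroup of the point
stabiliser is transitive on the remaining points; an abelian one is semiregular. -/

set_option autoImplicit false
open BG Cfsg
open Subgroup MulAction H05.Ito
open scoped commutatorElement

namespace H05.PSq

/-- there is no linear space with `p ^ 2 + 1` points and lines of size `p + 1` -/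
theorem LS {Ω : Type*} [Finite Ω] {p : ℕ} (hp : 2 ≤ p) (hc : Nat.card Ω = p ^ 2 + 1)
    (l : Ω → Ω → Set Ω) (hk : ∀ a b, a ≠ b → (l a b).ncard = p + 1)
    (h1 : ∀ a b, a ≠ b → a ∈ l a b) (h2 : ∀ a b, a ≠ b → b ∈ l a b)
    (hT : ∀ a b c, a ≠ b → c ∈ l a b → c ≠ a → l a c = l a b)
    (hS : ∀ a b c, a ≠ b → c ∈ l a b → c ≠ b → l c b = l a b) : False := by
  have third : ∀ a b, a ≠ b → ∃ e ∈ l a b, e ≠ a ∧ e ≠ b := fun a b hab => by
    by_contra hn
    push Not at hn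
    have : l a b ⊆ {a, b} := fun e he => by
      by_cases h : e = a
      · exact Or.inl h
      · exact Or.inr (hn e he h)
    have h3 := Set.ncard_le_ncard this (Set.toFinite _)
    rw [hk a b hab, Set.ncard_pair hab] at h3
    omega
  have sym : ∀ a b, a ≠ b → l b a = l a b := fun a b hab => by
    obtain ⟨e, he, ea, eb⟩ := third a b hab
    have e1 := hT a b e hab he ea
    have e2 := hS a e b ea.symm (e1 ▸ h2 a b hab) eb.symm
    rw [hT b e a eb.symm (e2 ▸ h1 a e ea.symm) hab, e2, e1]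
  have gen : ∀ a b c d, a ≠ b → c ≠ d → c ∈ l a b → d ∈ l a b → l c d = l a b :=
    fun a b c d hab hcd hc hd => by
      by_cases e : d = a
      · subst e
        rw [sym d c hcd.symm, hT d b c hab hc hcd]
      · have e1 := hT a b d hab hd e
        rw [hS a d c (Ne.symm e) (e1 ▸ hc) hcd, e1]
  have : Nontrivial Ω := Finite.one_lt_card_iff_nontrivial.1 (by rw [hc]; nlinarith)
  obtain ⟨a, b, hab⟩ := exists_pair_ne Ω
  obtain ⟨x, hx⟩ : ∃ x, x ∉ l a b := by
    by_contra hn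
    push Not at hn
    have h3 := hk a b hab
    rw [Set.eq_univ_of_forall hn, Set.ncard_univ, hc] at h3
    nlinarith
  have hne : ∀ y ∈ l a b, x ≠ y := fun y hy e => hx (e ▸ hy)
  have := dcount_le (l a b) ({x}ᶜ) (fun y z => z ∈ l x y) p 1 (fun y hy => by
    have : {z | z ∈ ({x}ᶜ : Set Ω) ∧ z ∈ l x y} = l x y \ {x} := by ext; simp [and_comm]
    rw [this, Set.ncard_sdiff_singleton_of_mem (h1 _ _ (hne y hy)), hk _ _ (hne y hy)]
    rfl) (fun z hz => by
    refine (Set.ncard_le_one (Set.toFinite _)).2 fun y hy y' hy' => ?_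
    by_contra e
    have e1 := hT x y z (hne y hy.1) hy.2 hz
    have e2 := hT x y' z (hne y' hy'.1) hy'.2 hz
    have e3 := gen a b y y' hab e hy.1 hy'.1
    have e4 := gen x y y y' (hne y hy.1) e (h2 _ _ (hne y hy.1))
      (by rw [← e1, e2]; exact h2 _ _ (hne y' hy'.1))
    exact hx (by rw [← e3, e4]; exact h1 _ _ (hne y hy.1)))
  rw [hk a b hab, Set.ncard_compl, Set.ncard_singleton, hc] at this
  simp at this
  nlinarith

theorem full {H X : Type*} [Group H] [Finite H] [MulAction H X] [Finite X] [IsPretransitive H X]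
    (hp : (Nat.card X).Prime) (hH : commutator H = ⊤) (L : Subgroup H) [L.Normal] {l : H} (hl : l ∈ L)
    {x : X} (hx : l • x ≠ x) (h : H) : ∃ k ∈ L, ∀ x : X, k • x = h • x := by
  classical
  haveI := Fintype.ofFinite X
  let φ := (toPermHom H X).rangeRestrict
  have hs : Function.Surjective φ := MonoidHom.rangeRestrict_surjective _
  haveI : IsPretransitive (toPermHom H X).range X := ⟨fun x y => by
    obtain ⟨g, hg⟩ := exists_smul_eq H x y
    exact ⟨φ g, hg⟩⟩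
  haveI := Subgroup.Normal.map ‹L.Normal› φ hs
  have h1 := (H19.commutator_le_of_prime_degree (G := (toPermHom H X).range) (α := X)
    (Nat.card_eq_fintype_card (α := X) ▸ hp) (L := L.map φ) fun e => hx (by
      have : φ l = 1 := (e ▸ mem_map_of_mem φ hl : φ l ∈ (⊥ : Subgroup _))
      exact congrArg (fun σ : (toPermHom H X).range => σ • x) this)).2
  have h2 : φ h ∈ commutator (toPermHom H X).range := by
    have := mem_map_of_mem φ (hH.ge (mem_top h))
    rw [_root_.commutator_def, map_commutator] at this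
    exact commutator_mono le_top le_top this
  obtain ⟨k, hk, e⟩ := h1 h2
  exact ⟨k, hk, fun x => congrArg (fun σ : (toPermHom H X).range => σ • x) e⟩

variable {G Ω : Type*} [Group G] [MulAction G Ω]

/-- the standing hypothesis -/
structure Hy (G Ω : Type*) [Group G] [MulAction G Ω] (p : ℕ) : Prop where
  prime : p.Prime
  card : Nat.card Ω = p ^ 2 + 1
  two : ∀ a b c d : Ω, a ≠ b → c ≠ d → ∃ g : G, g • a = c ∧ g • b = d
  faith : ∀ g : G, (∀ x : Ω, g • x = x) → g = 1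

/-- normal subgroup of the stabiliser of `a` -/
structure Nm (a : Ω) (L : Subgroup G) : Prop where
  le : L ≤ stabilizer G a
  nm : stabilizer G a ≤ normalizer (L : Set G)

/-- conjugation invariant family of normal subgroups of point stabilisers -/
structure Fam (N : Ω → Subgroup G) : Prop where
  le : ∀ a, N a ≤ stabilizer G a
  cj : ∀ (g : G) a, N (g • a) = cj g (N a)

theorem Fam.nm {N : Ω → Subgroup G} (h : Fam N) (a : Ω) : Nm a (N a) :=
  ⟨h.le a, fun g hg => cj_eq_self_iff.1 (by rw [← h.cj, hg])⟩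

theorem orbit_cj (g : G) (L : Subgroup G) (y z : Ω) : g • z ∈ orbit (cj g L) (g • y) ↔ z ∈ orbit L y :=
  ⟨fun ⟨n, hn⟩ => ⟨⟨g⁻¹ * n * g, mem_cj.1 n.2⟩, by
    simpa [mul_smul, inv_smul_eq_iff, Subgroup.smul_def] using hn⟩,
   fun ⟨n, hn⟩ => ⟨⟨_, conj_mem_cj g n.2⟩, by simpa [mul_smul, Subgroup.smul_def] using hn⟩⟩

theorem mem_orb {L : Subgroup G} {y z : Ω} : z ∈ orbit L y ↔ ∃ n ∈ L, n • y = z :=
  ⟨fun ⟨n, hn⟩ => ⟨n, n.2, hn⟩, fun ⟨n, hn, e⟩ => ⟨⟨n, hn⟩, e⟩⟩

theorem Nm.orb {a : Ω} {L : Subgroup G} (h : Nm a L) {g : G} (hg : g • a = a) (y z : Ω) :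
    g • z ∈ orbit L (g • y) ↔ z ∈ orbit L y := by
  rw [← orbit_cj g L y z, cj_of_mem_norm (h.nm hg)]

theorem orb_ne {a : Ω} {L : Subgroup G} (h : L ≤ stabilizer G a) {y z : Ω} (hy : y ≠ a)
    (hz : z ∈ orbit L y) : z ≠ a := by
  obtain ⟨n, hn, rfl⟩ := mem_orb.1 hz
  exact (ne_smul_of (h hn) hy.symm).symm

theorem ncard_smul (g : G) {S T : Set Ω} (h : ∀ z, g • z ∈ T ↔ z ∈ S) : S.ncard = T.ncard :=
  Set.ncard_congr (fun z _ => g • z) (fun z hz => (h z).2 hz) (fun _ _ _ _ e => smul_left_cancel g e)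
    fun z hz => ⟨g⁻¹ • z, (h _).1 (by simpa using hz), by simp⟩

namespace Hy
variable {p : ℕ} (h : Hy G Ω p)
include h

theorem fin : Finite Ω := Nat.finite_of_card_ne_zero (by rw [h.card]; omega)

theorem compl (a : Ω) : {z | z ≠ a}.ncard = p ^ 2 := by
  have := h.fin
  have e : {z | z ≠ a} = ({a}ᶜ : Set Ω) := rfl
  rw [e, Set.ncard_compl, Set.ncard_singleton, h.card]
  rfl

theorem tr (a b : Ω) : ∃ g : G, g • a = b := by
  by_cases e : a = b
  · exact ⟨1, by simp [e]⟩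
  · exact (h.two a b b a e (Ne.symm e)).imp fun _ => And.left

theorem tr1 {a y z : Ω} (hy : y ≠ a) (hz : z ≠ a) : ∃ g : G, g • a = a ∧ g • y = z :=
  h.two a y a z hy.symm hz.symm

theorem exists_ne (a : Ω) : ∃ y, y ≠ a := by
  have := h.compl a
  exact Set.nonempty_of_ncard_ne_zero (this ▸ pow_ne_zero 2 h.prime.ne_zero)

theorem exists_fam {a : Ω} {L : Subgroup G} (hL : Nm a L) : ∃ N : Ω → Subgroup G, Fam N ∧ N a = L := by
  choose t ht using h.tr a
  have key : ∀ g k : G, g • a = k • a → cj g L = cj k L := fun g k e =>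
    cj_eq_cj_iff.2 (hL.nm (show (k⁻¹ * g) • a = a by rw [mul_smul, e, inv_smul_smul]))
  refine ⟨fun x => cj (t x) L, ⟨fun x n hn => ?_, fun g x => ?_⟩, ?_⟩
  · have := hL.le (mem_cj.1 hn)
    rw [mem_stabilizer_iff, mul_smul, mul_smul, inv_smul_eq_iff, ht] at this
    exact this
  · rw [cj_cj]; exact key _ _ (by rw [mul_smul, ht, ht])
  · exact (key _ 1 (by rw [ht, one_smul])).trans (cj_one L)

theorem cls {β : Type*} (a : Ω) (f : Ω → β)
    (hf : ∀ g : G, g • a = a → ∀ y z, f y = f z → f (g • y) = f (g • z)) {y : Ω} (hy : y ≠ a) :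
    {z | z ≠ a ∧ f z = f y}.ncard ∣ p ^ 2 := by
  have := h.fin
  rw [← h.compl a]
  refine dvd_of_fibers _ f _ fun w hw => ?_
  obtain ⟨g, g1, rfl⟩ := h.tr1 hy hw
  symm
  refine ncard_smul g fun z => ⟨fun hz => ⟨?_, ?_⟩, fun hz =>
    ⟨(ne_smul_of g1 hz.1.symm).symm, hf g g1 _ _ hz.2⟩⟩
  · rintro rfl; exact hz.1 g1
  · simpa using hf g⁻¹ (inv_smul_eq_iff.2 g1.symm) _ _ hz.2

theorem eq_compl {a : Ω} {S : Set Ω} (hS : ∀ z ∈ S, z ≠ a) (hc : p ^ 2 ≤ S.ncard) {z : Ω}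
    (hz : z ≠ a) : z ∈ S := by
  have := h.fin
  exact (Set.eq_of_subset_of_ncard_le (t := {z | z ≠ a}) hS ((h.compl a).trans_le hc)).ge hz

theorem tri {m : ℕ} (hm : m ∣ p ^ 2) : m = 1 ∨ m = p ∨ m = p ^ 2 := by
  obtain ⟨i, hi, rfl⟩ := (Nat.dvd_prime_pow h.prime).1 hm
  interval_cases i <;> simp

theorem orb_dvd {a : Ω} {L : Subgroup G} (hL : Nm a L) {y : Ω} (hy : y ≠ a) :
    (orbit L y).ncard ∣ p ^ 2 := by
  have := h.cls a (fun y => orbit L y) (fun g hg y z e => orbit_eq_iff.2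
    ((hL.orb hg _ _).2 (orbit_eq_iff.1 e))) hy
  convert this using 2
  ext z
  exact ⟨fun hz => ⟨orb_ne hL.le hy hz, orbit_eq_iff.2 hz⟩, fun hz => orbit_eq_iff.1 hz.2⟩

theorem orb_eq {a : Ω} {L : Subgroup G} (hL : Nm a L) {y z : Ω} (hy : y ≠ a) (hz : z ≠ a) :
    (orbit L y).ncard = (orbit L z).ncard := by
  obtain ⟨g, g1, rfl⟩ := h.tr1 hy hz
  exact ncard_smul g (hL.orb g1 y)

/-- an intransitive normal subgroup of the stabiliser has orbits of length `p` -/
theorem orb {a : Ω} {L : Subgroup G} (hL : Nm a L) (h0 : L ≠ ⊥) {y z : Ω} (hy : y ≠ a) (hz : z ≠ a)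
    (hn : z ∉ orbit L y) {w : Ω} (hw : w ≠ a) : (orbit L w).ncard = p := by
  have := h.fin
  rcases h.tri (h.orb_dvd hL hw) with e | e | e
  · refine absurd (eq_bot_iff.2 fun n hn => h.faith n fun x => ?_) h0
    by_cases hx : x = a
    · exact hx ▸ hL.le hn
    · exact (Set.ncard_le_one (Set.toFinite _)).1 ((h.orb_eq hL hx hw).trans e).le _
        (mem_orb.2 ⟨n, hn, rfl⟩) _ (mem_orbit_self x)
  · exact e
  · exact absurd (h.eq_compl (fun _ => orb_ne hL.le hy) ((h.orb_eq hL hy hw).trans e).ge hz) hn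

theorem coarse {β : Type*} {a : Ω} (f : Ω → β)
    (hf : ∀ g : G, g • a = a → ∀ y z, f y = f z → f (g • y) = f (g • z)) {L : Subgroup G}
    (hL : L ≤ stabilizer G a) {y : Ω} (hy : y ≠ a) (ho : (orbit L y).ncard = p)
    (hfL : ∀ z ∈ orbit L y, f z = f y) {z : Ω} (hz : z ≠ a) (e : f z = f y) (hn : z ∉ orbit L y)
    {w : Ω} (hw : w ≠ a) : f w = f y := by
  have := h.fin
  have h1 : (orbit L y).ncard < {z | z ≠ a ∧ f z = f y}.ncard := Set.ncard_lt_ncard
    ⟨fun z hz => ⟨orb_ne hL hy hz, hfL z hz⟩, fun hs => hn (hs ⟨hz, e⟩)⟩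
  have := h.prime.one_lt
  rcases h.tri (h.cls a f hf hy) with e | e | e
  · omega
  · omega
  · exact (h.eq_compl (fun z hz => hz.1) e.ge hw).2

variable [Finite G]

/-- Sylow `p`-subgroups of a transitive subgroup are transitive -/
theorem syl_tr {a y : Ω} {L S : Subgroup G} (hL : L ≤ stabilizer G a) (hy : y ≠ a)
    (ht : ∀ z, z ≠ a → z ∈ orbit L y) (hS : IsSylowIn p S L) {z : Ω} (hz : z ≠ a) : z ∈ orbit S y := by
  have := h.fin
  obtain ⟨h1, -, h3⟩ := (isSylowIn_iff h.prime).1 hS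
  have h4 : (orbit L y).ncard = p ^ 2 := by
    rw [← h.compl a]; congr 1; ext z; exact ⟨orb_ne hL hy, ht z⟩
  refine h.eq_compl (fun _ => orb_ne (h1.trans hL) hy) (Nat.le_of_dvd ?_ ?_) hz
  · exact (Set.ncard_pos (Set.toFinite _)).2 ⟨y, mem_orbit_self y⟩
  · refine (Nat.Coprime.pow_left 2 ((Nat.Prime.coprime_iff_not_dvd h.prime).2 h3)).dvd_of_dvd_mul_right ?_
    rw [orbit_relIndex h1, h4]
    exact dvd_mul_left _ _

theorem exists_syl {a y : Ω} (hy : y ≠ a) : ∃ S : Subgroup G, IsSylowIn p S (stabilizer G a) ∧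
    ∀ z, z ≠ a → z ∈ orbit S y := by
  obtain ⟨S, hS, -⟩ := sylow_superset h.prime pg_bot (bot_le : ⊥ ≤ stabilizer G a)
  exact ⟨S, hS, fun z => h.syl_tr le_rfl hy (fun z hz => mem_orb.2 (h.tr1 hy hz)) hS⟩

/-- O'Nan: abelian normal subgroups of the stabiliser are semiregular -/
theorem semi {a : Ω} {L : Subgroup G} (hL : Nm a L) (hab : IsMulCommutative L) {n : G} (hn : n ∈ L)
    {y : Ω} (hy : y ≠ a) (e : n • y = y) : n = 1 := by
  by_contra h1
  obtain ⟨q, N, hN, -⟩ := ON.of_normal h.faith h.two a L hL.le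
    (fun g hg n hn => conj_mem_of_norm (hL.nm hg) hn) (fun a ha b hb => mul_comm_of_abelian hab ha hb)
    ⟨n, hn, h1, y, hy, e⟩
  haveI : Nontrivial Ω := ⟨⟨y, a, hy⟩⟩
  obtain ⟨m, F, _, _, hm, hc, -⟩ := hN.main
  have hq : 2 ≤ Fintype.card F := Fintype.one_lt_card
  generalize Fintype.card F = q at hq hc
  obtain ⟨m, rfl⟩ := Nat.exists_eq_add_of_le' hm
  rw [← Nat.geomSum_eq hq, h.card, geom_sum_succ, geom_sum_succ, geom_sum_succ, add_left_inj] at hc
  generalize ∑ k ∈ Finset.range m, q ^ k = s at hc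
  have := h.prime.one_lt
  rcases h.tri (Dvd.intro _ hc.symm) with e | e | e
  · omega
  · subst e
    rw [sq, mul_right_inj' h.prime.ne_zero] at hc
    exact h.prime.not_dvd_one ((Nat.dvd_add_right (Dvd.intro _ rfl)).1 (dvd_of_eq hc))
  · rw [← e] at hc
    nlinarith [Nat.zero_le (q * (q * (q * s)))]

omit [Finite G] in
theorem no_supp {N : Ω → Subgroup G} (hN : Fam N) (ho : ∀ a y, y ≠ a → (orbit (N a) y).ncard = p)
    {D : Set Ω} (hD : D.ncard = p) {y : Ω} (hy : y ∈ D)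
    (ht : ∀ z ∈ D, ∃ r : G, (∀ x ∉ D, r • x = x) ∧ r • y = z) : False := by
  have := h.fin
  have hp := h.prime.one_lt
  obtain ⟨z, hz, hzy⟩ := Set.exists_ne_of_one_lt_ncard (hD ▸ hp) y
  have h1 : Dᶜ ⊆ {c | c ∈ {c | c ≠ y} ∧ z ∈ orbit (N c) y} := fun c hc => by
    have hcy : c ≠ y := fun e => hc (e ▸ hy)
    refine ⟨hcy, by_contra fun hn => hn ?_⟩
    obtain ⟨r, r1, rfl⟩ := ht z hz
    refine (Set.eq_of_subset_of_ncard_le (fun w hw => by_contra fun hw' => hn ?_)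
      (hD.trans (ho c y hcy.symm).symm).le).ge hz
    have := ((hN.nm c).orb (r1 c hc) y w).2 hw
    rw [r1 w hw'] at this
    exact orbit_eq_iff.1 ((orbit_eq_iff.2 this).symm.trans (orbit_eq_iff.2 hw))
  have h2 := dcount {c | c ≠ y} {w | w ≠ y} (fun c w => w ∈ orbit (N c) y) (p - 1)
    {c | c ∈ {c | c ≠ y} ∧ z ∈ orbit (N c) y}.ncard (fun c hc => by
      rw [← ho c y (Ne.symm hc), ← Set.ncard_sdiff_singleton_of_mem (mem_orbit_self y)]
      congr 1; ext; simp [and_comm]) fun w hw => by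
      obtain ⟨g, g1, rfl⟩ := h.tr1 hzy hw
      symm
      refine ncard_smul g fun c => and_congr ?_ ?_
      · exact not_congr ⟨fun e => smul_left_cancel g (e.trans g1.symm), fun e => e ▸ g1⟩
      · rw [hN.cj, ← orbit_cj g (N c) y z, g1]
  rw [h.compl, mul_right_inj' (pow_ne_zero 2 h.prime.ne_zero)] at h2
  have h3 := Set.ncard_le_ncard h1
  rw [← h2, Set.ncard_compl, hD, h.card] at h3
  have : p + p ≤ p ^ 2 := by nlinarith
  omega

theorem full' {a y : Ω} {N L : Subgroup G} (ho : (orbit N y).ncard = p) (hp : ⁅N, N⁆ = N)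
    (hn : N ≤ normalizer (L : Set G)) (hle : L ≤ N) {l : G} (hl : l ∈ L) {w : Ω} (hw : w ∈ orbit N y)
    (e : l • w ≠ w) {n : G} (hnN : n ∈ N) : ∃ k ∈ L, ∀ w ∈ orbit N y, k • w = n • w := by
  have := h.fin
  haveI : (L.subgroupOf N).Normal := (normal_subgroupOf_iff_le_normalizer hle).2 hn
  obtain ⟨k, hk, hk'⟩ := full (H := N) (X := orbit N y) (show (orbit N y).ncard.Prime from ho ▸ h.prime)
    (map_injective N.subtype_injective (by
      rw [map_subtype_commutator, hp, ← MonoidHom.range_eq_map, range_subtype])) (L.subgroupOf N)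
    (l := ⟨l, hle hl⟩) hl (x := ⟨w, hw⟩) (fun e' => e (congrArg Subtype.val e')) ⟨n, hnN⟩
  exact ⟨k, hk, fun w hw => congrArg Subtype.val (hk' ⟨w, hw⟩)⟩

end Hy

theorem norm_fix {N : Subgroup G} {S : Set Ω} (hS : ∀ n ∈ N, ∀ w ∈ S, n • w ∈ S) :
    N ≤ normalizer ((N ⊓ fixingSubgroup G S : Subgroup G) : Set G) :=
  le_norm_iff.2 fun n hn k hk => ⟨N.mul_mem (N.mul_mem hn hk.1) (N.inv_mem hn),
    (mem_fixingSubgroup_iff G).2 fun w hw => by
      rw [mul_smul, mul_smul, (mem_fixingSubgroup_iff G).1 hk.2 _ (hS _ (inv_mem hn) w hw), smul_inv_smul]⟩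

theorem orb_smul {N : Subgroup G} {y : Ω} : ∀ n ∈ N, ∀ w ∈ orbit N y, n • w ∈ orbit N y :=
  fun n hn _ hw => mapsTo_smul_orbit (⟨n, hn⟩ : N) y hw

namespace Hy
variable {p : ℕ} (h : Hy G Ω p) [Finite G]
include h

theorem perf_faith {N : Ω → Subgroup G} (hN : Fam N) (ho : ∀ a y, y ≠ a → (orbit (N a) y).ncard = p)
    (hp : ∀ a, ⁅N a, N a⁆ = N a) {a y : Ω} (hy : y ≠ a) :
    N a ⊓ fixingSubgroup G (orbit (N a) y) = ⊥ := by
  classical
  have := h.fin
  by_contra h0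
  have kc : ∀ g : G, g • a = a → ∀ w : Ω, N a ⊓ fixingSubgroup G (orbit (N a) (g • w)) =
      cj g (N a ⊓ fixingSubgroup G (orbit (N a) w)) := fun g hg w => by
    ext n
    rw [mem_cj, mem_inf, mem_inf, mem_fixingSubgroup_iff, mem_fixingSubgroup_iff]
    refine and_congr ⟨conj_mem_of_norm' ((hN.nm a).nm hg), fun hn => by
      simpa [mul_assoc] using conj_mem_of_norm ((hN.nm a).nm hg) hn⟩ ⟨fun hn z hz => ?_, fun hn z hz => ?_⟩
    · rw [mul_smul _ g z, mul_smul, hn _ (((hN.nm a).orb hg w z).2 hz), inv_smul_smul]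
    · have := hn (g⁻¹ • z) (((hN.nm a).orb hg w _).1 (by simpa using hz))
      rwa [mul_smul _ g, smul_inv_smul, mul_smul, smul_left_cancel_iff] at this
  have h1 : ∀ z, z ≠ a → z ∉ orbit (N a) y → ∃ l ∈ N a ⊓ fixingSubgroup G (orbit (N a) z),
      ∃ w ∈ orbit (N a) y, l • w ≠ w := fun z hz hzy => by
    by_contra hn
    push Not at hn
    obtain ⟨g, g1, rfl⟩ := h.tr1 hy hz
    have e := eq_of_le_of_card_eq (A := N a ⊓ fixingSubgroup G (orbit (N a) (g • y)))
      (B := N a ⊓ fixingSubgroup G (orbit (N a) y))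
      (fun l hl => ⟨hl.1, (mem_fixingSubgroup_iff G).2 (hn l hl)⟩) (by rw [kc g g1, card_cj])
    refine h0 (eq_bot_iff.2 fun n hn => h.faith n fun w => ?_)
    by_cases hw : w = a
    · exact hw ▸ hN.le a hn.1
    · have := h.coarse (fun w => N a ⊓ fixingSubgroup G (orbit (N a) w))
        (fun g hg y z e => by rw [kc g hg, kc g hg, e]) (hN.le a) hy (ho a y hy)
        (fun z hz => by rw [orbit_eq_iff.2 hz]) hz e hzy hw
      exact (mem_fixingSubgroup_iff G).1 (this.ge hn).2 w (mem_orbit_self w)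
  obtain ⟨n1, hn1, n2, hn2, w, hw, e⟩ : ∃ n1 ∈ N a, ∃ n2 ∈ N a, ∃ w ∈ orbit (N a) y, ⁅n1, n2⁆ • w ≠ w := by
    by_contra hn
    push Not at hn
    have h2 : N a ≤ fixingSubgroup G (orbit (N a) y) := (hp a).ge.trans
      (commutator_le.2 fun n1 h1 n2 h2 => (mem_fixingSubgroup_iff G).2 (hn n1 h1 n2 h2))
    obtain ⟨z, hz, hzy⟩ := Set.exists_ne_of_one_lt_ncard ((ho a y hy).symm ▸ h.prime.one_lt) y
    obtain ⟨n, hn, rfl⟩ := mem_orb.1 hz
    exact hzy ((mem_fixingSubgroup_iff G).1 (h2 hn) y (mem_orbit_self y))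
  have h2 : ∀ T : Finset Ω, (∀ t ∈ T, t ≠ a ∧ t ∉ orbit (N a) y) →
      ∃ l ∈ N a ⊓ fixingSubgroup G {w | ∃ t ∈ T, w ∈ orbit (N a) t}, ∃ w ∈ orbit (N a) y, l • w ≠ w := by
    intro T
    induction T using Finset.induction_on with
    | empty =>
      exact fun _ => ⟨_, ⟨(hp a).le (commutator_mem_commutator hn1 hn2), by
        simp [mem_fixingSubgroup_iff]⟩, w, hw, e⟩
    | insert t T _ ih =>
      intro hT
      obtain ⟨l, hl, w1, hw1, e1⟩ := ih fun s hs => hT s (Finset.mem_insert_of_mem hs)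
      obtain ⟨l', hl', w2, hw2, e2⟩ := h1 t (hT t (Finset.mem_insert_self _ _)).1
        (hT t (Finset.mem_insert_self _ _)).2
      have i1 : ∀ n ∈ N a, ∀ w ∈ {w | ∃ t ∈ T, w ∈ orbit (N a) t},
          n • w ∈ {w | ∃ t ∈ T, w ∈ orbit (N a) t} := fun n hn w ⟨t, ht, hw⟩ => ⟨t, ht, orb_smul n hn w hw⟩
      obtain ⟨k1, hk1, f1⟩ := h.full' (a := a) (ho a y hy) (hp a) (norm_fix i1) inf_le_left hl hw1 e1 hn1
      obtain ⟨k2, hk2, f2⟩ := h.full' (a := a) (ho a y hy) (hp a) (norm_fix orb_smul) inf_le_left hl' hw2 e2 hn2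
      have c1 := comm_le_left ((inf_le_left.trans (norm_fix i1))) (commutator_mem_commutator hk1 hk2)
      have c2 := comm_le_right ((inf_le_left.trans (norm_fix orb_smul))) (commutator_mem_commutator hk1 hk2)
      refine ⟨⁅k1, k2⁆, ⟨c1.1, (mem_fixingSubgroup_iff G).2 fun z ⟨s, hs, hz⟩ => ?_⟩, w, hw, ?_⟩
      · rcases Finset.mem_insert.1 hs with rfl | hs
        · exact (mem_fixingSubgroup_iff G).1 c2.2 z hz
        · exact (mem_fixingSubgroup_iff G).1 c1.2 z ⟨s, hs, hz⟩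
      · have inv : ∀ {k n : G}, n ∈ N a → (∀ w ∈ orbit (N a) y, k • w = n • w) →
            ∀ w ∈ orbit (N a) y, k⁻¹ • w = n⁻¹ • w := fun {k n} hn f w hw => by
          rw [inv_smul_eq_iff, f _ (orb_smul _ (inv_mem hn) w hw), smul_inv_smul]
        have m1 := orb_smul _ (inv_mem hn2) w hw
        have m2 := orb_smul _ (inv_mem hn1) _ m1
        simp only [commutatorElement_def, mul_smul] at e ⊢
        rwa [inv hn2 f2 w hw, inv hn1 f1 _ m1, f2 _ m2, f1 _ (orb_smul _ hn2 _ m2)]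
  obtain ⟨l, hl, w1, hw1, e1⟩ := h2 (Set.toFinite {t | t ≠ a ∧ t ∉ orbit (N a) y}).toFinset
    fun t ht => by simpa using ht
  refine h.no_supp hN ho (ho a y hy) (mem_orbit_self y) fun z hz => ?_
  obtain ⟨n, hn, rfl⟩ := mem_orb.1 hz
  obtain ⟨k, hk, f⟩ := h.full' (a := a) (ho a y hy) (hp a) (norm_fix (by
    rintro n hn w ⟨t, ht, hw⟩; exact ⟨t, ht, orb_smul n hn w hw⟩)) inf_le_left hl hw1 e1 hn
  refine ⟨k, fun x hx => ?_, f y (mem_orbit_self y)⟩
  by_cases e : x = a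
  · exact e ▸ hN.le a hk.1
  · exact (mem_fixingSubgroup_iff G).1 hk.2 x ⟨x, by simpa using ⟨e, hx⟩, mem_orbit_self x⟩

theorem row_two {N : Subgroup G} {y : Ω} (ho : (orbit N y).ncard = p) (hp : ⁅N, N⁆ = N) (h0 : N ≠ ⊥)
    (hf : N ⊓ fixingSubgroup G (orbit N y) = ⊥) : p ≠ 2 ∧ IsMultiplyPretransitive N (orbit N y) 2 ∧
      (Nat.card (stabilizer N (⟨y, mem_orbit_self y⟩ : orbit N y))).Coprime p := by
  classical
  have := h.fin
  haveI := Fintype.ofFinite (orbit N y)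
  haveI : FaithfulSMul N (orbit N y) := ⟨fun {m n} e => by
    have : ((n⁻¹ * m : N) : G) ∈ N ⊓ fixingSubgroup G (orbit N y) := ⟨(n⁻¹ * m).2,
      (mem_fixingSubgroup_iff G).2 fun w hw => by
        have : ((m : G) • w) = (n : G) • w := congrArg Subtype.val (e ⟨w, hw⟩)
        rw [coe_mul, mul_smul, this, coe_inv, inv_smul_smul]⟩
    rw [hf, mem_bot, OneMemClass.coe_eq_one, inv_mul_eq_one] at this
    exact this.symm⟩
  have hc : Nat.card (orbit N y) = p := ho
  have hs : ¬ Group.IsSolvable N := fun hs => by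
    haveI := (nontrivial_iff_ne_bot N).2 h0
    refine (Group.IsSolvable.commutator_lt_top_of_nontrivial N).ne (map_injective N.subtype_injective ?_)
    rw [map_subtype_commutator, hp, ← MonoidHom.range_eq_map, range_subtype]
  have hd : Nat.card N ∣ p.factorial := by
    have := card_dvd_of_injective (toPermHom N (orbit N y)) toPerm_injective
    rwa [Nat.card_perm, hc] at this
  refine ⟨?_, (H18.burnside_prime_degree (G := N) (α := orbit N y)
    (by rw [← Nat.card_eq_fintype_card, hc]; exact h.prime)).resolve_left hs, ?_⟩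
  · rintro rfl
    obtain ⟨i, -, hi⟩ := (Nat.dvd_prime_pow (m := 1) Nat.prime_two).1 hd
    exact hs (pg_sol Nat.prime_two (pg_of_card hi))
  · refine ((Nat.Prime.coprime_iff_not_dvd h.prime).2 fun e => ?_).symm
    rw [← (stabilizer N (⟨y, mem_orbit_self y⟩ : orbit N y)).index_mul_card,
      index_stabilizer_of_transitive, hc, ← Nat.mul_factorial_pred h.prime.ne_zero] at hd
    have := h.prime.dvd_factorial.1 (e.trans (Nat.dvd_of_mul_dvd_mul_left h.prime.pos hd))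
    have := h.prime.pos
    omega

theorem perf {N : Ω → Subgroup G} (hN : Fam N) (ho : ∀ a y, y ≠ a → (orbit (N a) y).ncard = p)
    (hp : ∀ a, ⁅N a, N a⁆ = N a) : False := by
  classical
  have := h.fin
  have h0 : ∀ a, N a ≠ ⊥ := fun a e => by
    obtain ⟨y, hy⟩ := h.exists_ne a
    obtain ⟨z, hz, hzy⟩ := Set.exists_ne_of_one_lt_ncard ((ho a y hy).symm ▸ h.prime.one_lt) y
    obtain ⟨n, hn, rfl⟩ := mem_orb.1 hz
    rw [e, mem_bot] at hn
    exact hzy (by rw [hn, one_smul])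
  have r2 := fun a y hy => h.row_two (ho a y hy) (hp a) (h0 a) (h.perf_faith hN ho hp hy)
  have : Nontrivial Ω := Finite.one_lt_card_iff_nontrivial.1 (by rw [h.card]; nlinarith [h.prime.pos])
  obtain ⟨a0, b0, hab0⟩ := exists_pair_ne Ω
  have p3 : 3 ≤ p := lt_of_le_of_ne h.prime.two_le (r2 b0 a0 hab0).1.symm
  -- transitivity of two-point stabilisers on the rows
  have t2 : ∀ a y, y ≠ a → ∀ z ∈ orbit (N a) y, ∀ w ∈ orbit (N a) y, z ≠ y → w ≠ y →
      ∃ n ∈ N a, n • y = y ∧ n • z = w := fun a y hy z hz w hw h1 h2 => by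
    obtain ⟨n, e1, e2⟩ := is_two_pretransitive_iff.1 (r2 a y hy).2.1
      (show (⟨y, mem_orbit_self y⟩ : orbit (N a) y) ≠ ⟨z, hz⟩ from fun e => h1 (congrArg Subtype.val e).symm)
      (show (⟨y, mem_orbit_self y⟩ : orbit (N a) y) ≠ ⟨w, hw⟩ from fun e => h2 (congrArg Subtype.val e).symm)
    exact ⟨n, n.2, congrArg Subtype.val e1, congrArg Subtype.val e2⟩
  -- every point stabiliser fixes a point in each row
  have ex : ∀ a y z, y ≠ a → z ≠ a → ∃ w ∈ orbit (N a) y, ∀ n ∈ N a, n • z = z → n • w = w :=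
    fun a y z hy hz => by
      haveI := Fintype.ofFinite (orbit (N a) y)
      obtain ⟨S, hS, hS'⟩ := h.exists_syl hy
      obtain ⟨x, hx, rfl⟩ := mem_orb.1 (hS' z hz)
      obtain ⟨h1, h2, -⟩ := (isSylowIn_iff h.prime).1 hS
      obtain ⟨k, hk⟩ := h2 ⟨x, hx⟩
      have hk : x ^ p ^ k = 1 := congrArg Subtype.val hk
      obtain ⟨σ, hσ⟩ := H07.OddAut.hall (r2 a y hy).2.1 ⟨y, mem_orbit_self y⟩
        (by rw [index_stabilizer_of_transitive]; exact (show Nat.card (orbit (N a) y) = p from ho a y hy).symm ▸ (r2 a y hy).2.2)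
        (α := (N a).normalizerMonoidHom ⟨x, (hN.nm a).nm (h1 hx)⟩) (Odd.of_dvd_nat
          ((h.prime.odd_of_ne_two (r2 a y hy).1).pow (n := k)) (orderOf_dvd_of_pow_eq_one (by
            rw [← map_pow]; exact (congrArg _ (Subtype.ext hk)).trans (map_one _))))
      refine ⟨_, (σ ⟨y, mem_orbit_self y⟩).2, fun n hn e => ?_⟩
      have h3 := hσ ⟨x⁻¹ * n * x, conj_mem_of_norm' ((hN.nm a).nm (h1 hx)) hn⟩ ⟨y, mem_orbit_self y⟩
      have h4 : (⟨x⁻¹ * n * x, conj_mem_of_norm' ((hN.nm a).nm (h1 hx)) hn⟩ : N a) •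
          (⟨y, mem_orbit_self y⟩ : orbit (N a) y) = ⟨y, mem_orbit_self y⟩ :=
        Subtype.ext (show (x⁻¹ * n * x) • y = y by rw [mul_smul, mul_smul, e, inv_smul_smul])
      rw [h4] at h3
      have h5 : ((σ ⟨y, mem_orbit_self y⟩ : orbit (N a) y) : Ω) = (x * (x⁻¹ * n * x) * x⁻¹) • _ :=
        congrArg Subtype.val h3
      simpa [mul_assoc] using h5.symm
  let C : Ω → Ω → Set Ω := fun a b => {z | ∀ n ∈ N a, n • b = b → n • z = z}
  have Cs : ∀ (g : G) a b z, g • z ∈ C (g • a) (g • b) ↔ z ∈ C a b := fun g a b z => by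
    simp only [C, Set.mem_ofPred_eq, hN.cj]
    refine ⟨fun hz n hn e => ?_, fun hz n hn e => ?_⟩
    · simpa [mul_smul] using hz _ (conj_mem_cj g hn) (by simp [mul_smul, e])
    · simpa [mul_smul, inv_smul_eq_iff] using hz _ (mem_cj.1 hn) (by simp [mul_smul, e])
  have CT : ∀ a b c, a ≠ b → c ∈ C a b → c ≠ a → C a c = C a b := fun a b c hab hc hca => by
    obtain ⟨g, g1, rfl⟩ := h.tr1 hab.symm hca
    have e : N a ⊓ stabilizer G b = N a ⊓ stabilizer G (g • b) := eq_of_le_of_card_eq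
      (fun n hn => ⟨hn.1, hc n hn.1 hn.2⟩) (by
        rw [← card_cj g, cj_inf, ← hN.cj, g1]
        congr 3
        ext n; simp [mem_cj, mul_smul, inv_smul_eq_iff])
    ext z
    exact ⟨fun hz n hn e' => hz n hn (e.le ⟨hn, e'⟩).2, fun hz n hn e' => hz n hn (e.ge ⟨hn, e'⟩).2⟩
  have uniq : ∀ a b c d, a ≠ b → c ≠ a → c ∈ C a b → d ∈ C a b → d ∈ orbit (N a) c → d = c :=
    fun a b c d hab hca hc hd hdc => by
      by_contra e
      obtain ⟨w, hw, w1, w2⟩ : ∃ w ∈ orbit (N a) c, w ≠ c ∧ w ≠ d := by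
        by_contra hn
        push Not at hn
        have h3 := Set.ncard_le_ncard (show orbit (N a) c ⊆ {c, d} from fun w hw => by
          by_cases h : w = c
          · exact Or.inl h
          · exact Or.inr (hn w hw h)) (Set.toFinite _)
        rw [ho a c hca, Set.ncard_pair (Ne.symm e)] at h3
        omega
      obtain ⟨n, hn, n1, n2⟩ := t2 a c hca d hdc w hw e w1
      rw [← CT a b c hab hc hca] at hd
      exact w2 (n2.symm.trans (hd n hn n1))
  have C1 : ∀ a b, a ∈ C a b := fun a b n hn _ => hN.le a hn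
  have C2 : ∀ a b, b ∈ C a b := fun a b n _ e => e
  have Ck : ∀ a b, a ≠ b → (C a b).ncard = p + 1 := fun a b hab => by
    have := dcount (C a b \ {a}) {z | z ≠ a} (fun c z => z ∈ orbit (N a) c) p 1 (fun c hc => by
      rw [← ho a c hc.2]; congr 1; ext z
      exact ⟨fun hz => hz.2, fun hz => ⟨orb_ne (hN.le a) hc.2 hz, hz⟩⟩) fun z hz => by
        obtain ⟨w, hw, hw'⟩ := ex a z b hz hab.symm
        have hwa := orb_ne (hN.le a) hz hw
        refine Set.ncard_eq_one.2 ⟨w, Set.eq_singleton_iff_unique_mem.2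
          ⟨⟨⟨hw', hwa⟩, mem_orbit_symm.1 hw⟩, fun c hc => uniq a b w c hab hwa hw' hc.1.1 ?_⟩⟩
        rw [orbit_eq_iff.2 hw]
        exact mem_orbit_symm.1 hc.2
    rw [h.compl, mul_one, sq, mul_left_inj' h.prime.ne_zero,
      Set.ncard_sdiff_singleton_of_mem (C1 a b)] at this
    have := h.prime.pos
    omega
  by_cases hs : C a0 b0 = C b0 a0
  · have sym : ∀ a b, a ≠ b → C a b = C b a := fun a b hab => by
      obtain ⟨g, rfl, rfl⟩ := h.two a0 b0 a b hab0 hab
      ext z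
      rw [← smul_inv_smul g z, Cs, Cs, hs]
    exact LS h.prime.two_le h.card C Ck (fun a b _ => C1 a b) (fun a b _ => C2 a b) CT
      fun a b c hab hc hcb => by rw [sym c b hcb, CT b a c hab.symm (sym a b hab ▸ hc) hcb, sym a b hab]
  -- otherwise `C b a` is `a` together with the row of `b`
  have key : C b0 a0 = insert a0 (orbit (N a0) b0) := by
    obtain ⟨z, hz, hz'⟩ : ∃ z ∈ C b0 a0, z ∉ C a0 b0 := by
      by_contra hn
      push Not at hn
      exact hs (Set.eq_of_subset_of_ncard_le hn ((Ck _ _ hab0).trans (Ck _ _ hab0.symm).symm).le).symm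
    have hza : z ≠ a0 := fun e => hz' (e ▸ C1 _ _)
    obtain ⟨w, hw, hw'⟩ := ex a0 z b0 hza hab0.symm
    have hwa := orb_ne (hN.le a0) hza hw
    have hzw : z ≠ w := fun e => hz' (e ▸ hw')
    have hzo : z ∈ orbit (N a0) w := mem_orbit_symm.1 hw
    have h1 : ∀ u ∈ orbit (N a0) w, u ≠ w → u ∈ C b0 a0 := fun u hu huw => by
      obtain ⟨n, hn, n1, rfl⟩ := t2 a0 w hwa z hzo u hu hzw huw
      have n2 : n • b0 = b0 := (CT a0 b0 w hab0 hw' hwa).ge (C2 _ _) n hn n1
      have := (Cs n b0 a0 z).2 hz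
      rwa [n2, hN.le a0 hn] at this
    have h2 : w ∈ C b0 a0 := fun n hn e => by
      by_contra hnw
      have := ((hN.nm a0).orb e z w).2 hw
      rw [hz n hn e, ← orbit_eq_iff.2 hw] at this
      exact hnw (smul_left_cancel n (h1 _ this hnw n hn e))
    have h3 : insert a0 (orbit (N a0) w) = C b0 a0 := Set.eq_of_subset_of_ncard_le (fun u hu => by
      rcases hu with rfl | hu
      · exact C2 _ _
      · by_cases e : u = w
        · exact e ▸ h2
        · exact h1 u hu e) (by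
          rw [Ck _ _ hab0.symm, Set.ncard_insert_of_notMem fun e => orb_ne (hN.le a0) hwa e rfl,
            ho a0 w hwa])
    rw [← h3, orbit_eq_iff.2 ((h3.ge (C1 _ _)).resolve_left hab0.symm)]
  have key' : ∀ a b, a ≠ b → C b a = insert a (orbit (N a) b) := fun a b hab => by
    obtain ⟨g, rfl, rfl⟩ := h.two a0 b0 a b hab0 hab
    ext z
    rw [← smul_inv_smul g z, Cs, key, Set.mem_insert_iff, Set.mem_insert_iff, hN.cj, orbit_cj,
      smul_left_cancel_iff]
  exact LS h.prime.two_le h.card (fun a b => C b a) (fun a b hab => Ck b a hab.symm)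
    (fun a b _ => C2 b a) (fun a b _ => C1 b a) (fun a b c hab hc hca => by
      rw [key' a b hab] at hc ⊢
      rw [key' a c hca.symm, orbit_eq_iff.2 (hc.resolve_left hca)])
    fun a b c hab hc hcb => CT b a c hab.symm hc hcb

/-- an intransitive normal subgroup of the stabiliser contains one of order `p` -/
theorem exists_p {a : Ω} {L : Subgroup G} (hL : Nm a L) (h0 : L ≠ ⊥) {y z : Ω} (hy : y ≠ a)
    (hz : z ≠ a) (hn : z ∉ orbit L y) : ∃ Q, Q ≤ L ∧ Nm a Q ∧ Nat.card Q = p := by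
  obtain ⟨Q, ⟨h1, h2, h3⟩, hmin⟩ := exists_minimal_of_wellFoundedLT
    (fun Q : Subgroup G => Q ≤ L ∧ Nm a Q ∧ Q ≠ ⊥) ⟨L, le_rfl, hL, h0⟩
  have h4 : z ∉ orbit Q y := fun e => hn (let ⟨n, hn, e⟩ := mem_orb.1 e; mem_orb.2 ⟨n, h1 hn, e⟩)
  refine ⟨Q, h1, h2, ?_⟩
  by_cases e : ⁅Q, Q⁆ = ⊥
  · rw [← h.orb h2 h3 hy hz h4 hy, orbit_ncard, ← card_inf_mul_relIndex (stabilizer G y) Q,
      (BG.card_eq_one (A := stabilizer G y ⊓ Q)).2
        (eq_bot_iff.2 fun n hn => h.semi h2 (abelian_iff_der.2 e) hn.2 hy hn.1), one_mul]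
  · have h5 : ⁅Q, Q⁆ = Q := le_antisymm (comm_le_of_le le_rfl le_rfl) (hmin
      ⟨(comm_le_of_le le_rfl le_rfl).trans h1, ⟨(comm_le_of_le le_rfl le_rfl).trans h2.le,
        norm_der h2.nm⟩, e⟩ (comm_le_of_le le_rfl le_rfl))
    obtain ⟨N, hN, rfl⟩ := h.exists_fam h2
    refine (h.perf hN (fun b w hw => ?_) fun b => ?_).elim
    · obtain ⟨g, rfl⟩ := h.tr a b
      rw [← h.orb h2 h3 hy hz h4 (w := g⁻¹ • w) fun e => hw (inv_smul_eq_iff.1 e), hN.cj]
      symm
      refine ncard_smul g fun z => ?_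
      rw [← orbit_cj g (N a) _ z, smul_inv_smul]
    · obtain ⟨g, rfl⟩ := h.tr a b
      rw [hN.cj, ← cj_comm, h5]

end Hy

end H05.PSq
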