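import Mathlib
import Cfsg.Agent.H05.PSq1
import Cfsg.Agent.H03.Focal
import Cfsg.Agent.H08.Counting

/-! Doubly transitive groups of degree `p ^ 2 + 1`, part 2: they are doubly primitive or of order 20
(`H05.PSq.Hy.main`). -/

set_option autoImplicit false
open BG Cfsg
open Subgroup MulAction H05.Ito

namespace H05.PSq.Hy

variable {G Ω : Type*} [Group G] [MulAction G Ω] {p : ℕ} (h : Hy G Ω p) [Finite G]
include h

omit h [Finite G] in
theorem orb_card {L : Subgroup G} {y : Ω} (hs : ∀ n ∈ L, n • y = y → n = 1) :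
    (orbit L y).ncard = Nat.card L := by
  rw [orbit_ncard, ← card_inf_mul_relIndex (stabilizer G y) L, (BG.card_eq_one (A := stabilizer G y ⊓ L)).2
    (eq_bot_iff.2 fun n hn => hs n hn.2 hn.1), one_mul]

omit [Finite G] in
theorem card_reg {a y : Ω} {L : Subgroup G} (hL : L ≤ stabilizer G a) (hy : y ≠ a)
    (hs : ∀ n ∈ L, n • y = y → n = 1) (ht : ∀ z, z ≠ a → z ∈ orbit L y) : Nat.card L = p ^ 2 := by
  rw [← orb_card hs, ← h.compl a]; congr 1; ext z; exact ⟨orb_ne hL hy, ht z⟩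

theorem row {a : Ω} {Q : Subgroup G} (hQ : Nm a Q) (hc : Nat.card Q = p) {y : Ω} (hy : y ≠ a) :
    (orbit Q y).ncard = p :=
  (orb_card fun n hn => h.semi hQ (abelian_of_cyclic (cyclic_of_prime (hc ▸ h.prime))) hn hy).trans hc

theorem mem_Q {a : Ω} {Q : Subgroup G} (hQ : Nm a Q) (hc : Nat.card Q = p) {c : G} (ha : c • a = a)
    (hcQ : c ∈ centralizer (Q : Set G)) (ho : ∀ w, w ≠ a → c • w ∈ orbit Q w) : c ∈ Q := by
  have ab := abelian_of_cyclic (cyclic_of_prime (hc ▸ h.prime : (Nat.card Q).Prime))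
  let M : Subgroup G :=
    { carrier := {c | c ∈ stabilizer G a ⊓ centralizer (Q : Set G) ∧ ∀ w, w ≠ a → c • w ∈ orbit Q w}
      one_mem' := ⟨one_mem _, fun w _ => by simpa using mem_orbit_self w⟩
      mul_mem' := fun {c d} hc hd => ⟨mul_mem hc.1 hd.1, fun w hw => by
        rw [mul_smul, ← orbit_eq_iff.2 (hd.2 w hw)]
        exact hc.2 _ (ne_smul_of hd.1.1 hw.symm).symm⟩
      inv_mem' := fun {c} hc => ⟨inv_mem hc.1, fun w hw => by
        have := hc.2 _ (ne_smul_of (inv_mem hc.1.1 : c⁻¹ ∈ stabilizer G a) hw.symm).symm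
        rw [smul_inv_smul] at this
        exact mem_orbit_symm.1 this⟩ }
  have h1 : Nm a M := ⟨fun c hc => hc.1.1, le_norm_iff.2 fun g hg c hc =>
    ⟨conj_mem_of_norm (norm_inf (le_norm _) (norm_cent hQ.nm) hg) hc.1, fun w hw => by
      have := (hQ.orb hg _ _).2 (hc.2 _ (ne_smul_of (inv_mem hg : g⁻¹ ∈ stabilizer G a) hw.symm).symm)
      rwa [smul_inv_smul, ← mul_smul, ← mul_smul] at this⟩⟩
  have h2 : IsMulCommutative M := abelian_iff.2 fun c hc d hd => by
    refine inv_mul_eq_one.1 (h.faith _ fun w => ?_)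
    rw [mul_smul, inv_smul_eq_iff]
    by_cases hw : w = a
    · rw [hw, mul_smul, mul_smul, hd.1.1, hc.1.1, hd.1.1]
    · obtain ⟨q, hq, e⟩ := mem_orb.1 (hc.2 w hw)
      obtain ⟨r, hr, e'⟩ := mem_orb.1 (hd.2 w hw)
      rw [mul_smul, mul_smul, ← e, ← e', ← mul_smul, ← hc.1.2 r hr, mul_smul, ← e, ← mul_smul d,
        ← hd.1.2 q hq, mul_smul, ← e', ← mul_smul, ← mul_smul, mul_comm_of_abelian ab hq hr]
  obtain ⟨y, hy⟩ := h.exists_ne a
  obtain ⟨q, hq, e⟩ := mem_orb.1 (ho y hy)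
  have h3 : q⁻¹ * c = 1 := h.semi h1 h2 (M.mul_mem (M.inv_mem ⟨⟨hQ.le hq, abelian_iff.1 ab hq⟩,
    fun w _ => mem_orb.2 ⟨q, hq, rfl⟩⟩) ⟨⟨ha, hcQ⟩, ho⟩) hy (by rw [mul_smul, ← e, inv_smul_smul])
  exact inv_mul_eq_one.1 h3 ▸ hq

theorem psemi {a : Ω} {Q S : Subgroup G} (hQ : Nm a Q) (hc : Nat.card Q = p) (hS : IsPGroup p S)
    (h1 : S ≤ stabilizer G a) (h2 : Q ≤ S) {s : G} (hs : s ∈ S) {w : Ω} (hw : w ≠ a) (e : s • w = w) :
    s = 1 := by
  have := h.fin
  refine h.semi hQ (abelian_of_cyclic (cyclic_of_prime (hc ▸ h.prime))) (h.mem_Q hQ hc (h1 hs)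
    (pg_le_cent_of_card h.prime hS hc (h1.trans hQ.nm) hs) fun z hz => ?_) hw e
  by_cases hzw : z ∈ orbit Q w
  · have := (hQ.orb (h1 hs) w z).2 hzw
    rwa [e, ← orbit_eq_iff.2 hzw] at this
  let T : Subgroup G :=
    { carrier := {c | c ∈ S ∧ c • w ∈ orbit Q w}
      one_mem' := ⟨one_mem _, by simpa using mem_orbit_self w⟩
      mul_mem' := fun {c d} hc hd => ⟨mul_mem hc.1 hd.1, by
        rw [mul_smul, ← orbit_eq_iff.2 hc.2]
        exact (hQ.orb (h1 hc.1) _ _).2 hd.2⟩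
      inv_mem' := fun {c} hc => ⟨inv_mem hc.1, by
        have := (hQ.orb (inv_mem (h1 hc.1) : c⁻¹ ∈ stabilizer G a) _ _).2 hc.2
        rw [inv_smul_smul] at this
        exact mem_orbit_symm.1 this⟩ }
  have hT : T ≤ S := fun c hc => hc.1
  have h3 : orbit Q z ⊆ orbit T z := fun x hx =>
    let ⟨n, hn, e⟩ := mem_orb.1 hx
    mem_orb.2 ⟨n, ⟨h2 hn, mem_orb.2 ⟨n, hn, rfl⟩⟩, e⟩
  haveI := Fact.mk h.prime
  obtain ⟨i, hi⟩ := (pg_le hS hT).card_orbit z
  change (orbit T z).ncard = _ at hi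
  have h4 : ¬ p ^ 2 ≤ p ^ i := fun hle => by
    obtain ⟨t, ht, rfl⟩ := mem_orb.1 (h.eq_compl (fun _ => orb_ne (hT.trans h1) hz) (hi ▸ hle) hw)
    exact hzw (by simpa using (T.inv_mem ht).2)
  refine (Set.eq_of_subset_of_ncard_le h3 ?_).ge (mem_orb.2 ⟨s, ⟨hs, e.symm ▸ mem_orbit_self w⟩, rfl⟩)
  rw [h.row hQ hc hz, hi]
  exact (Nat.pow_le_pow_right h.prime.pos (Nat.lt_succ_iff.1
    ((Nat.pow_lt_pow_iff_right h.prime.one_lt).1 (not_le.1 h4)))).trans_eq (pow_one p)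

theorem exists_reg {a : Ω} {Q : Subgroup G} (hQ : Nm a Q) (hc : Nat.card Q = p) :
    ∃ P, Nm a P ∧ IsMulCommutative P ∧ Q ≤ P ∧ ∀ y z, y ≠ a → z ≠ a → z ∈ orbit P y := by
  have ab := abelian_of_cyclic (cyclic_of_prime (hc ▸ h.prime : (Nat.card Q).Prime))
  have hC : Nm a (stabilizer G a ⊓ centralizer (Q : Set G)) :=
    ⟨inf_le_left, norm_inf (le_norm _) (norm_cent hQ.nm)⟩
  set C := stabilizer G a ⊓ centralizer (Q : Set G)
  have hQC : Q ≤ C := le_inf hQ.le (abelian_iff.1 ab)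
  have tC : ∀ y z, y ≠ a → z ≠ a → z ∈ orbit C y := fun y z hy hz => by
    obtain ⟨S, hS, ht⟩ := h.exists_syl hy
    obtain ⟨h1, h2, -⟩ := (isSylowIn_iff h.prime).1 hS
    obtain ⟨s, hs, e⟩ := mem_orb.1 (ht z hz)
    exact mem_orb.2 ⟨s, ⟨h1 hs, pg_le_cent_of_card h.prime h2 hc (h1.trans hQ.nm) hs⟩, e⟩
  obtain ⟨y, hy⟩ := h.exists_ne a
  have h0 : Q ≠ ⊥ := ne_bot_of_prime (hc ▸ h.prime)
  have hd : ¬ Q ≤ ⁅C, C⁆ := fun hle => h0 (eq_bot_iff.2 fun q hq => by
    obtain ⟨S, hS, hQS⟩ := sylow_superset h.prime (pg_of_card_eq hc) hQC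
    obtain ⟨h1, h2, -⟩ := (isSylowIn_iff h.prime).1 hS
    haveI := Fact.mk h.prime
    have h3 : IsMulCommutative S := IsPGroup.isMulCommutative_of_card_eq_prime_sq
      (h.card_reg (h1.trans hC.le) hy (fun s hs => h.psemi hQ hc h2 (h1.trans hC.le) hQS hs hy)
        fun z => h.syl_tr hC.le hy (fun z => tC y z hy) hS)
    obtain ⟨T, rfl⟩ := hS.exists_sylow h.prime
    have h4 := mem_map_of_mem C.subtype (H03.sylow_inf_commutator_inf_center_le T
      (x := ⟨q, hQC hq⟩) ⟨⟨?_, ?_⟩, mem_center_iff.2 fun c => Subtype.ext (c.2.2 q hq).symm⟩)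
    · rwa [map_commutator, abelian_iff_der.1 h3] at h4
    · obtain ⟨t, ht, e⟩ := hQS hq
      exact (Subtype.ext e : t = ⟨q, hQC hq⟩) ▸ ht
    · obtain ⟨t, ht, e⟩ := (map_subtype_commutator C).ge (hle hq)
      exact (Subtype.ext e : t = ⟨q, hQC hq⟩) ▸ ht)
  by_cases e : ⁅C, C⁆ = ⊥
  · exact ⟨C, hC, abelian_iff_der.2 e, hQC, tC⟩
  have hCC : ⁅C, C⁆ ≤ C := comm_le_of_le le_rfl le_rfl
  have hD : Nm a ⁅C, C⁆ := ⟨hCC.trans hC.le, norm_der hC.nm⟩
  obtain ⟨z, hz, hn⟩ : ∃ z, z ≠ a ∧ z ∉ orbit (⁅C, C⁆ : Subgroup G) y := by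
    by_contra hn
    push Not at hn
    obtain ⟨S, hS⟩ := sylow_exists h.prime ⁅C, C⁆
    obtain ⟨h1, h2, -⟩ := (isSylowIn_iff h.prime).1 hS
    refine hd fun q hq => ?_
    obtain ⟨s, hs, e⟩ := mem_orb.1 (h.syl_tr hD.le hy hn hS (ne_smul_of (hQ.le hq) hy.symm).symm)
    have := h.psemi hQ hc (pg_sup (pg_of_card_eq hc) h2 ((h1.trans hD.le).trans hQ.nm))
      (sup_le hQ.le (h1.trans hD.le)) le_sup_left
      (mul_mem (mem_sup_left (inv_mem hq)) (mem_sup_right hs)) hy (by rw [mul_smul, e, inv_smul_smul])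
    exact inv_mul_eq_one.1 this ▸ h1 hs
  obtain ⟨R, h1, h2, h3⟩ := h.exists_p hD e hy hz hn
  have hP : Nm a (Q ⊔ R) := ⟨sup_le hQ.le h2.le, norm_sup hQ.nm h2.nm⟩
  have abP := abelian_sup ab (abelian_of_cyclic (cyclic_of_prime (h3 ▸ h.prime : (Nat.card R).Prime)))
    (cent_comm.1 ((h1.trans hCC).trans inf_le_right))
  refine ⟨_, hP, abP, le_sup_left, fun y z hy hz => by_contra fun hn => hd ?_⟩
  have h4 := h.orb hP (fun e => h0 (eq_bot_iff.2 (le_sup_left.trans e.le))) hy hz hn hy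
  rw [orb_card fun n hn => h.semi hP abP hn hy] at h4
  rw [eq_of_le_of_card_eq le_sup_left (hc.trans h4.symm),
    ← eq_of_le_of_card_eq le_sup_right (h3.trans h4.symm)]
  exact h1

section fam
variable {Q P : Ω → Subgroup G} (hQ : Fam Q) (hP : Fam P) (hc : ∀ a, Nat.card (Q a) = p)
  (ab : ∀ a, IsMulCommutative (P a)) (ht : ∀ a y z, y ≠ a → z ≠ a → z ∈ orbit (P a) y)
include hP ab ht

theorem fix_comm {g : G} {a b z : Ω} (hb : b ≠ a) (hz : z ≠ a) (ga : g • a = a) (gb : g • b = b)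
    (gz : g • z = z) : ∃ u ∈ P a, g * u = u * g ∧ u • b = z := by
  obtain ⟨u, hu, rfl⟩ := mem_orb.1 (ht a b z hb hz)
  have := h.semi (hP.nm a) (ab a) (mul_mem (inv_mem hu) (conj_mem_of_norm ((hP.nm a).nm ga) hu)) hb
    (by rw [mul_smul, mul_smul, mul_smul, inv_smul_eq_iff.2 gb.symm, gz, inv_smul_smul])
  exact ⟨u, hu, by rw [inv_mul_eq_one, eq_mul_inv_iff_mul_eq] at this; exact this.symm, rfl⟩

theorem fixcard {g : G} {a b c : Ω} (h1 : g ≠ 1) (hb : b ≠ a) (hca : c ≠ a) (hcb : c ≠ b)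
    (ga : g • a = a) (gb : g • b = b) (gc : g • c = c) : {z : Ω | g • z = z}.ncard = p + 1 := by
  have := h.fin
  have hle : P a ⊓ centralizer {g} ≤ stabilizer G a := inf_le_left.trans (hP.le a)
  have e : {z : Ω | g • z = z} = insert a (orbit (P a ⊓ centralizer {g} : Subgroup G) b) := by
    ext z
    refine ⟨fun hz => or_iff_not_imp_left.2 fun hza => ?_, ?_⟩
    · obtain ⟨u, hu, e, e'⟩ := h.fix_comm hP ab ht hb hza ga gb hz
      exact mem_orb.2 ⟨u, ⟨hu, mem_centralizer_singleton_iff.2 e.symm⟩, e'⟩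
    · rintro (rfl | hz)
      · exact ga
      · obtain ⟨u, hu, rfl⟩ := mem_orb.1 hz
        rw [Set.mem_ofPred_eq, ← mul_smul, ← mem_centralizer_singleton_iff.1 hu.2, mul_smul, gb]
  rw [e, Set.ncard_insert_of_notMem fun e => orb_ne hle hb e rfl, add_left_inj]
  have hs := fun n hn => h.semi (hP.nm a) (ab a) (n := n) hn hb
  have hd : (orbit (P a ⊓ centralizer {g} : Subgroup G) b).ncard ∣ p ^ 2 := by
    rw [orb_card (L := P a ⊓ centralizer {g}) fun n hn => hs n hn.1, ← h.card_reg (hP.le a) hb hs fun z => ht a b z hb]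
    exact card_dvd inf_le_left
  rcases h.tri hd with e1 | e1 | e1
  · exact absurd ((Set.ncard_le_one (Set.toFinite _)).1 e1.le _ ((e.le gc).resolve_left hca) _
      (mem_orbit_self b)) hcb
  · exact e1
  · refine absurd (h.faith g fun z => e.ge (or_iff_not_imp_left.2 fun hz => ?_)) h1
    exact h.eq_compl (fun _ => orb_ne hle hb) e1.ge hz

include hQ hc

theorem U_bot {g : G} {a b : Ω} (hab : a ≠ b) (ga : g • a = a) (gb : g • b = b)
    (hg : g ∈ centralizer (Q a : Set G)) : g = 1 := by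
  have := h.fin
  by_contra h1
  have k : ∀ c d, c ≠ d → (insert c (orbit (Q c) d)).ncard = p + 1 := fun c d hcd => by
    rw [Set.ncard_insert_of_notMem fun e => orb_ne (hQ.le c) hcd.symm e rfl,
      h.row (hQ.nm c) (hc c) hcd.symm]
  have sm : ∀ (u : G) c d z, u • z ∈ insert (u • c) (orbit (Q (u • c)) (u • d)) ↔
      z ∈ insert c (orbit (Q c) d) := fun u c d z => by
    rw [Set.mem_insert_iff, Set.mem_insert_iff, hQ.cj, orbit_cj, smul_left_cancel_iff]
  have e : insert a (orbit (Q a) b) = {z : Ω | g • z = z} := by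
    have hs : insert a (orbit (Q a) b) ⊆ {z : Ω | g • z = z} := by
      rintro z (rfl | hz)
      · exact ga
      · obtain ⟨u, hu, rfl⟩ := mem_orb.1 hz
        rw [Set.mem_ofPred_eq, ← mul_smul, ← hg u hu, mul_smul, gb]
    obtain ⟨z, hz, hzb⟩ := Set.exists_ne_of_one_lt_ncard
      ((h.row (hQ.nm a) (hc a) hab.symm).symm ▸ h.prime.one_lt) b
    exact Set.eq_of_subset_of_ncard_le hs ((h.fixcard hP ab ht h1 hab.symm
      (orb_ne (hQ.le a) hab.symm hz) hzb ga gb (hs (Or.inr hz))).trans (k a b hab).symm).le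
  have S : ∀ c ∈ insert a (orbit (Q a) b), c ≠ b →
      insert c (orbit (Q c) b) = insert a (orbit (Q a) b) := fun c hc hcb => by
    obtain ⟨u, hu, e1, rfl⟩ := h.fix_comm hP ab ht hab hcb gb ga (e.le hc)
    ext z
    have := sm u a b (u⁻¹ • z)
    rw [hP.le b hu, smul_inv_smul] at this
    rw [this, e, Set.mem_ofPred_eq, Set.mem_ofPred_eq, eq_comm, inv_smul_eq_iff, ← mul_smul, ← e1,
      mul_smul, smul_inv_smul, eq_comm]
  refine LS h.prime.two_le h.card (fun c d => insert c (orbit (Q c) d)) k (fun _ _ _ => Or.inl rfl)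
    (fun _ d _ => Or.inr (mem_orbit_self d))
    (fun c d e _ he hec => by rw [orbit_eq_iff.2 (he.resolve_left hec)]) fun c d x hcd hx hxd => ?_
  obtain ⟨u, rfl, rfl⟩ := h.two a b c d hab hcd
  obtain ⟨x, rfl⟩ := MulAction.surjective u x
  ext z
  obtain ⟨z, rfl⟩ := MulAction.surjective u z
  rw [sm, sm, S x ((sm u _ _ _).1 hx) fun e => hxd (e ▸ rfl)]

theorem cyc {a b : Ω} (hab : a ≠ b) : IsCyclic (stabilizer G a ⊓ stabilizer G b : Subgroup G) ∧
    Nat.card (stabilizer G a ⊓ stabilizer G b : Subgroup G) ∣ p - 1 := by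
  haveI := cyclic_of_prime (hc a ▸ h.prime : (Nat.card (Q a)).Prime)
  let φ := (IsCyclic.mulAutMulEquiv (G := Q a)).toMonoidHom.comp ((Q a).normalizerMonoidHom.comp
    (inclusion (inf_le_left.trans (hQ.nm a).nm : stabilizer G a ⊓ stabilizer G b ≤ _)))
  have hφ : Function.Injective φ := (IsCyclic.mulAutMulEquiv (G := Q a)).injective.comp
    ((injective_iff_map_eq_one _).2 fun g hg => Subtype.ext (h.U_bot hQ hP hc ab ht hab g.2.1 g.2.2
      fun q hq => by
        have : (g : G) * q * (g : G)⁻¹ = q := congrArg (fun σ : MulAut (Q a) => (σ ⟨q, hq⟩ : G)) hg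
        exact (mul_inv_eq_iff_eq_mul.1 this).symm))
  haveI := ZMod.isCyclic_units_prime (hc a ▸ h.prime : (Nat.card (Q a)).Prime)
  refine ⟨isCyclic_of_injective φ hφ, ?_⟩
  haveI := Fact.mk (hc a ▸ h.prime : (Nat.card (Q a)).Prime)
  have := card_dvd_of_injective φ hφ
  rwa [Nat.card_eq_fintype_card (α := (ZMod _)ˣ), ZMod.card_units, hc] at this

theorem zass {g : G} {a b c : Ω} (hb : b ≠ a) (hca : c ≠ a) (hcb : c ≠ b)
    (ga : g • a = a) (gb : g • b = b) (gc : g • c = c) : g = 1 := by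
  have := h.fin
  by_contra h1
  let l : Ω → Ω → Set Ω := fun c d =>
    {z | ∀ k : G, k • c = c → k • d = d → orderOf k ∣ orderOf g → k • z = z}
  have k1 : ∀ (k : G) c d, c ≠ d → k • c = c → k • d = d → orderOf k = orderOf g →
      l c d = {z | k • z = z} := fun k c d hcd kc kd e => by
    ext z
    refine ⟨fun hz => hz k kc kd e.dvd, fun hz j jc jd hj => ?_⟩
    exact (zpowers_le.2 hz : zpowers k ≤ stabilizer G z) (le_of_card_dvd_of_cyclic
      (h.cyc hQ hP hc ab ht hcd).1 (zpowers_le.2 ⟨jc, jd⟩) (zpowers_le.2 ⟨kc, kd⟩)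
      (by rwa [card_zpowers, card_zpowers, e]) (mem_zpowers j))
  have k2 : ∀ c d, c ≠ d → ∃ k : G, k • c = c ∧ k • d = d ∧ orderOf k = orderOf g ∧
      {z : Ω | k • z = z}.ncard = p + 1 := fun x y hxy => by
    obtain ⟨u, rfl, rfl⟩ := h.two a b x y hb.symm hxy
    refine ⟨u * g * u⁻¹, by simp [mul_smul, ga], by simp [mul_smul, gb],
      (MulAut.conj u).orderOf_eq g, h.fixcard hP ab ht (c := u • c) (by simpa using h1) hxy.symm
      (by simpa using hca) (by simpa using hcb) ?_ ?_ ?_⟩ <;> simp [mul_smul, ga, gb, gc]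
  refine LS h.prime.two_le h.card l (fun c d hcd => ?_) (fun _ _ _ _ e _ _ => e) (fun _ _ _ _ _ e _ => e)
    (fun c d x hcd hx hxc => ?_) fun c d x hcd hx hxd => ?_
  all_goals obtain ⟨k, kc, kd, e, e'⟩ := k2 c d hcd
  · rw [k1 k c d hcd kc kd e, e']
  · rw [k1 k c d hcd kc kd e] at hx ⊢
    exact k1 k c x hxc.symm kc hx e
  · rw [k1 k c d hcd kc kd e] at hx ⊢
    exact k1 k x d hxd hx kd e

theorem final : p = 2 ∧ Nat.card G = 20 := by
  have := h.fin
  have hp := h.prime.two_le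
  have cs : ∀ a b : Ω, a ≠ b → Nat.card (stabilizer G a) =
      Nat.card (stabilizer G a ⊓ stabilizer G b : Subgroup G) * p ^ 2 := fun a b hab => by
    rw [inf_comm, ← card_inf_mul_relIndex (stabilizer G b), ← orbit_ncard, ← h.compl a]
    congr 2; ext z
    exact ⟨orb_ne le_rfl hab.symm, fun hz => mem_orb.2 (h.tr1 hab.symm hz)⟩
  haveI : IsPretransitive G Ω := ⟨h.tr⟩
  have cG : ∀ a b : Ω, a ≠ b → Nat.card G =
      (p ^ 2 + 1) * (Nat.card (stabilizer G a ⊓ stabilizer G b : Subgroup G) * p ^ 2) := fun a b hab => by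
    rw [← cs a b hab, ← h.card, ← index_stabilizer_of_transitive G a, index_mul_card]
  have : Nontrivial Ω := Finite.one_lt_card_iff_nontrivial.1 (by rw [h.card]; nlinarith)
  obtain ⟨a, b, hab⟩ := exists_pair_ne Ω
  have hd := (h.cyc hQ hP hc ab ht hab).2
  by_cases p2 : p = 2
  · subst p2
    exact ⟨rfl, by rw [cG a b hab, Nat.dvd_one.1 hd]; rfl⟩
  exfalso
  have cH : ∀ c d : Ω, c ≠ d → Nat.card (stabilizer G c ⊓ stabilizer G d : Subgroup G) =
      Nat.card (stabilizer G a ⊓ stabilizer G b : Subgroup G) := fun c d hcd => by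
    have := (cG c d hcd).symm.trans (cG a b hab)
    rwa [mul_right_inj' (by omega), mul_left_inj' (by positivity)] at this
  have third : ∀ a b : Ω, a ≠ b → {c | c ≠ a ∧ c ≠ b}.ncard = p ^ 2 - 1 := fun a b hab => by
    rw [← h.compl a, ← Set.ncard_sdiff_singleton_of_mem (show b ∈ {z | z ≠ a} from hab.symm)]
    rfl
  rcases Nat.even_or_odd (Nat.card (stabilizer G a ⊓ stabilizer G b : Subgroup G)) with he | ho
  · have h1 := dcount_le {c | c ≠ a ∧ c ≠ b} {g : G | g • a = b ∧ g • b = a} (fun c g => g • c = c) 1 2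
      (fun c hc' => by
        obtain ⟨z, hz, oz⟩ := exists_orderOf_eq_prime Nat.prime_two (cH c a hc'.1 ▸ he.two_dvd)
        have z2 : z * z = 1 := by rw [← sq, ← oz, pow_orderOf_eq_one]
        obtain ⟨u, hu, e⟩ := mem_orb.1 (ht c a b hc'.1.symm hc'.2.symm)
        have h2 := conj_mem_of_norm ((hP.nm c).nm hz.1) hu
        have h3 : u * (z * u * z⁻¹) = 1 := by
          refine h.semi (hP.nm c) (ab c) (mul_mem hu h2) hc'.1.symm (by_contra fun hn => ?_)
          have h4 : z * (u * (z * u * z⁻¹)) = u * (z * u * z⁻¹) * z := by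
            rw [mul_comm_of_abelian (ab c) hu h2, ← mul_assoc, ← mul_assoc, ← mul_assoc, z2, one_mul,
              ← mul_comm_of_abelian (ab c) hu h2, inv_eq_of_mul_eq_one_right z2]
            simp [mul_assoc, z2]
          have h5 := h.zass hQ hP hc ab ht hc'.1.symm
            (ne_smul_of (hP.le c (mul_mem hu h2)) hc'.1).symm hn hz.1 hz.2
            (by rw [← mul_smul, h4, mul_smul _ z, hz.2])
          rw [h5, orderOf_one] at oz
          omega
        refine (Set.ncard_pos (Set.toFinite _)).2 ⟨u * z, ⟨by rw [mul_smul, hz.2, e], ?_⟩,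
          by rw [mul_smul, hz.1, hP.le c hu]⟩
        rw [inv_eq_of_mul_eq_one_right z2] at h3
        rw [← e, ← hz.2, ← mul_smul, ← mul_smul, show u * z * u * z = 1 by rw [← h3]; group, one_smul,
          hz.2]) fun g hg => by
      by_contra hn
      obtain ⟨x, y, z, hx, hy, hz, h1, h2, h3⟩ := (Set.two_lt_ncard_iff (Set.toFinite _)).1 (not_le.1 hn)
      have := h.zass hQ hP hc ab ht h1.symm h2.symm h3.symm hx.2 hy.2 hz.2
      exact hab (by rw [← hg.1, this, one_smul])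
    obtain ⟨s, s1, s2⟩ := h.two a b b a hab hab.symm
    have h2 : {g : G | g • a = b ∧ g • b = a}.ncard ≤
        Nat.card (stabilizer G a ⊓ stabilizer G b : Subgroup G) :=
      Set.ncard_le_ncard_of_injOn (t := (stabilizer G a ⊓ stabilizer G b : Subgroup G)) (fun g => s * g)
        (fun g hg => mem_inf.2 ⟨show (s * g) • a = a by rw [mul_smul, hg.1, s2],
          show (s * g) • b = b by rw [mul_smul, hg.2, s1]⟩) (fun _ _ _ _ e => mul_left_cancel e)
    have h3 := Nat.le_of_dvd (by omega) hd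
    rw [third a b hab] at h1
    have : 3 * p ≤ p ^ 2 := by nlinarith [lt_of_le_of_ne hp (Ne.symm p2)]
    omega
  · have op := h.prime.odd_of_ne_two p2
    obtain ⟨T⟩ : Nonempty (Sylow 2 G) := inferInstance
    have hT : Nat.card (T : Subgroup G) ∣ 2 := by
      obtain ⟨i, hi⟩ := IsPGroup.iff_card.1 T.isPGroup'
      have h1 := card_subgroup_dvd_card (T : Subgroup G)
      rw [hi] at h1 ⊢
      rw [cG a b hab] at h1
      have h2 := ((Nat.coprime_two_left.2 (ho.mul op.pow)).pow_left i).dvd_of_dvd_mul_right h1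
      obtain ⟨k, rfl⟩ := op
      rcases i with _ | _ | i
      · simp
      · simp
      · have := (Dvd.intro_left (2 ^ i) (by ring) : 4 ∣ 2 ^ (i + 1 + 1)).trans h2
        rw [show (2 * k + 1) ^ 2 + 1 = 4 * (k * k + k) + 2 by ring] at this
        omega
    obtain ⟨M, hM⟩ := H08.exists_index_two_of_cyclic_sylow
      (by rw [cG a b hab]; exact (op.pow.add_one).mul_right _) T (isCyclic_of_card_dvd_prime hT)
    have le : ∀ (c : Ω) (g : G), g • c = c → g ∈ M := fun c g hg => by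
      obtain ⟨d, hd⟩ := h.exists_ne c
      obtain ⟨k, hk⟩ : Odd (Nat.card (stabilizer G c)) := by
        rw [cs c d hd.symm, cH c d hd.symm]; exact ho.mul op.pow
      have := BG.pow_card_eq_one (A := stabilizer G c) hg
      rw [hk, pow_succ, pow_mul, mul_eq_one_iff_eq_inv] at this
      exact M.inv_mem_iff.1 (this ▸ pow_mem (M.sq_mem_of_index_two hM g) k)
    have : M = ⊤ := eq_top_iff.2 fun g _ => by
      by_cases e : g • a = a
      · exact le a g e
      obtain ⟨c, hc1, hc2⟩ := Set.nonempty_of_ncard_ne_zero (s := {c | c ≠ a ∧ c ≠ g • a}) (by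
        rw [third _ _ (Ne.symm e)]
        have : 4 ≤ p ^ 2 := by nlinarith
        omega)
      obtain ⟨k, k1, k2⟩ := h.tr1 hc1.symm hc2.symm
      simpa using mul_mem (le c k k1) (le a (k⁻¹ * g) (by rw [mul_smul, ← k2, inv_smul_smul]))
    rw [this, index_top] at hM
    omega

end fam

theorem main {a : Ω} {L : Subgroup G} (hL : Nm a L) (h0 : L ≠ ⊥) {y z : Ω} (hy : y ≠ a)
    (hz : z ≠ a) (hn : z ∉ orbit L y) : p = 2 ∧ Nat.card G = 20 := by
  obtain ⟨Q, -, h1, h2⟩ := h.exists_p hL h0 hy hz hn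
  obtain ⟨P, h3, h4, -, h5⟩ := h.exists_reg h1 h2
  obtain ⟨Q, hQ, rfl⟩ := h.exists_fam h1
  obtain ⟨P, hP, rfl⟩ := h.exists_fam h3
  refine h.final hQ hP (fun b => ?_) (fun b => ?_) fun b y z hy hz => ?_
  all_goals obtain ⟨g, rfl⟩ := h.tr a b
  · rw [hQ.cj, card_cj, h2]
  · rw [hP.cj]; exact isMulCommutative_cj.2 h4
  · obtain ⟨y, rfl⟩ := MulAction.surjective g y
    obtain ⟨z, rfl⟩ := MulAction.surjective g z
    rw [hP.cj, orbit_cj]
    exact h5 y z (fun e => hy (e ▸ rfl)) fun e => hz (e ▸ rfl)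

end H05.PSq.Hy
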