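import Mathlib
import Cfsg.Agent.H19.Wr
import Cfsg.Agent.H02.Fitting
import Cfsg.Prelude.Def_TwoFusion

/-!
Structure of a Sylow 2-subgroup `W` of `Sym(α)`: restrictions `rs D w` to invariant sets lie in `W`, invariant sets of
2-power size are orbits (`trans`), every moved point `x` has a unique mate `mt W x` with `swap x (mt W x) ∈ W`.
-/

set_option autoImplicit false
set_option linter.unusedSectionVars false
open Subgroup Cfsg Equiv Equiv.Perm

namespace H05.SylA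

variable {α : Type*} [Fintype α] [DecidableEq α] (W : Sylow 2 (Perm α))

/-- invariant sets -/
def Inv (D : Set α) : Prop := ∀ w ∈ W, ∀ x, w x ∈ D ↔ x ∈ D

open Classical in
/-- restriction of a permutation to an invariant set -/
noncomputable def rs (D : Set α) (w : Perm α) : Perm α :=
  if h : ∀ x, w x ∈ D ↔ x ∈ D then ofSubtype (w.subtypePerm h) else 1

/-- the orbit of a point -/
def O (x : α) : Set α := {y | ∃ w ∈ W, w x = y}

variable {W} {D : Set α} {w v : Perm α} {x y : α}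

theorem Inv.compl (h : Inv W D) : Inv W Dᶜ := fun w hw x => not_congr (h w hw x)

theorem Inv.union {E : Set α} (h : Inv W D) (k : Inv W E) : Inv W (D ∪ E) := fun w hw x => or_congr (h w hw x) (k w hw x)

theorem inv_O (x : α) : Inv W (O W x) := fun w hw y =>
  ⟨fun ⟨u, hu, e⟩ => ⟨w⁻¹ * u, mul_mem (inv_mem hw) hu, by simp [e]⟩, fun ⟨u, hu, e⟩ => ⟨w * u, mul_mem hw hu, by simp [e]⟩⟩

theorem self_O (x : α) : x ∈ O W x := ⟨1, one_mem _, rfl⟩

theorem O_eq (h : y ∈ O W x) : O W y = O W x := by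
  obtain ⟨w, hw, rfl⟩ := h
  ext z
  exact ⟨fun ⟨u, hu, e⟩ => ⟨u * w, mul_mem hu hw, e⟩, fun ⟨u, hu, e⟩ => ⟨u * w⁻¹, mul_mem hu (inv_mem hw), by simp [e]⟩⟩

theorem rs_out (hx : x ∉ D) : rs D w x = x := by
  unfold rs; split_ifs with h
  · classical exact ofSubtype_subtypePerm_of_not_mem _ hx
  · rfl

theorem rs_in (h : Inv W D) (hw : w ∈ W) (hx : x ∈ D) : rs D w x = w x := by
  unfold rs; rw [dif_pos (h w hw)]; classical exact ofSubtype_subtypePerm_of_mem _ hx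

theorem rs_mul (h : Inv W D) (hw : w ∈ W) (hv : v ∈ W) : rs D (w * v) = rs D w * rs D v := by
  ext x
  by_cases hx : x ∈ D
  · rw [rs_in h (mul_mem hw hv) hx, mul_apply, mul_apply, rs_in h hv hx, rs_in h hw ((h v hv x).2 hx)]
  · rw [mul_apply, rs_out hx, rs_out hx, rs_out hx]

theorem rs_compl (h : Inv W D) (hw : w ∈ W) : rs D w * rs Dᶜ w = w := by
  ext x
  by_cases hx : x ∈ D
  · rw [mul_apply, rs_out (D := Dᶜ) (not_not.2 hx), rs_in h hw hx]
  · rw [mul_apply, rs_in h.compl hw hx, rs_out (_root_.mt (h w hw x).1 hx)]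

theorem rs_one (h : Inv W D) (hw : w ∈ W) (H : ∀ x ∈ D, w x = x) : rs D w = 1 := by
  ext x
  by_cases hx : x ∈ D
  · rw [rs_in h hw hx, H x hx]; rfl
  · exact rs_out hx

theorem rs_self (h : Inv W D) (hw : w ∈ W) (H : ∀ x ∉ D, w x = x) : rs D w = w := by
  have := rs_compl h hw
  rwa [rs_one h.compl hw H, mul_one] at this

/-- restriction as a homomorphism -/
noncomputable def rh (h : Inv W D) : (W : Subgroup (Perm α)) →* Perm α :=
  MonoidHom.mk' (fun w => rs D w) fun w v => rs_mul h w.2 v.2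

theorem le_W {Q : Subgroup (Perm α)} (hQ : IsPGroup 2 Q) (h : ∀ w ∈ W, ∀ q ∈ Q, w * q * w⁻¹ ∈ Q) :
    Q ≤ (W : Subgroup (Perm α)) :=
  le_sup_left.trans (W.is_maximal' (hQ.to_sup_of_normal_left' W.isPGroup' fun w hw => mem_normalizer_fintype (h w hw))
    le_sup_right).le

theorem rs_mem (h : Inv W D) (hw : w ∈ W) : rs D w ∈ W := by
  refine le_W (W.isPGroup'.of_surjective _ (rh h).rangeRestrict_surjective) ?_ ⟨⟨w, hw⟩, rfl⟩
  rintro u hu _ ⟨v, rfl⟩
  refine ⟨⟨u * v * u⁻¹, mul_mem (mul_mem hu v.2) (inv_mem hu)⟩, ?_⟩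
  ext x
  change rs D (u * v * u⁻¹) x = u (rs D v (u⁻¹ x))
  by_cases hx : x ∈ D
  · rw [rs_in h (mul_mem (mul_mem hu v.2) (inv_mem hu)) hx, rs_in h v.2 ((h _ (inv_mem hu) x).2 hx)]; rfl
  · rw [rs_out hx, rs_out (_root_.mt (h _ (inv_mem hu) x).1 hx)]; simp

/-- an invariant set of 2-power size is an orbit -/
theorem trans (h : Inv W D) {j : ℕ} (hj : D.ncard = 2 ^ j) (hx : x ∈ D) (hy : y ∈ D) : y ∈ O W x := by
  classical
  let ρ : (W : Subgroup (Perm α)) →* Perm D := MonoidHom.mk' (fun w => (w : Perm α).subtypePerm (h w w.2)) fun _ _ => rfl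
  obtain ⟨Q, hQ⟩ := (W.isPGroup'.of_surjective _ ρ.rangeRestrict_surjective).exists_le_sylow
  obtain ⟨σ, hσ, e⟩ := H19.sylow_perm_transitive 2 ((Nat.card_coe_set_eq D).trans hj) Q ⟨x, hx⟩ ⟨y, hy⟩
  refine ⟨ofSubtype σ, le_W (Q.isPGroup'.map ofSubtype) ?_ ⟨σ, hσ, rfl⟩, by rw [ofSubtype_apply_of_mem σ hx, e]⟩
  rintro u hu _ ⟨τ, hτ, rfl⟩
  refine ⟨ρ ⟨u, hu⟩ * τ * (ρ ⟨u, hu⟩)⁻¹, mul_mem (mul_mem (hQ ⟨_, rfl⟩) hτ) (inv_mem (hQ ⟨_, rfl⟩)), ?_⟩
  ext z
  by_cases hz : z ∈ D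
  · rw [ofSubtype_apply_of_mem _ hz, mul_apply, mul_apply, mul_apply, mul_apply,
      ofSubtype_apply_of_mem _ ((h _ (inv_mem hu) z).2 hz)]; rfl
  · rw [ofSubtype_apply_of_not_mem _ hz, mul_apply, mul_apply, ofSubtype_apply_of_not_mem _ (_root_.mt (h _ (inv_mem hu) z).1 hz)]
    simp

theorem card_O (x : α) : ∃ j, (O W x).ncard = 2 ^ j := by
  obtain ⟨j, hj⟩ := W.isPGroup'.card_orbit x
  refine ⟨j, ?_⟩
  rw [← hj, Nat.card_coe_set_eq]; congr 1; ext y
  exact ⟨fun ⟨w, hw, e⟩ => ⟨⟨w, hw⟩, e⟩, fun ⟨w, e⟩ => ⟨w, w.2, e⟩⟩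

/-- a subgroup containing all orbit components of `w` contains `w` -/
theorem mem_of_rs (K : Subgroup (Perm α)) (hw : w ∈ W) (h : ∀ x, rs (O W x) w ∈ K) : w ∈ K := by
  induction hn : w.support.card using Nat.strong_induction_on generalizing w with | _ n ih => ?_
  by_cases w1 : w = 1
  · rw [w1]; exact one_mem _
  obtain ⟨x, hx⟩ : ∃ x, w x ≠ x := by by_contra! h; exact w1 (Equiv.ext h)
  have i1 := inv_O (W := W) x
  suffices rs (O W x)ᶜ w ∈ K from rs_compl i1 hw ▸ mul_mem (h x) this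
  refine ih _ (lt_of_lt_of_eq (Finset.card_lt_card ⟨fun y hy => ?_, fun hs => ?_⟩) hn) (rs_mem i1.compl hw) (fun y => ?_) rfl
  · rw [mem_support] at hy ⊢
    by_cases k : y ∈ O W x
    · exact absurd (rs_out (D := (O W x)ᶜ) (not_not.2 k)) hy
    · rwa [rs_in i1.compl hw k] at hy
  · exact mem_support.1 (hs (mem_support.2 hx)) (rs_out (D := (O W x)ᶜ) (not_not.2 (self_O x)))
  · by_cases k : y ∈ O W x
    · rw [O_eq k, rs_one i1 (rs_mem i1.compl hw) fun z hz => rs_out (D := (O W x)ᶜ) (not_not.2 hz)]; exact one_mem _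
    · convert h y using 1
      ext z
      by_cases hz : z ∈ O W y
      · rw [rs_in (inv_O y) (rs_mem i1.compl hw) hz, rs_in (inv_O y) hw hz, rs_in i1.compl hw fun e => k ?_]
        rw [← O_eq e, O_eq hz]; exact self_O y
      · rw [rs_out hz, rs_out hz]

/-- a nontrivial normal subgroup of a subgroup of `W` meets its centre -/
theorem cen {T N : Subgroup (Perm α)} (hT : T ≤ (W : Subgroup (Perm α))) (hN : N ≤ T) (hn : ∀ t ∈ T, ∀ q ∈ N, t * q * t⁻¹ ∈ N)
    (N1 : N ≠ ⊥) : ∃ c ∈ N, c ≠ 1 ∧ ∀ t ∈ T, t * c = c * t := by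
  have := (W.isPGroup'.to_le hT).isNilpotent
  have : (N.subgroupOf T).Normal := ⟨fun q hq t => hn t t.2 q hq⟩
  obtain ⟨c, ⟨h1, h2⟩, c1⟩ := (bot_or_exists_ne_one _).resolve_left (H02.inf_center_ne_bot_of_isNilpotent (N.subgroupOf T)
    fun e => N1 (by rw [← map_subgroupOf_eq_of_le hN, e, Subgroup.map_bot]))
  exact ⟨c, h1, fun e => c1 (Subtype.ext e), fun t ht => congrArg Subtype.val (mem_center_iff.1 h2 ⟨t, ht⟩)⟩

theorem swap_uniq {y' : α} (h : y ≠ x) (h' : y' ≠ x) (k : swap x y ∈ W) (k' : swap x y' ∈ W) : y = y' := by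
  by_contra e
  have h3 := (isThreeCycle_swap_mul_swap_same h.symm h'.symm e).orderOf
  obtain ⟨j, hj⟩ := (IsPGroup.iff_orderOf.1 W.isPGroup') ⟨_, mul_mem k k'⟩
  rw [← orderOf_coe, h3] at hj
  rcases j with _ | j
  · simp at hj
  · rw [pow_succ] at hj; omega

/-- the subgroup of elements of `T` supported in `D` -/
def sp (T : Subgroup (Perm α)) (D : Set α) : Subgroup (Perm α) where
  carrier := {w | w ∈ T ∧ ∀ x ∉ D, w x = x}
  one_mem' := ⟨one_mem _, fun _ _ => rfl⟩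
  mul_mem' := fun ⟨a, b⟩ ⟨c, d⟩ => ⟨mul_mem a c, fun x hx => by rw [mul_apply, d x hx, b x hx]⟩
  inv_mem' := fun ⟨a, b⟩ => ⟨inv_mem a, fun x hx => by rw [inv_eq_iff_eq, b x hx]⟩

theorem conj_out (h : Inv W D) (hw : w ∈ W) (hv : ∀ x ∉ D, v x = x) : ∀ x ∉ D, (w * v * w⁻¹) x = x := fun x hx => by
  rw [mul_apply, mul_apply, hv _ (_root_.mt (h _ (inv_mem hw) x).1 hx)]; simp

theorem exists_mate (hw : w ∈ W) (hx : w x ≠ x) : ∃ y, y ≠ x ∧ swap x y ∈ W := by
  obtain ⟨c, hc, c1, cc⟩ := cen (W := W) (N := sp W (O W x)) le_rfl (fun _ h => h.1)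
    (fun t ht q hq => ⟨mul_mem (mul_mem ht hq.1) (inv_mem ht), conj_out (inv_O x) ht hq.2⟩)
    (ne_bot_iff_exists_ne_one.2 ⟨⟨rs (O W x) w, rs_mem (inv_O x) hw, fun _ => rs_out⟩, fun e => hx (by
      exact (rs_in (inv_O x) hw (self_O x)).symm.trans (DFunLike.congr_fun (congrArg Subtype.val e) x))⟩)
  obtain ⟨j, hj⟩ := (IsPGroup.iff_orderOf.1 W.isPGroup') ⟨c, hc.1⟩
  rw [← orderOf_coe] at hj
  rcases j with _ | j
  · exact absurd (orderOf_eq_one_iff.1 hj) c1
  set d := c ^ 2 ^ j with hd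
  have d2 : ∀ y, d (d y) = y := fun y => by
    rw [← mul_apply, hd, ← pow_add, ← mul_two, ← pow_succ, ← hj, pow_orderOf_eq_one]; rfl
  have dc : ∀ t ∈ W, ∀ y, t (d y) = d (t y) := fun t ht y =>
    DFunLike.congr_fun (Commute.pow_right (cc t ht) (2 ^ j)).eq y
  have dx : d x ≠ x := fun e => pow_ne_one_of_lt_orderOf (x := c) (n := 2 ^ j) (by positivity)
    (by rw [hj]; exact Nat.pow_lt_pow_right one_lt_two j.lt_succ_self) (Equiv.ext fun y => by
      by_cases hy : y ∈ O W x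
      · obtain ⟨u, hu, rfl⟩ := hy; rw [← hd, ← dc u hu, e]; rfl
      · exact (pow_mem hc (2 ^ j)).2 y hy)
  have sq : ∀ g : Perm α, (∀ y, g y = y ∨ g y = d y) → ∀ y, g (g y) = y := fun g hg y => by
    rcases hg y with e | e
    · rw [e, e]
    · rcases hg (d y) with f | f
      · rw [g.injective (f.trans e.symm)] at e; rw [e, e]
      · rw [e, f, d2]
  let E : Subgroup (Perm α) :=
    { carrier := {g | ∀ y, g y = y ∨ g y = d y}
      one_mem' := fun _ => Or.inl rfl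
      mul_mem' := fun {g h} hg hh y => by
        rw [mul_apply]; rcases hh y with e | e <;> rw [e]
        · exact hg y
        · simpa [d2, or_comm] using hg (d y)
      inv_mem' := fun {g} hg y => by rw [show g⁻¹ y = g y by rw [inv_eq_iff_eq, sq g hg]]; exact hg y }
  refine ⟨d x, dx, le_W (Q := E) (fun g => ⟨1, Subtype.ext (Equiv.ext (sq g g.2))⟩) (fun u hu g hg y => ?_) fun y => ?_⟩
  · rw [mul_apply, mul_apply]
    rcases hg (u⁻¹ y) with e | e <;> rw [e]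
    · left; simp
    · right; rw [dc u hu]; simp
  · rw [swap_apply_def]; split_ifs with h1 h2
    · right; rw [h1]
    · right; rw [h2, d2]
    · left; rfl

/-- moved points -/
def Mv (W : Sylow 2 (Perm α)) (x : α) : Prop := ∃ w ∈ W, w x ≠ x

open Classical in
/-- the mate of a point -/
noncomputable def mt (W : Sylow 2 (Perm α)) (x : α) : α := if h : ∃ y, y ≠ x ∧ swap x y ∈ W then h.choose else x

/-- the transposition at a point -/
noncomputable def tp (W : Sylow 2 (Perm α)) (x : α) : Perm α := swap x (mt W x)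

theorem mt_spec (h : Mv W x) : mt W x ≠ x ∧ tp W x ∈ W := by
  obtain ⟨w, hw, hx⟩ := h
  have := exists_mate hw hx
  unfold tp mt; rw [dif_pos this]; exact this.choose_spec

theorem Mv.map (h : Mv W x) (hw : w ∈ W) : Mv W (w x) := by
  obtain ⟨u, hu, hx⟩ := h
  exact ⟨w * u * w⁻¹, mul_mem (mul_mem hw hu) (inv_mem hw), by simpa using hx⟩

theorem tp_x (x : α) : tp W x x = mt W x := swap_apply_left _ _

theorem mt_O (h : Mv W x) : mt W x ∈ O W x := ⟨_, (mt_spec h).2, tp_x x⟩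

theorem mt_map (h : Mv W x) (hw : w ∈ W) : mt W (w x) = w (mt W x) :=
  swap_uniq (mt_spec (h.map hw)).1 (w.injective.ne (mt_spec h).1) (mt_spec (h.map hw)).2
    (by rw [swap_apply_apply]; exact mul_mem (mul_mem hw (mt_spec h).2) (inv_mem hw))

theorem tp_map (h : Mv W x) (hw : w ∈ W) : tp W (w x) = w * tp W x * w⁻¹ := by
  rw [tp, mt_map h hw, swap_apply_apply]; rfl

theorem mt_mt (h : Mv W x) : mt W (mt W x) = x := by
  have := mt_map h (mt_spec h).2
  rw [tp_x] at this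
  exact this.trans (swap_apply_right _ _)

theorem tp_ne (h1 : y ≠ x) (h2 : y ≠ mt W x) : tp W x y = y := swap_apply_of_ne_of_ne h1 h2

theorem sign_tp (h : Mv W x) : sign (tp W x) = -1 := sign_swap (mt_spec h).1.symm

theorem Mv.O (h : Mv W x) (hy : y ∈ O W x) : Mv W y := by obtain ⟨w, hw, rfl⟩ := hy; exact h.map hw

theorem tp_out (h : Mv W x) (hy : y ∉ O W x) : tp W x y = y :=
  tp_ne (fun e => hy (by rw [e]; exact self_O x)) fun e => hy (by rw [e]; exact mt_O h)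

end H05.SylA
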