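import Mathlib
import Cfsg.Agent.H05.SylA

/-!
Direct decompositions of `T = W ∩ Alt(α)`, `W` a Sylow 2-subgroup of `Sym(α)`: `no_dec1`, `no_dec2`, `dec`, and the
orbit count `counts`.
-/

set_option autoImplicit false
set_option linter.unusedSectionVars false
open Subgroup Cfsg Equiv Equiv.Perm

namespace H05.SylA

variable {α : Type*} [Fintype α] [DecidableEq α] {W : Sylow 2 (Perm α)} {D : Set α} {w v c : Perm α} {x y u : α}
  {A B : Subgroup (Perm α)}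

/-- the even part -/
def ev (W : Sylow 2 (Perm α)) : Subgroup (Perm α) := W ⊓ alternatingGroup α

/-- points in orbits of length `> 2` -/
def Big (W : Sylow 2 (Perm α)) (x : α) : Prop := ∃ y ∈ O W x, y ≠ x ∧ y ≠ mt W x

theorem mem_ev : w ∈ ev W ↔ w ∈ W ∧ sign w = 1 := Iff.rfl

theorem Big.mv (h : Big W x) : Mv W x := by obtain ⟨_, ⟨w, hw, rfl⟩, h, -⟩ := h; exact ⟨w, hw, h⟩

theorem Big.O (h : Big W x) (hy : y ∈ O W x) : Big W y := by
  have hm := h.mv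
  obtain ⟨z, hz, h1, h2⟩ := h
  rw [Big, O_eq hy]
  obtain ⟨w, hw, rfl⟩ := hy
  exact ⟨w z, (inv_O x w hw z).2 hz, w.injective.ne h1, by rw [mt_map hm hw]; exact w.injective.ne h2⟩

theorem ne_mt (h : Mv W x) (k : x ≠ mt W y) (e : y = mt W x) : False := k (by rw [e, mt_mt h])

theorem Big.tr (h : Big W x) {y' : α} (hy : y ∈ SylA.O W x) (hy' : y' ∈ SylA.O W x) :
    ∃ g ∈ sp (ev W) (SylA.O W x), g y = y' := by
  obtain ⟨w, hw, rfl⟩ : y' ∈ SylA.O W y := by rwa [O_eq hy]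
  have h1 := rs_mem (inv_O x) hw
  rcases Int.units_eq_one_or (sign (rs (SylA.O W x) w)) with e | e
  · exact ⟨_, ⟨⟨h1, e⟩, fun _ => rs_out⟩, rs_in (inv_O x) hw hy⟩
  obtain ⟨u, hu, u1, u2⟩ := h.O hy
  have mu := (h.O hy).mv.O hu
  refine ⟨rs (SylA.O W x) w * tp W u, ⟨mem_ev.2 ⟨mul_mem h1 (mt_spec mu).2, by rw [map_mul, e, sign_tp mu]; rfl⟩,
    fun z hz => ?_⟩, by rw [mul_apply, tp_ne u1.symm (ne_mt mu u2), rs_in (inv_O x) hw hy]⟩
  rw [mul_apply, tp_out mu (by rwa [O_eq hu, O_eq hy]), rs_out hz]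

theorem Big.full (h : Big W x) (hc : ∀ g ∈ sp (ev W) (SylA.O W x), g * c = c * g)
    (H : ∀ y ∈ SylA.O W x, c y = y ∨ c y = mt W y) : (∀ y ∈ SylA.O W x, c y = y) ∨ ∀ y ∈ SylA.O W x, c y = mt W y := by
  by_contra! k
  obtain ⟨⟨y, hy, y1⟩, z, hz, z1⟩ := k
  obtain ⟨g, hg, rfl⟩ := h.tr hz hy
  exact y1 (by rw [← mul_apply, ← hc g hg, mul_apply, (H z hz).resolve_right z1])

theorem blk (hw : w ∈ W) (h : Mv W u) (hc : tp W u * w = w * tp W u) : w u = u ∨ w u = mt W u := by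
  by_contra! k
  have := tp_x (W := W) (w u)
  rw [tp_map h hw, ← hc, mul_inv_cancel_right, tp_ne k.1 k.2] at this
  exact (mt_spec (h.map hw)).1 this.symm

theorem Big.eq_mt (h : Big W x) (c1 : c ≠ 1) (ho : ∀ y ∉ SylA.O W x, c y = y)
    (hc : ∀ g ∈ sp (ev W) (SylA.O W x), g * c = c * g) (H : ∀ y ∈ SylA.O W x, c y = y ∨ c y = mt W y) :
    ∀ y ∈ SylA.O W x, c y = mt W y :=
  (h.full hc H).resolve_left fun k => c1 (Equiv.ext fun y => by
    by_cases hy : y ∈ SylA.O W x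
    · exact k y hy
    · exact ho y hy)

theorem ext_on (h1 : ∀ y ∈ D, w y = v y) (h2 : ∀ y ∉ D, w y = y) (h3 : ∀ y ∉ D, v y = y) : w = v :=
  Equiv.ext fun y => by
    by_cases hy : y ∈ D
    · exact h1 y hy
    · rw [h2 y hy, h3 y hy]

theorem ev_conj (hw : w ∈ W) (hv : v ∈ ev W) : w * v * w⁻¹ ∈ ev W :=
  mem_inf.2 ⟨mul_mem (mul_mem hw (mem_ev.1 hv).1) (inv_mem hw), (alternatingGroup.normal).conj_mem v hv.2 w⟩

theorem Big.even (h : Big W x) (hw : w ∈ W) (hc : ∀ g ∈ sp (ev W) (SylA.O W x), g * w = w * g) :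
    sign (rs (SylA.O W x) w) = 1 := by
  have i1 := inv_O (W := W) x
  have h1 := rs_mem i1 hw
  have h2 : ∀ g ∈ sp (ev W) (SylA.O W x), g * rs (SylA.O W x) w = rs (SylA.O W x) w * g := fun g hg => by
    rw [← rs_self i1 hg.1.1 hg.2, ← rs_mul i1 hg.1.1 hw, ← rs_mul i1 hw hg.1.1, hc g hg]
  refine (Int.units_eq_one_or _).resolve_right fun e => ?_
  obtain ⟨y, hy, y1, -⟩ := id h
  obtain ⟨g, hg, hgx⟩ := h.tr (self_O x) hy
  obtain ⟨c, hc, c1, cc⟩ := cen (W := W) (N := sp (ev W) (SylA.O W x)) le_rfl (fun _ h => h.1.1)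
    (fun t ht q hq => ⟨ev_conj ht hq.1, conj_out i1 ht hq.2⟩)
    (ne_bot_iff_exists_ne_one.2 ⟨⟨g, hg⟩, fun e => y1 (hgx.symm.trans (DFunLike.congr_fun (congrArg Subtype.val e) x))⟩)
  have h3 := h.eq_mt c1 hc.2 (fun g hg => cc g hg.1.1) fun u hu => blk hc.1.1 (h.mv.O hu) (cc _ (mt_spec (h.mv.O hu)).2)
  have h4 := h.eq_mt (c := rs (SylA.O W x) w) (fun k => by rw [k] at e; simp at e) (fun _ => rs_out) h2 fun u hu => by
    have mu := h.mv.O hu
    refine blk h1 mu (mul_left_cancel (a := rs (SylA.O W x) w) ?_)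
    rw [← mul_assoc, h2 _ ⟨mem_ev.2 ⟨mul_mem h1 (mt_spec mu).2, by rw [map_mul, e, sign_tp mu]; rfl⟩, fun z hz => ?_⟩]
    rw [mul_apply, tp_out mu (by rwa [O_eq hu]), rs_out hz]
  rw [ext_on (fun y hy => (h4 y hy).trans (h3 y hy).symm) (fun _ => rs_out) hc.2, (mem_ev.1 hc.1).2] at e
  simp at e

/-- at least five moved points -/
def Five (W : Sylow 2 (Perm α)) : Prop := ∀ a b, ∃ y, Mv W y ∧ y ≠ a ∧ y ≠ mt W a ∧ y ≠ b ∧ y ≠ mt W b

theorem tt (hx : Mv W x) (hy : Mv W y) : tp W x * tp W y ∈ ev W :=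
  mem_ev.2 ⟨mul_mem (mt_spec hx).2 (mt_spec hy).2, by rw [map_mul, sign_tp hx, sign_tp hy]; rfl⟩

theorem Five.cent (h5 : Five W) (hc : c ∈ W) (cc : ∀ t ∈ ev W, t * c = c * t) (hx : Mv W x) : c x = x ∨ c x = mt W x := by
  by_contra! k
  obtain ⟨y, hy, h1, h2, h3, h4⟩ := h5 x (c⁻¹ x)
  have e : tp W (c x) * tp W (c y) = tp W x * tp W y := by
    rw [tp_map hx hc, tp_map hy hc, eq_mul_inv_of_mul_eq (cc _ (tt hx hy))]; group
  have := DFunLike.congr_fun e x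
  rw [mul_apply, mul_apply, tp_ne h1.symm (ne_mt hy h2), tp_x, tp_ne (x := c y) (fun e => h3 (by rw [e]; simp)) (fun e =>
    ne_mt hy h4 (by rw [mt_map hy hc] at e; rw [e]; simp)), tp_ne k.1.symm (ne_mt (hx.map hc) k.2)] at this
  exact (mt_spec hx).1 this.symm

theorem dsymm {T : Subgroup (Perm α)} (h : IsInternalDirectProduct A B T) : IsInternalDirectProduct B A T :=
  ⟨h.2.1, h.1, fun b hb a ha => (h.2.2.1 a ha b hb).symm, inf_comm A B ▸ h.2.2.2.1, sup_comm A B ▸ h.2.2.2.2⟩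

theorem dmul {T : Subgroup (Perm α)} (h : IsInternalDirectProduct A B T) (hw : w ∈ T) : ∃ a ∈ A, ∃ b ∈ B, a * b = w := by
  rwa [← h.2.2.2.2, ← SetLike.mem_coe, coe_mul_of_right_le_normalizer_left _ _ fun b hb =>
    centralizer_le_normalizer _ fun a ha => h.2.2.1 a ha b hb] at hw

theorem dconj {T : Subgroup (Perm α)} (h : IsInternalDirectProduct A B T) : ∀ t ∈ T, ∀ q ∈ A, t * q * t⁻¹ ∈ A := fun t ht q hq => by
  obtain ⟨a, ha, b, hb, rfl⟩ := dmul h ht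
  rw [mul_assoc a, ← h.2.2.1 q hq b hb, show a * (q * b) * (a * b)⁻¹ = a * q * a⁻¹ by group]
  exact mul_mem (mul_mem ha hq) (inv_mem ha)

theorem zmem (h5 : Five W) (h : IsInternalDirectProduct A B (ev W)) (hx : Big W x) (h1 : sp A (O W x) ≠ ⊥) :
    ∃ c ∈ sp A (O W x), c ≠ 1 ∧ ∀ y ∈ O W x, c y = mt W y := by
  obtain ⟨c, hc, c1, cc⟩ := cen (W := W) (T := ev W) (N := sp A (O W x)) inf_le_left (fun _ k => h.1 k.1)
    (fun t ht q hq => ⟨dconj h t ht q hq.1, conj_out (inv_O x) ht.1 hq.2⟩) h1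
  exact ⟨c, hc, c1, hx.eq_mt c1 hc.2 (fun g hg => cc g hg.1) fun y hy => h5.cent (h.1 hc.1).1 cc (hx.mv.O hy)⟩

theorem k1 (h5 : Five W) (h : IsInternalDirectProduct A B (ev W)) (hx : Big W x) :
    sp A (O W x) = ⊥ ∨ sp B (O W x) = ⊥ := by
  by_contra! k
  obtain ⟨c, hc, c1, cc⟩ := zmem h5 h hx k.1
  obtain ⟨d, hd, -, dd⟩ := zmem h5 (dsymm h) hx k.2
  exact c1 (mem_bot.1 (h.2.2.2.1 ▸ (⟨hc.1, ext_on (fun y hy => (cc y hy).trans (dd y hy).symm) hc.2 hd.2 ▸ hd.1⟩ : c ∈ A ⊓ B)))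

theorem k2 (h : IsInternalDirectProduct A B (ev W)) (h1 : sp A (O W x) = ⊥) (hw : w ∈ A) :
    ∀ g ∈ sp (ev W) (O W x), g * w = w * g := fun g hg => by
  have : g * (w * g⁻¹ * w⁻¹) ∈ sp A (O W x) :=
    ⟨by simpa only [mul_assoc] using mul_mem (dconj h g hg.1 w hw) (inv_mem hw), fun y hy => by
      rw [mul_apply, conj_out (inv_O x) (h.1 hw).1 (inv_mem hg).2 y hy, hg.2 y hy]⟩
  rw [h1, mem_bot] at this
  rw [← mul_inv_eq_one, ← this]; group

theorem small (hu : ¬ Big W u) (hy : y ∈ O W u) : y = u ∨ y = mt W u := by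
  by_contra! k; exact hu ⟨y, hy, k⟩

theorem small_rs (m : Mv W u) (hu : ¬ Big W u) (hw : w ∈ W) (ho : ∀ y ∉ O W u, w y = y) : w = 1 ∨ w = tp W u := by
  rcases small hu ((inv_O u w hw u).2 (self_O u)) with e | e
  · refine Or.inl (ext_on (fun y hy => ?_) ho fun _ _ => rfl)
    rcases small hu hy with rfl | rfl
    · exact e
    · rw [← mt_map m hw, e]; rfl
  · refine Or.inr (ext_on (fun y hy => ?_) ho fun _ => tp_out m)
    rcases small hu hy with rfl | rfl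
    · rw [e, tp_x]
    · rw [← mt_map m hw, e, mt_mt m]; exact (swap_apply_right _ _).symm

theorem fix_of (h : ¬ Mv W x) (hw : w ∈ W) : w x = x := by by_contra k; exact h ⟨w, hw, k⟩

theorem no_dec1 (h5 : Five W) (h : IsInternalDirectProduct A B (ev W)) (m : Mv W u) (hu : ¬ Big W u) (hx : Big W x)
    (H : ∀ y, Mv W y → y ∈ O W x ∨ y ∈ O W u) : A = ⊥ ∨ B = ⊥ := by
  have key : ∀ {A B : Subgroup (Perm α)}, IsInternalDirectProduct A B (ev W) → sp A (O W x) = ⊥ → A = ⊥ := fun {A B} h k => by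
    refine (eq_bot_iff_forall _).2 fun a ha => ?_
    have aW := (h.1 ha).1
    have i1 := inv_O (W := W) x
    have e1 := hx.even aW (k2 h k ha)
    have e2 := congrArg sign (rs_compl i1 aW)
    rw [map_mul, e1, (mem_ev.1 (h.1 ha)).2, one_mul] at e2
    rcases small_rs m hu (rs_mem i1.compl aW) (fun y hy => by
      by_cases k : Mv W y
      · exact rs_out (D := (O W x)ᶜ) (not_not.2 ((H y k).resolve_right hy))
      · exact fix_of k (rs_mem i1.compl aW)) with e | e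
    · exact mem_bot.1 (k ▸ (⟨ha, fun y hy => by rw [← rs_in i1.compl aW hy, e]; rfl⟩ : a ∈ sp A (O W x)))
    · rw [e, sign_tp m] at e2; simp at e2
  exact (k1 h5 h hx).imp (key h) (key (dsymm h))

theorem rs_fix (h : ¬ Mv W x) (hw : w ∈ W) : rs (O W x) w = 1 :=
  rs_one (inv_O x) hw fun y ⟨u, hu, e⟩ => by rw [← e, fix_of h hu, fix_of h hw]

theorem allB (h5 : Five W) (h : IsInternalDirectProduct A B (ev W)) (hb : ∀ x, Mv W x → Big W x)
    (H : ∀ x, sp B (O W x) = ⊥) : B = ⊥ := by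
  by_contra B1
  obtain ⟨c, hc, c1, cc⟩ := cen (W := W) (T := ev W) inf_le_left h.2.1 (dconj (dsymm h)) B1
  have cW := (h.2.1 hc).1
  refine c1 (mem_bot.1 (h.2.2.2.1 ▸ (⟨mem_of_rs A cW fun x => ?_, hc⟩ : c ∈ A ⊓ B)))
  by_cases m : Mv W x
  swap
  · rw [rs_fix m cW]; exact one_mem _
  have hx := hb x m
  rcases hx.full (fun g hg => cc g hg.1) fun y hy => h5.cent cW cc (m.O hy) with e | e
  · rw [rs_one (inv_O x) cW e]; exact one_mem _
  obtain ⟨d, hd, -, dd⟩ := zmem h5 h hx fun k => by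
    obtain ⟨y, hy, y1, y2⟩ := id hx
    obtain ⟨g, hg, rfl⟩ := hx.tr (self_O x) hy
    refine (h5.cent hg.1.1 (fun t ht => ?_) m).elim y1 y2
    obtain ⟨a, ha, b, hb, rfl⟩ := dmul h ht
    rw [mul_assoc, ← k2 (dsymm h) (H x) hb g hg, ← mul_assoc, ← k2 h k ha g hg, mul_assoc]
  rw [ext_on (D := O W x) (fun y hy => (rs_in (inv_O x) cW hy).trans ((e y hy).trans (dd y hy).symm)) (fun _ => rs_out) hd.2]
  exact hd.1

theorem no_dec2 (h5 : Five W) (h : IsInternalDirectProduct A B (ev W)) (hb : ∀ x, Mv W x → Big W x) : A = ⊥ ∨ B = ⊥ := by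
  by_contra! k
  obtain ⟨x, hx⟩ := not_forall.1 (_root_.mt (allB h5 h hb) k.2)
  obtain ⟨y, hy⟩ := not_forall.1 (_root_.mt (allB h5 (dsymm h) hb) k.1)
  have mv : ∀ {A : Subgroup (Perm α)} {x}, A ≤ ev W → sp A (O W x) ≠ ⊥ → Mv W x := fun {A x} hA h1 => by
    by_contra m
    exact h1 ((eq_bot_iff_forall _).2 fun g hg => by rw [← rs_self (inv_O x) (hA hg.1).1 hg.2, rs_fix m (hA hg.1).1])
  have mx := mv h.2.1 hx
  have my := mv h.1 hy
  obtain ⟨a, ha, b, hb', e⟩ := dmul h (tt mx my)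
  have aW := (h.1 ha).1
  have bW := (h.2.1 hb').1
  have : b * tp W x ∈ alternatingGroup α := mem_of_rs _ (mul_mem bW (mt_spec mx).2) fun z => by
    by_cases m : Mv W z
    swap
    · rw [rs_fix m (mul_mem bW (mt_spec mx).2)]; exact one_mem _
    have i1 := inv_O (W := W) z
    have t1 : ∀ {x}, Mv W x → O W x ≠ O W z → rs (O W z) (tp W x) = 1 := fun {x} mx hx =>
      rs_one i1 (mt_spec mx).2 fun t ht => tp_out mx fun k => hx (by rw [← O_eq k, O_eq ht])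
    rw [mem_alternatingGroup, rs_mul i1 bW (mt_spec mx).2, map_mul]
    rcases k1 h5 h (hb z m) with f | f
    · have := congrArg (fun g => sign (rs (O W z) g)) e
      simp only [rs_mul i1 aW bW, rs_mul i1 (mt_spec mx).2 (mt_spec my).2, t1 my fun k => hy (k ▸ f), map_mul,
        (hb z m).even aW (k2 h f ha), one_mul, mul_one, map_one] at this
      rw [this, Int.units_mul_self]
    · rw [t1 mx fun k => hx (k ▸ f), (hb z m).even bW (k2 (dsymm h) f hb')]; simp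
  rw [mem_alternatingGroup, map_mul, (mem_ev.1 (h.2.1 hb')).2, sign_tp mx] at this
  simp at this

theorem fixpar (m : Mv W u) (hw : w ∈ W) : ∃ s ∈ W, (∀ y ∉ O W u, s y = y) ∧ w * s ∈ ev W := by
  rcases Int.units_eq_one_or (sign w) with e | e
  · exact ⟨1, one_mem _, fun _ _ => rfl, by rw [mul_one]; exact mem_ev.2 ⟨hw, e⟩⟩
  · exact ⟨tp W u, (mt_spec m).2, fun _ => tp_out m, mem_ev.2 ⟨mul_mem hw (mt_spec m).2, by rw [map_mul, e, sign_tp m]; rfl⟩⟩

theorem disj (h : x ∉ O W u) (hy : y ∈ O W x) : y ∉ O W u := fun k => h (by rw [← O_eq k, O_eq hy]; exact self_O x)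

theorem sp_ne (m : Mv W u) (mx : Mv W x) (hx : x ∉ O W u) (h1 : O W x ⊆ D) (h2 : O W u ⊆ D) : sp (ev W) D ≠ ⊥ := fun e => by
  have : tp W x * tp W u ∈ sp (ev W) D := ⟨tt mx m, fun y hy => by
    rw [mul_apply, tp_out m fun k => hy (h2 k), tp_out mx fun k => hy (h1 k)]⟩
  rw [e, mem_bot] at this
  have := DFunLike.congr_fun this x
  rw [mul_apply, tp_out m hx, tp_x] at this
  exact (mt_spec mx).1 this

theorem dec (m : Mv W u) (hu : ¬ Big W u) (mx : Mv W x) (hx : x ∉ O W u) (my : Mv W y) (h1 : y ∉ O W u) (h2 : y ∉ O W x) :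
    ∃ A B, A ≠ ⊥ ∧ B ≠ ⊥ ∧ IsInternalDirectProduct A B (ev W) := by
  have i1 := inv_O (W := W) x
  have i2 := inv_O (W := W) u
  refine ⟨sp (ev W) (O W x ∪ O W u), sp (ev W) (O W x)ᶜ, sp_ne m mx hx Set.subset_union_left Set.subset_union_right,
    sp_ne m my h1 (fun z hz => disj h2 hz) fun z hz k => disj hx k hz, fun _ h => h.1, fun _ h => h.1,
    fun a ha b hb => Equiv.ext fun z => ?_, (eq_bot_iff_forall _).2 fun g ⟨ha, hb⟩ => ?_,
    le_antisymm (sup_le (fun _ h => h.1) fun _ h => h.1) fun w hw => ?_⟩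
  · rw [mul_apply, mul_apply]
    by_cases k : z ∈ O W x
    · rw [hb.2 z (not_not.2 k), hb.2 _ (not_not.2 ((i1 a ha.1.1 z).2 k))]
    by_cases l : z ∈ O W u
    · rw [← rs_in i2 hb.1.1 l, ← rs_in i2 ha.1.1 l, ← rs_in i2 ha.1.1 ((i2 _ (rs_mem i2 hb.1.1) z).2 l),
        ← rs_in i2 hb.1.1 ((i2 _ (rs_mem i2 ha.1.1) z).2 l)]
      rcases small_rs m hu (rs_mem i2 ha.1.1) fun _ => rs_out with e | e <;>
        rcases small_rs m hu (rs_mem i2 hb.1.1) fun _ => rs_out with f | f <;> rw [e, f] <;> rfl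
    · have : z ∉ O W x ∪ O W u := fun h => h.elim k l
      rw [ha.2 z this, ha.2 _ (_root_.mt ((i1.union i2) b hb.1.1 z).1 this)]
  · refine (small_rs m hu ha.1.1 fun z hz => ?_).resolve_right fun e => ?_
    · by_cases k : z ∈ O W x
      · exact hb.2 z (not_not.2 k)
      · exact ha.2 z fun h => h.elim k hz
    · have := (mem_ev.1 ha.1).2
      rw [e, sign_tp m] at this; simp at this
  · obtain ⟨s, hs, so, he⟩ := fixpar m (rs_mem i1 hw.1)
    rw [← mul_inv_cancel_left (rs (O W x) w * s) w]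
    refine mul_mem (mem_sup_left ⟨he, fun z hz => ?_⟩) (mem_sup_right ⟨mul_mem (inv_mem he) hw, fun z hz => ?_⟩)
    · rw [mul_apply, so z fun k => hz (Or.inr k), rs_out fun k => hz (Or.inl k)]
    · rw [mul_apply, inv_eq_iff_eq, mul_apply, so z (disj hx (not_not.1 hz)), rs_in i1 hw.1 (not_not.1 hz)]

theorem four_dvd (h : Inv W D) (H : ∀ x ∈ D, 4 ∣ (O W x).ncard) : 4 ∣ D.ncard := by
  induction hn : D.ncard using Nat.strong_induction_on generalizing D with | _ n ih => ?_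
  rcases D.eq_empty_or_nonempty with rfl | ⟨x, hx⟩
  · rw [← hn]; simp
  have hs : O W x ⊆ D := by rintro _ ⟨w, hw, rfl⟩; exact (h w hw x).2 hx
  have e := Set.ncard_sdiff_add_ncard_of_subset hs
  have : 0 < (O W x).ncard := (Set.ncard_pos (Set.toFinite _)).2 ⟨x, self_O x⟩
  rw [← hn, ← e]
  exact dvd_add (ih _ (by omega) (fun w hw y => and_congr (h w hw y) (not_congr (inv_O x w hw y))) (fun y hy => H y hy.1) rfl)
    (H x hx)

theorem inv_big : Inv W {x | Big W x} := fun w hw x =>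
  ⟨fun h => Big.O h ⟨w⁻¹, inv_mem hw, by simp⟩, fun h => Big.O h ⟨w, hw, rfl⟩⟩

theorem O_small (m : Mv W u) (hu : ¬ Big W u) : O W u = {u, mt W u} :=
  Set.ext fun y => ⟨small hu, by rintro (rfl | rfl); exacts [self_O _, mt_O m]⟩

theorem counts : {x | ¬ Mv W x}.ncard ≤ 1 ∧ 4 ∣ {x | Big W x}.ncard ∧
    ({x | Mv W x ∧ ¬ Big W x} = ∅ ∨ ∃ u, Mv W u ∧ ¬ Big W u ∧ {x | Mv W x ∧ ¬ Big W x} = O W u ∧ (O W u).ncard = 2) ∧
    {x | Mv W x}.ncard = {x | Big W x}.ncard + {x | Mv W x ∧ ¬ Big W x}.ncard ∧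
    {x | Mv W x}.ncard + {x | ¬ Mv W x}.ncard = Fintype.card α := by
  refine ⟨(Set.ncard_le_one (Set.toFinite _)).2 fun x hx y hy => by_contra fun e => ?_, four_dvd inv_big fun x hx => ?_, ?_, ?_,
    (Set.ncard_add_ncard_compl {x | Mv W x}).trans Nat.card_eq_fintype_card⟩
  · obtain ⟨w, hw, k⟩ := trans (W := W) (D := {x, y}) (j := 1) (fun w hw z => by
      simp only [Set.mem_insert_iff, Set.mem_singleton_iff]
      conv_lhs => rw [← fix_of hx hw, ← fix_of hy hw, w.injective.eq_iff, w.injective.eq_iff]) (Set.ncard_pair e)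
      (Set.mem_insert _ _) (Set.mem_insert_of_mem _ rfl)
    exact e ((fix_of hx hw).symm.trans k)
  · obtain ⟨j, hj⟩ := card_O (W := W) x
    obtain ⟨y, hy, y1, y2⟩ := id hx
    have : 2 < (O W x).ncard := (Set.two_lt_ncard (Set.toFinite _)).2
      ⟨x, self_O x, mt W x, mt_O hx.mv, y, hy, (mt_spec hx.mv).1.symm, y1.symm, y2.symm⟩
    rw [hj] at this ⊢
    exact pow_dvd_pow 2 (show 2 ≤ j from (Nat.pow_lt_pow_iff_right (a := 2) (n := 1) one_lt_two).1 this)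
  · refine (Set.eq_empty_or_nonempty _).imp_right fun ⟨u, m, hu⟩ => ?_
    have c2 : ∀ {u}, Mv W u → ¬ Big W u → (O W u).ncard = 2 := fun m hu => by
      rw [O_small m hu, Set.ncard_pair (mt_spec m).1.symm]
    refine ⟨u, m, hu, Set.ext fun v => ⟨fun ⟨mv, hv⟩ => by_contra fun k => k ?_, fun hv =>
      ⟨m.O hv, fun k => hu (k.O (by rw [O_eq hv]; exact self_O u))⟩⟩, c2 m hu⟩
    exact trans ((inv_O u).union (inv_O v)) (j := 2) (by
      rw [Set.ncard_union_eq (Set.disjoint_right.2 fun z hz => disj k hz), c2 m hu, c2 mv hv]; rfl)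
      (Or.inl (self_O u)) (Or.inr (self_O v))
  · rw [← Set.ncard_union_eq (Set.disjoint_left.2 fun x h k => k.2 h)]
    congr 1; ext x
    exact ⟨fun h => (em (Big W x)).imp_right fun k => ⟨h, k⟩, fun h => h.elim Big.mv And.left⟩

theorem five (h : 5 ≤ {x | Mv W x}.ncard) : Five W := fun a b => by
  by_contra! k
  have : {x | Mv W x}.ncard ≤ ({a, mt W a, b, mt W b} : Set α).ncard := Set.ncard_le_ncard fun y hy => by
    by_contra l
    simp only [Set.mem_insert_iff, Set.mem_singleton_iff, not_or] at l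
    exact l.2.2.2 (k y hy l.1 l.2.1 l.2.2.1)
  have h1 := Set.ncard_insert_le a {mt W a, b, mt W b}
  have h2 := Set.ncard_insert_le (mt W a) {b, mt W b}
  have h3 := Set.ncard_insert_le b {mt W b}
  rw [Set.ncard_singleton] at h3
  omega

theorem main (h6 : 6 ≤ Fintype.card α) : (∃ A B, A ≠ ⊥ ∧ B ≠ ⊥ ∧ IsInternalDirectProduct A B (ev W)) ↔
    (Fintype.card α % 4 = 2 ∨ Fintype.card α % 4 = 3) ∧ ∀ r : ℕ, 4 * (Fintype.card α / 4) ≠ 2 ^ r := by
  obtain ⟨h1, h2, h3, h4, h5⟩ := counts (W := W)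
  have f := five (W := W) (by omega)
  rcases h3 with e | ⟨u, m, hu, e, c2⟩
  · rw [e, Set.ncard_empty] at h4
    refine iff_of_false (fun ⟨A, B, a1, b1, h⟩ => (no_dec2 f h fun x mx => by_contra fun k => ?_).elim a1 b1) (by omega)
    exact (Set.ext_iff.1 e x).1 ⟨mx, k⟩
  rw [e, c2] at h4
  obtain ⟨x, hx⟩ := (Set.ncard_pos (Set.toFinite {x | Big W x})).1 (by omega)
  have nb : ∀ y, Big W y → y ∉ O W u := fun y hy k => hu (hy.O (by rw [O_eq k]; exact self_O u))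
  rw [show 4 * (Fintype.card α / 4) = {x | Big W x}.ncard by omega]
  refine ⟨fun ⟨A, B, a1, b1, h⟩ => ⟨by omega, fun r hr => (no_dec1 f h m hu hx fun y my => ?_).elim a1 b1⟩, fun ⟨_, h⟩ => ?_⟩
  · exact (em (Big W y)).imp (trans inv_big hr hx) fun k => (Set.ext_iff.1 e y).1 ⟨my, k⟩
  · obtain ⟨y, hy, k⟩ : ∃ y, Big W y ∧ y ∉ O W x := by
      by_contra! k
      obtain ⟨j, hj⟩ := card_O (W := W) x
      exact h j (by rw [← hj]; congr 1; exact Set.ext fun y => ⟨k y, Big.O hx⟩)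
    exact dec m hu hx.mv (nb x hx) hy.mv (nb y hy) k

end H05.SylA
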